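import Mathlib
import Cfsg.Prelude
import Cfsg.Agent.Lib.H1.Hall
import Cfsg.Agent.Lib.H1.Cores
import Cfsg.Agent.Lib.H47.A8GL4
import Cfsg.Agent.Lib.H60.Ord60
import Cfsg.Agent.Lib.H98.DicksonSolv
import Cfsg.Agent.Lib.H21.SimpleBasic
import Cfsg.Agent.Lib.H56.D8Cent
import Cfsg.Agent.Lib.H21.PSLSeven
import Cfsg.Agent.Lib.H40.AutAlt
import Cfsg.Agent.S0678
import Cfsg.Agent.S0713

set_option autoImplicit false

/-! Subgroups of the alternating group of degree 8 without solvable normal subgroups. -/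

namespace H61.A8Sub

open Cfsg

/-- no nontrivial solvable normal subgroup -/
def RF (K : Type*) [Group K] : Prop := ∀ N : Subgroup K, N.Normal → Group.IsSolvable N → N = ⊥

theorem rf_of_cores {K : Type*} [Group K] [Finite K] (h1 : pPrimeCore 2 K = ⊥) (h2 : pCore 2 K = ⊥) :
    RF K := by
  intro N hN hs
  by_contra hne
  haveI : Nontrivial N := (Subgroup.nontrivial_iff_ne_bot N).2 hne
  obtain ⟨p, hp, hpc⟩ := H1.Hall.exists_pCore_ne_bot hs
  haveI := Fact.mk hp
  haveI hchar : (pCore p N).Characteristic := H1.Cores.pCore_characteristic p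
  have hnor : ((pCore p N).map N.subtype).Normal := inferInstance
  have hP : IsPGroup p ((pCore p N).map N.subtype) := (H1.Cores.isPGroup_pCore p).map _
  have hne2 : (pCore p N).map N.subtype ≠ ⊥ := by
    intro h
    apply hpc
    rwa [Subgroup.map_eq_bot_iff_of_injective _ N.subtype_injective] at h
  by_cases hp2 : p = 2
  · subst hp2
    apply hne2
    rw [eq_bot_iff, ← h2]
    exact le_sSup ⟨hnor, hP⟩
  · apply hne2
    rw [eq_bot_iff, ← h1]
    refine le_sSup ⟨hnor, ?_⟩
    obtain ⟨n, hn⟩ := IsPGroup.iff_card.1 hP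
    rw [hn]
    exact Nat.Coprime.pow_left _ ((Nat.coprime_primes hp Nat.prime_two).2 hp2)

theorem RF.congr {K L : Type*} [Group K] [Group L] (e : K ≃* L) (h : RF K) : RF L := by
  intro N hN hs
  have h1 := h (N.comap e.toMonoidHom) inferInstance (by
    haveI := hs
    refine Group.isSolvable_of_isSolvable_injective (f := e.toMonoidHom.subgroupComap N) ?_
    intro a b hab
    have := congrArg Subtype.val hab
    exact Subtype.ext (e.injective this))
  rw [eq_bot_iff]
  intro x hx
  have h2 : e.symm x ∈ N.comap e.toMonoidHom := by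
    rw [Subgroup.mem_comap]
    simpa using hx
  rw [h1, Subgroup.mem_bot] at h2
  rw [Subgroup.mem_bot]
  simpa using h2

theorem RF.not_solvable {K : Type*} [Group K] [Nontrivial K] (h : RF K) : ¬ Group.IsSolvable K := by
  intro hs
  have := h ⊤ inferInstance (by
    haveI := hs
    exact Group.isSolvable_of_isSolvable_injective (f := (⊤ : Subgroup K).subtype) (Subgroup.subtype_injective _))
  exact top_ne_bot this

abbrev P8 := Equiv.Perm (Fin 8)

theorem cycleType_seven {g : P8} (hg : orderOf g = 7) : g.cycleType = {7} := by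
  have hc : g.IsCycle := Equiv.Perm.isCycle_of_prime_order' (by rw [hg]; norm_num) (by rw [hg]; simp)
  rw [hc.cycleType, ← hc.orderOf, hg]

theorem card_cent7 {g : P8} (hg : orderOf g = 7) : Nat.card (Subgroup.centralizer {g}) = 7 := by
  rw [Equiv.Perm.nat_card_centralizer, cycleType_seven hg]
  decide

def s7 : P8 := c[0, 1, 2, 3, 4, 5, 6]
def x7 : P8 := c[1, 6] * c[2, 5] * c[3, 4]

theorem x7_inv : x7 * s7 * x7⁻¹ = s7⁻¹ := by decide +kernel
theorem x7_sign : Equiv.Perm.sign x7 = -1 := by decide +kernel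
theorem s7_order : orderOf s7 = 7 := by
  haveI : Fact (Nat.Prime 7) := ⟨by norm_num⟩
  exact orderOf_eq_prime (by decide +kernel) (by decide +kernel)

theorem not_invert {g x : P8} (hg : orderOf g = 7) (hx : x ∈ alternatingGroup (Fin 8))
    (h : x * g * x⁻¹ = g⁻¹) : False := by
  have hconj : IsConj s7 g := by
    rw [Equiv.Perm.isConj_iff_cycleType_eq, cycleType_seven hg, cycleType_seven s7_order]
  obtain ⟨k, hk⟩ := isConj_iff.1 hconj
  set y := k * x7 * k⁻¹ with hy
  have hy1 : y * g * y⁻¹ = g⁻¹ := by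
    rw [hy, ← hk]
    have := x7_inv
    calc k * x7 * k⁻¹ * (k * s7 * k⁻¹) * (k * x7 * k⁻¹)⁻¹ = k * (x7 * s7 * x7⁻¹) * k⁻¹ := by group
      _ = (k * s7 * k⁻¹)⁻¹ := by rw [this]; group
  have hc : y⁻¹ * x ∈ Subgroup.centralizer {g} := by
    rw [Subgroup.mem_centralizer_singleton_iff]
    have h1 : x * g * x⁻¹ = y * g * y⁻¹ := by rw [h, hy1]
    have h2 : y⁻¹ * (x * g * x⁻¹) * x = y⁻¹ * (y * g * y⁻¹) * x := by rw [h1]
    calc y⁻¹ * x * g = y⁻¹ * (x * g * x⁻¹) * x := by group
      _ = y⁻¹ * (y * g * y⁻¹) * x := h2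
      _ = g * (y⁻¹ * x) := by group
  have h7 : (y⁻¹ * x) ^ 7 = 1 := by
    have := pow_card_eq_one' (x := (⟨_, hc⟩ : Subgroup.centralizer {g}))
    rw [card_cent7 hg] at this
    exact congrArg Subtype.val this
  have h3 : Equiv.Perm.sign (y⁻¹ * x) ^ 7 = 1 := by rw [← map_pow, h7, map_one]
  have h4 : Equiv.Perm.sign (y⁻¹ * x) = -1 := by
    rw [Equiv.Perm.mem_alternatingGroup] at hx
    rw [map_mul, hx, map_inv, hy, map_mul, map_mul, map_inv, x7_sign]
    simp
  rw [h4] at h3
  revert h3
  decide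


theorem card_dvd {K : Subgroup P8} (hK : K ≤ alternatingGroup (Fin 8)) : Nat.card K ∣ 20160 := by
  have h := Subgroup.card_dvd_of_le hK
  rwa [H47.A8GL4.card_A8] at h

theorem card_of {K : Subgroup P8} (hK : K ≤ alternatingGroup (Fin 8)) (hs : ¬ Group.IsSolvable K)
    (h5 : ¬ 5 ∣ Nat.card K) : Nat.card K = 168 ∨ Nat.card K = 1344 := by
  haveI : Fact (Nat.Prime 7) := ⟨by norm_num⟩
  have hd := card_dvd hK
  have hd5 : Nat.card K ∣ 4032 := by
    have h1 : Nat.card K ∣ 5 * 4032 := by simpa using hd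
    exact Nat.Coprime.dvd_of_dvd_mul_left
      ((Nat.Prime.coprime_iff_not_dvd (by norm_num)).2 h5).symm h1
  have h7 : 7 ∣ Nat.card K := by
    by_contra h7
    apply hs
    have h1 : Nat.card K ∣ 7 * 576 := by simpa using hd5
    have h2 : Nat.card K ∣ 2 ^ 6 * 3 ^ 2 := by
      have := Nat.Coprime.dvd_of_dvd_mul_left ((Nat.Prime.coprime_iff_not_dvd (by norm_num)).2 h7).symm h1
      simpa using this
    obtain ⟨a, b, ha, hb, hab⟩ := (Nat.dvd_mul).1 h2
    obtain ⟨i, -, rfl⟩ := (Nat.dvd_prime_pow Nat.prime_two).1 ha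
    obtain ⟨j, -, rfl⟩ := (Nat.dvd_prime_pow Nat.prime_three).1 hb
    exact H98.DicksonSolv.solvable_of_card i j hab.symm
  obtain ⟨m, hm⟩ := h7
  have hm7 : ¬ 7 ∣ m := by
    rintro ⟨k, rfl⟩
    have : 49 ∣ 4032 := (Dvd.intro k (by rw [hm]; ring)).trans hd5
    revert this
    decide
  obtain ⟨P⟩ : Nonempty (Sylow 7 K) := inferInstance
  have hP7 : Nat.card (P : Subgroup K) = 7 := by
    have := H21.SylowTools.card_sylow_eq_pow (p := 7) (a := 1) (m := m) (by rw [hm]; ring) hm7 P
    simpa using this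
  have hcyc : IsCyclic (P : Subgroup K) := isCyclic_of_prime_card hP7
  obtain ⟨⟨g, hgP⟩, hg⟩ := hcyc.exists_generator
  have hg7 : orderOf g = 7 := by
    have h1 := orderOf_eq_card_of_forall_mem_zpowers hg
    rw [hP7] at h1
    rw [← h1]
    exact (Subgroup.orderOf_mk _ _).symm
  have hg8 : orderOf (g : P8) = 7 := by rw [Subgroup.orderOf_coe, hg7]
  have hPz : ∀ x ∈ (P : Subgroup K), ∃ k : ℤ, g ^ k = x := by
    intro x hx
    obtain ⟨k, hk⟩ := hg ⟨x, hx⟩
    exact ⟨k, congrArg Subtype.val hk⟩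
  set C := Subgroup.centralizer ((P : Subgroup K) : Set K) with hC
  set N := Subgroup.normalizer ((P : Subgroup K) : Set K) with hN
  have hPC : (P : Subgroup K) ≤ C := by
    intro x hx
    rw [hC, Subgroup.mem_centralizer_iff]
    intro y hy
    obtain ⟨i, rfl⟩ := hPz x hx
    obtain ⟨j, rfl⟩ := hPz y hy
    exact (Commute.refl g).zpow_zpow _ _
  have hC7 : Nat.card C = 7 := by
    have h1 : C.map K.subtype ≤ Subgroup.centralizer {(g : P8)} := by
      rintro _ ⟨x, hx, rfl⟩
      rw [Subgroup.mem_centralizer_singleton_iff]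
      have := (Subgroup.mem_centralizer_iff.1 hx) g hgP
      exact (congrArg Subtype.val this).symm
    have h2 := Subgroup.card_dvd_of_le h1
    rw [card_cent7 hg8, Subgroup.card_map_of_injective K.subtype_injective] at h2
    have h3 := Subgroup.card_dvd_of_le hPC
    rw [hP7] at h3
    exact Nat.dvd_antisymm h2 h3
  set r := C.relIndex N with hr
  have hNr : Nat.card N = 7 * r := by
    have := H21.SylowTools.card_centralizer_mul_relIndex (P : Subgroup K)
    rw [← hC, ← hN, hC7] at this
    exact this.symm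
  have hr6 : r ∣ 6 := (H21.SylowTools.relIndex_dvd_of_prime_order P hP7 hNr).1
  have hrodd : ¬ 2 ∣ r := by
    intro h2
    have h2N : 2 ∣ Nat.card N := by rw [hNr]; exact dvd_mul_of_dvd_right h2 _
    haveI : Fact (Nat.Prime 2) := ⟨Nat.prime_two⟩
    obtain ⟨⟨t, htN⟩, ht⟩ := exists_prime_orderOf_dvd_card' 2 h2N
    have ht2 : orderOf t = 2 := by rw [← ht]; exact (Subgroup.orderOf_mk _ _).symm
    have htt : t * t = 1 := by
      have := pow_orderOf_eq_one t
      rw [ht2, pow_two] at this
      exact this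
    have htinv : t⁻¹ = t := by rw [inv_eq_iff_mul_eq_one]; exact htt
    obtain ⟨k, hk⟩ := hPz (t * g * t⁻¹) ((Subgroup.mem_normalizer_iff.1 htN g).1 hgP)
    have hk2 : g ^ (k * k) = g := by
      rw [zpow_mul, hk, conj_zpow, hk, htinv]
      calc t * (t * g * t) * t = (t * t) * g * (t * t) := by group
        _ = g := by rw [htt]; group
    have hk3 : (7 : ℤ) ∣ k * k - 1 := by
      have h3 : g ^ (k * k - 1) = 1 := by rw [zpow_sub, hk2, zpow_one, mul_inv_cancel]
      have := orderOf_dvd_iff_zpow_eq_one.2 h3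
      rw [hg7] at this
      exact_mod_cast this
    have hk4 : (7 : ℤ) ∣ (k - 1) * (k + 1) := by
      have : (k - 1) * (k + 1) = k * k - 1 := by ring
      rw [this]; exact hk3
    rcases (Int.Prime.dvd_mul' (by norm_num : Nat.Prime 7) (by exact_mod_cast hk4)) with h7 | h7
    · have h8 : g ^ k = g := by
        have : g ^ (k - 1) = 1 := by
          apply orderOf_dvd_iff_zpow_eq_one.1
          rw [hg7]; exact_mod_cast h7
        rw [zpow_sub, zpow_one, mul_inv_eq_one] at this
        exact this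
      have htC : t ∈ C := by
        rw [hC, Subgroup.mem_centralizer_iff]
        intro y hy
        obtain ⟨j, rfl⟩ := hPz y hy
        have h9 : t * g * t⁻¹ = g := by rw [← hk, h8]
        have h10 : Commute g t := by
          rw [commute_iff_eq]
          exact (mul_inv_eq_iff_eq_mul.1 h9).symm
        exact h10.zpow_left _
      have h11 := Subgroup.orderOf_dvd_natCard C htC
      rw [ht2, hC7] at h11
      revert h11; decide
    · have h8 : g ^ k = g⁻¹ := by
        have : g ^ (k + 1) = 1 := by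
          apply orderOf_dvd_iff_zpow_eq_one.1
          rw [hg7]; exact_mod_cast h7
        rw [zpow_add, zpow_one] at this
        exact eq_inv_of_mul_eq_one_left this
      refine not_invert (x := (t : P8)) hg8 (hK t.2) ?_
      have : t * g * t⁻¹ = g⁻¹ := by rw [← hk, h8]
      exact congrArg Subtype.val this
  have hr13 : r = 1 ∨ r = 3 := by
    have h1 : r ≤ 6 := Nat.le_of_dvd (by norm_num) hr6
    have h2 : 0 < r := Nat.pos_of_dvd_of_pos hr6 (by norm_num)
    interval_cases r <;> first | omega | (exfalso; revert hr6; decide)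
  have hn := card_sylow_modEq_one 7 K
  have hNn := H21.SylowTools.card_normalizer_mul_card_sylow P
  rw [← hN, hNr] at hNn
  rcases hr13 with h1 | h3
  · exfalso
    have hNC : N ≤ C := by
      have hCN : C ≤ N := Subgroup.centralizer_le_normalizer _
      have : Nat.card C = Nat.card N := by rw [hC7, hNr, h1]
      exact (Subgroup.eq_of_le_of_card_ge hCN this.symm.le).symm.le
    have hcomp := MonoidHom.ker_transferSylow_isComplement' P hNC
    set M := (MonoidHom.transferSylow P hNC).ker with hM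
    have hMc : Nat.card M = m := by
      have := hcomp.card_mul
      rw [hP7, hm] at this
      omega
    have hMs : Group.IsSolvable M := by
      have h2 : m ∣ 2 ^ 6 * 3 ^ 2 := by
        have h3 : 7 * m ∣ 7 * 576 := by rw [← hm]; simpa using hd5
        have := Nat.dvd_of_mul_dvd_mul_left (by norm_num) h3
        simpa using this
      obtain ⟨a, b, ha, hb, hab⟩ := (Nat.dvd_mul).1 h2
      obtain ⟨i, -, rfl⟩ := (Nat.dvd_prime_pow Nat.prime_two).1 ha
      obtain ⟨j, -, rfl⟩ := (Nat.dvd_prime_pow Nat.prime_three).1 hb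
      exact H98.DicksonSolv.solvable_of_card i j (hMc.trans hab.symm)
    apply hs
    haveI := hMs
    have hPs : Group.IsSolvable (P : Subgroup K) := H4.Burnside.isSolvable_of_card_eq 7 2 (by norm_num) (by norm_num) _ _ rfl ⟨1, 0, by rw [hP7]; norm_num⟩
    haveI := hPs
    exact Group.isSolvable_of_ker_le_range M.subtype (MonoidHom.transferSylow P hNC) (by rw [Subgroup.range_subtype])
  · rw [h3] at hNn
    set n := Nat.card (Sylow 7 K) with hn'
    have hn960 : n ∣ 192 := by
      have h4 : 21 * n ∣ 21 * 192 := by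
        have : 7 * 3 * n ∣ 4032 := by rw [hNn]; exact hd5
        simpa using this
      exact Nat.dvd_of_mul_dvd_mul_left (by norm_num) h4
    have hmem : n ∈ (192 : ℕ).divisors := Nat.mem_divisors.mpr ⟨hn960, by norm_num⟩
    have hdiv : (192 : ℕ).divisors = {1, 2, 3, 4, 6, 8, 12, 16, 24, 32, 48, 64, 96, 192} := by decide +kernel
    rw [hdiv] at hmem
    simp only [Finset.mem_insert, Finset.mem_singleton] at hmem
    have hn7 : n % 7 = 1 := hn
    have hcases : n = 1 ∨ n = 8 ∨ n = 64 := by omega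
    rcases hcases with h | h | h
    · exfalso
      apply hs
      exact H4.Burnside.isSolvable_of_card_eq 3 7 (by norm_num) (by norm_num) _ _ rfl ⟨1, 1, by rw [← hNn, h]; norm_num⟩
    · left; rw [← hNn, h]
    · right; rw [← hNn, h]

end H61.A8Sub
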