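import Mathlib
import Cfsg.Prelude
import Cfsg.Agent.Lib.H61.A8Sub
import Cfsg.Agent.Lib.H91.Holomorph

set_option autoImplicit false

/-! `GL(4,2)` has no subgroup of order 1344 without solvable normal subgroups. -/

namespace H61.GL4Sub

open Cfsg Matrix H61.A8Sub

abbrev V := Fin 4 → ZMod 2
abbrev G4 := GL (Fin 4) (ZMod 2)
abbrev M4 := Matrix (Fin 4) (Fin 4) (ZMod 2)

theorem uni_pow : ∀ a b c d e f : ZMod 2,
    (!![1, a, b, c; 0, 1, d, e; 0, 0, 1, f; 0, 0, 0, 1] : M4) ^ 4 = 1 := by
  decide +kernel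

theorem isPGroup_upper : IsPGroup 2 (upperTriangularGL 4 (ZMod 2)) := by
  rintro ⟨g, hg⟩
  refine ⟨2, ?_⟩
  apply Subtype.ext
  apply Units.ext
  show (g : M4) ^ 2 ^ 2 = 1
  have hg' : (g : M4).BlockTriangular id := hg
  have hdet : (g : M4).det ≠ 0 := by
    have := g.isUnit
    rw [Matrix.isUnit_iff_isUnit_det] at this
    exact this.ne_zero
  rw [Matrix.det_of_upperTriangular hg', Finset.prod_ne_zero_iff] at hdet
  have h1 : ∀ i, (g : M4) i i = 1 := by
    intro i
    have := hdet i (Finset.mem_univ i)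
    revert this
    generalize (g : M4) i i = x
    revert x
    decide
  have hlow : ∀ i j : Fin 4, j < i → (g : M4) i j = 0 := fun i j h => hg' h
  have hM : (g : M4) = !![1, (g : M4) 0 1, (g : M4) 0 2, (g : M4) 0 3; 0, 1, (g : M4) 1 2, (g : M4) 1 3;
      0, 0, 1, (g : M4) 2 3; 0, 0, 0, 1] := by
    ext i j
    fin_cases i <;> fin_cases j <;> simp [h1, hlow]
  rw [hM]
  exact uni_pow _ _ _ _ _ _

theorem bmat_sq : ∀ (k : Fin 4) (v : V), v k = 1 → (∀ i, k < i → v i = 0) →
    (Matrix.updateCol (1 : M4) k v) * (Matrix.updateCol (1 : M4) k v) = 1 := by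
  decide +kernel

theorem bmat_tri (k : Fin 4) (v : V) (hv : ∀ i, k < i → v i = 0) (i j : Fin 4) (h : j < i) :
    (Matrix.updateCol (1 : M4) k v) i j = 0 := by
  rw [Matrix.updateCol_apply]
  split_ifs with h1
  · subst h1; exact hv i h
  · exact Matrix.one_apply_ne h.ne'

theorem bmat_vec : ∀ (k : Fin 4) (v : V), v k = 1 → (∀ i, k < i → v i = 0) →
    (Matrix.updateCol (1 : M4) k v) *ᵥ (Pi.single k 1) = v := by
  decide +kernel

theorem bmat_vec' : ∀ (k : Fin 4) (v : V), v k = 1 → (∀ i, k < i → v i = 0) →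
    (Matrix.updateCol (1 : M4) k v) *ᵥ v = (Pi.single k 1) := by
  decide +kernel

def formula (q : Fin 4 → Bool) (v : V) : Bool :=
  (v 3 = 1 && q 3) || (v 3 = 0 && v 2 = 1 && q 2) || (v 3 = 0 && v 2 = 0 && v 1 = 1 && q 1) ||
    (v 3 = 0 && v 2 = 0 && v 1 = 0 && v 0 = 1 && q 0)

def std (k : Fin 4) (v : V) : Bool := decide (v ≠ 0) && decide (∀ i, k ≤ i → v i = 0)

set_option synthInstance.maxHeartbeats 200000 in
theorem count : ∀ q : Fin 4 → Bool, q 0 = true →
    (Finset.univ.filter (fun v : V => formula q v = true)).card ∣ 1344 →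
    ((∀ v : V, formula q v = std 1 v) ∨ (∀ v : V, formula q v = std 2 v) ∨ (∀ v : V, formula q v = std 3 v)) := by
  decide +kernel

/-- the action on vectors as a permutation action -/
def phi : G4 →* Equiv.Perm V where
  toFun g :=
    { toFun := fun v => (g : M4) *ᵥ v
      invFun := fun v => ((g⁻¹ : G4) : M4) *ᵥ v
      left_inv := fun v => by
        show ((g⁻¹ : G4) : M4) *ᵥ ((g : M4) *ᵥ v) = v
        rw [Matrix.mulVec_mulVec, ← Units.val_mul, inv_mul_cancel, Units.val_one, Matrix.one_mulVec]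
      right_inv := fun v => by
        show (g : M4) *ᵥ (((g⁻¹ : G4) : M4) *ᵥ v) = v
        rw [Matrix.mulVec_mulVec, ← Units.val_mul, mul_inv_cancel, Units.val_one, Matrix.one_mulVec] }
  map_one' := by ext1 v; exact Matrix.one_mulVec v
  map_mul' a b := by
    ext1 v
    show ((a * b : G4) : M4) *ᵥ v = (a : M4) *ᵥ ((b : M4) *ᵥ v)
    rw [Matrix.mulVec_mulVec, ← Units.val_mul]

theorem phi_apply (g : G4) (v : V) : phi g v = (g : M4) *ᵥ v := rfl

theorem stable {H : Subgroup G4} (hU : upperTriangularGL 4 (ZMod 2) ≤ H) (hc : Nat.card H = 1344) :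
    ∃ k : Fin 4, k ≠ 0 ∧ ∀ h ∈ H, ∀ v : V, (∀ i, k ≤ i → v i = 0) → ∀ i, k ≤ i → ((h : M4) *ᵥ v) i = 0 := by
  classical
  letI : MulAction H V := MulAction.compHom V (phi.comp H.subtype)
  set e : Fin 4 → V := fun k => Pi.single k 1 with he
  set O : Set V := MulAction.orbit H (e 0) with hO
  have hsmul : ∀ (h : H) (v : V), h • v = ((h : G4) : M4) *ᵥ v := fun h v => rfl
  have hmem : ∀ (h : H) (v : V), v ∈ O → h • v ∈ O := by
    rintro h _ ⟨x, rfl⟩
    exact ⟨h * x, mul_smul h x (e 0)⟩
  have hcard : Nat.card O ∣ 1344 := by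
    rw [← hc]
    have := Subgroup.card_mul_index (MulAction.stabilizer H (e 0))
    rw [MulAction.index_stabilizer] at this
    exact Dvd.intro_left _ this
  -- levels
  have hlev : ∀ (k : Fin 4) (v : V), v k = 1 → (∀ i, k < i → v i = 0) → (v ∈ O ↔ e k ∈ O) := by
    intro k v hv hi
    let b : G4 := ⟨Matrix.updateCol (1 : M4) k v, Matrix.updateCol (1 : M4) k v, bmat_sq k v hv hi, bmat_sq k v hv hi⟩
    have hb : b ∈ H := hU (fun i j h => bmat_tri k v hi i j h)
    constructor
    · intro h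
      have := hmem ⟨b, hb⟩ v h
      rw [hsmul] at this
      rwa [show ((b : G4) : M4) *ᵥ v = e k from bmat_vec' k v hv hi] at this
    · intro h
      have := hmem ⟨b, hb⟩ (e k) h
      rw [hsmul] at this
      rwa [show ((b : G4) : M4) *ᵥ (e k) = v from bmat_vec k v hv hi] at this
  have h0 : (0 : V) ∉ O := by
    rintro ⟨x, hx⟩
    have h1 : x • (e 0) = 0 := hx
    have h2 : x⁻¹ • (x • e 0) = x⁻¹ • (0 : V) := by rw [h1]
    rw [show x⁻¹ • (x • e 0) = e 0 from inv_smul_smul x (e 0), hsmul, Matrix.mulVec_zero] at h2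
    have := congrFun h2 0
    simp [he] at this
  let q : Fin 4 → Bool := fun k => decide (e k ∈ O)
  have hq : ∀ v : V, v ∈ O ↔ formula q v = true := by
    intro v
    have hz : ∀ x : ZMod 2, x = 0 ∨ x = 1 := by decide
    have hne : ¬ ((1 : ZMod 2) = 0) := by decide
    have hne' : ¬ ((0 : ZMod 2) = 1) := by decide
    unfold formula
    rcases hz (v 3) with h3 | h3
    · rcases hz (v 2) with h2 | h2
      · rcases hz (v 1) with h1 | h1
        · rcases hz (v 0) with h0' | h0'
          · have : v = 0 := by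
              ext i; fin_cases i <;> simp [h0', h1, h2, h3]
            subst this
            simp [h0]
          · have := hlev 0 v h0' (by intro i hi; fin_cases i <;> simp_all)
            rw [this]
            simp [h0', h1, h2, h3, q]
        · have := hlev 1 v h1 (by intro i hi; fin_cases i <;> simp_all)
          rw [this]
          simp [h1, h2, h3, q]
      · have := hlev 2 v h2 (by intro i hi; fin_cases i <;> simp_all)
        rw [this]
        simp [h2, h3, q]
    · have := hlev 3 v h3 (by intro i hi; fin_cases i <;> simp_all)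
      rw [this]
      simp [h3, q]
  have hq0 : q 0 = true := by
    simp only [q, decide_eq_true_eq]
    exact MulAction.mem_orbit_self _
  have hcardq : (Finset.univ.filter (fun v : V => formula q v = true)).card ∣ 1344 := by
    have : (Finset.univ.filter (fun v : V => formula q v = true)).card = Nat.card O := by
      rw [Nat.card_eq_fintype_card, ← Set.toFinset_card]
      congr 1
      ext v
      simp [hq]
    rw [this]; exact hcard
  have key : ∀ k : Fin 4, (∀ v, formula q v = std k v) → ∀ h ∈ H, ∀ v : V, (∀ i, k ≤ i → v i = 0) →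
      ∀ i, k ≤ i → ((h : M4) *ᵥ v) i = 0 := by
    intro k hk h hh v hv
    by_cases hv0 : v = 0
    · subst hv0
      intro i _
      rw [Matrix.mulVec_zero]; rfl
    · have h1 : v ∈ O := by
        rw [hq, hk, std]
        simp only [ne_eq, hv0, not_false_eq_true, decide_true, Bool.true_and, decide_eq_true_eq]
        exact hv
      have h2 := hmem ⟨h, hh⟩ v h1
      rw [hq, hk, std, Bool.and_eq_true, decide_eq_true_eq, decide_eq_true_eq] at h2
      exact h2.2
  rcases count q hq0 hcardq with h | h | h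
  · exact ⟨1, by decide, key 1 h⟩
  · exact ⟨2, by decide, key 2 h⟩
  · exact ⟨3, by decide, key 3 h⟩

theorem absurd_upper {H : Subgroup G4} (hU : upperTriangularGL 4 (ZMod 2) ≤ H) (hc : Nat.card H = 1344)
    (hrf : RF H) : False := by
  obtain ⟨k, hk0, hk⟩ := stable hU hc
  let W : V → Prop := fun v => ∀ i, k ≤ i → v i = 0
  have hW : ∀ h ∈ H, ∀ v, W v → W ((h : M4) *ᵥ v) := hk
  have hWadd : ∀ v w, W v → W w → W (v + w) := by
    intro v w hv hw i hi
    rw [Pi.add_apply, hv i hi, hw i hi, add_zero]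
  have h2 : ∀ v : V, v + v = 0 := by decide
  have hinv : ∀ (g : G4) (v : V), (g : M4) *ᵥ (((g⁻¹ : G4) : M4) *ᵥ v) = v := by
    intro g v
    rw [Matrix.mulVec_mulVec, ← Units.val_mul, mul_inv_cancel, Units.val_one, Matrix.one_mulVec]
  have hinv' : ∀ (g : G4) (v : V), ((g⁻¹ : G4) : M4) *ᵥ ((g : M4) *ᵥ v) = v := by
    intro g v
    rw [Matrix.mulVec_mulVec, ← Units.val_mul, inv_mul_cancel, Units.val_one, Matrix.one_mulVec]
  let Q : Subgroup H :=
    { carrier := {q | (∀ w, W w → ((q : G4) : M4) *ᵥ w = w) ∧ ∀ v, W (((q : G4) : M4) *ᵥ v + v)}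
      one_mem' := by
        refine ⟨fun w _ => ?_, fun v => ?_⟩
        · exact Matrix.one_mulVec w
        · show W ((1 : M4) *ᵥ v + v)
          rw [Matrix.one_mulVec, h2]
          intro i _; rfl
      mul_mem' := by
        rintro a b ⟨ha1, ha2⟩ ⟨hb1, hb2⟩
        refine ⟨fun w hw => ?_, fun v => ?_⟩
        · show (((a : G4) : M4) * ((b : G4) : M4)) *ᵥ w = w
          rw [← Matrix.mulVec_mulVec, hb1 w hw, ha1 w hw]
        · show W ((((a : G4) : M4) * ((b : G4) : M4)) *ᵥ v + v)
          rw [← Matrix.mulVec_mulVec]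
          have h3 := hWadd _ _ (ha2 (((b : G4) : M4) *ᵥ v)) (hb2 v)
          have h4 : ((a : G4) : M4) *ᵥ (((b : G4) : M4) *ᵥ v) + ((b : G4) : M4) *ᵥ v + (((b : G4) : M4) *ᵥ v + v) =
              ((a : G4) : M4) *ᵥ (((b : G4) : M4) *ᵥ v) + v := by
            rw [add_assoc, ← add_assoc (((b : G4) : M4) *ᵥ v), h2, zero_add]
          rwa [h4] at h3
      inv_mem' := by
        rintro a ⟨ha1, ha2⟩
        have h5 : ∀ w, W w → (((a⁻¹ : H) : G4) : M4) *ᵥ w = w := by
          intro w hw
          have := congrArg (fun x => (((a : G4)⁻¹ : G4) : M4) *ᵥ x) (ha1 w hw)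
          simp only [hinv'] at this
          exact this.symm
        refine ⟨h5, fun v => ?_⟩
        have h3 := hW _ (a⁻¹ : H).2 _ (ha2 v)
        have h4 : (((a⁻¹ : H) : G4) : M4) *ᵥ (((a : G4) : M4) *ᵥ v + v) = (((a⁻¹ : H) : G4) : M4) *ᵥ v + v := by
          rw [Matrix.mulVec_add]
          have := hinv' (a : G4) v
          rw [show (((a⁻¹ : H) : G4)) = (a : G4)⁻¹ from rfl, this, add_comm]
        rwa [h4] at h3 }
  have hQn : Q.Normal := by
    refine ⟨fun q hq h => ?_⟩
    obtain ⟨hq1, hq2⟩ := hq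
    refine ⟨fun w hw => ?_, fun v => ?_⟩
    · show (((h : G4) * (q : G4) * (h : G4)⁻¹ : G4) : M4) *ᵥ w = w
      rw [Units.val_mul, Units.val_mul, ← Matrix.mulVec_mulVec, ← Matrix.mulVec_mulVec]
      have h3 := hW _ (h⁻¹ : H).2 w hw
      rw [show (((h : G4)⁻¹ : G4) : M4) *ᵥ w = (((h⁻¹ : H) : G4) : M4) *ᵥ w from rfl, hq1 _ h3]
      exact hinv _ _
    · show W ((((h : G4) * (q : G4) * (h : G4)⁻¹ : G4) : M4) *ᵥ v + v)
      rw [Units.val_mul, Units.val_mul, ← Matrix.mulVec_mulVec, ← Matrix.mulVec_mulVec]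
      have h3 := hW _ h.2 _ (hq2 ((((h : G4)⁻¹ : G4) : M4) *ᵥ v))
      rw [Matrix.mulVec_add, hinv] at h3
      exact h3
  have hQs : Group.IsSolvable Q := by
    have hQp : IsPGroup 2 Q := by
      rintro ⟨q, hq⟩
      refine ⟨1, ?_⟩
      apply Subtype.ext
      apply Subtype.ext
      apply Units.ext
      show ((q : G4) : M4) ^ 2 ^ 1 = 1
      rw [pow_one, pow_two]
      apply Matrix.ext_of_mulVec_single
      intro i
      rw [← Matrix.mulVec_mulVec, Matrix.one_mulVec]
      set v : V := Pi.single i 1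
      have h3 := hq.1 _ (hq.2 v)
      rw [Matrix.mulVec_add] at h3
      have h4 : ((q : G4) : M4) *ᵥ (((q : G4) : M4) *ᵥ v) = ((q : G4) : M4) *ᵥ v + v + ((q : G4) : M4) *ᵥ v := by
        rw [← h3, add_assoc, h2, add_zero]
      rw [h4, add_comm (((q : G4) : M4) *ᵥ v) v, add_assoc, h2, add_zero]
    obtain ⟨n, hn⟩ := IsPGroup.iff_card.1 hQp
    exact H98.DicksonSolv.solvable_of_card n 0 (by rw [hn]; simp)
  have hQb := hrf Q hQn hQs
  -- the transvection
  let T : M4 := Matrix.updateCol (1 : M4) 3 ![1, 0, 0, 1]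
  have hTT : T * T = 1 := by decide +kernel
  let t : G4 := ⟨T, T, hTT, hTT⟩
  have htU : t ∈ upperTriangularGL 4 (ZMod 2) := by
    intro i j hij
    exact bmat_tri 3 ![1, 0, 0, 1] (by decide) i j hij
  have htH : t ∈ H := hU htU
  have hTv : ∀ v : V, T *ᵥ v = v + Pi.single 0 (v 3) := by decide +kernel
  have hk3 : k ≤ 3 := by
    have := k.2
    exact Fin.le_def.2 (by omega)
  have htQ : (⟨t, htH⟩ : H) ∈ Q := by
    refine ⟨fun w hw => ?_, fun v => ?_⟩
    · show T *ᵥ w = w
      rw [hTv, hw 3 hk3]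
      simp
    · show W (T *ᵥ v + v)
      rw [hTv, add_comm, ← add_assoc, h2, zero_add]
      intro i hi
      have : i ≠ 0 := by
        rintro rfl
        exact hk0 (le_antisymm hi (Fin.zero_le _))
      exact Pi.single_eq_of_ne this _
  rw [hQb, Subgroup.mem_bot] at htQ
  have h3 : T = 1 := congrArg (fun x : H => ((x : G4) : M4)) htQ
  revert h3
  decide +kernel

open scoped Pointwise in
theorem no_1344 {H : Subgroup G4} (hc : Nat.card H = 1344) (hrf : RF H) : False := by
  haveI : Fact (Nat.Prime 2) := ⟨Nat.prime_two⟩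
  obtain ⟨T, hT⟩ := isPGroup_upper.exists_le_sylow
  obtain ⟨S⟩ : Nonempty (Sylow 2 H) := inferInstance
  have hS : Nat.card (S : Subgroup H) = 2 ^ 6 :=
    H21.SylowTools.card_sylow_eq_pow (p := 2) (a := 6) (m := 21) (by rw [hc]; norm_num) (by norm_num) S
  have hSp : IsPGroup 2 ((S : Subgroup H).map H.subtype) := S.2.map _
  obtain ⟨T', hT'⟩ := hSp.exists_le_sylow
  have hT'c : Nat.card (T' : Subgroup G4) = 2 ^ 6 :=
    H21.SylowTools.card_sylow_eq_pow (p := 2) (a := 6) (m := 315) (by rw [H47.A8GL4.card_GL4]; norm_num) (by norm_num) T'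
  have hTH : (T' : Subgroup G4) ≤ H := by
    have h1 : (S : Subgroup H).map H.subtype = T' := by
      apply Subgroup.eq_of_le_of_card_ge hT'
      rw [hT'c, Subgroup.card_map_of_injective H.subtype_injective, hS]
    rw [← h1]
    exact Subgroup.map_subtype_le _
  obtain ⟨g, hg⟩ := MulAction.exists_smul_eq G4 T' T
  let e : H ≃* (MulAut.conj g • H : Subgroup G4) := Subgroup.equivSMul (MulAut.conj g) H
  have hU : upperTriangularGL 4 (ZMod 2) ≤ MulAut.conj g • H := by
    refine hT.trans ?_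
    rw [← hg]
    exact Subgroup.pointwise_smul_le_pointwise_smul_iff.2 hTH
  exact absurd_upper hU (by rw [← hc]; exact (Nat.card_congr e.toEquiv).symm) (hrf.congr e)

theorem no_1344' {K : Subgroup P8} (hK : K ≤ alternatingGroup (Fin 8)) (hc : Nat.card K = 1344) (hrf : RF K) :
    False := by
  obtain ⟨e⟩ := H47.A8GL4.exists_equiv
  let f : K →* G4 := e.toMonoidHom.comp (Subgroup.inclusion hK)
  have hf : Function.Injective f := e.injective.comp (Subgroup.inclusion_injective hK)
  let e2 : K ≃* f.range := MonoidHom.ofInjective hf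
  exact no_1344 (H := f.range) (by rw [← hc]; exact (Nat.card_congr e2.toEquiv).symm) (hrf.congr e2)

theorem iso_168 {K : Subgroup P8} (hK : K ≤ alternatingGroup (Fin 8)) (hc : Nat.card K = 168) (hrf : RF K) :
    Nonempty (K ≃* GL (Fin 3) (ZMod 2)) := by
  haveI : Fact (Nat.Prime 7) := ⟨by norm_num⟩
  haveI : Nontrivial K := by
    apply Finite.one_lt_card_iff_nontrivial.1
    rw [hc]; norm_num
  haveI : IsSimpleGroup K := by
    refine { eq_bot_or_eq_top_of_normal := fun N hN => ?_ }
    by_cases hb : N = ⊥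
    · exact Or.inl hb
    · right
      have hns : ¬ Group.IsSolvable N := fun hs => hb (hrf N hN hs)
      let e : N ≃* N.map K.subtype := Subgroup.equivMapOfInjective N _ K.subtype_injective
      have hcN : Nat.card (N.map K.subtype) = Nat.card N := (Nat.card_congr e.toEquiv).symm
      have hd : Nat.card N ∣ 168 := by rw [← hc]; exact Subgroup.card_subgroup_dvd_card N
      have h1 := card_of (K := N.map K.subtype) ((Subgroup.map_subtype_le N).trans hK)
        (fun hs => hns (by
          haveI := hs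
          exact Group.isSolvable_of_isSolvable_injective (f := e.toMonoidHom) e.injective))
        (by rw [hcN]; intro h5; have := h5.trans hd; revert this; decide)
      rw [hcN] at h1
      rcases h1 with h1 | h1
      · exact Subgroup.eq_top_of_card_eq N (by rw [h1, hc])
      · rw [h1] at hd
        exact absurd hd (by decide)
  obtain ⟨e1⟩ := H56.D8Cent.sl3_of_psl (F := ZMod 7) (ZMod.card 7) (H21.PSLSeven.psl_seven hc (ZMod.card 7))
  obtain ⟨e2⟩ := H91.Holomorph.GL_eq_SL 3
  exact ⟨e1.trans e2⟩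

end H61.GL4Sub
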