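import Mathlib
import Cfsg.Prelude
import Cfsg.Agent.Lib.H61.GL4Sub

set_option autoImplicit false

/-! Permutation groups of degree 5 to 8 of order divisible by 5 without solvable normal subgroups. -/

namespace H61.A8Five

open Cfsg H61.A8Sub

/-- the group of order 120 -/
theorem iso_S5 {G : Type*} [Group G] [Finite G] (hrf : RF G) (hG : Nat.card G = 120) (T : Subgroup G) [hT : T.Normal]
    (hc : Nat.card T = 60) (hns : ¬ Group.IsSolvable T) : Nonempty (G ≃* Equiv.Perm (Fin 5)) := by
  haveI := H60.Ord60.isSimple_of_not_solvable hc hns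
  obtain ⟨e⟩ := H60.Ord60.iso_alt5 hc
  set C := Subgroup.centralizer (T : Set G) with hC
  haveI : C.Normal := by rw [hC]; infer_instance
  have hCT : C ⊓ T = ⊥ := by
    have hn : (C.subgroupOf T).Normal := inferInstance
    rcases IsSimpleGroup.eq_bot_or_eq_top_of_normal (C.subgroupOf T) hn with h | h
    · rw [Subgroup.subgroupOf_eq_bot] at h
      exact disjoint_iff.1 h
    · exfalso
      apply hns
      rw [Subgroup.subgroupOf_eq_top] at h
      refine Group.isSolvable_of_comm (fun a b => ?_)
      have := (Subgroup.mem_centralizer_iff.1 (h a.2)) b b.2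
      exact Subtype.ext this.symm
  have hCc : Nat.card C ≤ 2 := by
    have h1 : Nat.card C ∣ T.index := by
      have h2 := Subgroup.card_dvd_of_injective ((QuotientGroup.mk' T).comp C.subtype) (by
        rw [injective_iff_map_eq_one]
        intro a ha
        have h3 : (a : G) ∈ T := (QuotientGroup.eq_one_iff (a : G)).1 ha
        have h4 : (a : G) ∈ C ⊓ T := ⟨a.2, h3⟩
        rw [hCT, Subgroup.mem_bot] at h4
        exact Subtype.ext h4)
      exact h2
    have h3 := T.card_mul_index
    rw [hc, hG] at h3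
    have h4 : T.index = 2 := by omega
    rw [h4] at h1
    exact Nat.le_of_dvd (by norm_num) h1
  have hCb : C = ⊥ := by
    apply hrf C inferInstance
    have hpos : 0 < Nat.card C := Nat.card_pos
    have : Nat.card C = 1 ∨ Nat.card C = 2 := by omega
    rcases this with h | h
    · exact H98.DicksonSolv.solvable_of_card 0 0 (by rw [h]; norm_num)
    · exact H98.DicksonSolv.solvable_of_card 1 0 (by rw [h]; norm_num)
  have hinj : Function.Injective (MulAut.conjNormal : G →* MulAut T) := by
    rw [injective_iff_map_eq_one]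
    intro g hg
    have : g ∈ C := by
      rw [hC, Subgroup.mem_centralizer_iff]
      intro t ht
      have h1 := DFunLike.congr_fun hg (⟨t, ht⟩ : T)
      have h2 := congrArg Subtype.val h1
      rw [MulAut.conjNormal_apply] at h2
      have h3 : g * t * g⁻¹ = t := h2
      exact (mul_inv_eq_iff_eq_mul.1 h3).symm
    rw [hCb] at this
    exact Subgroup.mem_bot.1 this
  have e5 : Equiv.Perm (Fin 5) ≃* MulAut (alternatingGroup (Fin 5)) :=
    MulEquiv.ofBijective MulAut.conjNormal
      ⟨H40.AutAlt.injective_conjNormal (by simp), H40.AutAlt.surjective_conjNormal (by simp) (by simp)⟩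
  let f : G →* Equiv.Perm (Fin 5) := (e5.symm.toMonoidHom.comp (MulAut.congr e).toMonoidHom).comp MulAut.conjNormal
  have hf : Function.Injective f := (e5.symm.injective.comp (MulAut.congr e).injective).comp hinj
  have hb : Function.Bijective f := (Nat.bijective_iff_injective_and_card f).2 ⟨hf, by
    rw [hG, Nat.card_perm, Nat.card_fin]; rfl⟩
  exact ⟨MulEquiv.ofBijective f hb⟩

section deg

variable {α : Type*} [Fintype α] [DecidableEq α] {G : Subgroup (Equiv.Perm α)}

/-- even part -/
theorem even_part (hrf : RF G) (h5 : 5 ∣ Nat.card G) :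
    ¬ Group.IsSolvable (G ⊓ alternatingGroup α : Subgroup (Equiv.Perm α)) ∧
    (Nat.card (G ⊓ alternatingGroup α : Subgroup (Equiv.Perm α)) = Nat.card G ∨
      2 * Nat.card (G ⊓ alternatingGroup α : Subgroup (Equiv.Perm α)) = Nat.card G) := by
  set T := G ⊓ alternatingGroup α with hT
  let s : G →* ℤˣ := Equiv.Perm.sign.comp G.subtype
  have hker : T.subgroupOf G = s.ker := by
    ext g
    rw [Subgroup.mem_subgroupOf, hT, Subgroup.mem_inf, MonoidHom.mem_ker]
    constructor
    · rintro ⟨-, h⟩
      exact Equiv.Perm.mem_alternatingGroup.1 h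
    · intro h
      exact ⟨g.2, Equiv.Perm.mem_alternatingGroup.2 h⟩
  have hcT : Nat.card (T.subgroupOf G) = Nat.card T :=
    Nat.card_congr (Subgroup.subgroupOfEquivOfLe inf_le_left).toEquiv
  have hidx : Nat.card (T.subgroupOf G) * (T.subgroupOf G).index = Nat.card G := Subgroup.card_mul_index _
  have hidx2 : (T.subgroupOf G).index ∣ 2 := by
    rw [hker, Subgroup.index_ker]
    have := Subgroup.card_subgroup_dvd_card s.range
    simpa using this
  rw [hcT] at hidx
  have hcases : (T.subgroupOf G).index = 1 ∨ (T.subgroupOf G).index = 2 := (Nat.dvd_prime Nat.prime_two).1 hidx2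
  constructor
  · intro hs
    have h1 : T.subgroupOf G = ⊥ := by
      apply hrf
      · rw [hker]; infer_instance
      · haveI := hs
        exact Group.isSolvable_of_isSolvable_injective (f := (Subgroup.subgroupOfEquivOfLe (inf_le_left : T ≤ G)).toMonoidHom)
          (Subgroup.subgroupOfEquivOfLe (inf_le_left : T ≤ G)).injective
    rw [← hcT, h1, Subgroup.card_bot, one_mul, ← h1] at hidx
    rw [← hidx] at h5
    rcases hcases with h | h <;> rw [h] at h5 <;> revert h5 <;> decide
  · rcases hcases with h | h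
    · left; rw [← hidx, h, mul_one]
    · right; rw [← hidx, h, mul_comm]

theorem alt_or_top (hA : alternatingGroup α ≤ G) : G = alternatingGroup α ∨ G = ⊤ := by
  by_cases h : G ≤ alternatingGroup α
  · exact Or.inl (le_antisymm h hA)
  · right
    obtain ⟨g, hg, hgA⟩ := SetLike.not_le_iff_exists.1 h
    have hgs : Equiv.Perm.sign g = -1 := by
      rcases Int.units_eq_one_or (Equiv.Perm.sign g) with h1 | h1
      · exact absurd (Equiv.Perm.mem_alternatingGroup.2 h1) hgA
      · exact h1
    rw [eq_top_iff]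
    intro x _
    rcases Int.units_eq_one_or (Equiv.Perm.sign x) with h1 | h1
    · exact hA (Equiv.Perm.mem_alternatingGroup.2 h1)
    · have : x * g⁻¹ ∈ G := hA (Equiv.Perm.mem_alternatingGroup.2 (by rw [map_mul, map_inv, h1, hgs]; decide))
      have h2 := G.mul_mem this hg
      rwa [inv_mul_cancel_right] at h2

theorem deg_five (hα : Fintype.card α = 5) (hrf : RF G) (h5 : 5 ∣ Nat.card G) : alternatingGroup α ≤ G := by
  obtain ⟨hns, -⟩ := even_part hrf h5
  have hA : Nat.card (alternatingGroup α) = 60 := by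
    haveI : Nontrivial α := by
      rw [← Fintype.one_lt_card_iff_nontrivial, hα]; norm_num
    rw [nat_card_alternatingGroup, Nat.card_eq_fintype_card, hα]; rfl
  have hd : Nat.card (G ⊓ alternatingGroup α : Subgroup (Equiv.Perm α)) ∣ 60 := by
    rw [← hA]; exact Subgroup.card_dvd_of_le inf_le_right
  have h60 : Nat.card (G ⊓ alternatingGroup α : Subgroup (Equiv.Perm α)) = 60 := by
    by_contra h
    exact hns (H60.Ord60.solvable_of_dvd hd h)
  have : G ⊓ alternatingGroup α = alternatingGroup α :=
    Subgroup.eq_of_le_of_card_ge inf_le_right (by rw [h60, hA])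
  exact inf_eq_right.1 this

theorem deg_six (hα : Fintype.card α = 6) (hrf : RF G) (h5 : 5 ∣ Nat.card G) : alternatingGroup α ≤ G ∨
    Nonempty (G ≃* alternatingGroup (Fin 5)) ∨ Nonempty (G ≃* Equiv.Perm (Fin 5)) := by
  obtain ⟨hns, hcc⟩ := even_part hrf h5
  by_cases hle : alternatingGroup α ≤ G
  · exact Or.inl hle
  right
  set T := G ⊓ alternatingGroup α with hT
  have hA : Nat.card (alternatingGroup α) = 360 := by
    haveI : Nontrivial α := by
      rw [← Fintype.one_lt_card_iff_nontrivial, hα]; norm_num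
    rw [nat_card_alternatingGroup, Nat.card_eq_fintype_card, hα]; rfl
  haveI : IsSimpleGroup (alternatingGroup α) := alternatingGroup.isSimpleGroup (by rw [Nat.card_eq_fintype_card, hα]; norm_num)
  have hna : ¬ IsMulCommutative (alternatingGroup α) := H21.SylowTools.not_comm_of_card_not_prime (by rw [hA]; decide +kernel)
  have hTA : T.subgroupOf (alternatingGroup α) ≠ ⊤ := by
    intro h
    apply hle
    rw [Subgroup.subgroupOf_eq_top] at h
    exact h.trans inf_le_left
  have hidx := H21.SimpleBasic.two_mul_card_dvd_factorial_index hna _ hTA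
  have hcT : Nat.card (T.subgroupOf (alternatingGroup α)) = Nat.card T :=
    Nat.card_congr (Subgroup.subgroupOfEquivOfLe inf_le_right).toEquiv
  have hmul : Nat.card T * (T.subgroupOf (alternatingGroup α)).index = 360 := by
    rw [← hcT, ← hA]; exact Subgroup.card_mul_index _
  rw [hA] at hidx
  have h5T : 5 ∣ Nat.card T := by
    rcases hcc with h | h
    · rw [h]; exact h5
    · rw [← h] at h5
      exact (Nat.Coprime.dvd_mul_left (by norm_num)).1 h5
  have hT60 : Nat.card T = 60 := by
    set j := (T.subgroupOf (alternatingGroup α)).index with hj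
    have hj6 : 6 ≤ j := by
      by_contra h
      push Not at h
      have hpos : 0 < j := by
        rcases Nat.eq_zero_or_pos j with h0 | h0
        · rw [h0] at hmul; omega
        · exact h0
      interval_cases j <;> revert hidx <;> decide
    have hmem : Nat.card T ∈ (360 : ℕ).divisors := Nat.mem_divisors.mpr ⟨⟨_, hmul.symm⟩, by norm_num⟩
    have hdiv : (360 : ℕ).divisors = {1, 2, 3, 4, 5, 6, 8, 9, 10, 12, 15, 18, 20, 24, 30, 36, 40, 45, 60, 72, 90, 120, 180, 360} := by
      decide +kernel
    rw [hdiv] at hmem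
    simp only [Finset.mem_insert, Finset.mem_singleton] at hmem
    have hT60 : Nat.card T ≤ 60 := by
      by_contra h
      push Not at h
      nlinarith
    have hcases : Nat.card T = 5 ∨ Nat.card T = 10 ∨ Nat.card T = 15 ∨ Nat.card T = 20 ∨ Nat.card T = 30 ∨
        Nat.card T = 40 ∨ Nat.card T = 45 ∨ Nat.card T = 60 := by omega
    rcases hcases with h | h | h | h | h | h | h | h
    · exact absurd (H60.Ord60.solvable_of_dvd (by rw [h]; norm_num) (by rw [h]; norm_num)) hns
    · exact absurd (H60.Ord60.solvable_of_dvd (by rw [h]; norm_num) (by rw [h]; norm_num)) hns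
    · exact absurd (H60.Ord60.solvable_of_dvd (by rw [h]; norm_num) (by rw [h]; norm_num)) hns
    · exact absurd (H60.Ord60.solvable_of_dvd (by rw [h]; norm_num) (by rw [h]; norm_num)) hns
    · exact absurd (H60.Ord60.solvable_of_dvd (by rw [h]; norm_num) (by rw [h]; norm_num)) hns
    · exact absurd (H4.Burnside.isSolvable_of_card_eq 2 5 (by norm_num) (by norm_num) _ _ rfl ⟨3, 1, by rw [h]; norm_num⟩) hns
    · exact absurd (H4.Burnside.isSolvable_of_card_eq 3 5 (by norm_num) (by norm_num) _ _ rfl ⟨2, 1, by rw [h]; norm_num⟩) hns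
    · exact h
  haveI := H60.Ord60.isSimple_of_not_solvable hT60 hns
  obtain ⟨e⟩ := H60.Ord60.iso_alt5 hT60
  rcases hcc with h | h
  · left
    have hTG : T = G := Subgroup.eq_of_le_of_card_ge inf_le_left (by rw [h])
    exact ⟨(MulEquiv.subgroupCongr hTG.symm).trans e⟩
  · right
    haveI : (alternatingGroup α).Normal := inferInstance
    haveI hN : (T.subgroupOf G).Normal := by
      rw [hT, Subgroup.inf_subgroupOf_left]
      infer_instance
    let e2 : T.subgroupOf G ≃* T := Subgroup.subgroupOfEquivOfLe inf_le_left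
    exact iso_S5 hrf (by rw [← h, hT60]) (T.subgroupOf G) (by rw [← hT60]; exact Nat.card_congr e2.toEquiv)
      (fun hs => hns (by
        haveI := hs
        exact Group.isSolvable_of_isSolvable_injective (f := e2.symm.toMonoidHom) e2.symm.injective))

open scoped Pointwise in
theorem key_block (hα : Fintype.card α = 8) [MulAction.IsPretransitive G α] {x : Equiv.Perm α} (hx : x.IsCycle)
    (hxs : x.support.card = 5) (hxG : x ∈ G) {c : α} {B : Set α} (hB : MulAction.IsBlock G B) (hc : c ∈ B)
    (hxc : x c = c) : (∀ y ∈ B, x y = y) ∨ B = Set.univ := by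
  by_contra hcon
  push Not at hcon
  obtain ⟨⟨y, hy, hxy⟩, hu⟩ := hcon
  apply hu
  have hinv : ∀ k : ℤ, ∀ z ∈ B, (x ^ k) z ∈ B := by
    intro k z hz
    let g : G := ⟨x ^ k, G.zpow_mem hxG k⟩
    have h1 : g • B = (1 : G) • B := by
      apply hB.smul_eq_smul_of_nonempty
      refine ⟨c, ⟨c, hc, ?_⟩, ⟨c, hc, one_smul _ _⟩⟩
      show (x ^ k) c = c
      exact Equiv.Perm.zpow_apply_eq_self_of_apply_eq_self hxc k
    have h2 : (x ^ k) z ∈ g • B := ⟨z, hz, rfl⟩
    rw [h1, one_smul] at h2
    exact h2
  have hsub : insert c (x.support : Set α) ⊆ B := by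
    intro z hz
    rcases Set.mem_insert_iff.1 hz with rfl | hz
    · exact hc
    · have hz' : x z ≠ z := Equiv.Perm.mem_support.1 (Finset.mem_coe.1 hz)
      obtain ⟨k, hk⟩ := hx.exists_zpow_eq hxy hz'
      rw [← hk]
      exact hinv k y hy
  have hcard : 6 ≤ B.ncard := by
    have h1 : (insert c (x.support : Set α)).ncard = 6 := by
      rw [Set.ncard_insert_of_notMem, Set.ncard_coe_finset, hxs]
      intro h
      exact (Equiv.Perm.mem_support.1 (Finset.mem_coe.1 h)) hxc
    rw [← h1]
    exact Set.ncard_le_ncard hsub (Set.toFinite B)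
  exact hB.eq_univ_of_card_lt (by rw [Nat.card_eq_fintype_card, hα]; omega)

open scoped Pointwise in
theorem deg_eight (hα : Fintype.card α = 8) [MulAction.IsPretransitive G α] {x : Equiv.Perm α} (hx : x.IsCycle)
    (hxs : x.support.card = 5) (hxG : x ∈ G) : alternatingGroup α ≤ G := by
  have hprim : MulAction.IsPreprimitive G α := by
    have hfix : ((x.support : Set α)ᶜ).ncard = 3 := by
      have := Set.ncard_add_ncard_compl (x.support : Set α)
      rw [Set.ncard_coe_finset, hxs, Nat.card_eq_fintype_card, hα] at this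
      omega
    obtain ⟨a, ha⟩ : ((x.support : Set α)ᶜ).Nonempty := by
      rw [← Set.ncard_pos, hfix]; norm_num
    have hmem : ∀ z, z ∈ ((x.support : Set α)ᶜ) ↔ x z = z := by
      intro z
      rw [Set.mem_compl_iff, Finset.mem_coe, Equiv.Perm.notMem_support]
    refine MulAction.IsPreprimitive.of_isTrivialBlock_base a ?_
    intro B haB hB
    rcases key_block hα hx hxs hxG hB haB ((hmem a).1 ha) with h | h
    swap
    · exact Or.inr h
    left
    have hBs : B ⊆ ((x.support : Set α)ᶜ) := fun y hy => (hmem y).2 (h y hy)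
    have hBc : B.ncard ≤ 3 := by rw [← hfix]; exact Set.ncard_le_ncard hBs (Set.toFinite _)
    have hBd : B.ncard ∣ 8 := by
      have := hB.ncard_dvd_card ⟨a, haB⟩
      rwa [Nat.card_eq_fintype_card, hα] at this
    have hB12 : B.ncard = 1 ∨ B.ncard = 2 := by
      have hpos : 0 < B.ncard := (Set.ncard_pos (Set.toFinite B)).2 ⟨a, haB⟩
      interval_cases B.ncard
      · left; rfl
      · right; rfl
      · exfalso; revert hBd; decide
    rcases hB12 with h1 | h2
    · obtain ⟨b, hb⟩ := Set.ncard_eq_one.1 h1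
      rw [hb]; exact Set.subsingleton_singleton
    · exfalso
      obtain ⟨q, hq, hqB⟩ : ∃ q ∈ ((x.support : Set α)ᶜ), q ∉ B :=
        Set.exists_mem_notMem_of_ncard_lt_ncard (by rw [h2, hfix]; norm_num) (Set.toFinite B)
      obtain ⟨g, hg⟩ := MulAction.exists_smul_eq G a q
      have hB' : MulAction.IsBlock G (g • B) := hB.translate g
      have hqg : q ∈ g • B := ⟨a, haB, hg⟩
      have hgc : (g • B).ncard = 2 := by rw [← h2]; exact Set.ncard_smul_set g B
      rcases key_block hα hx hxs hxG hB' hqg ((hmem q).1 hq) with h3 | h3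
      · have hBs' : g • B ⊆ ((x.support : Set α)ᶜ) := fun y hy => (hmem y).2 (h3 y hy)
        have hdis : Disjoint (g • B) B := by
          have hne : g • B ≠ (1 : G) • B := by
            rw [one_smul]
            intro h4
            exact hqB (h4 ▸ hqg)
          have := hB hne
          rwa [one_smul] at this
        have h5 := Set.ncard_union_eq hdis (Set.toFinite _) (Set.toFinite _)
        have h6 := Set.ncard_le_ncard (Set.union_subset hBs' hBs) (Set.toFinite _)
        rw [h5, hgc, h2, hfix] at h6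
        omega
      · rw [h3, Set.ncard_univ, Nat.card_eq_fintype_card, hα] at hgc
        omega
  exact Cfsg.Agent.S0713.result G hprim (p := 5) (by norm_num) (by omega) (by omega) hx hxs hxG

end deg

theorem cube_one {g : P8} (hs : Equiv.Perm.sign g = 1) (h3 : g.support.card ≤ 3) : g ^ 3 = 1 := by
  have hcases : g.support.card = 0 ∨ g.support.card = 1 ∨ g.support.card = 2 ∨ g.support.card = 3 := by omega
  rcases hcases with h | h | h | h
  · rw [Finset.card_eq_zero, Equiv.Perm.support_eq_empty_iff] at h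
    rw [h, one_pow]
  · exact absurd h (Equiv.Perm.card_support_ne_one g)
  · rw [Equiv.Perm.card_support_eq_two] at h
    rw [h.sign_eq] at hs
    exact absurd hs (by decide)
  · rw [card_support_eq_three_iff] at h
    rw [← h.orderOf]
    exact pow_orderOf_eq_one g

theorem five_case {K : Subgroup P8} (hK : K ≤ alternatingGroup (Fin 8)) (hrf : RF K) (h5 : 5 ∣ Nat.card K) :
    (∃ n : ℕ, 5 ≤ n ∧ n ≤ 8 ∧ Nonempty (K ≃* alternatingGroup (Fin n))) ∨
      Nonempty (K ≃* Equiv.Perm (Fin 5)) ∨ Nonempty (K ≃* Equiv.Perm (Fin 6)) := by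
  classical
  haveI : Fact (Nat.Prime 5) := ⟨by norm_num⟩
  obtain ⟨⟨x, hxK⟩, hx⟩ := exists_prime_orderOf_dvd_card' 5 h5
  have hx5 : orderOf x = 5 := by rw [← hx]; exact (Subgroup.orderOf_mk _ _).symm
  have hxc : x.IsCycle := Equiv.Perm.isCycle_of_prime_order' (by rw [hx5]; norm_num) (by rw [hx5]; simp)
  have hxs : x.support.card = 5 := by rw [← hxc.orderOf, hx5]
  obtain ⟨p, hp⟩ : x.support.Nonempty := by rw [← Finset.card_pos, hxs]; norm_num
  set O : Set (Fin 8) := MulAction.orbit K p with hO
  have hsO : ∀ y ∈ x.support, y ∈ O := by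
    intro y hy
    obtain ⟨k, hk⟩ := hxc.exists_zpow_eq (Equiv.Perm.mem_support.1 hp) (Equiv.Perm.mem_support.1 hy)
    exact ⟨⟨x ^ k, K.zpow_mem hxK k⟩, hk⟩
  have hOc : 5 ≤ O.ncard := by
    rw [← hxs, ← Set.ncard_coe_finset]
    exact Set.ncard_le_ncard (fun y hy => hsO y (Finset.mem_coe.1 hy)) (Set.toFinite _)
  have hOc8 : O.ncard ≤ 8 := by
    have := Set.ncard_le_ncard (Set.subset_univ O) (Set.toFinite _)
    simpa [Set.ncard_univ] using this
  let ρ : K →* Equiv.Perm O := MulAction.toPermHom K O
  have hρa : ∀ (k : K) (y : O), ((ρ k y : O) : Fin 8) = (k : P8) y := fun k y => rfl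
  have hker : ρ.ker = ⊥ := by
    have h3 : ∀ g : ρ.ker, g ^ 3 = 1 := by
      rintro ⟨g, hg⟩
      have hs : Equiv.Perm.sign (g : P8) = 1 := Equiv.Perm.mem_alternatingGroup.1 (hK g.2)
      have hsup : (g : P8).support.card ≤ 3 := by
        have h1 : ((g : P8).support : Set (Fin 8)) ⊆ Oᶜ := by
          intro y hy hyO
          apply Equiv.Perm.mem_support.1 (Finset.mem_coe.1 hy)
          have h2 := hρa g ⟨y, hyO⟩
          rw [(MonoidHom.mem_ker).1 hg] at h2
          exact h2.symm
        have h2 := Set.ncard_le_ncard h1 (Set.toFinite _)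
        rw [Set.ncard_coe_finset] at h2
        have h3 := Set.ncard_add_ncard_compl O
        rw [Nat.card_fin] at h3
        omega
      have h4 := cube_one hs hsup
      apply Subtype.ext
      apply Subtype.ext
      exact h4
    have hp3 : IsPGroup 3 ρ.ker := fun g => ⟨1, by rw [pow_one]; exact h3 g⟩
    haveI : Fact (Nat.Prime 3) := ⟨Nat.prime_three⟩
    obtain ⟨n, hn⟩ := IsPGroup.iff_card.1 hp3
    exact hrf _ inferInstance (H98.DicksonSolv.solvable_of_card 0 n (by rw [hn]; simp))
  have hinj : Function.Injective ρ := (MonoidHom.ker_eq_bot_iff ρ).1 hker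
  let e : K ≃* ρ.range := MonoidHom.ofInjective hinj
  haveI htr : MulAction.IsPretransitive ρ.range O := by
    refine ⟨fun a b => ?_⟩
    obtain ⟨k, hk⟩ := MulAction.exists_smul_eq K a b
    exact ⟨⟨ρ k, k, rfl⟩, hk⟩
  have hrf' : RF ρ.range := hrf.congr e
  have hcard : Nat.card ρ.range = Nat.card K := (Nat.card_congr e.toEquiv).symm
  have h5' : 5 ∣ Nat.card ρ.range := by rw [hcard]; exact h5
  have hFO : Fintype.card O = O.ncard := by rw [← Nat.card_eq_fintype_card]; rfl
  -- conclusion from containment of the alternating group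
  have fin1 : alternatingGroup O ≤ ρ.range → ((∃ n : ℕ, 5 ≤ n ∧ n ≤ 8 ∧ Nonempty (K ≃* alternatingGroup (Fin n))) ∨
      Nonempty (K ≃* Equiv.Perm (Fin 5)) ∨ Nonempty (K ≃* Equiv.Perm (Fin 6))) := by
    intro hA
    let eO : O ≃ Fin O.ncard := Fintype.equivFinOfCardEq hFO
    rcases alt_or_top hA with h | h
    · left
      exact ⟨O.ncard, hOc, hOc8, ⟨(e.trans (MulEquiv.subgroupCongr h)).trans (Equiv.altCongrHom eO)⟩⟩
    · have e2 : K ≃* Equiv.Perm (Fin O.ncard) :=
        ((e.trans (MulEquiv.subgroupCongr h)).trans Subgroup.topEquiv).trans eO.permCongrHom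
      have hcK : Nat.card K = (O.ncard).factorial := by
        rw [Nat.card_congr e2.toEquiv, Nat.card_perm, Nat.card_fin]
      have hcases : O.ncard = 5 ∨ O.ncard = 6 ∨ O.ncard = 7 ∨ O.ncard = 8 := by omega
      rcases hcases with h' | h' | h' | h'
      · right; left
        rw [h'] at e2
        exact ⟨e2⟩
      · right; right
        rw [h'] at e2
        exact ⟨e2⟩
      · exfalso
        rw [h'] at hcK
        have hfac : (7 : ℕ).factorial = 5040 := by decide
        rw [hfac] at hcK
        have hA8 := H47.A8GL4.card_A8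
        haveI : IsSimpleGroup (alternatingGroup (Fin 8)) := alternatingGroup.isSimpleGroup (by simp)
        have hna : ¬ IsMulCommutative (alternatingGroup (Fin 8)) :=
          H21.SylowTools.not_comm_of_card_not_prime (by rw [hA8]; norm_num)
        have hcs : Nat.card (K.subgroupOf (alternatingGroup (Fin 8))) = 5040 := by
          rw [← hcK]
          exact Nat.card_congr (Subgroup.subgroupOfEquivOfLe hK).toEquiv
        have hmul := (K.subgroupOf (alternatingGroup (Fin 8))).card_mul_index
        rw [hcs, hA8] at hmul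
        have hidx : (K.subgroupOf (alternatingGroup (Fin 8))).index = 4 := by omega
        have hne : K.subgroupOf (alternatingGroup (Fin 8)) ≠ ⊤ := by
          intro h1
          rw [h1, Subgroup.index_top] at hidx
          omega
        have := H21.SimpleBasic.two_mul_card_dvd_factorial_index hna _ hne
        rw [hidx, hA8] at this
        revert this
        decide
      · exfalso
        rw [h'] at hcK
        have hfac : (8 : ℕ).factorial = 40320 := by decide
        have := Nat.le_of_dvd (by norm_num) (card_dvd hK)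
        omega
  have hns : ¬ Group.IsSolvable ρ.range := by
    haveI : Nontrivial ρ.range := by
      rw [← Finite.one_lt_card_iff_nontrivial]
      have : 0 < Nat.card ρ.range := Nat.card_pos
      have := Nat.le_of_dvd this h5'
      omega
    exact hrf'.not_solvable
  have hcases : O.ncard = 5 ∨ O.ncard = 6 ∨ O.ncard = 7 ∨ O.ncard = 8 := by omega
  rcases hcases with h | h | h | h
  · exact fin1 (deg_five (by rw [hFO, h]) hrf' h5')
  · rcases deg_six (by rw [hFO, h]) hrf' h5' with h1 | ⟨⟨e1⟩⟩ | ⟨⟨e1⟩⟩
    · exact fin1 h1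
    · left
      exact ⟨5, le_rfl, by norm_num, ⟨e.trans e1⟩⟩
    · right; left
      exact ⟨e.trans e1⟩
  · apply fin1
    by_contra hA
    have := (Cfsg.Agent.S0678.result (by rw [hFO, h]) ρ.range hns hA).1
    rw [this] at h5'
    revert h5'
    decide
  · -- the five-cycle on the orbit
    have huniv : ∀ y : Fin 8, y ∈ O := by
      have : O = Set.univ := by
        apply Set.eq_of_subset_of_ncard_le (Set.subset_univ _) _ (Set.toFinite _)
        rw [Set.ncard_univ, Nat.card_fin, h]
      intro y; rw [this]; trivial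
    let x' : Equiv.Perm O := ρ ⟨x, hxK⟩
    have hx'o : orderOf x' = 5 := by
      rw [show orderOf x' = orderOf (⟨x, hxK⟩ : K) from orderOf_injective ρ hinj _, Subgroup.orderOf_mk, hx5]
    have hx'c : x'.IsCycle := Equiv.Perm.isCycle_of_prime_order' (by rw [hx'o]; norm_num)
      (by rw [hx'o, hFO, h]; norm_num)
    have hx's : x'.support.card = 5 := by rw [← hx'c.orderOf, hx'o]
    exact fin1 (deg_eight (by rw [hFO, h]) hx'c hx's ⟨_, rfl⟩)

theorem main (H : Subgroup (GL (Fin 4) (ZMod 2))) (hH : H ≠ ⊥) (hrf : RF H) :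
    (∃ n : ℕ, 5 ≤ n ∧ n ≤ 8 ∧ Nonempty (↥H ≃* alternatingGroup (Fin n))) ∨
    Nonempty (↥H ≃* Equiv.Perm (Fin 5)) ∨ Nonempty (↥H ≃* Equiv.Perm (Fin 6)) ∨ Nonempty (↥H ≃* GL (Fin 3) (ZMod 2)) := by
  obtain ⟨e⟩ := H47.A8GL4.exists_equiv
  let f : H →* P8 := (alternatingGroup (Fin 8)).subtype.comp (e.symm.toMonoidHom.comp H.subtype)
  have hf : Function.Injective f :=
    (Subgroup.subtype_injective _).comp (e.symm.injective.comp H.subtype_injective)
  let e2 : H ≃* f.range := MonoidHom.ofInjective hf
  have hfA : f.range ≤ alternatingGroup (Fin 8) := by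
    rintro _ ⟨x, rfl⟩
    exact (e.symm (x : GL (Fin 4) (ZMod 2))).2
  have hrf' : RF f.range := hrf.congr e2
  haveI : Nontrivial H := (Subgroup.nontrivial_iff_ne_bot H).2 hH
  haveI : Nontrivial f.range := e2.symm.toEquiv.nontrivial
  by_cases h5 : 5 ∣ Nat.card f.range
  · rcases five_case hfA hrf' h5 with ⟨n, h1, h2, ⟨e3⟩⟩ | ⟨⟨e3⟩⟩ | ⟨⟨e3⟩⟩
    · exact Or.inl ⟨n, h1, h2, ⟨e2.trans e3⟩⟩
    · exact Or.inr (Or.inl ⟨e2.trans e3⟩)
    · exact Or.inr (Or.inr (Or.inl ⟨e2.trans e3⟩))
  · right; right; right
    rcases card_of hfA hrf'.not_solvable h5 with h | h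
    · obtain ⟨e3⟩ := GL4Sub.iso_168 hfA h hrf'
      exact ⟨e2.trans e3⟩
    · exact (GL4Sub.no_1344' hfA h hrf').elim

end H61.A8Five
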