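import Cfsg.Agent.Lib.H61.BinAct
import Cfsg.Prelude.Def_Involutions
import Mathlib

/-!
Binary actions with one class of involutions: fixed points and strongly embedded subgroups (helper61).
-/

set_option autoImplicit false

namespace H61.BinFix

open H61.BinAct

variable {G : Type*} [Group G]

/-- elements `x` with `xH` fixed by `t` -/
def Dl (H : Subgroup G) (t : G) : Set G := {x | x⁻¹ * t * x ∈ H}

theorem mem_Dl {H : Subgroup G} {t x : G} : x ∈ Dl H t ↔ x⁻¹ * t * x ∈ H := Iff.rfl

theorem mem_Dl_conj {H : Subgroup G} {t x g : G} : x ∈ Dl H (g * t * g⁻¹) ↔ g⁻¹ * x ∈ Dl H t := by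
  rw [mem_Dl, mem_Dl]
  have e : (g⁻¹ * x)⁻¹ * t * (g⁻¹ * x) = x⁻¹ * (g * t * g⁻¹) * x := by group
  rw [e]

theorem card_Dl {H : Subgroup G} {s t : G} (h : IsConj s t) : (Dl H s).ncard = (Dl H t).ncard := by
  obtain ⟨g, hg⟩ := isConj_iff.1 h
  subst hg
  have e : Dl H (g * s * g⁻¹) = (fun x => g * x) '' Dl H s := by
    ext x
    rw [mem_Dl_conj]
    constructor
    · intro h
      exact ⟨g⁻¹ * x, h, by group⟩
    · rintro ⟨y, hy, rfl⟩
      have : g⁻¹ * (g * y) = y := by group
      rw [this]; exact hy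
  rw [e, Set.ncard_image_of_injective _ (mul_right_injective g)]

theorem sq_one {t : G} (ht : orderOf t = 2) : t * t = 1 := by
  have := pow_orderOf_eq_one t
  rwa [ht, pow_two] at this

theorem inv_self {t : G} (ht : orderOf t = 2) : t⁻¹ = t := inv_eq_of_mul_eq_one_right (sq_one ht)

variable [Finite G]

theorem fix_le (hone : ∀ s t : G, orderOf s = 2 → orderOf t = 2 → IsConj s t) {H : Subgroup G} (hH : Bin H)
    {s t : G} (hs : orderOf s = 2) (ht : orderOf t = 2) (hst : s * t = t * s) (hne : s ≠ t) :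
    Dl H s ⊆ Dl H t := by
  classical
  intro a ha
  by_contra hat
  have htt := sq_one ht
  have hss := sq_one hs
  have hr : orderOf (s * t) = 2 := by
    apply orderOf_eq_prime
    · rw [pow_two]
      calc s * t * (s * t) = s * (t * s) * t := by group
        _ = (s * s) * (t * t) := by rw [← hst]; group
        _ = 1 := by rw [hss, htt, one_mul]
    · intro h
      apply hne
      have h1 := mul_eq_one_iff_eq_inv.1 h
      rw [h1, inv_self ht]
  -- the partial permutation
  obtain ⟨x0, hx0⟩ := hH.apply (ι := {i : G // i ∈ Dl H s ∨ i ∈ Dl H t ∨ i ∈ Dl H (s * t)})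
    (fun i => i.1) (fun i => if i.1 ∈ Dl H s then t * i.1 else i.1) (by
    have key : ∀ i j : G, i ∈ Dl H s → (j ∈ Dl H s ∨ j ∈ Dl H t ∨ j ∈ Dl H (s * t)) → j ∉ Dl H s →
        ∃ g : G, (t * i)⁻¹ * g * i ∈ H ∧ j⁻¹ * g * j ∈ H := by
      intro i j hi hj hjs
      rcases hj with hj | hj | hj
      · exact absurd hj hjs
      · exact ⟨t, by
          have e : (t * i)⁻¹ * t * i = 1 := by group
          rw [e]; exact H.one_mem, hj⟩
      · refine ⟨s * t, ?_, hj⟩
        have e : (t * i)⁻¹ * (s * t) * i = i⁻¹ * s * i := by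
          calc (t * i)⁻¹ * (s * t) * i = i⁻¹ * (t⁻¹ * (s * t)) * i := by group
            _ = i⁻¹ * (t⁻¹ * (t * s)) * i := by rw [hst]
            _ = _ := by group
        rw [e]; exact hi
    rintro ⟨i, hi⟩ ⟨j, hj⟩
    by_cases h1 : i ∈ Dl H s
    · by_cases h2 : j ∈ Dl H s
      · simp only [h1, h2, if_true]
        refine ⟨t, ?_, ?_⟩
        · have e : (t * i)⁻¹ * t * i = 1 := by group
          rw [e]; exact H.one_mem
        · have e : (t * j)⁻¹ * t * j = 1 := by group
          rw [e]; exact H.one_mem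
      · simp only [h1, h2, if_true, if_false]
        exact key i j h1 hj h2
    · by_cases h2 : j ∈ Dl H s
      · simp only [h1, h2, if_true, if_false]
        obtain ⟨g, hg1, hg2⟩ := key j i h2 hi h1
        exact ⟨g, hg2, hg1⟩
      · simp only [h1, h2, if_false]
        exact ⟨1, by simp, by simp⟩)
  have hA : ∀ i, i ∈ Dl H s → (t * i)⁻¹ * x0 * i ∈ H := by
    intro i hi
    have := hx0 ⟨i, Or.inl hi⟩
    simp only [hi, if_true] at this
    exact this
  have hBC : ∀ i, i ∈ Dl H t ∨ i ∈ Dl H (s * t) → i⁻¹ * x0 * i ∈ H := by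
    intro i hi
    by_cases his : i ∈ Dl H s
    · have hit : i⁻¹ * t * i ∈ H := by
        rcases hi with hi | hi
        · exact hi
        · have h1 := H.mul_mem (H.inv_mem his) hi
          have e : (i⁻¹ * s * i)⁻¹ * (i⁻¹ * (s * t) * i) = i⁻¹ * t * i := by group
          rwa [e] at h1
      have h1 := H.mul_mem hit (hA i his)
      have e : i⁻¹ * t * i * ((t * i)⁻¹ * x0 * i) = i⁻¹ * x0 * i := by
        calc i⁻¹ * t * i * ((t * i)⁻¹ * x0 * i) = i⁻¹ * x0 * i := by group
          _ = _ := rfl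
      rwa [e] at h1
    · have := hx0 ⟨i, Or.inr hi⟩
      simp only [his, if_false] at this
      exact this
  -- `x0` has even order
  have h1 : a⁻¹ * x0 * a ∉ H := by
    intro h
    apply hat
    have h2 := H.mul_mem h (H.inv_mem (hA a ha))
    have e : a⁻¹ * x0 * a * ((t * a)⁻¹ * x0 * a)⁻¹ = a⁻¹ * t * a := by group
    rwa [e] at h2
  have h2 : a⁻¹ * (x0 * x0) * a ∈ H := by
    have hta : t * a ∈ Dl H s := by
      rw [mem_Dl]
      have e : (t * a)⁻¹ * s * (t * a) = a⁻¹ * (t⁻¹ * (s * t)) * a := by group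
      rw [e, hst]
      have e : a⁻¹ * (t⁻¹ * (t * s)) * a = a⁻¹ * s * a := by group
      rw [e]; exact ha
    have h3 := H.mul_mem (hA _ hta) (hA a ha)
    have e : (t * (t * a))⁻¹ * x0 * (t * a) * ((t * a)⁻¹ * x0 * a) = a⁻¹ * (t * t)⁻¹ * (x0 * x0) * a := by
      group
    rw [e, htt] at h3
    simpa using h3
  have heven : Even (orderOf x0) := by
    by_contra hodd
    rw [Nat.not_even_iff_odd] at hodd
    obtain ⟨k, hk⟩ := hodd
    apply h1
    have h3 : x0 = (x0 * x0) ^ (k + 1) := by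
      rw [← pow_two, ← pow_mul]
      have e : 2 * (k + 1) = orderOf x0 + 1 := by omega
      rw [e, pow_succ, pow_orderOf_eq_one, one_mul]
    have h4 : a⁻¹ * (x0 * x0) ^ (k + 1) * a = (a⁻¹ * (x0 * x0) * a) ^ (k + 1) := by
      have := conj_pow (i := k + 1) (a := a⁻¹) (b := x0 * x0)
      rw [inv_inv] at this
      exact this.symm
    rw [h3, h4]
    exact H.pow_mem h2 _
  obtain ⟨m, hm⟩ := heven
  have hm0 : m ≠ 0 := by
    rintro rfl
    have := orderOf_pos x0
    omega
  have hy : orderOf (x0 ^ m) = 2 := by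
    rw [orderOf_pow' x0 hm0, hm]
    have : (m + m).gcd m = m := by
      rw [← two_mul]; exact Nat.gcd_mul_left_left _ _
    rw [this]
    have : m + m = 2 * m := by ring
    rw [this]
    exact Nat.mul_div_cancel _ (Nat.pos_of_ne_zero hm0)
  have hfix : ∀ i, i ∈ Dl H t ∨ i ∈ Dl H (s * t) → i ∈ Dl H (x0 ^ m) := by
    intro i hi
    rw [mem_Dl]
    have := conj_pow (i := m) (a := i⁻¹) (b := x0)
    rw [inv_inv] at this
    rw [← this]
    exact H.pow_mem (hBC i hi) _
  have hB : Dl H t = Dl H (x0 ^ m) :=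
    Set.eq_of_subset_of_ncard_le (fun i hi => hfix i (Or.inl hi)) (card_Dl (hone _ _ hy ht)).le (Set.toFinite _)
  have hC : Dl H (s * t) = Dl H (x0 ^ m) :=
    Set.eq_of_subset_of_ncard_le (fun i hi => hfix i (Or.inr hi)) (card_Dl (hone _ _ hy hr)).le (Set.toFinite _)
  have hle : Dl H t ⊆ Dl H s := by
    intro i hi
    have hi2 : i ∈ Dl H (s * t) := by rw [hC, ← hB]; exact hi
    rw [mem_Dl] at hi hi2 ⊢
    have h3 := H.mul_mem hi2 (H.inv_mem hi)
    have e : i⁻¹ * (s * t) * i * (i⁻¹ * t * i)⁻¹ = i⁻¹ * s * i := by group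
    rwa [e] at h3
  have hAB : Dl H t = Dl H s :=
    Set.eq_of_subset_of_ncard_le hle (card_Dl (hone _ _ hs ht)).le (Set.toFinite _)
  exact hat (hAB ▸ ha)

/-- commuting involutions have the same fixed points -/
theorem fix_eq (hone : ∀ s t : G, orderOf s = 2 → orderOf t = 2 → IsConj s t) {H : Subgroup G} (hH : Bin H)
    {s t : G} (hs : orderOf s = 2) (ht : orderOf t = 2) (hst : s * t = t * s) :
    Dl H s = Dl H t := by
  by_cases hne : s = t
  · rw [hne]
  · exact subset_antisymm (fix_le hone hH hs ht hst hne) (fix_le hone hH ht hs hst.symm (Ne.symm hne))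

/-- an involution commuting with an involution of `H` is in `H` -/
theorem mem_of_comm (hone : ∀ s t : G, orderOf s = 2 → orderOf t = 2 → IsConj s t) {H : Subgroup G} (hH : Bin H)
    {s t : G} (hs : orderOf s = 2) (ht : orderOf t = 2) (hst : s * t = t * s) (h : t ∈ H) : s ∈ H := by
  have h1 : (1 : G) ∈ Dl H t := by rw [mem_Dl]; simpa using h
  rw [← fix_eq hone hH hs ht hst, mem_Dl] at h1
  simpa using h1

/-- the stabiliser of the set of fixed points of `t` -/
def Nn (H : Subgroup G) (t : G) : Subgroup G where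
  carrier := {g | ∀ x, x ∈ Dl H t ↔ g * x ∈ Dl H t}
  one_mem' := fun x => by simp
  mul_mem' := by
    intro a b ha hb x
    rw [hb x, ha, mul_assoc]
  inv_mem' := by
    intro a ha x
    rw [ha (a⁻¹ * x)]
    simp

theorem mem_Nn {H : Subgroup G} {t g : G} : g ∈ Nn H t ↔ Dl H (g * t * g⁻¹) = Dl H t := by
  constructor
  · intro h
    ext x
    rw [mem_Dl_conj, h (g⁻¹ * x)]
    simp
  · intro h x
    have h1 := Set.ext_iff.1 h (g * x)
    rw [mem_Dl_conj] at h1
    have e : g⁻¹ * (g * x) = x := by group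
    rw [e] at h1
    exact h1

theorem conj_order {x g : G} : orderOf (g * x * g⁻¹) = orderOf x :=
  orderOf_injective (MulAut.conj g).toMonoidHom (MulAut.conj g).injective x

theorem even_card_iff {N : Subgroup G} : Even (Nat.card N) ↔ ∃ s ∈ N, orderOf s = 2 := by
  constructor
  · intro h
    haveI : Fact (Nat.Prime 2) := ⟨Nat.prime_two⟩
    obtain ⟨x, hx⟩ := exists_prime_orderOf_dvd_card' (G := N) 2 h.two_dvd
    exact ⟨x, x.2, by rw [Subgroup.orderOf_coe, hx]⟩
  · rintro ⟨s, hs, h2⟩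
    rw [even_iff_two_dvd, ← h2, ← Subgroup.orderOf_mk s hs]
    exact orderOf_dvd_natCard _

/-- the stabiliser is strongly embedded -/
theorem se [IsSimpleGroup G] (hone : ∀ s t : G, orderOf s = 2 → orderOf t = 2 → IsConj s t) {H : Subgroup G}
    (hH : Bin H) (hT : H ≠ ⊤) (hev : Even (Nat.card H)) : ∃ N : Subgroup G, Cfsg.IsStronglyEmbedded N := by
  haveI : Fact (Nat.Prime 2) := ⟨Nat.prime_two⟩
  obtain ⟨t, htH, ht⟩ := even_card_iff.1 hev
  -- a central involution of a Sylow subgroup containing `t`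
  have hcent : ∀ (g s : G), orderOf s = 2 → Dl H s = Dl H t → g * s = s * g → g ∈ Nn H t := by
    intro g s hs hst hg x
    rw [← hst]
    have h1 := mem_Dl_conj (H := H) (t := s) (x := g * x) (g := g)
    have e1 : g * s * g⁻¹ = s := by rw [hg]; group
    have e2 : g⁻¹ * (g * x) = x := by group
    rw [e1, e2] at h1
    exact h1.symm
  -- all involutions of N
  have hall : ∀ s ∈ Nn H t, orderOf s = 2 → Dl H s = Dl H t := by
    -- Sylow of G
    have hz : IsPGroup 2 (Subgroup.zpowers t) := by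
      rw [IsPGroup.iff_card]
      exact ⟨1, by rw [Nat.card_zpowers, ht, pow_one]⟩
    obtain ⟨S, hS⟩ := hz.exists_le_sylow
    have htS : t ∈ (S : Subgroup G) := hS (Subgroup.mem_zpowers t)
    have hnt : Nontrivial S := by
      rw [Subgroup.nontrivial_iff_exists_ne_one]
      refine ⟨t, htS, ?_⟩
      intro h
      rw [h, orderOf_one] at ht
      omega
    have hnc := S.2.center_nontrivial
    obtain ⟨z, hz1, hz2⟩ : ∃ z : S, z ∈ Subgroup.center S ∧ orderOf z = 2 := by
      have h1 : IsPGroup 2 (Subgroup.center S) := S.2.to_subgroup _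
      obtain ⟨k, hk0, hk⟩ := (IsPGroup.nontrivial_iff_card h1).1 hnc
      obtain ⟨x, hx⟩ := exists_prime_orderOf_dvd_card' (G := Subgroup.center S) 2 (by
        rw [hk]; exact dvd_pow_self 2 (by omega))
      exact ⟨x, x.2, by rw [Subgroup.orderOf_coe, hx]⟩
    have hz3 : orderOf (z : G) = 2 := by rw [Subgroup.orderOf_coe, hz2]
    have hzc : ∀ y ∈ (S : Subgroup G), y * z = z * y := by
      intro y hy
      exact congrArg Subtype.val (Subgroup.mem_center_iff.1 hz1 ⟨y, hy⟩)
    have hzt : Dl H (z : G) = Dl H t := fix_eq hone hH hz3 ht (hzc t htS).symm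
    have hSN : (S : Subgroup G) ≤ Nn H t := fun y hy => hcent y z hz3 hzt (hzc y hy)
    have hSi : ∀ y ∈ (S : Subgroup G), orderOf y = 2 → Dl H y = Dl H t := by
      intro y hy hy2
      rw [fix_eq hone hH hy2 hz3 (hzc y hy), hzt]
    intro s hs hs2
    -- Sylow of N
    let S' : Sylow 2 (Nn H t) := S.subtype hSN
    have hzs : IsPGroup 2 (Subgroup.zpowers (⟨s, hs⟩ : Nn H t)) := by
      rw [IsPGroup.iff_card]
      exact ⟨1, by rw [Nat.card_zpowers, Subgroup.orderOf_mk, hs2, pow_one]⟩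
    obtain ⟨R, hR⟩ := hzs.exists_le_sylow
    obtain ⟨n, hn⟩ := MulAction.exists_smul_eq (Nn H t) S' R
    have hsR : (⟨s, hs⟩ : Nn H t) ∈ (R : Subgroup (Nn H t)) := hR (Subgroup.mem_zpowers _)
    rw [← hn, Sylow.coe_subgroup_smul, Subgroup.mem_pointwise_smul_iff_inv_smul_mem] at hsR
    have h1 : (MulAut.conj n)⁻¹ • (⟨s, hs⟩ : Nn H t) = n⁻¹ * ⟨s, hs⟩ * n := by
      rw [← map_inv, MulAut.smul_def, MulAut.conj_apply, inv_inv]
    rw [h1] at hsR
    have h2 : (n : G)⁻¹ * s * n ∈ (S : Subgroup G) := hsR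
    have h3 := hSi _ h2 (by
      have := conj_order (x := s) (g := (n : G)⁻¹)
      rw [inv_inv] at this
      rw [this, hs2])
    have h4 := (mem_Nn.1 n.2)
    ext x
    have h5 := Set.ext_iff.1 h3 ((n : G)⁻¹ * x)
    rw [← mem_Dl_conj, ← mem_Dl_conj] at h5
    have e : (n : G) * ((n : G)⁻¹ * s * n) * (n : G)⁻¹ = s := by group
    rw [e, h4] at h5
    exact h5
  refine ⟨Nn H t, ?_, ?_, ?_⟩
  · intro htop
    -- then all cosets are fixed
    have hcore : H.normalCore = ⊥ := by
      rcases IsSimpleGroup.eq_bot_or_eq_top_of_normal H.normalCore inferInstance with h | h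
      · exact h
      · exfalso; apply hT; rw [eq_top_iff, ← h]; exact H.normalCore_le
    have h1 : t ∈ H.normalCore := by
      intro b
      have h2 : b⁻¹ ∈ Nn H t := by rw [htop]; trivial
      have h3 := h2 1
      have h4 : (1 : G) ∈ Dl H t := by rw [mem_Dl]; simpa using htH
      have h5 := h3.1 h4
      rw [mem_Dl] at h5
      simpa using h5
    rw [hcore, Subgroup.mem_bot] at h1
    rw [h1, orderOf_one] at ht
    omega
  · rw [even_card_iff]
    exact ⟨t, hcent t t ht rfl rfl, ht⟩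
  · intro g hg
    rw [← Nat.not_even_iff_odd, even_card_iff]
    rintro ⟨s, ⟨hs1, hs2⟩, hs3⟩
    apply hg
    have hs4 : g⁻¹ * s * g ∈ Nn H t := mem_cj.1 hs2
    have h1 := hall s hs1 hs3
    have h2 := hall _ hs4 (by
      have := conj_order (x := s) (g := g⁻¹)
      rw [inv_inv] at this
      rw [this, hs3])
    intro x
    have h3 := Set.ext_iff.1 h2 x
    have e : g⁻¹ * s * g = g⁻¹ * s * (g⁻¹)⁻¹ := by group
    rw [e, mem_Dl_conj, inv_inv] at h3
    rw [← h3, h1]

end H61.BinFix
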