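import Mathlib

/-!
A counting lemma: a finite group in which (modulo a central subgroup `Z`) centralisers are
abelian and "self-normalising" is abelian (helper61).
-/

namespace H61.CALem

variable {K : Type*} [Group K] [Finite K]

def C (x : K) : Set K := {c | Commute c x}
def D (Z : Subgroup K) (x : K) : Set K := {k | k ∉ Z ∧ ∃ g, Commute (g * k * g⁻¹) x}

theorem count (Z : Subgroup K) (hZ : ∀ z ∈ Z, ∀ x, Commute z x)
    (h1 : ∀ x, x ∉ Z → ∀ a b, Commute a x → Commute b x → Commute a b)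
    (h2 : ∀ x, x ∉ Z → ∀ g, Commute (g * x * g⁻¹) x → Commute g x) (x : K) (hx : x ∉ Z) :
    (D Z x).ncard * (C x).ncard = Nat.card K * ((C x) \ (Z : Set K)).ncard := by
  classical
  have hch : ∀ d : D Z x, ∃ g, Commute (g * (d : K) * g⁻¹) x := fun d => d.2.2
  choose gg hgg using hch
  have hcj : ∀ k : K, k ∉ Z → ∀ g, g * k * g⁻¹ ∉ Z := by
    intro k hk g hc
    apply hk
    have := hZ _ hc g⁻¹
    have e : k = g * k * g⁻¹ := by
      have h3 : g⁻¹ * (g * k * g⁻¹) = g * k * g⁻¹ * g⁻¹ := this.eq.symm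
      have h4 : k * g⁻¹ = g * k * g⁻¹ * g⁻¹ := by
        rw [← h3]; group
      exact mul_right_cancel h4
    rw [e]; exact hc
  let f : (D Z x) × (C x) → K × ((C x \ (Z : Set K) : Set K)) := fun p =>
    ((p.2 : K) * gg p.1, ⟨gg p.1 * (p.1 : K) * (gg p.1)⁻¹, hgg p.1, hcj _ p.1.2.1 _⟩)
  have hf : Function.Bijective f := by
    constructor
    · rintro ⟨d, h⟩ ⟨d', h'⟩ he
      have e1 : (h : K) * gg d = (h' : K) * gg d' := congrArg (fun t => t.1) he
      have e2 : gg d * (d : K) * (gg d)⁻¹ = gg d' * (d' : K) * (gg d')⁻¹ :=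
        congrArg (fun t => (t.2 : K)) he
      have key : ∀ (d : D Z x) (h : C x),
          (d : K) = ((h : K) * gg d)⁻¹ * (gg d * (d : K) * (gg d)⁻¹) * ((h : K) * gg d) := by
        intro d h
        have hc : Commute (h : K) (gg d * (d : K) * (gg d)⁻¹) := h1 x hx _ _ h.2 (hgg d)
        have e3 : (h : K)⁻¹ * (gg d * (d : K) * (gg d)⁻¹) * (h : K) = gg d * (d : K) * (gg d)⁻¹ := by
          rw [mul_assoc, ← hc.eq, ← mul_assoc, inv_mul_cancel, one_mul]
        have e4 : ((h : K) * gg d)⁻¹ * (gg d * (d : K) * (gg d)⁻¹) * ((h : K) * gg d) =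
            (gg d)⁻¹ * ((h : K)⁻¹ * (gg d * (d : K) * (gg d)⁻¹) * (h : K)) * gg d := by group
        rw [e4, e3]; group
      have hd : (d : K) = d' := by
        rw [key d h, key d' h', e1, e2]
      have hd' : d = d' := Subtype.ext hd
      subst hd'
      have hh : (h : K) = h' := mul_right_cancel e1
      have hh' : h = h' := Subtype.ext hh
      rw [hh']
    · rintro ⟨g, ⟨c, hc, hcZ⟩⟩
      have hcx : Commute c x := hc
      have hcZ' : c ∉ Z := hcZ
      let d : D Z x := ⟨g⁻¹ * c * g, by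
        have := hcj c hcZ g⁻¹
        simpa using this, g, by
          have e : g * (g⁻¹ * c * g) * g⁻¹ = c := by group
          rw [e]; exact hcx⟩
      have hd : (d : K) = g⁻¹ * c * g := rfl
      let h : K := g * (gg d)⁻¹
      have ec : gg d * (d : K) * (gg d)⁻¹ = h⁻¹ * c * h := by
        rw [hd]; simp only [h]; group
      have hc1 : Commute (h⁻¹ * c * h) x := by rw [← ec]; exact hgg d
      have hc2 : Commute (h⁻¹ * c * h) c := h1 x hx _ _ hc1 hcx
      have hc3 : Commute h⁻¹ c := by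
        apply h2 c hcZ'
        simpa using hc2
      have hc4 : Commute h c := by simpa using hc3.inv_left
      have hc5 : Commute h x := h1 c hcZ' _ _ hc4 hcx.symm
      refine ⟨(d, ⟨h, hc5⟩), ?_⟩
      have e3 : h⁻¹ * c * h = c := by
        rw [mul_assoc, ← hc4.eq, ← mul_assoc, inv_mul_cancel, one_mul]
      refine Prod.ext ?_ (Subtype.ext ?_)
      · show h * gg d = g
        simp [h]
      · show gg d * (d : K) * (gg d)⁻¹ = c
        rw [ec, e3]
  have := Nat.card_congr (Equiv.ofBijective f hf)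
  rw [Nat.card_prod, Nat.card_prod] at this
  simpa [Nat.card_coe_set_eq] using this

theorem comm (Z : Subgroup K) (hZ : ∀ z ∈ Z, ∀ x, Commute z x)
    (h1 : ∀ x, x ∉ Z → ∀ a b, Commute a x → Commute b x → Commute a b)
    (h2 : ∀ x, x ∉ Z → ∀ g, Commute (g * x * g⁻¹) x → Commute g x) :
    ∀ x, x ∉ Z → ∀ g, Commute g x := by
  classical
  have hCZ : ∀ x, ((C x) \ (Z : Set K)).ncard + Nat.card Z = (C x).ncard := by
    intro x
    have hsub : (Z : Set K) ⊆ C x := fun z hz => hZ z hz x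
    have := Set.ncard_sdiff_add_ncard_of_subset hsub (Set.toFinite _)
    rw [← this]
    congr 1
  have hZ2 : ∀ x, x ∉ Z → 2 * Nat.card Z ≤ (C x).ncard := by
    intro x hx
    have hle : Z ≤ Subgroup.centralizer {x} := by
      intro z hz
      rw [Subgroup.mem_centralizer_singleton_iff]
      exact (hZ z hz x).eq
    have hdvd := Subgroup.card_dvd_of_le hle
    have hcard : Nat.card (Subgroup.centralizer {x}) = (C x).ncard := by
      rw [← Nat.card_coe_set_eq]
      apply Nat.card_congr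
      apply Equiv.setCongr
      ext c
      simp only [C, Set.mem_setOf_eq, SetLike.mem_coe, Subgroup.mem_centralizer_singleton_iff]
      exact Iff.rfl
    rw [hcard] at hdvd
    obtain ⟨m, hm⟩ := hdvd
    have hne : m ≠ 1 := by
      rintro rfl
      rw [mul_one] at hm
      have : Z = Subgroup.centralizer {x} :=
        Subgroup.eq_of_le_of_card_ge hle (by rw [hcard, hm])
      apply hx
      rw [this, Subgroup.mem_centralizer_singleton_iff]
    have hpos : 0 < (C x).ncard := by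
      rw [Set.ncard_pos]
      exact ⟨x, Commute.refl x⟩
    have hm0 : m ≠ 0 := by
      rintro rfl
      rw [mul_zero] at hm
      omega
    rw [hm, mul_comm 2]
    exact Nat.mul_le_mul_left _ (by omega)
  have hD2 : ∀ x, x ∉ Z → Nat.card K ≤ 2 * (D Z x).ncard := by
    intro x hx
    have e := count Z hZ h1 h2 x hx
    have e1 := hCZ x
    have e2 := hZ2 x hx
    have hpos : 0 < (C x).ncard := by
      rw [Set.ncard_pos]
      exact ⟨x, Commute.refl x⟩
    have e3 : Nat.card K * (C x).ncard ≤ 2 * (D Z x).ncard * (C x).ncard := by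
      rw [mul_assoc, e]
      have : (C x).ncard ≤ 2 * ((C x) \ (Z : Set K)).ncard := by omega
      nlinarith
    exact Nat.le_of_mul_le_mul_right e3 hpos
  have hZpos : 0 < Nat.card Z := Nat.card_pos
  have hDsub : ∀ x, D Z x ⊆ (Set.univ : Set K) \ (Z : Set K) := fun x k hk => ⟨trivial, hk.1⟩
  have hcompl : ((Set.univ : Set K) \ (Z : Set K)).ncard + Nat.card Z = Nat.card K := by
    have := Set.ncard_sdiff_add_ncard_of_subset (Set.subset_univ (Z : Set K)) (Set.toFinite _)
    rw [Set.ncard_univ] at this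
    rw [← this]
    congr 1
  intro x hx
  by_contra hcon
  push Not at hcon
  obtain ⟨g, hg⟩ := hcon
  have hClt : (C x).ncard < Nat.card K := by
    rw [← Set.ncard_univ]
    apply Set.ncard_lt_ncard _ (Set.toFinite _)
    rw [Set.ssubset_univ_iff]
    intro h
    apply hg
    have : g ∈ C x := by rw [h]; trivial
    exact this
  have hne : D Z x ≠ (Set.univ : Set K) \ (Z : Set K) := by
    intro h
    have e := count Z hZ h1 h2 x hx
    have e1 := hCZ x
    rw [h] at e
    have e4 : (((Set.univ : Set K) \ (Z : Set K)).ncard + Nat.card Z) * (C x).ncard =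
        Nat.card K * (((C x) \ (Z : Set K)).ncard + Nat.card Z) := by rw [hcompl, e1]
    have e5 : Nat.card Z * (C x).ncard = Nat.card K * Nat.card Z := by
      rw [add_mul, mul_add, e] at e4
      exact Nat.add_left_cancel e4
    rw [mul_comm] at e5
    have := Nat.eq_of_mul_eq_mul_right hZpos e5
    omega
  obtain ⟨y, hy1, hy2⟩ : ∃ y, y ∉ Z ∧ y ∉ D Z x := by
    by_contra hall
    push Not at hall
    apply hne
    apply Set.Subset.antisymm (hDsub x)
    rintro k ⟨-, hk⟩
    exact hall k hk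
  have hdisj : Disjoint (D Z x) (D Z y) := by
    rw [Set.disjoint_left]
    rintro k ⟨hkZ, a, ha⟩ ⟨-, b, hb⟩
    apply hy2
    refine ⟨hy1, a * b⁻¹, ?_⟩
    -- a k a⁻¹ commutes with x and with (a b⁻¹) y (a b⁻¹)⁻¹
    have hak : a * k * a⁻¹ ∉ Z := by
      intro hc
      apply hkZ
      have h3 : a⁻¹ * (a * k * a⁻¹) = a * k * a⁻¹ * a⁻¹ := (hZ _ hc a⁻¹).eq.symm
      have h4 : k * a⁻¹ = a * k * a⁻¹ * a⁻¹ := by rw [← h3]; group
      rw [mul_right_cancel h4]; exact hc
    have hc1 : Commute (a * b⁻¹ * y * (a * b⁻¹)⁻¹) (a * k * a⁻¹) := by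
      have : Commute (a * b⁻¹ * y * (a * b⁻¹)⁻¹) (a * b⁻¹ * (b * k * b⁻¹) * (a * b⁻¹)⁻¹) := by
        have h3 : y * (b * k * b⁻¹) = b * k * b⁻¹ * y := hb.eq.symm
        show a * b⁻¹ * y * (a * b⁻¹)⁻¹ * (a * b⁻¹ * (b * k * b⁻¹) * (a * b⁻¹)⁻¹) =
          a * b⁻¹ * (b * k * b⁻¹) * (a * b⁻¹)⁻¹ * (a * b⁻¹ * y * (a * b⁻¹)⁻¹)
        have l : a * b⁻¹ * y * (a * b⁻¹)⁻¹ * (a * b⁻¹ * (b * k * b⁻¹) * (a * b⁻¹)⁻¹) =
          a * b⁻¹ * (y * (b * k * b⁻¹)) * (a * b⁻¹)⁻¹ := by group
        have r : a * b⁻¹ * (b * k * b⁻¹) * (a * b⁻¹)⁻¹ * (a * b⁻¹ * y * (a * b⁻¹)⁻¹) =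
          a * b⁻¹ * ((b * k * b⁻¹) * y) * (a * b⁻¹)⁻¹ := by group
        rw [l, r, h3]
      have e : a * b⁻¹ * (b * k * b⁻¹) * (a * b⁻¹)⁻¹ = a * k * a⁻¹ := by group
      rwa [e] at this
    exact h1 _ hak _ _ hc1 ha.symm
  have h3 := Set.ncard_union_eq hdisj (Set.toFinite _) (Set.toFinite _)
  have h4 : (D Z x ∪ D Z y).ncard ≤ ((Set.univ : Set K) \ (Z : Set K)).ncard :=
    Set.ncard_le_ncard (Set.union_subset (hDsub x) (hDsub y)) (Set.toFinite _)
  have h5 := hD2 x hx
  have h6 := hD2 y hy1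
  omega

end H61.CALem
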