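import Mathlib

/-!
Explicit computations in `SL₂` over a finite field (helper61).
-/

namespace H61.SL2x

open Matrix

variable {F : Type*} [Field F]

abbrev S (F : Type*) [Field F] := Matrix.SpecialLinearGroup (Fin 2) F

/-- explicit element -/
def mk (a b c d : F) (h : a * d - b * c = 1) : S F := ⟨!![a, b; c, d], by
  rw [Matrix.det_fin_two_of]; exact h⟩

@[simp] theorem mk00 (a b c d : F) (h) : (mk a b c d h) 0 0 = a := rfl
@[simp] theorem mk01 (a b c d : F) (h) : (mk a b c d h) 0 1 = b := rfl
@[simp] theorem mk10 (a b c d : F) (h) : (mk a b c d h) 1 0 = c := rfl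
@[simp] theorem mk11 (a b c d : F) (h) : (mk a b c d h) 1 1 = d := rfl

theorem det_eq (x : S F) : x 0 0 * x 1 1 - x 0 1 * x 1 0 = 1 := by
  have := x.2
  rw [Matrix.det_fin_two] at this
  exact this

theorem ext' {x y : S F} (h00 : x 0 0 = y 0 0) (h01 : x 0 1 = y 0 1) (h10 : x 1 0 = y 1 0)
    (h11 : x 1 1 = y 1 1) : x = y := by
  apply Matrix.SpecialLinearGroup.ext
  intro i j
  fin_cases i <;> fin_cases j
  · exact h00
  · exact h01
  · exact h10
  · exact h11

@[simp] theorem m00 (x y : S F) : (x * y) 0 0 = x 0 0 * y 0 0 + x 0 1 * y 1 0 := by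
  rw [Matrix.SpecialLinearGroup.coe_mul, Matrix.mul_apply, Fin.sum_univ_two]
@[simp] theorem m01 (x y : S F) : (x * y) 0 1 = x 0 0 * y 0 1 + x 0 1 * y 1 1 := by
  rw [Matrix.SpecialLinearGroup.coe_mul, Matrix.mul_apply, Fin.sum_univ_two]
@[simp] theorem m10 (x y : S F) : (x * y) 1 0 = x 1 0 * y 0 0 + x 1 1 * y 1 0 := by
  rw [Matrix.SpecialLinearGroup.coe_mul, Matrix.mul_apply, Fin.sum_univ_two]
@[simp] theorem m11 (x y : S F) : (x * y) 1 1 = x 1 0 * y 0 1 + x 1 1 * y 1 1 := by
  rw [Matrix.SpecialLinearGroup.coe_mul, Matrix.mul_apply, Fin.sum_univ_two]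

@[simp] theorem i00 (x : S F) : (x⁻¹) 0 0 = x 1 1 := by
  rw [Matrix.SpecialLinearGroup.coe_inv, Matrix.adjugate_fin_two]; rfl
@[simp] theorem i01 (x : S F) : (x⁻¹) 0 1 = - x 0 1 := by
  rw [Matrix.SpecialLinearGroup.coe_inv, Matrix.adjugate_fin_two]; rfl
@[simp] theorem i10 (x : S F) : (x⁻¹) 1 0 = - x 1 0 := by
  rw [Matrix.SpecialLinearGroup.coe_inv, Matrix.adjugate_fin_two]; rfl
@[simp] theorem i11 (x : S F) : (x⁻¹) 1 1 = x 0 0 := by
  rw [Matrix.SpecialLinearGroup.coe_inv, Matrix.adjugate_fin_two]; rfl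

@[simp] theorem o00 : (1 : S F) 0 0 = 1 := rfl
@[simp] theorem o01 : (1 : S F) 0 1 = 0 := rfl
@[simp] theorem o10 : (1 : S F) 1 0 = 0 := rfl
@[simp] theorem o11 : (1 : S F) 1 1 = 1 := rfl

@[simp] theorem n00 (x : S F) : (-x) 0 0 = - x 0 0 := rfl
@[simp] theorem n01 (x : S F) : (-x) 0 1 = - x 0 1 := rfl
@[simp] theorem n10 (x : S F) : (-x) 1 0 = - x 1 0 := rfl
@[simp] theorem n11 (x : S F) : (-x) 1 1 = - x 1 1 := rfl

/-- trace -/
def tr (x : S F) : F := x 0 0 + x 1 1

theorem tr_mul_comm (x y : S F) : tr (x * y) = tr (y * x) := by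
  simp only [tr, m00, m11]; ring

theorem tr_conj (g x : S F) : tr (g⁻¹ * x * g) = tr x := by
  rw [tr_mul_comm, ← mul_assoc, mul_inv_cancel, one_mul]

theorem tr_conj' (g x : S F) : tr (g * x * g⁻¹) = tr x := by
  rw [tr_mul_comm, ← mul_assoc, inv_mul_cancel, one_mul]

theorem tr_neg (x : S F) : tr (-x) = - tr x := by simp only [tr, n00, n11]; ring

/-- scalar elements -/
def Sc (x : S F) : Prop := x 0 1 = 0 ∧ x 1 0 = 0 ∧ x 0 0 = x 1 1

theorem mem_center {x : S F} : x ∈ Subgroup.center (S F) ↔ Sc x := by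
  rw [Subgroup.mem_center_iff]
  constructor
  · intro h
    have h1 := h (mk 1 1 0 1 (by ring))
    have h2 := h (mk 1 0 1 1 (by ring))
    have a1 := congrArg (fun t : S F => t 0 0) h1
    have a2 := congrArg (fun t : S F => t 0 1) h1
    have a3 := congrArg (fun t : S F => t 0 0) h2
    simp at a1 a2 a3
    refine ⟨?_, ?_, ?_⟩
    · exact a3
    · exact a1
    · linear_combination -a2
  · rintro ⟨h1, h2, h3⟩ g
    apply ext' <;> simp [h1, h2, h3] <;> ring

theorem Sc.eq_or [NeZero (1 : F)] {x : S F} (h : Sc x) : x = 1 ∨ x = -1 := by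
  obtain ⟨h1, h2, h3⟩ := h
  have hd := det_eq x
  rw [h1, h2, ← h3] at hd
  have : (x 0 0 - 1) * (x 0 0 + 1) = 0 := by linear_combination hd
  rcases mul_eq_zero.1 this with h | h
  · left
    have h0 : x 0 0 = 1 := by linear_combination h
    apply ext'
    · simpa using h0
    · simpa using h1
    · simpa using h2
    · rw [← h3]; simpa using h0
  · right
    have h0 : x 0 0 = -1 := by linear_combination h
    apply ext'
    · simpa using h0
    · simpa using h1
    · simpa using h2
    · rw [← h3]; simpa using h0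

theorem sc_one : Sc (1 : S F) := ⟨rfl, rfl, rfl⟩
theorem sc_neg_one : Sc (-1 : S F) := by
  refine ⟨?_, ?_, ?_⟩ <;> simp

theorem Sc.conj {x : S F} (h : Sc x) (g : S F) : g⁻¹ * x * g = x := by
  have := Subgroup.mem_center_iff.1 (mem_center.2 h) g
  rw [mul_assoc, ← this, ← mul_assoc, inv_mul_cancel, one_mul]

theorem Sc.of_conj {x : S F} (g : S F) (h : Sc (g⁻¹ * x * g)) : Sc x := by
  have := h.conj g⁻¹
  have e : (g⁻¹)⁻¹ * (g⁻¹ * x * g) * g⁻¹ = x := by group
  rw [e] at this
  rw [this]; exact h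

theorem Sc.neg {x : S F} (h : Sc x) : Sc (-x) := by
  obtain ⟨h1, h2, h3⟩ := h
  refine ⟨?_, ?_, ?_⟩ <;> simp [h1, h2, h3]

theorem Sc.of_neg {x : S F} (h : Sc (-x)) : Sc x := by
  have := h.neg
  simpa using this

/-- upper and lower unipotents -/
def u (a : F) : S F := mk 1 a 0 1 (by ring)
def l (a : F) : S F := mk 1 0 a 1 (by ring)
def w : S F := mk 0 (-1) 1 0 (by ring)

/-- a subgroup containing all `u a` and all `l a` is everything -/
theorem eq_top_of (K : Subgroup (S F)) (hu : ∀ a, u a ∈ K) (hl : ∀ a, l a ∈ K) : K = ⊤ := by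
  have key : ∀ x : S F, x 1 0 ≠ 0 → x ∈ K := by
    intro x hx
    have hd := det_eq x
    have e : x = u ((x 0 0 - 1) / x 1 0) * l (x 1 0) * u ((x 1 1 - 1) / x 1 0) := by
      apply ext'
      · simp [u, l]; field_simp; ring
      · simp [u, l]; field_simp; linear_combination -hd
      · simp [u, l]
      · simp [u, l]; field_simp; ring
    rw [e]
    exact K.mul_mem (K.mul_mem (hu _) (hl _)) (hu _)
  rw [eq_top_iff]
  intro x _
  by_cases hx : x 1 0 = 0
  · have h1 : l 1 * x ∈ K := by
      apply key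
      have hd := det_eq x
      rw [hx] at hd
      simp [l, hx]
      intro h
      rw [h] at hd
      simp at hd
    have := K.mul_mem (K.inv_mem (hl 1)) h1
    simpa using this
  · exact key x hx

/-- commuting with a non-scalar element -/
theorem comm_of {x a b : S F} (hx : ¬ Sc x) (ha : Commute a x) (hb : Commute b x) :
    Commute a b := by
  have a1 := congrArg (fun t : S F => t 0 0) ha.eq
  have a2 := congrArg (fun t : S F => t 0 1) ha.eq
  have a3 := congrArg (fun t : S F => t 1 0) ha.eq
  have b1 := congrArg (fun t : S F => t 0 0) hb.eq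
  have b2 := congrArg (fun t : S F => t 0 1) hb.eq
  have b3 := congrArg (fun t : S F => t 1 0) hb.eq
  simp only [m00, m01, m10] at a1 a2 a3 b1 b2 b3
  have hx' : x 0 1 ≠ 0 ∨ x 1 0 ≠ 0 ∨ x 0 0 - x 1 1 ≠ 0 := by
    by_contra hc
    push Not at hc
    exact hx ⟨hc.1, hc.2.1, by linear_combination hc.2.2⟩
  have c1 : a 0 1 * b 1 0 = a 1 0 * b 0 1 := by
    rcases hx' with h | h | h
    · apply mul_left_cancel₀ h
      have e1 : x 0 1 * a 1 0 = x 1 0 * a 0 1 := by linear_combination -a1
      have e2 : x 0 1 * b 1 0 = x 1 0 * b 0 1 := by linear_combination -b1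
      linear_combination (a 0 1) * e2 - (b 0 1) * e1
    · apply mul_left_cancel₀ h
      have e1 : x 0 1 * a 1 0 = x 1 0 * a 0 1 := by linear_combination -a1
      have e2 : x 0 1 * b 1 0 = x 1 0 * b 0 1 := by linear_combination -b1
      linear_combination (a 1 0) * e2 - (b 1 0) * e1
    · apply mul_left_cancel₀ h
      apply mul_left_cancel₀ h
      -- (a00-a11) x01 = a01 (x00 - x11)
      have e1 : (x 0 0 - x 1 1) * a 0 1 = (a 0 0 - a 1 1) * x 0 1 := by linear_combination -a2
      have e2 : (x 0 0 - x 1 1) * a 1 0 = (a 0 0 - a 1 1) * x 1 0 := by linear_combination a3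
      have e3 : (x 0 0 - x 1 1) * b 0 1 = (b 0 0 - b 1 1) * x 0 1 := by linear_combination -b2
      have e4 : (x 0 0 - x 1 1) * b 1 0 = (b 0 0 - b 1 1) * x 1 0 := by linear_combination b3
      linear_combination ((x 0 0 - x 1 1) * b 1 0) * e1 + ((a 0 0 - a 1 1) * x 0 1) * e4
        - ((x 0 0 - x 1 1) * b 0 1) * e2 - ((a 0 0 - a 1 1) * x 1 0) * e3
  have c2 : (a 0 0 - a 1 1) * b 0 1 = a 0 1 * (b 0 0 - b 1 1) := by
    have e1 : (x 0 0 - x 1 1) * a 0 1 = (a 0 0 - a 1 1) * x 0 1 := by linear_combination -a2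
    have e3 : (x 0 0 - x 1 1) * b 0 1 = (b 0 0 - b 1 1) * x 0 1 := by linear_combination -b2
    rcases hx' with h | h | h
    · apply mul_left_cancel₀ h
      linear_combination (a 0 1) * e3 - (b 0 1) * e1
    · apply mul_left_cancel₀ h
      have e2 : (x 0 0 - x 1 1) * a 1 0 = (a 0 0 - a 1 1) * x 1 0 := by linear_combination a3
      have e4 : (x 0 0 - x 1 1) * b 1 0 = (b 0 0 - b 1 1) * x 1 0 := by linear_combination b3
      have f1 : x 0 1 * a 1 0 = x 1 0 * a 0 1 := by linear_combination -a1
      have f2 : x 0 1 * b 1 0 = x 1 0 * b 0 1 := by linear_combination -b1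
      linear_combination (-(b 0 1)) * e2 + (a 0 1) * e4 - (x 0 0 - x 1 1) * c1
    · apply mul_left_cancel₀ h
      linear_combination (a 0 0 - a 1 1) * e3 - (b 0 0 - b 1 1) * e1
  have c3 : (a 0 0 - a 1 1) * b 1 0 = a 1 0 * (b 0 0 - b 1 1) := by
    have e2 : (x 0 0 - x 1 1) * a 1 0 = (a 0 0 - a 1 1) * x 1 0 := by linear_combination a3
    have e4 : (x 0 0 - x 1 1) * b 1 0 = (b 0 0 - b 1 1) * x 1 0 := by linear_combination b3
    rcases hx' with h | h | h
    · apply mul_left_cancel₀ h
      have e1 : (x 0 0 - x 1 1) * a 0 1 = (a 0 0 - a 1 1) * x 0 1 := by linear_combination -a2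
      have e3 : (x 0 0 - x 1 1) * b 0 1 = (b 0 0 - b 1 1) * x 0 1 := by linear_combination -b2
      linear_combination (-(b 1 0)) * e1 + (a 1 0) * e3 + (x 0 0 - x 1 1) * c1
    · apply mul_left_cancel₀ h
      linear_combination (a 1 0) * e4 - (b 1 0) * e2
    · apply mul_left_cancel₀ h
      linear_combination (a 0 0 - a 1 1) * e4 - (b 0 0 - b 1 1) * e2
  show a * b = b * a
  apply ext'
  · simp only [m00]; linear_combination c1
  · simp only [m01]; linear_combination c2
  · simp only [m10]; linear_combination -c3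
  · simp only [m11]; linear_combination -c1

/-- lemma (M) -/
theorem eq_or_inv {x y : S F} (hxy : Commute y x) (ht : tr y = tr x)
    (hD : tr x ^ 2 ≠ 4) : y = x ∨ y = x⁻¹ := by
  have a1 := congrArg (fun t : S F => t 0 0) hxy.eq
  have a2 := congrArg (fun t : S F => t 0 1) hxy.eq
  have a3 := congrArg (fun t : S F => t 1 0) hxy.eq
  simp only [m00, m01, m10] at a1 a2 a3
  have hdx := det_eq x
  have hdy := det_eq y
  simp only [tr] at ht hD
  have c1 : y 0 1 * x 1 0 = x 0 1 * y 1 0 := by linear_combination a1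
  have c2 : (y 0 0 - y 1 1) * x 0 1 = y 0 1 * (x 0 0 - x 1 1) := by linear_combination a2
  have c3 : (y 0 0 - y 1 1) * x 1 0 = y 1 0 * (x 0 0 - x 1 1) := by linear_combination -a3
  have hD' : (x 0 0 - x 1 1) ^ 2 + 4 * x 0 1 * x 1 0 ≠ 0 := by
    intro h
    apply hD
    linear_combination h + 4 * hdx
  have hDD : (y 0 0 - y 1 1) ^ 2 + 4 * y 0 1 * y 1 0 =
      (x 0 0 - x 1 1) ^ 2 + 4 * x 0 1 * x 1 0 := by
    linear_combination (y 0 0 + y 1 1 + x 0 0 + x 1 1) * ht - 4 * hdy + 4 * hdx
  have q2 : (y 0 1 - x 0 1) * (y 0 1 + x 0 1) = 0 := by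
    apply mul_left_cancel₀ hD'
    linear_combination (-(y 0 1 * (x 0 0 - x 1 1)) - (y 0 0 - y 1 1) * x 0 1) * c2 +
      4 * x 0 1 * y 0 1 * c1 + (x 0 1)^2 * hDD
  have r2 : (y 1 0 - x 1 0) * (y 1 0 + x 1 0) = 0 := by
    apply mul_left_cancel₀ hD'
    linear_combination (-(y 1 0 * (x 0 0 - x 1 1)) - (y 0 0 - y 1 1) * x 1 0) * c3 -
      4 * x 1 0 * y 1 0 * c1 + (x 1 0)^2 * hDD
  have q3 : y 0 1 = x 0 1 ∨ y 0 1 = - x 0 1 := by
    rcases mul_eq_zero.1 q2 with h | h
    · left; linear_combination h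
    · right; linear_combination h
  have r3 : y 1 0 = x 1 0 ∨ y 1 0 = - x 1 0 := by
    rcases mul_eq_zero.1 r2 with h | h
    · left; linear_combination h
    · right; linear_combination h
  -- product of off-diagonal entries
  have hqr : y 0 1 * y 1 0 = x 0 1 * x 1 0 := by
    by_cases hq : x 0 1 = 0
    · have : y 0 1 = 0 := by rcases q3 with h | h <;> rw [h, hq] <;> simp
      rw [hq, this]; ring
    · by_cases hr : x 1 0 = 0
      · have : y 1 0 = 0 := by rcases r3 with h | h <;> rw [h, hr] <;> simp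
        rw [hr, this]; ring
      · rcases q3 with h | h
        · rw [h] at c1
          have : x 1 0 = y 1 0 := mul_left_cancel₀ hq c1
          rw [h, ← this]
        · rw [h] at c1
          have : - x 1 0 = y 1 0 := by
            apply mul_left_cancel₀ hq
            linear_combination c1
          rw [h, ← this]; ring
  have hp : y 0 0 = x 0 0 ∨ y 0 0 = x 1 1 := by
    have : (y 0 0 - x 0 0) * (y 0 0 - x 1 1) = 0 := by
      linear_combination (y 0 0) * ht - hdy + hdx - hqr
    rcases mul_eq_zero.1 this with h | h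
    · left; linear_combination h
    · right; linear_combination h
  have hdeg : ∀ z : F, z + z = 0 → z = 0 ∨ (∀ t : F, t = -t) := by
    intro z hz
    by_cases h2 : (2 : F) = 0
    · right
      intro t
      linear_combination t * h2
    · left
      have : 2 * z = 0 := by linear_combination hz
      exact (mul_eq_zero.1 this).resolve_left h2
  have mkx : y 0 0 = x 0 0 → y 0 1 = x 0 1 → y 1 0 = x 1 0 → y = x := by
    intro h1 h2 h3
    exact ext' h1 h2 h3 (by linear_combination ht - h1)
  have mki : y 0 0 = x 1 1 → y 0 1 = - x 0 1 → y 1 0 = - x 1 0 → y = x⁻¹ := by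
    intro h1 h2 h3
    exact ext' (by rw [i00]; exact h1) (by rw [i01]; exact h2) (by rw [i10]; exact h3)
      (by rw [i11]; linear_combination ht - h1)
  by_cases hq : x 0 1 = 0
  · have hy0 : y 0 1 = 0 := by rcases q3 with h | h <;> rw [h, hq] <;> simp
    by_cases hr : x 1 0 = 0
    · have hy1 : y 1 0 = 0 := by rcases r3 with h | h <;> rw [h, hr] <;> simp
      rcases hp with h | h
      · left; exact mkx h (by rw [hy0, hq]) (by rw [hy1, hr])
      · right; exact mki h (by rw [hy0, hq]; simp) (by rw [hy1, hr]; simp)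
    · rcases r3 with h | h
      · rw [h] at c3
        have he : y 0 0 - y 1 1 = x 0 0 - x 1 1 := by
          apply mul_left_cancel₀ hr
          linear_combination c3
        rcases hp with h' | h'
        · left; exact mkx h' (by rw [hy0, hq]) h
        · have hz : (x 0 0 - x 1 1) + (x 0 0 - x 1 1) = 0 := by
            linear_combination - he - ht + 2 * h'
          rcases hdeg _ hz with h0 | h0
          · left; exact mkx (by linear_combination h' - h0) (by rw [hy0, hq]) h
          · right; exact mki h' (by rw [hy0, hq]; simp) (by rw [h]; exact h0 _)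
      · rw [h] at c3
        have he : y 0 0 - y 1 1 = -(x 0 0 - x 1 1) := by
          apply mul_left_cancel₀ hr
          linear_combination c3
        rcases hp with h' | h'
        · have hz : (x 0 0 - x 1 1) + (x 0 0 - x 1 1) = 0 := by
            linear_combination he + ht - 2 * h'
          rcases hdeg _ hz with h0 | h0
          · right; exact mki (by linear_combination h' + h0) (by rw [hy0, hq]; simp) h
          · left; exact mkx h' (by rw [hy0, hq]) (by rw [h]; exact (h0 _).symm)
        · right; exact mki h' (by rw [hy0, hq]; simp) h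
  · rcases q3 with h | h
    · rw [h] at c2 c1
      have he : y 0 0 - y 1 1 = x 0 0 - x 1 1 := by
        apply mul_left_cancel₀ hq
        linear_combination c2
      have hr : y 1 0 = x 1 0 := by
        apply mul_left_cancel₀ hq
        linear_combination -c1
      rcases hp with h' | h'
      · left; exact mkx h' h hr
      · have hz : (x 0 0 - x 1 1) + (x 0 0 - x 1 1) = 0 := by
          linear_combination - he - ht + 2 * h'
        rcases hdeg _ hz with h0 | h0
        · left; exact mkx (by linear_combination h' - h0) h hr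
        · right; exact mki h' (by rw [h]; exact h0 _) (by rw [hr]; exact h0 _)
    · rw [h] at c2 c1
      have he : y 0 0 - y 1 1 = -(x 0 0 - x 1 1) := by
        apply mul_left_cancel₀ hq
        linear_combination c2
      have hr : y 1 0 = - x 1 0 := by
        apply mul_left_cancel₀ hq
        linear_combination -c1
      rcases hp with h' | h'
      · have hz : (x 0 0 - x 1 1) + (x 0 0 - x 1 1) = 0 := by
          linear_combination he + ht - 2 * h'
        rcases hdeg _ hz with h0 | h0
        · right; exact mki (by linear_combination h' + h0) h hr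
        · left; exact mkx h' (by rw [h]; exact (h0 _).symm) (by rw [hr]; exact (h0 _).symm)
      · right; exact mki h' h hr

/-- an element inverting a non-scalar element has trace zero -/
theorem tr_zero_of_inv {x g : S F} (hx : ¬ Sc x) (h : g * x * g⁻¹ = x⁻¹) : tr g = 0 := by
  have h' : g * x = x⁻¹ * g := by
    rw [← h]; group
  have a1 := congrArg (fun t : S F => t 0 0) h'
  have a2 := congrArg (fun t : S F => t 0 1) h'
  have a3 := congrArg (fun t : S F => t 1 0) h'
  have a4 := congrArg (fun t : S F => t 1 1) h'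
  simp only [m00, m01, m10, m11, i00, i01, i10, i11] at a1 a2 a3 a4
  have hx' : x 0 1 ≠ 0 ∨ x 1 0 ≠ 0 ∨ x 0 0 - x 1 1 ≠ 0 := by
    by_contra hc
    push Not at hc
    exact hx ⟨hc.1, hc.2.1, by linear_combination hc.2.2⟩
  unfold tr
  rcases hx' with h | h | h
  · apply mul_left_cancel₀ h
    linear_combination a2
  · apply mul_left_cancel₀ h
    linear_combination a3
  · apply mul_left_cancel₀ h
    linear_combination a1 - a4

theorem not_sc_of_tr {x : S F} (h : tr x ^ 2 ≠ 4) : ¬ Sc x := by
  rintro ⟨h1, h2, h3⟩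
  apply h
  have hd := det_eq x
  rw [h1, h3] at hd
  unfold tr
  rw [h3]
  linear_combination 4 * hd

/-- companion element -/
def comp (τ : F) : S F := mk 0 (-1) 1 τ (by ring)

theorem tr_comp (τ : F) : tr (comp τ) = τ := by simp [tr, comp]

/-- a binary form of non-zero discriminant represents one -/
theorem rep_one [Finite F] (a b c : F) (h : b ^ 2 - 4 * a * c ≠ 0) :
    ∃ x y : F, a * x ^ 2 + b * x * y + c * y ^ 2 = 1 := by
  classical
  haveI := Fintype.ofFinite F
  by_cases ha : a = 0
  · subst ha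
    have hb : b ≠ 0 := by
      rintro rfl
      apply h; ring
    exact ⟨(1 - c) / b, 1, by field_simp; ring⟩
  · by_cases h2 : (2 : F) = 0
    · have hc2 : ringChar F = 2 := by
        apply CharP.ringChar_of_prime_eq_zero Nat.prime_two
        exact_mod_cast h2
      obtain ⟨t, ht⟩ := FiniteField.isSquare_of_char_two hc2 (1 / a)
      refine ⟨t, 0, ?_⟩
      have : a * (t * t) = 1 := by rw [← ht]; field_simp
      linear_combination this
    · have hodd : Fintype.card F % 2 = 1 := by
        have hne : ringChar F ≠ 2 := by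
          intro hc
          apply h2
          have := ringChar.Nat.cast_ringChar (R := F)
          rw [hc] at this
          exact_mod_cast this
        exact FiniteField.odd_card_of_char_ne_two hne
      have h4 : (4 : F) ≠ 0 := by
        have : (4 : F) = 2 * 2 := by norm_num
        rw [this]; exact mul_ne_zero h2 h2
      have h4a : (4 : F) * a ≠ 0 := mul_ne_zero h4 ha
      have hcoef : -((b ^ 2 - 4 * a * c) / (4 * a)) ≠ 0 :=
        neg_ne_zero.2 (div_ne_zero h h4a)
      obtain ⟨X, Y, hXY⟩ := FiniteField.exists_root_sum_quadratic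
        (f := Polynomial.C a * Polynomial.X ^ 2 + Polynomial.C 0 * Polynomial.X + Polynomial.C (-1))
        (g := Polynomial.C (-((b ^ 2 - 4 * a * c) / (4 * a))) * Polynomial.X ^ 2 +
          Polynomial.C 0 * Polynomial.X + Polynomial.C 0)
        (Polynomial.degree_quadratic ha) (Polynomial.degree_quadratic hcoef) hodd
      simp only [Polynomial.eval_add, Polynomial.eval_mul, Polynomial.eval_C, Polynomial.eval_pow,
        Polynomial.eval_X] at hXY
      refine ⟨X - b * Y / (2 * a), Y, ?_⟩
      have h2a : (2 : F) * a ≠ 0 := mul_ne_zero h2 ha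
      have key : a * (X - b * Y / (2 * a)) ^ 2 + b * (X - b * Y / (2 * a)) * Y + c * Y ^ 2 =
          a * X ^ 2 - ((b ^ 2 - 4 * a * c) / (4 * a)) * Y ^ 2 := by
        field_simp
        ring
      rw [key]
      linear_combination hXY

/-- every element with `tr² ≠ 4` is conjugate to the companion element -/
theorem conj_comp [Finite F] (x : S F) (h : tr x ^ 2 ≠ 4) :
    ∃ g : S F, g⁻¹ * x * g = comp (tr x) := by
  have hd := det_eq x
  have hdisc : (x 1 1 - x 0 0) ^ 2 - 4 * (x 1 0) * (-(x 0 1)) ≠ 0 := by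
    intro hc
    apply h
    unfold tr
    linear_combination hc + 4 * hd
  obtain ⟨X, Y, hXY⟩ := rep_one _ _ _ hdisc
  let g : S F := mk X (x 0 0 * X + x 0 1 * Y) Y (x 1 0 * X + x 1 1 * Y) (by linear_combination hXY)
  refine ⟨g, ?_⟩
  have key : x * g = g * comp (tr x) := by
    apply ext'
    · simp [g, comp]
    · simp [g, comp, tr]; linear_combination (-X) * hd
    · simp [g, comp]
    · simp [g, comp, tr]; linear_combination (-Y) * hd
  rw [mul_assoc, key, ← mul_assoc, inv_mul_cancel, one_mul]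

/-- two elements with the same trace (`tr² ≠ 4`) are conjugate -/
theorem conj_of_tr [Finite F] {x y : S F} (ht : tr x = tr y) (h : tr x ^ 2 ≠ 4) :
    ∃ g : S F, g⁻¹ * x * g = y := by
  obtain ⟨g, hg⟩ := conj_comp x h
  obtain ⟨k, hk⟩ := conj_comp y (by rw [← ht]; exact h)
  refine ⟨g * k⁻¹, ?_⟩
  have e : (g * k⁻¹)⁻¹ * x * (g * k⁻¹) = k * (g⁻¹ * x * g) * k⁻¹ := by group
  rw [e, hg, ht, ← hk]
  group

/-- existence of triples -/
theorem exists_wz [Finite F] (τ τ' : F) (h : τ ^ 2 ≠ 4) :
    ∃ w z : F, w ^ 2 + z ^ 2 - τ * w * z - τ * w + τ' * z + 1 = 0 := by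
  classical
  haveI := Fintype.ofFinite F
  by_cases h2 : (2 : F) = 0
  · have hc2 : ringChar F = 2 := by
      apply CharP.ringChar_of_prime_eq_zero Nat.prime_two
      exact_mod_cast h2
    obtain ⟨t, ht⟩ := FiniteField.isSquare_of_char_two hc2 τ'
    refine ⟨t, 1, ?_⟩
    linear_combination -ht + (1 + t ^ 2 - τ * t) * h2 + (τ' - t * t) * h2
  · have hodd : Fintype.card F % 2 = 1 := by
      have hne : ringChar F ≠ 2 := by
        intro hc
        apply h2
        have := ringChar.Nat.cast_ringChar (R := F)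
        rw [hc] at this
        exact_mod_cast this
      exact FiniteField.odd_card_of_char_ne_two hne
    have hD : τ ^ 2 - 4 ≠ 0 := sub_ne_zero.2 h
    obtain ⟨z, y, hzy⟩ := FiniteField.exists_root_sum_quadratic
      (f := Polynomial.C (τ ^ 2 - 4) * Polynomial.X ^ 2 +
        Polynomial.C (2 * τ ^ 2 - 4 * τ') * Polynomial.X + Polynomial.C (τ ^ 2 - 4))
      (g := Polynomial.C (-1) * Polynomial.X ^ 2 +
        Polynomial.C 0 * Polynomial.X + Polynomial.C 0)
      (Polynomial.degree_quadratic hD) (Polynomial.degree_quadratic (neg_ne_zero.2 one_ne_zero)) hodd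
    simp only [Polynomial.eval_add, Polynomial.eval_mul, Polynomial.eval_C, Polynomial.eval_pow,
      Polynomial.eval_X] at hzy
    refine ⟨(τ * (z + 1) + y) / 2, z, ?_⟩
    have h4 : (4 : F) ≠ 0 := by
      have : (4 : F) = 2 * 2 := by norm_num
      rw [this]; exact mul_ne_zero h2 h2
    obtain ⟨w, hw⟩ : ∃ w, w = (τ * (z + 1) + y) / 2 := ⟨_, rfl⟩
    have hw2 : 2 * w = τ * (z + 1) + y := by rw [hw]; field_simp
    rw [← hw]
    have key : 4 * (w ^ 2 + z ^ 2 - τ * w * z - τ * w + τ' * z + 1) = 0 := by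
      linear_combination (2 * w + (τ * (z + 1) + y) - 2 * τ * z - 2 * τ) * hw2 - hzy
    exact (mul_eq_zero.1 key).resolve_left h4

theorem exists_triple [Finite F] (x : S F) (h : tr x ^ 2 ≠ 4) (τ' : F) :
    ∃ b : S F, tr b = tr x ∧ tr (b * x) = τ' := by
  obtain ⟨g, hg⟩ := conj_comp x h
  obtain ⟨w, z, hwz⟩ := exists_wz (tr x) τ' h
  let b : S F := mk (tr x - w) (τ' - tr x * w + z) z w (by linear_combination -hwz)
  refine ⟨g * b * g⁻¹, ?_, ?_⟩
  · rw [tr_conj']; simp [b, tr]
  · have e : g * b * g⁻¹ * x = g * (b * (g⁻¹ * x * g)) * g⁻¹ := by group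
    rw [e, hg, tr_conj']
    simp [b, comp, tr]
    ring

/-- the triple can be chosen non-commuting -/
theorem not_comm_of_triple {x b : S F} (h : tr x ^ 2 ≠ 4) (hb : tr b = tr x)
    (h1 : tr (b * x) ≠ 2) (h2 : tr (b * x) ≠ tr x ^ 2 - 2) : ¬ Commute b x := by
  intro hc
  rcases eq_or_inv hc hb h with rfl | rfl
  · apply h2
    have hd := det_eq b
    simp only [tr, m00, m11]
    linear_combination (-2) * hd
  · apply h1
    simp [tr]
    norm_num

/-- non-scalar elements of trace two are conjugate to upper unipotents -/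
theorem conj_u {x : S F} (hx : ¬ Sc x) (ht : tr x = 2) : ∃ (g : S F) (a : F), a ≠ 0 ∧ g⁻¹ * x * g = u a := by
  have hd := det_eq x
  unfold tr at ht
  by_cases hr : x 1 0 = 0
  · have h1 : (x 0 0 - 1) ^ 2 = 0 := by
      rw [hr] at hd
      linear_combination (x 0 0) * ht - hd
    have h00 : x 0 0 = 1 := by
      have := pow_eq_zero_iff (two_ne_zero) |>.1 h1
      linear_combination this
    have h11 : x 1 1 = 1 := by linear_combination ht - h00
    refine ⟨1, x 0 1, ?_, ?_⟩
    · intro h
      exact hx ⟨h, hr, by rw [h00, h11]⟩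
    · rw [inv_one, one_mul, mul_one]
      apply ext'
      · simp [u, h00]
      · simp [u]
      · simp [u, hr]
      · simp [u, h11]
  · let g : S F := mk (x 0 0 - 1) (-1 / x 1 0) (x 1 0) 0 (by field_simp; ring)
    refine ⟨g, -1 / x 1 0, div_ne_zero (neg_ne_zero.2 one_ne_zero) hr, ?_⟩
    have key : x * g = g * u (-1 / x 1 0) := by
      apply ext'
      · simp [g, u]; linear_combination (x 0 0) * ht - hd
      · simp [g, u]; field_simp; ring
      · simp [g, u]; linear_combination (x 1 0) * ht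
      · simp [g, u, hr]
    rw [mul_assoc, key, ← mul_assoc, inv_mul_cancel, one_mul]

end H61.SL2x
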