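import Mathlib
import Cfsg.Agent.Lib.H61.BinAct
import Cfsg.Agent.Lib.H61.CALem
import Cfsg.Agent.Lib.H61.SL2x

/-!
Good subgroups of `SL₂(F)` (helper61).
-/

namespace H61.BinSL2

open H61.BinAct H61.SL2x

variable {F : Type*} [Field F]

local notation "ZZ" => Subgroup.center (S F)

theorem neg_mem {K : Subgroup (S F)} (h : ZZ ≤ K) {x : S F} (hx : x ∈ K) : -x ∈ K := by
  have h1 : (-1 : S F) ∈ K := h (mem_center.2 sc_neg_one)
  have := K.mul_mem h1 hx
  simpa using this

/-- trace version of the star property -/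
theorem star_tr [Finite F] {K : Subgroup (S F)} (h : Good ZZ K) {a b c d : S F}
    (ha : a ∈ K) (haZ : ¬ Sc a) (hc : c ∈ K) (hbc : tr b = tr c) (hb4 : tr b ^ 2 ≠ 4)
    (hd : d ∈ K) (hbd : tr (b * a) = tr d) (hd4 : tr (b * a) ^ 2 ≠ 4) : b ∈ K := by
  obtain ⟨g, hg⟩ := conj_of_tr hbc hb4
  obtain ⟨k, hk⟩ := conj_of_tr hbd hd4
  refine h.star (a := a) (b := b) (x := g) (y := k) ha ?_ ?_ ?_
  · rw [mem_center]; exact haZ
  · rw [hg]; exact hc
  · rw [hk]; exact hd

/-- diagonal element -/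
def dg (t : F) (ht : t ≠ 0) : S F := mk t 0 0 t⁻¹ (by rw [mul_inv_cancel₀ ht]; ring)

theorem u_not_sc {a : F} (ha : a ≠ 0) : ¬ Sc (u a) := by
  rintro ⟨h, -, -⟩
  exact ha (by simpa [u] using h)

theorem l_not_sc {a : F} (ha : a ≠ 0) : ¬ Sc (l a) := by
  rintro ⟨-, h, -⟩
  exact ha (by simpa [l] using h)

/-- the set of elements normalising `K` -/
def nrm (K : Subgroup (S F)) : Subgroup (S F) where
  carrier := {g | ∀ k, k ∈ K ↔ g⁻¹ * k * g ∈ K}
  one_mem' := fun k => by simp
  mul_mem' := by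
    intro a b ha hb k
    rw [ha k, hb]
    have e : b⁻¹ * (a⁻¹ * k * a) * b = (a * b)⁻¹ * k * (a * b) := by group
    rw [e]
  inv_mem' := by
    intro a ha k
    have := ha (a * k * a⁻¹)
    have e : a⁻¹ * (a * k * a⁻¹) * a = k := by group
    rw [e] at this
    rw [← this]
    simp

theorem mem_nrm {K : Subgroup (S F)} {g : S F} : g ∈ nrm K ↔ ∀ k, k ∈ K ↔ g⁻¹ * k * g ∈ K := Iff.rfl

theorem le_nrm (K : Subgroup (S F)) : K ≤ nrm K := by
  intro g hg k
  constructor
  · intro hk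
    exact K.mul_mem (K.mul_mem (K.inv_mem hg) hk) hg
  · intro hk
    have := K.mul_mem (K.mul_mem hg hk) (K.inv_mem hg)
    have e : g * (g⁻¹ * k * g) * g⁻¹ = k := by group
    rwa [e] at this

theorem diff_sq [Finite F] (x : F) : ∃ s t : F, s ^ 2 - t ^ 2 = x := by
  by_cases h2 : (2 : F) = 0
  · have hc2 : ringChar F = 2 := by
      apply CharP.ringChar_of_prime_eq_zero Nat.prime_two
      exact_mod_cast h2
    obtain ⟨t, ht⟩ := FiniteField.isSquare_of_char_two hc2 x
    exact ⟨t, 0, by rw [ht]; ring⟩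
  · refine ⟨(x + 1) / 2, (x - 1) / 2, ?_⟩
    field_simp
    ring

theorem top_of_u_l [Finite F] {K : Subgroup (S F)} (h : Good ZZ K) {a c : F} (ha : a ≠ 0)
    (hua : u a ∈ K) (hc : c ≠ 0) (hlc : l c ∈ K) : K = ⊤ := by
  have hN : nrm K = ⊤ := by
    apply eq_top_of
    · intro x
      refine h.ti (u x) (u a) hua (by rw [mem_center]; exact u_not_sc ha) ?_
      have e : (u x)⁻¹ * u a * u x = u a := by
        apply ext' <;> simp [u]
      rw [e]; exact hua
    · intro x
      refine h.ti (l x) (l c) hlc (by rw [mem_center]; exact l_not_sc hc) ?_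
      have e : (l x)⁻¹ * l c * l x = l c := by
        apply ext' <;> simp [l]
      rw [e]; exact hlc
  have hinv : ∀ g k : S F, k ∈ K → g⁻¹ * k * g ∈ K := by
    intro g k hk
    have : g ∈ nrm K := by rw [hN]; trivial
    exact (this k).1 hk
  have hsq : ∀ t : F, u (t ^ 2 * a) ∈ K := by
    intro t
    by_cases ht : t = 0
    · subst ht
      have e : u (0 ^ 2 * a) = (1 : S F) := by
        apply ext' <;> simp [u]
      rw [e]; exact K.one_mem
    · have := hinv (dg t⁻¹ (inv_ne_zero ht)) (u a) hua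
      have e : (dg t⁻¹ (inv_ne_zero ht))⁻¹ * u a * dg t⁻¹ (inv_ne_zero ht) = u (t ^ 2 * a) := by
        apply ext'
        · simp [u, dg, ht]
        · simp [u, dg]; ring
        · simp [u, dg]
        · simp [u, dg, ht]
      rwa [e] at this
  have hu : ∀ x, u x ∈ K := by
    intro x
    obtain ⟨s, t, hst⟩ := diff_sq (x / a)
    have := K.mul_mem (hsq s) (K.inv_mem (hsq t))
    have e : u (s ^ 2 * a) * (u (t ^ 2 * a))⁻¹ = u x := by
      have hx : x = (s ^ 2 - t ^ 2) * a := by rw [hst]; field_simp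
      apply ext'
      · simp [u]
      · simp [u, hx]; ring
      · simp [u]
      · simp [u]
    rwa [e] at this
  apply eq_top_of K hu
  intro x
  have := hinv w (u (-x)) (hu _)
  have e : w⁻¹ * u (-x) * w = l x := by
    apply ext' <;> simp [u, l, w]
  rwa [e] at this

theorem dg_not_sc {t : F} (ht : t ≠ 0) (h : t ^ 2 ≠ 1) : ¬ Sc (dg t ht) := by
  rintro ⟨-, -, h3⟩
  apply h
  have : t = t⁻¹ := by simpa [dg] using h3
  have h4 : t * t = 1 := by nth_rewrite 2 [this]; exact mul_inv_cancel₀ ht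
  rw [sq]; exact h4

theorem split_top [Finite F] {K : Subgroup (S F)} (h : Good ZZ K) {t : F} (ht : t ≠ 0)
    (hK : dg t ht ∈ K) (h4 : t ^ 4 ≠ 1) : K = ⊤ := by
  have h2 : t ^ 2 ≠ 1 := by
    intro hc
    apply h4
    have : t ^ 4 = (t ^ 2) ^ 2 := by ring
    rw [this, hc]; ring
  have ht1 : 1 - t ^ 2 ≠ 0 := fun hc => h2 (by linear_combination -hc)
  have ht2 : 1 - t ^ 4 ≠ 0 := fun hc => h4 (by linear_combination -hc)
  have hK2 := K.mul_mem hK hK
  have h1 : u 1 * dg t ht ∈ K := by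
    refine h.star (a := dg t ht) (b := u 1 * dg t ht) (x := u (1 / (1 - t ^ 2)))
      (y := u (1 / (1 - t ^ 4))) hK (by rw [mem_center]; exact dg_not_sc ht h2) ?_ ?_
    · have e : (u (1 / (1 - t ^ 2)))⁻¹ * (u 1 * dg t ht) * u (1 / (1 - t ^ 2)) = dg t ht := by
        rw [mul_assoc, inv_mul_eq_iff_eq_mul]
        apply ext'
        · simp [u, dg]
        · simp [u, dg]; field_simp; ring
        · simp [u, dg]
        · simp [u, dg]
      rw [e]; exact hK
    · have e : (u (1 / (1 - t ^ 4)))⁻¹ * (u 1 * dg t ht * dg t ht) * u (1 / (1 - t ^ 4)) =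
          dg t ht * dg t ht := by
        rw [mul_assoc, inv_mul_eq_iff_eq_mul]
        apply ext'
        · simp [u, dg]
        · simp [u, dg]; field_simp; ring
        · simp [u, dg]
        · simp [u, dg]
      rw [e]; exact hK2
  have h1' : u 1 ∈ K := by
    have := K.mul_mem h1 (K.inv_mem hK)
    simpa using this
  have h3 : l 1 * dg t ht ∈ K := by
    refine h.star (a := dg t ht) (b := l 1 * dg t ht) (x := l (t ^ 2 / (t ^ 2 - 1)))
      (y := l (t ^ 4 / (t ^ 4 - 1))) hK (by rw [mem_center]; exact dg_not_sc ht h2) ?_ ?_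
    · have ht1' : t ^ 2 - 1 ≠ 0 := fun hc => h2 (by linear_combination hc)
      have e : (l (t ^ 2 / (t ^ 2 - 1)))⁻¹ * (l 1 * dg t ht) * l (t ^ 2 / (t ^ 2 - 1)) =
          dg t ht := by
        rw [mul_assoc, inv_mul_eq_iff_eq_mul]
        apply ext'
        · simp [l, dg]
        · simp [l, dg]
        · simp [l, dg]; field_simp; ring
        · simp [l, dg]
      rw [e]; exact hK
    · have ht1' : t ^ 4 - 1 ≠ 0 := fun hc => h4 (by linear_combination hc)
      have e : (l (t ^ 4 / (t ^ 4 - 1)))⁻¹ * (l 1 * dg t ht * dg t ht) * l (t ^ 4 / (t ^ 4 - 1)) =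
          dg t ht * dg t ht := by
        rw [mul_assoc, inv_mul_eq_iff_eq_mul]
        apply ext'
        · simp [l, dg]
        · simp [l, dg]
        · simp [l, dg]; field_simp; ring
        · simp [l, dg]
      rw [e]; exact hK2
  have h3' : l 1 ∈ K := by
    have := K.mul_mem h3 (K.inv_mem hK)
    simpa using this
  exact top_of_u_l h one_ne_zero h1' one_ne_zero h3'

/-- unipotents, odd characteristic -/
theorem u_top_odd [Finite F] (h2 : (2 : F) ≠ 0) {K : Subgroup (S F)} (h : Good ZZ K) {a : F}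
    (ha : a ≠ 0) (hua : u a ∈ K) : K = ⊤ := by
  have h4 : (4 : F) ≠ 0 := by
    have : (4 : F) = 2 * 2 := by norm_num
    rw [this]; exact mul_ne_zero h2 h2
  have h1 : l (-4 / a) ∈ K := by
    refine h.star (a := u a) (b := l (-4 / a)) (x := mk 0 (-(a / 2)) (2 / a) 0 (by field_simp; ring))
      (y := l (-2 / a)) hua (by rw [mem_center]; exact u_not_sc ha) ?_ ?_
    · have e : (mk 0 (-(a / 2)) (2 / a) 0 (by field_simp; ring))⁻¹ * l (-4 / a) *
          (mk 0 (-(a / 2)) (2 / a) 0 (by field_simp; ring)) = u a := by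
        rw [mul_assoc, inv_mul_eq_iff_eq_mul]
        apply ext'
        · simp [u, l]
        · simp [u, l]
        · simp [u, l]
        · simp [u, l]; field_simp; norm_num
      rw [e]; exact hua
    · have e : (l (-2 / a))⁻¹ * (l (-4 / a) * u a) * l (-2 / a) = -(u a)⁻¹ := by
        rw [mul_assoc, inv_mul_eq_iff_eq_mul]
        apply ext'
        · simp [u, l]; field_simp; ring
        · simp [u, l]
        · simp [u, l]; field_simp; ring
        · simp [u, l]; field_simp; ring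
      rw [e]; exact neg_mem h.le (K.inv_mem hua)
  exact top_of_u_l h ha hua (div_ne_zero (neg_ne_zero.2 h4) ha) h1

theorem cj_top {K : Subgroup (S F)} {g : S F} (h : cj g K = ⊤) : K = ⊤ := by
  rw [eq_top_iff]
  intro x _
  have : g * x * g⁻¹ ∈ cj g K := by rw [h]; trivial
  rw [mem_cj] at this
  have e : g⁻¹ * (g * x * g⁻¹) * g = x := by group
  rwa [e] at this

/-- in odd characteristic a proper good subgroup has no non-central elements of trace `± 2` -/
theorem tr_ne_four_odd [Finite F] (h2 : (2 : F) ≠ 0) {K : Subgroup (S F)} (h : Good ZZ K)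
    (hK : K ≠ ⊤) {x : S F} (hx : x ∈ K) (hxs : ¬ Sc x) : tr x ^ 2 ≠ 4 := by
  intro hc
  have : (tr x - 2) * (tr x + 2) = 0 := by linear_combination hc
  obtain ⟨y, hy, hys, hyt⟩ : ∃ y ∈ K, ¬ Sc y ∧ tr y = 2 := by
    rcases mul_eq_zero.1 this with h1 | h1
    · exact ⟨x, hx, hxs, by linear_combination h1⟩
    · exact ⟨-x, neg_mem h.le hx, fun hs => hxs hs.of_neg, by
        rw [tr_neg]; linear_combination -h1⟩
  obtain ⟨g, a, ha, hg⟩ := conj_u hys hyt
  apply hK
  apply cj_top (g := g⁻¹)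
  apply u_top_odd h2 (h.cj g⁻¹) ha
  rw [mem_cj, ← hg]
  have e : (g⁻¹)⁻¹ * (g⁻¹ * y * g) * g⁻¹ = y := by group
  rw [e]; exact hy

/-- no split elements of order at least three modulo the centre -/
theorem not_split [Finite F] {K : Subgroup (S F)} (h : Good ZZ K)
    (hK : K ≠ ⊤) {x : S F} (hx : x ∈ K) {t : F} (ht : t ≠ 0) (ht4 : t ^ 4 ≠ 1)
    (htr : tr x = t + t⁻¹) : False := by
  have ht2 : t ^ 2 ≠ 1 := by
    intro hc
    apply ht4
    have : t ^ 4 = (t ^ 2) ^ 2 := by ring
    rw [this, hc]; ring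
  have hx4 : tr x ^ 2 ≠ 4 := by
    intro hc
    apply ht2
    have h1 : (t ^ 2 - 1) ^ 2 = 0 := by
      have : (t ^ 2 - 1) ^ 2 = t ^ 2 * ((t + t⁻¹) ^ 2 - 4) := by field_simp; ring
      rw [this, ← htr, hc]; ring
    have := pow_eq_zero_iff (two_ne_zero) |>.1 h1
    linear_combination this
  obtain ⟨g, hg⟩ := conj_of_tr (x := x) (y := dg t ht) (by rw [htr]; simp [tr, dg]) hx4
  apply hK
  apply cj_top (g := g⁻¹)
  apply split_top (h.cj g⁻¹) ht _ ht4
  rw [mem_cj, ← hg]
  have e : (g⁻¹)⁻¹ * (g⁻¹ * x * g) * g⁻¹ = x := by group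
  rw [e]; exact hx

/-- abelian -/
theorem abel [Finite F] {K : Subgroup (S F)} (h0 : ∀ x ∈ K, ¬ Sc x → tr x ≠ 0)
    (h4 : ∀ x ∈ K, ¬ Sc x → tr x ^ 2 ≠ 4) : ∀ x ∈ K, ∀ y ∈ K, Commute x y := by
  intro x hx y hy
  by_cases hys : Sc y
  · exact Subgroup.mem_center_iff.1 (mem_center.2 hys) x
  have key := H61.CALem.comm (K := K) (Subgroup.subgroupOf ZZ K) (by
    intro z hz x
    rw [Subgroup.mem_subgroupOf] at hz
    have := Subgroup.mem_center_iff.1 hz (x : S F)
    exact (Subtype.ext this.symm)) (by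
    intro x hx a b ha hb
    rw [Subgroup.mem_subgroupOf, mem_center] at hx
    have ha' : Commute (a : S F) (x : S F) := congrArg Subtype.val ha.eq
    have hb' : Commute (b : S F) (x : S F) := congrArg Subtype.val hb.eq
    exact Subtype.ext (comm_of hx ha' hb').eq) (by
    intro x hx g hg
    rw [Subgroup.mem_subgroupOf, mem_center] at hx
    have hg' : Commute ((g : S F) * x * (g : S F)⁻¹) (x : S F) := congrArg Subtype.val hg.eq
    rcases eq_or_inv hg' (tr_conj' _ _) (h4 x x.2 hx) with he | he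
    · apply Subtype.ext
      show (g : S F) * x = x * g
      nth_rewrite 2 [← he]
      group
    · have ht := tr_zero_of_inv hx he
      by_cases hgs : Sc (g : S F)
      · apply Subtype.ext
        exact (Subgroup.mem_center_iff.1 (mem_center.2 hgs) (x : S F)).symm
      · exact absurd ht (h0 g g.2 hgs)) ⟨y, hy⟩ (by
    rw [Subgroup.mem_subgroupOf, mem_center]; exact hys) ⟨x, hx⟩
  exact congrArg Subtype.val key.eq

/-- the triple argument -/
theorem tr_one [Finite F] {K : Subgroup (S F)} (h : Good ZZ K)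
    (h0 : ∀ x ∈ K, ¬ Sc x → tr x ≠ 0)
    (h4 : ∀ x ∈ K, ¬ Sc x → tr x ^ 2 ≠ 4) {x : S F} (hx : x ∈ K) (hxs : ¬ Sc x) :
    (2 : F) = 0 ∧ tr x = 1 := by
  have hab := abel h0 h4
  have hx4 := h4 x hx hxs
  have hx0 := h0 x hx hxs
  have hn2 : tr x ≠ 2 := by intro hc; apply hx4; rw [hc]; norm_num
  have hn2' : -tr x ≠ 2 := by
    intro hc; apply hx4
    have : tr x ^ 2 = (-tr x) ^ 2 := by ring
    rw [this, hc]; norm_num
  have e1 : tr x = tr x ^ 2 - 2 := by
    by_contra hne
    obtain ⟨b, hb, hbx⟩ := exists_triple x hx4 (tr x)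
    have hbK : b ∈ K := star_tr h hx hxs hx hb (by rw [hb]; exact hx4) hx hbx
      (by rw [hbx]; exact hx4)
    exact not_comm_of_triple hx4 hb (by rw [hbx]; exact hn2) (by rw [hbx]; exact hne) (hab _ hbK _ hx)
  have e2 : -tr x = tr x ^ 2 - 2 := by
    by_contra hne
    obtain ⟨b, hb, hbx⟩ := exists_triple x hx4 (-tr x)
    have hbK : b ∈ K := star_tr h hx hxs hx hb (by rw [hb]; exact hx4) (neg_mem h.le hx)
      (by rw [hbx, tr_neg]) (by rw [hbx, neg_sq]; exact hx4)
    exact not_comm_of_triple hx4 hb (by rw [hbx]; exact hn2') (by rw [hbx]; exact hne)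
      (hab _ hbK _ hx)
  have e3 : 2 * tr x = 0 := by linear_combination e1 - e2
  have h20 : (2 : F) = 0 := (mul_eq_zero.1 e3).resolve_right hx0
  refine ⟨h20, ?_⟩
  have : tr x * (tr x - 1) = 0 := by linear_combination -e1 + h20
  have := (mul_eq_zero.1 this).resolve_left hx0
  linear_combination this

/-- trace zero elements when `-1` is a square -/
theorem tr_ne_zero_one [Finite F] (h2 : (2 : F) ≠ 0) (hF : 5 < Nat.card F) {i : F}
    (hi : i ^ 2 = -1) {K : Subgroup (S F)} (h : Good ZZ K)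
    (hK : K ≠ ⊤) {x : S F} (hx : x ∈ K) (hx0 : tr x = 0) : False := by
  classical
  have : Fintype F := Fintype.ofFinite F
  have h4 : (4 : F) ≠ 0 := by
    have : (4 : F) = 2 * 2 := by norm_num
    rw [this]; exact mul_ne_zero h2 h2
  have hi0 : i ≠ 0 := by rintro rfl; norm_num at hi
  have hz4 : ∀ y : S F, tr y = 0 → tr y ^ 2 ≠ 4 := by
    intro y hy
    rw [hy]; intro hc; apply h4; rw [← hc]; ring
  have hii : i⁻¹ = -i := by
    rw [inv_eq_iff_eq_inv, eq_comm, inv_eq_of_mul_eq_one_left]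
    linear_combination -hi
  obtain ⟨g, hg⟩ := conj_of_tr (x := x) (y := dg i hi0) (by
    rw [hx0]; simp [tr, dg, hii]) (hz4 x hx0)
  have hG := h.cj g⁻¹
  have hdi : dg i hi0 ∈ cj g⁻¹ K := by
    rw [mem_cj, ← hg]
    have e : (g⁻¹)⁻¹ * (g⁻¹ * x * g) * g⁻¹ = x := by group
    rw [e]; exact hx
  have hi2 : i ^ 2 ≠ 1 := by
    rw [hi]; intro hc; apply h2; linear_combination -hc
  have hs : ∀ y : F, ∀ hy : y ≠ 0, mk 0 y (-y⁻¹) 0 (by field_simp; ring) ∈ cj g⁻¹ K := by
    intro y hy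
    refine star_tr hG hdi (dg_not_sc hi0 hi2) hdi ?_ ?_ hdi ?_ ?_
    · simp [tr, dg, hii]
    · apply hz4; simp [tr]
    · simp [tr, dg, hii]
    · apply hz4; simp [tr, dg]
  -- choose y with y ^ 4 ≠ 1
  obtain ⟨y, hy0, hy4⟩ : ∃ y : F, y ≠ 0 ∧ y ^ 4 ≠ 1 := by
    by_contra hcon
    push Not at hcon
    have hsub : (Finset.univ : Finset F) ⊆ insert 0 (Polynomial.nthRoots 4 (1 : F)).toFinset := by
      intro y _
      rw [Finset.mem_insert]
      by_cases hy : y = 0
      · left; exact hy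
      · right
        rw [Multiset.mem_toFinset, Polynomial.mem_nthRoots (by norm_num)]
        exact hcon y hy
    have h1 := Finset.card_le_card hsub
    have h3 := Finset.card_insert_le (0 : F) (Polynomial.nthRoots 4 (1 : F)).toFinset
    have h5 := Multiset.toFinset_card_le (Polynomial.nthRoots 4 (1 : F))
    have h6 := Polynomial.card_nthRoots 4 (1 : F)
    rw [Finset.card_univ, ← Nat.card_eq_fintype_card] at h1
    omega
  have hd : dg y hy0 ∈ cj g⁻¹ K := by
    have h1 := (cj g⁻¹ K).mul_mem (hs y hy0) (hs 1 one_ne_zero)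
    have h3 := neg_mem hG.le h1
    convert h3 using 1
    apply ext' <;> simp [dg]
  have := split_top hG hy0 hd hy4
  exact hK (cj_top this)

end H61.BinSL2
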