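import Mathlib
import Cfsg.Agent.Lib.H61.BinSL2

/-!
Good subgroups of `SL₂(F)`, `-1` not a square (helper61).
-/

namespace H61.BinSL2

open H61.BinAct H61.SL2x

variable {F : Type*} [Field F]

local notation "ZZ" => Subgroup.center (S F)

theorem exists_anti [Finite F] (h2 : (2 : F) ≠ 0) {t : S F} (ht : tr t = 0) :
    ∃ s : S F, tr s = 0 ∧ tr (s * t) = 0 := by
  have h4 : (4 : F) ≠ 0 := by
    have : (4 : F) = 2 * 2 := by norm_num
    rw [this]; exact mul_ne_zero h2 h2
  obtain ⟨g, hg⟩ := conj_comp t (by rw [ht]; intro hc; apply h4; rw [← hc]; ring)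
  obtain ⟨x, y, hxy⟩ := rep_one (-1 : F) 0 (-1) (by
    intro hc; apply h4; linear_combination -hc)
  let s0 : S F := mk x y y (-x) (by linear_combination hxy)
  refine ⟨g * s0 * g⁻¹, ?_, ?_⟩
  · rw [tr_conj']; simp [s0, tr]
  · have e : g * s0 * g⁻¹ * t = g * (s0 * (g⁻¹ * t * g)) * g⁻¹ := by group
    rw [e, hg, tr_conj', ht]
    simp [s0, comp, tr]

theorem anti {s t : S F} (hs : tr s = 0) (ht : tr t = 0) (hst : tr (s * t) = 0) :
    s * t = -(t * s) := by
  simp only [tr, m00, m11] at hs ht hst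
  apply ext'
  · simp only [m00, n00]; linear_combination hst + (s 0 0) * ht - (t 1 1) * hs
  · simp only [m01, n01]; linear_combination (t 0 1) * hs + (s 0 1) * ht
  · simp only [m10, n10]; linear_combination (t 1 0) * hs + (s 1 0) * ht
  · simp only [m11, n11]; linear_combination hst - (t 0 0) * hs + (s 1 1) * ht

theorem tr_anti {x s t : S F} (h2 : (2 : F) ≠ 0) (hx : Commute x t) (hst : s * t = -(t * s)) :
    tr (x * s) = 0 := by
  have e1 : tr (x * s) = - tr (x * s) := by
    have a1 : x * s = t⁻¹ * (x * (t * s)) := by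
      rw [← mul_assoc, ← mul_assoc, mul_assoc t⁻¹ x t, hx.eq]; group
    have a2 : t * s = -(s * t) := by rw [hst, neg_neg]
    have a3 : t⁻¹ * (x * (t * s)) = -(t⁻¹ * (x * s) * t) := by
      rw [a2, mul_neg, mul_neg]; congr 1; group
    calc tr (x * s) = tr (t⁻¹ * (x * (t * s))) := by rw [← a1]
      _ = -tr (t⁻¹ * (x * s) * t) := by rw [a3, tr_neg]
      _ = - tr (x * s) := by rw [tr_conj]
  have : 2 * tr (x * s) = 0 := by linear_combination e1
  exact (mul_eq_zero.1 this).resolve_left h2

theorem tz4 (h2 : (2 : F) ≠ 0) {x : S F} (hx : tr x = 0) : tr x ^ 2 ≠ 4 := by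
  have h4 : (4 : F) ≠ 0 := by
    have : (4 : F) = 2 * 2 := by norm_num
    rw [this]; exact mul_ne_zero h2 h2
  rw [hx]; intro hc; apply h4; rw [← hc]; ring

/-- centralisers of trace zero elements of `K` are in `K` -/
theorem cent_le [Finite F] (h2 : (2 : F) ≠ 0) {K : Subgroup (S F)} (h : Good ZZ K) {t : S F}
    (ht : t ∈ K) (ht0 : tr t = 0) :
    (∀ x, Commute x t → x ∈ K) ∧ ∃ s ∈ K, s * t = -(t * s) := by
  obtain ⟨s, hs0, hst0⟩ := exists_anti h2 ht0
  have hts := not_sc_of_tr (tz4 h2 ht0)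
  have hsK : s ∈ K := star_tr h ht hts ht (by rw [hs0, ht0]) (tz4 h2 hs0) ht (by rw [hst0, ht0])
    (tz4 h2 hst0)
  have hst := anti hs0 ht0 hst0
  refine ⟨fun x hx => ?_, s, hsK, hst⟩
  have h1 : tr (x * s) = 0 := tr_anti h2 hx hst
  have h3 : tr (x * s * t) = 0 := by
    have hxt : Commute (x * t) t := hx.mul_left (Commute.refl t)
    have h5 := tr_anti h2 hxt hst
    have e : x * s * t = -(x * t * s) := by
      rw [mul_assoc, hst, mul_neg, mul_assoc]
    rw [e, tr_neg, h5, neg_zero]
  have h4 : x * s ∈ K := star_tr h ht hts ht (by rw [h1, ht0]) (tz4 h2 h1) ht (by rw [h3, ht0])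
    (tz4 h2 h3)
  have := K.mul_mem h4 (K.inv_mem hsK)
  simpa using this

theorem inv_of_tr_zero {t : S F} (ht : tr t = 0) : t⁻¹ = -t := by
  unfold tr at ht
  apply ext'
  · simp; linear_combination ht
  · simp
  · simp
  · simp; linear_combination ht

theorem uniq [Finite F] (h2 : (2 : F) ≠ 0) {x t t' : S F} (hx : ¬ Sc x) (ht : Commute t x)
    (ht' : Commute t' x) (h0 : tr t = 0) (h0' : tr t' = 0) : t' = t ∨ t' = -t := by
  have hc := comm_of hx ht' ht
  rcases eq_or_inv hc (by rw [h0, h0']) (tz4 h2 h0) with h | h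
  · left; exact h
  · right; rw [h, inv_of_tr_zero h0]

theorem isSquare_mul_of_not [Finite F] {a b : F} (ha : ¬ IsSquare a) (hb : ¬ IsSquare b) :
    IsSquare (a * b) := by
  classical
  have : Fintype F := Fintype.ofFinite F
  have h1 := quadraticChar_neg_one_iff_not_isSquare.2 ha
  have h2 := quadraticChar_neg_one_iff_not_isSquare.2 hb
  have hab : a * b ≠ 0 := by
    intro h
    rcases mul_eq_zero.1 h with h | h
    · exact ha ⟨0, by rw [h]; ring⟩
    · exact hb ⟨0, by rw [h]; ring⟩
  rw [← quadraticChar_one_iff_isSquare hab, map_mul, h1, h2]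
  norm_num

/-- every non-central element of `K` commutes with a trace zero element of `K` -/
theorem exists_tz [Finite F] (h2 : (2 : F) ≠ 0) (hn : ¬ IsSquare (-1 : F))
    {K : Subgroup (S F)} (h : Good ZZ K) (hK : K ≠ ⊤) {t0 : S F} (ht0K : t0 ∈ K) (ht0 : tr t0 = 0)
    {x : S F} (hx : x ∈ K) (hxs : ¬ Sc x) : ∃ t ∈ K, tr t = 0 ∧ Commute t x := by
  have h4 : (4 : F) ≠ 0 := by
    have : (4 : F) = 2 * 2 := by norm_num
    rw [this]; exact mul_ne_zero h2 h2
  have hx4 := tr_ne_four_odd h2 h hK hx hxs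
  have hD : ¬ IsSquare (tr x ^ 2 - 4) := by
    rintro ⟨d, hd⟩
    have hlm : (tr x + d) / 2 * ((tr x - d) / 2) = 1 := by
      have e : (tr x + d) / 2 * ((tr x - d) / 2) = (tr x ^ 2 - d * d) / 4 := by
        field_simp; ring
      rw [e, ← hd]; field_simp; ring
    have hl0 : (tr x + d) / 2 ≠ 0 := left_ne_zero_of_mul_eq_one hlm
    have hlinv : ((tr x + d) / 2)⁻¹ = (tr x - d) / 2 := by
      rw [inv_eq_of_mul_eq_one_right hlm]
    refine not_split h hK hx hl0 ?_ ?_
    · intro hc
      have : (((tr x + d) / 2) ^ 2 - 1) * (((tr x + d) / 2) ^ 2 + 1) = 0 := by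
        linear_combination hc
      rcases mul_eq_zero.1 this with h5 | h5
      · apply hx4
        have e1 : (tr x + d) / 2 = (tr x - d) / 2 := by
          have : (tr x + d) / 2 * ((tr x + d) / 2) = 1 := by linear_combination h5
          exact mul_left_cancel₀ hl0 (by rw [this, hlm])
        have e2 : d = 0 := by
          have : 2 * d = 0 := by
            field_simp at e1
            linear_combination e1
          exact (mul_eq_zero.1 this).resolve_left h2
        rw [e2] at hd
        linear_combination hd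
      · exact hn ⟨(tr x + d) / 2, by linear_combination -h5⟩
    · rw [hlinv]; field_simp; ring
  obtain ⟨e, he⟩ := isSquare_mul_of_not hn hD
  have he0 : e ≠ 0 := by
    rintro rfl
    apply hx4
    linear_combination -he
  have hd := det_eq x
  let t : S F := mk ((x 0 0 - x 1 1) / e) (2 * x 0 1 / e) (2 * x 1 0 / e) ((x 1 1 - x 0 0) / e) (by
    field_simp
    unfold tr at he
    linear_combination he + 4 * hd)
  have ht : tr t = 0 := by simp only [t, tr, mk00, mk11]; field_simp; ring
  have htx : Commute t x := by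
    show t * x = x * t
    apply ext'
    · simp only [t, m00, mk00, mk01, mk10]; ring
    · simp only [t, m01, mk00, mk01, mk11]; field_simp; ring
    · simp only [t, m10, mk00, mk10, mk11]; field_simp; ring
    · simp only [t, m11, mk01, mk10, mk11]; ring
  refine ⟨t, ?_, ht, htx⟩
  obtain ⟨g, hg⟩ := conj_of_tr (x := t0) (y := t) (by rw [ht, ht0]) (tz4 h2 ht0)
  -- g x g⁻¹ commutes with t0
  have h5 : Commute (g * x * g⁻¹) t0 := by
    have e1 : t0 = g * t * g⁻¹ := by rw [← hg]; group
    rw [e1]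
    show g * x * g⁻¹ * (g * t * g⁻¹) = g * t * g⁻¹ * (g * x * g⁻¹)
    have l : g * x * g⁻¹ * (g * t * g⁻¹) = g * (x * t) * g⁻¹ := by group
    have r : g * t * g⁻¹ * (g * x * g⁻¹) = g * (t * x) * g⁻¹ := by group
    rw [l, r, htx.eq]
  have h6 := (cent_le h2 h ht0K ht0).1 _ h5
  have h7 := h.ti g⁻¹ x hx (by rw [mem_center]; exact hxs) (by simpa using h6) t
  rw [h7]
  have e1 : (g⁻¹)⁻¹ * t * g⁻¹ = t0 := by rw [← hg]; group
  rw [e1]; exact ht0K

theorem card_I [Finite F] (h2 : (2 : F) ≠ 0)
    {K : Subgroup (S F)} (h : Good ZZ K) {t0 : S F} (ht0K : t0 ∈ K) (ht0 : tr t0 = 0) :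
    {t : S F | t ∈ K ∧ tr t = 0}.ncard * {y : S F | Commute y t0}.ncard = Nat.card (nrm K) := by
  classical
  have hch : ∀ t : {t : S F | t ∈ K ∧ tr t = 0}, ∃ g : S F, g⁻¹ * t0 * g = t :=
    fun t => conj_of_tr (by rw [t.2.2, ht0]) (tz4 h2 ht0)
  choose g hg using hch
  have hmem : ∀ n : S F, n⁻¹ * t0 * n ∈ K → n ∈ nrm K := fun n hn =>
    h.ti n t0 ht0K (by rw [mem_center]; exact not_sc_of_tr (tz4 h2 ht0)) hn
  have hconj : ∀ (t : {t : S F | t ∈ K ∧ tr t = 0}) (y : {y : S F | Commute y t0}),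
      ((y : S F) * g t)⁻¹ * t0 * ((y : S F) * g t) = t := by
    intro t y
    have hy : Commute (y : S F) t0 := y.2
    have e : ((y : S F) * g t)⁻¹ * t0 * ((y : S F) * g t) = (g t)⁻¹ * ((y : S F)⁻¹ * (t0 * y)) * g t := by
      group
    rw [e, ← hy.eq, ← mul_assoc (y : S F)⁻¹, inv_mul_cancel, one_mul, hg]
  let f : {t : S F | t ∈ K ∧ tr t = 0} × {y : S F | Commute y t0} → nrm K := fun p =>
    ⟨(p.2 : S F) * g p.1, hmem _ (by rw [hconj]; exact p.1.2.1)⟩
  have hf : Function.Bijective f := by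
    constructor
    · rintro ⟨t, y⟩ ⟨t', y'⟩ he
      have e1 : (y : S F) * g t = (y' : S F) * g t' := congrArg Subtype.val he
      have e2 : (t : S F) = t' := by rw [← hconj t y, ← hconj t' y', e1]
      have e3 : t = t' := Subtype.ext e2
      subst e3
      have e4 : (y : S F) = y' := mul_right_cancel e1
      rw [Subtype.ext e4]
    · rintro ⟨n, hn⟩
      let t : {t : S F | t ∈ K ∧ tr t = 0} := ⟨n⁻¹ * t0 * n, (hn t0).1 ht0K, by rw [tr_conj, ht0]⟩
      have ht : (t : S F) = n⁻¹ * t0 * n := rfl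
      refine ⟨(t, ⟨n * (g t)⁻¹, ?_⟩), ?_⟩
      · show n * (g t)⁻¹ * t0 = t0 * (n * (g t)⁻¹)
        have e1 := hg t
        rw [ht] at e1
        have e2 : t0 = g t * (n⁻¹ * t0 * n) * (g t)⁻¹ := by rw [← e1]; group
        have e3 : n * (g t)⁻¹ * t0 = n * (g t)⁻¹ * (g t * (n⁻¹ * t0 * n) * (g t)⁻¹) :=
          congrArg (fun z => n * (g t)⁻¹ * z) e2
        rw [e3]; group
      · apply Subtype.ext
        show n * (g t)⁻¹ * g t = n
        group
  have := Nat.card_congr (Equiv.ofBijective f hf)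
  rw [Nat.card_prod, Nat.card_coe_set_eq, Nat.card_coe_set_eq] at this
  exact this

theorem card_cent [Finite F] (h2 : (2 : F) ≠ 0) {t t0 : S F} (ht : tr t = 0) (ht0 : tr t0 = 0) :
    {y : S F | Commute y t}.ncard = {y : S F | Commute y t0}.ncard := by
  obtain ⟨g, hg⟩ := conj_of_tr (x := t0) (y := t) (by rw [ht, ht0]) (tz4 h2 ht0)
  rw [← Nat.card_coe_set_eq, ← Nat.card_coe_set_eq]
  apply Nat.card_congr
  refine ⟨fun y => ⟨g * y * g⁻¹, ?_⟩, fun y => ⟨g⁻¹ * y * g, ?_⟩, ?_, ?_⟩
  · have hy : Commute (y : S F) t := y.2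
    show g * y * g⁻¹ * t0 = t0 * (g * y * g⁻¹)
    have e1 : t0 = g * t * g⁻¹ := by rw [← hg]; group
    rw [e1]
    have l : g * y * g⁻¹ * (g * t * g⁻¹) = g * (y * t) * g⁻¹ := by group
    have r : g * t * g⁻¹ * (g * y * g⁻¹) = g * (t * y) * g⁻¹ := by group
    rw [l, r, hy.eq]
  · have hy : Commute (y : S F) t0 := y.2
    show g⁻¹ * y * g * t = t * (g⁻¹ * y * g)
    rw [← hg]
    have l : g⁻¹ * y * g * (g⁻¹ * t0 * g) = g⁻¹ * (y * t0) * g := by group
    have r : g⁻¹ * t0 * g * (g⁻¹ * y * g) = g⁻¹ * (t0 * y) * g := by group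
    rw [l, r, hy.eq]
  · intro y; apply Subtype.ext; simp [mul_assoc]
  · intro y; apply Subtype.ext; simp [mul_assoc]

/-- at least six elements in the centraliser -/
theorem six_le [Finite F] (h2 : (2 : F) ≠ 0) (hF : 5 < Nat.card F) (hn : ¬ IsSquare (-1 : F))
    {t0 : S F} (ht0 : tr t0 = 0) : 6 ≤ {y : S F | Commute y t0}.ncard := by
  classical
  have : Fintype F := Fintype.ofFinite F
  have hc := card_cent h2 (t := comp 0) (t0 := t0) (tr_comp 0) ht0
  rw [← hc]
  obtain ⟨s, hs⟩ : ∃ s : F, s ∉ ({0, 1, -1} : Finset F) := by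
    by_contra hcon
    push Not at hcon
    have h1 := Finset.card_le_card (fun s _ => hcon s : (Finset.univ : Finset F) ⊆ {0, 1, -1})
    have h3 : ({0, 1, -1} : Finset F).card ≤ 3 := Finset.card_le_three
    rw [Finset.card_univ, ← Nat.card_eq_fintype_card] at h1
    omega
  simp only [Finset.mem_insert, Finset.mem_singleton, not_or] at hs
  obtain ⟨hs0, hs1, hs2⟩ := hs
  have hs3 : 1 + s ^ 2 ≠ 0 := fun h => hn ⟨s, by linear_combination -h⟩
  have hs4 : 1 - s ^ 2 ≠ 0 := by
    intro h
    have : (1 - s) * (1 + s) = 0 := by linear_combination h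
    rcases mul_eq_zero.1 this with h5 | h5
    · exact hs1 (by linear_combination -h5)
    · exact hs2 (by linear_combination h5)
  obtain ⟨α, hα⟩ : ∃ α, α = (1 - s ^ 2) / (1 + s ^ 2) := ⟨_, rfl⟩
  obtain ⟨β, hβ⟩ : ∃ β, β = 2 * s / (1 + s ^ 2) := ⟨_, rfl⟩
  have hα0 : α ≠ 0 := by rw [hα]; exact div_ne_zero hs4 hs3
  have hβ0 : β ≠ 0 := by rw [hβ]; exact div_ne_zero (mul_ne_zero h2 hs0) hs3
  have hαβ : α * α - (-β) * β = 1 := by
    rw [hα, hβ]; field_simp; ring
  let r : S F := mk α (-β) β α hαβ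
  let T : Finset (S F) := {1, -1, comp 0, -comp 0, r, -r}
  have hneg : ∀ z : F, z = -z → z = 0 := by
    intro z hz
    have : 2 * z = 0 := by linear_combination hz
    exact (mul_eq_zero.1 this).resolve_left h2
  have hT : T.card = 6 := by
    have k1 : (1 : S F) ≠ -1 := fun h => one_ne_zero (hneg 1 (by
      have := congrArg (fun t : S F => t 0 0) h; simpa using this))
    have k2 : (1 : S F) ≠ comp 0 := fun h => by
      have := congrArg (fun t : S F => t 1 0) h; simp [comp] at this
    have k3 : (1 : S F) ≠ -comp 0 := fun h => by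
      have := congrArg (fun t : S F => t 1 0) h; simp [comp] at this
    have k4 : (1 : S F) ≠ r := fun h => hβ0 (by
      have := congrArg (fun t : S F => t 1 0) h; simpa [r] using this.symm)
    have k5 : (1 : S F) ≠ -r := fun h => hβ0 (by
      have := congrArg (fun t : S F => t 1 0) h
      simp [r] at this; exact this)
    have k6 : (-1 : S F) ≠ comp 0 := fun h => by
      have := congrArg (fun t : S F => t 1 0) h; simp [comp] at this
    have k7 : (-1 : S F) ≠ -comp 0 := fun h => k2 (neg_injective h)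
    have k8 : (-1 : S F) ≠ r := fun h => k5 (by rw [← h, neg_neg])
    have k9 : (-1 : S F) ≠ -r := fun h => k4 (neg_injective h)
    have k10 : (comp 0 : S F) ≠ -comp 0 := fun h => one_ne_zero (hneg 1 (by
      have := congrArg (fun t : S F => t 1 0) h; simpa [comp] using this))
    have k11 : (comp 0 : S F) ≠ r := fun h => hα0 (by
      have := congrArg (fun t : S F => t 0 0) h; simpa [comp, r] using this.symm)
    have k12 : (comp 0 : S F) ≠ -r := fun h => hα0 (by
      have := congrArg (fun t : S F => t 0 0) h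
      simp [comp, r] at this; exact this)
    have k13 : (-comp 0 : S F) ≠ r := fun h => k12 (by rw [← h, neg_neg])
    have k14 : (-comp 0 : S F) ≠ -r := fun h => k11 (neg_injective h)
    have k15 : (r : S F) ≠ -r := fun h => hα0 (hneg α (by
      have := congrArg (fun t : S F => t 0 0) h; simpa [r] using this))
    simp only [T]
    rw [Finset.card_insert_of_notMem, Finset.card_insert_of_notMem, Finset.card_insert_of_notMem,
      Finset.card_insert_of_notMem, Finset.card_pair k15]
    all_goals simp only [Finset.mem_insert, Finset.mem_singleton, not_or]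
    · exact ⟨k13, k14⟩
    · exact ⟨k10, k11, k12⟩
    · exact ⟨k6, k7, k8, k9⟩
    · exact ⟨k1, k2, k3, k4, k5⟩
  have hsub : (T : Set (S F)) ⊆ {y : S F | Commute y (comp 0)} := by
    have hr : Commute r (comp 0 : S F) := by
      show r * comp 0 = comp 0 * r
      apply ext' <;> simp [r, comp]
    intro y hy
    simp only [T, Finset.coe_insert, Finset.coe_singleton, Set.mem_insert_iff,
      Set.mem_singleton_iff] at hy
    show Commute y (comp 0)
    rcases hy with rfl | rfl | rfl | rfl | rfl | rfl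
    · exact Commute.one_left _
    · exact (Commute.one_left _).neg_left
    · exact Commute.refl _
    · exact (Commute.refl _).neg_left
    · exact hr
    · exact hr.neg_left
  have h6 := Set.ncard_le_ncard hsub (Set.toFinite _)
  rw [Set.ncard_coe_finset, hT] at h6
  exact h6

theorem arith {k i c n : ℕ} (h1 : 2 * (k - 2) = i * (c - 2)) (h2 : i * c = n * k) (h3 : 2 * c ≤ k)
    (h4 : 6 ≤ c) (hn : 1 ≤ n) : False := by
  obtain ⟨c', rfl⟩ : ∃ c', c = c' + 6 := ⟨c - 6, by omega⟩
  obtain ⟨k', rfl⟩ : ∃ k', k = k' + 12 := ⟨k - 12, by omega⟩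
  have e1 : k' + 12 - 2 = k' + 10 := by omega
  have e2 : c' + 6 - 2 = c' + 4 := by omega
  rw [e1, e2] at h1
  have h5 : n * (k' + 12) * (c' + 4) = 2 * (k' + 10) * (c' + 6) := by
    rw [← h2, h1]; ring
  rcases Nat.lt_or_ge n 3 with h | h
  · have : n = 1 ∨ n = 2 := by omega
    rcases this with rfl | rfl <;> nlinarith
  · have : 3 * ((k' + 12) * (c' + 4)) ≤ n * ((k' + 12) * (c' + 4)) := Nat.mul_le_mul_right _ h
    nlinarith

theorem tr_ne_zero_two [Finite F] (h2 : (2 : F) ≠ 0) (hF : 5 < Nat.card F)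
    (hn : ¬ IsSquare (-1 : F)) {K : Subgroup (S F)} (h : Good ZZ K)
    (hK : K ≠ ⊤) {t0 : S F} (ht0K : t0 ∈ K) (ht0 : tr t0 = 0) : False := by
  classical
  have : Fintype (S F) := Fintype.ofFinite _
  have hone : (1 : S F) ≠ -1 := by
    intro h
    have := congrArg (fun t : S F => t 0 0) h
    simp at this
    apply h2
    linear_combination this
  set A : Finset (S F) := Finset.univ.filter (fun x => x ∈ K ∧ ¬ Sc x) with hA
  set B : Finset (S F) := Finset.univ.filter (fun x => x ∈ K ∧ tr x = 0) with hB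
  have hsum := Finset.sum_card_bipartiteAbove_eq_sum_card_bipartiteBelow
    (s := A) (t := B) (fun x y => Commute x y)
  have hsc : ∀ x : S F, Sc x ↔ x = 1 ∨ x = -1 := by
    intro x
    constructor
    · intro h; exact h.eq_or
    · rintro (rfl | rfl)
      · exact sc_one
      · exact sc_neg_one
  have h1 : ∀ x ∈ A, (B.bipartiteAbove (fun x y => Commute x y) x).card = 2 := by
    intro x hx
    rw [hA, Finset.mem_filter] at hx
    obtain ⟨-, hxK, hxs⟩ := hx
    obtain ⟨t, htK, ht, htx⟩ := exists_tz h2 hn h hK ht0K ht0 hxK hxs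
    have e : B.bipartiteAbove (fun x y => Commute x y) x = {t, -t} := by
      ext y
      rw [Finset.mem_bipartiteAbove, hB, Finset.mem_filter, Finset.mem_insert,
        Finset.mem_singleton]
      constructor
      · rintro ⟨⟨-, hyK, hy⟩, hyx⟩
        exact uniq h2 hxs htx hyx.symm ht hy
      · rintro (rfl | rfl)
        · exact ⟨⟨Finset.mem_univ _, htK, ht⟩, htx.symm⟩
        · exact ⟨⟨Finset.mem_univ _, neg_mem h.le htK, by rw [tr_neg, ht, neg_zero]⟩,
            htx.symm.neg_right⟩
    rw [e, Finset.card_pair]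
    intro hc
    have hz : ∀ z : F, z = -z → z = 0 := by
      intro z hz
      have : 2 * z = 0 := by linear_combination hz
      exact (mul_eq_zero.1 this).resolve_left h2
    have k1 := hz _ (by have := congrArg (fun t : S F => t 0 0) hc; simpa using this)
    have k2 := hz _ (by have := congrArg (fun t : S F => t 0 1) hc; simpa using this)
    have hd := det_eq t
    rw [k1, k2] at hd
    simp at hd
  have hcent : ∀ t ∈ B, (A.bipartiteBelow (fun x y => Commute x y) t).card =
      {y : S F | Commute y t0}.ncard - 2 := by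
    intro t ht
    rw [hB, Finset.mem_filter] at ht
    obtain ⟨-, htK, ht⟩ := ht
    rw [← card_cent h2 ht ht0]
    have e : (A.bipartiteBelow (fun x y => Commute x y) t) =
        (Finset.univ.filter (fun y => Commute y t)) \ {1, -1} := by
      ext y
      rw [Finset.mem_bipartiteBelow, hA, Finset.mem_filter, Finset.mem_sdiff, Finset.mem_filter,
        Finset.mem_insert, Finset.mem_singleton, ← hsc]
      constructor
      · rintro ⟨⟨-, -, hys⟩, hyt⟩
        exact ⟨⟨Finset.mem_univ _, hyt⟩, hys⟩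
      · rintro ⟨⟨-, hyt⟩, hys⟩
        exact ⟨⟨Finset.mem_univ _, (cent_le h2 h htK ht).1 _ hyt, hys⟩, hyt⟩
    rw [e, Finset.card_sdiff_of_subset, Finset.card_pair hone]
    · congr 1
      rw [Set.ncard_eq_toFinset_card']
      congr 1
      ext y
      simp
    · intro y hy
      rw [Finset.mem_insert, Finset.mem_singleton] at hy
      rw [Finset.mem_filter]
      refine ⟨Finset.mem_univ _, ?_⟩
      rcases hy with rfl | rfl
      · exact Commute.one_left _
      · exact (Commute.one_left _).neg_left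
  rw [Finset.sum_congr rfl h1, Finset.sum_congr rfl hcent, Finset.sum_const, Finset.sum_const,
    smul_eq_mul, smul_eq_mul] at hsum
  have hAc : A.card = Nat.card K - 2 := by
    have e : A = (Finset.univ.filter (fun x => x ∈ K)) \ {1, -1} := by
      ext y
      rw [hA, Finset.mem_filter, Finset.mem_sdiff, Finset.mem_filter, Finset.mem_insert,
        Finset.mem_singleton, ← hsc]
      tauto
    rw [e, Finset.card_sdiff_of_subset, Finset.card_pair hone]
    · congr 1
      rw [Nat.card_eq_fintype_card, Fintype.card_subtype]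
      
    · intro y hy
      rw [Finset.mem_insert, Finset.mem_singleton] at hy
      rw [Finset.mem_filter]
      refine ⟨Finset.mem_univ _, ?_⟩
      rcases hy with rfl | rfl
      · exact K.one_mem
      · exact neg_mem h.le K.one_mem
  have hBc : B.card = {t : S F | t ∈ K ∧ tr t = 0}.ncard := by
    rw [Set.ncard_eq_toFinset_card']
    congr 1
    ext y
    simp [hB]
  have hI := card_I h2 h ht0K ht0
  rw [← hBc] at hI
  obtain ⟨n, hn'⟩ := Subgroup.card_dvd_of_le (le_nrm K)
  have hn1 : 1 ≤ n := by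
    rcases Nat.eq_zero_or_pos n with rfl | h5
    · rw [mul_zero] at hn'
      have : 0 < Nat.card (nrm K) := Nat.card_pos
      omega
    · exact h5
  have h2c : 2 * {y : S F | Commute y t0}.ncard ≤ Nat.card K := by
    have hle : Subgroup.centralizer {t0} ≤ K := by
      intro y hy
      rw [Subgroup.mem_centralizer_singleton_iff] at hy
      exact (cent_le h2 h ht0K ht0).1 y hy
    have hcard : Nat.card (Subgroup.centralizer {t0}) = {y : S F | Commute y t0}.ncard := by
      rw [← Nat.card_coe_set_eq]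
      apply Nat.card_congr
      apply Equiv.setCongr
      ext c
      simp only [Set.mem_setOf_eq, SetLike.mem_coe, Subgroup.mem_centralizer_singleton_iff]
      exact Iff.rfl
    obtain ⟨m, hm⟩ := Subgroup.card_dvd_of_le hle
    rw [hcard] at hm
    have hKpos : 0 < Nat.card K := Nat.card_pos
    have hm0 : m ≠ 0 := by
      rintro rfl
      rw [mul_zero] at hm
      omega
    have hm1 : m ≠ 1 := by
      rintro rfl
      rw [mul_one] at hm
      have he : Subgroup.centralizer {t0} = K :=
        Subgroup.eq_of_le_of_card_ge hle (by rw [hcard, hm])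
      obtain ⟨s, hsK, hs⟩ := (cent_le h2 h ht0K ht0).2
      rw [← he, Subgroup.mem_centralizer_singleton_iff] at hsK
      -- s t = t s and s t = - t s
      have h5 : s * t0 = -(s * t0) := by
        nth_rewrite 1 [hs]; rw [hsK]
      apply hone
      have h6 := congrArg (fun z => (s * t0)⁻¹ * z) h5
      simpa using h6
    rw [hm, mul_comm 2]
    exact Nat.mul_le_mul_left _ (by omega)
  exact arith (k := Nat.card K) (i := B.card) (c := {y : S F | Commute y t0}.ncard) (n := n)
    (by rw [← hsum, hAc]; ring) (by rw [hI, hn']; ring) h2c (six_le h2 hF hn ht0) hn1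

/-- main theorem, odd characteristic -/
theorem odd_main [Finite F] (h2 : (2 : F) ≠ 0) (hF : 5 < Nat.card F)
    {K : Subgroup (S F)} (h : Good ZZ K) : K = ⊤ ∨ K ≤ ZZ := by
  by_contra hcon
  push Not at hcon
  obtain ⟨hK, hKZ⟩ := hcon
  rw [SetLike.not_le_iff_exists] at hKZ
  obtain ⟨x, hx, hxs⟩ := hKZ
  rw [mem_center] at hxs
  have h0 : ∀ x ∈ K, ¬ Sc x → tr x ≠ 0 := by
    intro x hx _ hx0
    by_cases hn : IsSquare (-1 : F)
    · obtain ⟨i, hi⟩ := hn
      exact tr_ne_zero_one h2 hF (i := i) (by rw [hi]; ring) h hK hx hx0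
    · exact tr_ne_zero_two h2 hF hn h hK hx hx0
  exact h2 (tr_one h h0 (fun x hx hxs => tr_ne_four_odd h2 h hK hx hxs) hx hxs).1

end H61.BinSL2
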