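import Mathlib
import Cfsg.Agent.Lib.H61.BinSL2

/-!
Binary subgroups of `SL₂(F)`, even characteristic (helper61).
-/

namespace H61.BinSL2

open H61.BinAct H61.SL2x

variable {F : Type*} [Field F]

local notation "ZZ" => Subgroup.center (S F)

/-- the upper unipotent group -/
def UU (F : Type*) [Field F] : Subgroup (S F) where
  carrier := {x | x 1 0 = 0 ∧ x 0 0 = 1}
  one_mem' := ⟨rfl, rfl⟩
  mul_mem' := by
    rintro x y ⟨h1, h2⟩ ⟨h3, h4⟩
    have hd := det_eq x
    rw [h1, h2] at hd
    constructor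
    · simp [h1, h3]
    · simp [h2, h3, h4]
  inv_mem' := by
    rintro x ⟨h1, h2⟩
    have hd := det_eq x
    rw [h1, h2] at hd
    constructor
    · simp [h1]
    · simp; linear_combination hd

theorem mem_UU {x : S F} : x ∈ UU F ↔ x 1 0 = 0 ∧ x 0 0 = 1 := Iff.rfl

theorem eq_u {x : S F} (h : x ∈ UU F) : x = u (x 0 1) := by
  obtain ⟨h1, h2⟩ := h
  have hd := det_eq x
  rw [h1, h2] at hd
  apply ext'
  · simp [u, h2]
  · simp [u]
  · simp [u, h1]
  · simp [u]; linear_combination hd

theorem u_mem_UU (a : F) : u a ∈ UU F := ⟨by simp [u], by simp [u]⟩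

/-- generation -/
theorem gen {X : Subgroup (S F)} (hu : ∀ a, u a ∈ X) {y : S F} (hy : y ∈ X) (hy0 : y 1 0 ≠ 0) :
    X = ⊤ := by
  obtain ⟨c, hc⟩ : ∃ c, c = y 1 0 := ⟨_, rfl⟩
  have hc0 : c ≠ 0 := by rw [hc]; exact hy0
  have hd := det_eq y
  rw [← hc] at hd
  have h1 : mk 0 (-1 / c) c 0 (by field_simp; ring) ∈ X := by
    have e : mk 0 (-1 / c) c 0 (by field_simp; ring) =
        u (-(y 0 0) / c) * y * u (-(y 1 1) / c) := by
      apply ext'
      · simp [u, ← hc]; field_simp; ring
      · simp [u, ← hc]; field_simp; linear_combination hd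
      · simp [u, ← hc]
      · simp [u, ← hc]; field_simp; ring
    rw [e]
    exact X.mul_mem (X.mul_mem (hu _) hy) (hu _)
  apply eq_top_of X hu
  intro x
  have h3 := X.mul_mem (X.mul_mem h1 (hu (-x / c ^ 2))) (X.inv_mem h1)
  have e : mk 0 (-1 / c) c 0 (by field_simp; ring) * u (-x / c ^ 2) *
      (mk 0 (-1 / c) c 0 (by field_simp; ring))⁻¹ = l x := by
    apply ext'
    · simp [u, l]; field_simp
    · simp [u, l]
    · simp [u, l]; field_simp
    · simp [u, l]; field_simp
  rwa [e] at h3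

theorem sqrt2 [Finite F] (h2 : (2 : F) = 0) (a : F) : ∃ s : F, s ^ 2 = a := by
  have hc2 : ringChar F = 2 := by
    apply CharP.ringChar_of_prime_eq_zero Nat.prime_two
    exact_mod_cast h2
  obtain ⟨t, ht⟩ := FiniteField.isSquare_of_char_two hc2 a
  exact ⟨t, by rw [ht]; ring⟩

theorem pow_four (h2 : (2 : F) = 0) {t : F} (ht : t ^ 4 = 1) : t = 1 := by
  have : (t - 1) ^ 4 = 0 := by
    linear_combination ht + (-2 * t ^ 3 + 3 * t ^ 2 - 2 * t + 1) * h2
  have := pow_eq_zero_iff (four_ne_zero) |>.1 this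
  linear_combination this

theorem sc_one_of (h2 : (2 : F) = 0) {x : S F} (h : Sc x) : x = 1 := by
  rcases h.eq_or with h | h
  · exact h
  · rw [h]
    apply ext'
    · simp; linear_combination -h2
    · simp
    · simp
    · simp; linear_combination -h2

theorem even_u [Finite F] (h2 : (2 : F) = 0) {K : Subgroup (S F)} (h : Good ZZ K) (hK : K ≠ ⊤)
    {a : F} (ha : a ≠ 0) (hua : u a ∈ K) : K = UU F := by
  have hcj : ∀ b : F, b ≠ 0 → ∃ g : S F, g⁻¹ * u b * g = u a := by
    intro b hb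
    obtain ⟨s, hs⟩ := sqrt2 h2 (b / a)
    have hs0 : s ≠ 0 := by
      rintro rfl
      have : b / a ≠ 0 := div_ne_zero hb ha
      apply this; rw [← hs]; ring
    refine ⟨dg s hs0, ?_⟩
    rw [mul_assoc, inv_mul_eq_iff_eq_mul]
    have hs' : s ^ 2 * a = b := by rw [hs]; field_simp
    apply ext'
    · simp [u, dg]
    · simp [u, dg]; field_simp; linear_combination -hs'
    · simp [u, dg]
    · simp [u, dg]
  have hall : ∀ b, u b ∈ K := by
    intro b
    by_cases hb : b = 0
    · have : u b = 1 := by rw [hb]; apply ext' <;> simp [u]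
      rw [this]; exact K.one_mem
    by_cases hba : b + a = 0
    · have : b = a := by linear_combination hba - a * h2
      rw [this]; exact hua
    obtain ⟨g, hg⟩ := hcj b hb
    obtain ⟨k, hk⟩ := hcj (b + a) hba
    refine h.star (a := u a) (b := u b) (x := g) (y := k) hua
      (by rw [mem_center]; exact u_not_sc ha) (by rw [hg]; exact hua) ?_
    have e : u b * u a = u (b + a) := by
      apply ext' <;> simp [u]; ring
    rw [e, hk]; exact hua
  apply le_antisymm
  · intro x hx
    have h10 : x 1 0 = 0 := by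
      by_contra hne
      exact hK (gen hall hx hne)
    refine ⟨h10, ?_⟩
    by_contra ht
    have hd := det_eq x
    rw [h10] at hd
    have ht0 : x 0 0 ≠ 0 := by
      intro hc; rw [hc] at hd; simp at hd
    have h11 : x 1 1 = (x 0 0)⁻¹ := by
      apply mul_left_cancel₀ ht0
      rw [mul_inv_cancel₀ ht0]; linear_combination hd
    have hdg : dg (x 0 0) ht0 ∈ K := by
      have := K.mul_mem (hall (-(x 0 1) * x 0 0)) hx
      have e : u (-(x 0 1) * x 0 0) * x = dg (x 0 0) ht0 := by
        apply ext'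
        · simp [u, dg, h10]
        · simp [u, dg, h11]; field_simp; ring
        · simp [u, dg, h10]
        · simp [u, dg, h11]
      rwa [e] at this
    exact hK (split_top h ht0 hdg (fun hc => ht (pow_four h2 hc)))
  · intro x hx
    rw [eq_u hx]; exact hall _

theorem cj_cj (g k : S F) (K : Subgroup (S F)) : cj g (cj k K) = cj (g * k) K := by
  ext x
  rw [mem_cj, mem_cj, mem_cj]
  have e : k⁻¹ * (g⁻¹ * x * g) * k = (g * k)⁻¹ * x * (g * k) := by group
  rw [e]

theorem cj_one (K : Subgroup (S F)) : cj 1 K = K := by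
  ext x; rw [mem_cj]; simp

theorem cj_mono {g : S F} {K L : Subgroup (S F)} (h : K ≤ L) : cj g K ≤ cj g L := by
  intro x hx
  rw [mem_cj] at hx ⊢
  exact h hx

/-- a binary proper subgroup containing the unipotent group -/
theorem even_UU [Finite F] (h2 : (2 : F) = 0) {H : Subgroup (S F)} (hb : Bin H) (hH : H ≠ ⊤)
    (hU : UU F ≤ H) : H = UU F := by
  apply le_antisymm _ hU
  intro x hx
  have h10 : x 1 0 = 0 := by
    by_contra hne
    exact hH (gen (fun a => hU (u_mem_UU a)) hx hne)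
  refine ⟨h10, ?_⟩
  by_contra ht
  have hd := det_eq x
  rw [h10] at hd
  have ht0 : x 0 0 ≠ 0 := by
    intro hc; rw [hc] at hd; simp at hd
  have h11 : x 1 1 = (x 0 0)⁻¹ := by
    apply mul_left_cancel₀ ht0
    rw [mul_inv_cancel₀ ht0]; linear_combination hd
  have hdg : dg (x 0 0) ht0 ∈ H := by
    have := H.mul_mem (hU (u_mem_UU (-(x 0 1) * x 0 0))) hx
    have e : u (-(x 0 1) * x 0 0) * x = dg (x 0 0) ht0 := by
      apply ext'
      · simp [u, dg, h10]
      · simp [u, dg, h11]; field_simp; ring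
      · simp [u, dg, h10]
      · simp [u, dg, h11]
    rwa [e] at this
  have hne2 : (x 0 0) ^ 2 ≠ 1 := by
    intro hc
    apply ht
    apply pow_four h2
    have : (x 0 0) ^ 4 = ((x 0 0) ^ 2) ^ 2 := by ring
    rw [this, hc]; ring
  have hM : IntC H (H ⊓ cj w H) := (IntC.refl H).inter ((IntC.refl H).cj w)
  obtain ⟨K, hK1, hK2, hK3, hK4⟩ := exists_good (Z := ZZ) inferInstance (by
    intro z hz
    rw [sc_one_of h2 (mem_center.1 hz)]; exact H.one_mem) hb hM (by
    intro hc
    have : dg (x 0 0) ht0 ∈ H ⊓ cj w H := by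
      refine ⟨hdg, ?_⟩
      show dg (x 0 0) ht0 ∈ cj w H
      rw [mem_cj]
      have e : w⁻¹ * dg (x 0 0) ht0 * w = (dg (x 0 0) ht0)⁻¹ := by
        apply ext' <;> simp [w, dg]
      rw [e]; exact H.inv_mem hdg
    exact dg_not_sc ht0 hne2 (mem_center.1 (hc this)))
  rw [SetLike.not_le_iff_exists] at hK3
  obtain ⟨y, hy, hyZ⟩ := hK3
  rw [mem_center] at hyZ
  obtain ⟨hy1, hy2⟩ := hK2 hy
  replace hy2 : y ∈ cj w H := hy2
  replace hy1 : y ∈ H := hy1
  rw [mem_cj] at hy2
  have hy10 : y 1 0 = 0 := by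
    by_contra hne
    exact hH (gen (fun a => hU (u_mem_UU a)) hy1 hne)
  have hy01 : y 0 1 = 0 := by
    by_contra hne
    apply hH
    refine gen (fun a => hU (u_mem_UU a)) hy2 ?_
    simp [w]; exact hne
  have hdy := det_eq y
  rw [hy10, hy01] at hdy
  have hy0 : y 0 0 ≠ 0 := by
    intro hc; rw [hc] at hdy; simp at hdy
  have hy11 : y 1 1 = (y 0 0)⁻¹ := by
    apply mul_left_cancel₀ hy0
    rw [mul_inv_cancel₀ hy0]; linear_combination hdy
  have hye : y = dg (y 0 0) hy0 := by
    apply ext' <;> simp [dg, hy01, hy10, hy11]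
  have hy4 : (y 0 0) ^ 4 ≠ 1 := by
    intro hc
    apply hyZ
    refine ⟨hy01, hy10, ?_⟩
    rw [hy11, pow_four h2 hc, inv_one]
  have : K = ⊤ := split_top hK4 hy0 (by rw [← hye]; exact hy) hy4
  apply hH
  rw [eq_top_iff, ← this]
  exact le_trans hK2 inf_le_left

/-- a binary proper subgroup containing a non-trivial element of trace zero is conjugate to
the unipotent group -/
theorem even_one [Finite F] (h2 : (2 : F) = 0) {H : Subgroup (S F)} (hb : Bin H) (hH : H ≠ ⊤)
    {x : S F} (hx : x ∈ H) (hxs : ¬ Sc x) (hx0 : tr x = 0) : ∃ g, H = cj g (UU F) := by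
  -- reduce to `u a ∈ H`
  suffices hs : ∀ H : Subgroup (S F), Bin H → H ≠ ⊤ → ∀ a : F, a ≠ 0 → u a ∈ H →
      ∃ g, H = cj g (UU F) by
    obtain ⟨g, a, ha, hg⟩ := conj_u hxs (by rw [hx0, h2])
    obtain ⟨k, hk⟩ := hs (cj g⁻¹ H) (hb.cj g⁻¹) (fun hc => hH (cj_top hc)) a ha (by
      rw [mem_cj, ← hg]
      have e : (g⁻¹)⁻¹ * (g⁻¹ * x * g) * g⁻¹ = x := by group
      rw [e]; exact hx)
    refine ⟨g * k, ?_⟩
    rw [← cj_cj, ← hk, cj_cj, mul_inv_cancel, cj_one]
  clear hx hxs hx0 x hb hH H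
  intro H hb hH a ha hua
  have hZH : ZZ ≤ H := by
    intro z hz
    rw [sc_one_of h2 (mem_center.1 hz)]; exact H.one_mem
  let L : Subgroup (S F) :=
    { carrier := {z | ∀ s : S F, s⁻¹ * u a * s ∈ H → s⁻¹ * z * s ∈ H}
      one_mem' := fun s _ => by simp
      mul_mem' := by
        intro y z hy hz s hs
        have := H.mul_mem (hy s hs) (hz s hs)
        have e : s⁻¹ * y * s * (s⁻¹ * z * s) = s⁻¹ * (y * z) * s := by group
        rwa [e] at this
      inv_mem' := by
        intro y hy s hs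
        have := H.inv_mem (hy s hs)
        have e : (s⁻¹ * y * s)⁻¹ = s⁻¹ * y⁻¹ * s := by group
        rwa [e] at this }
  have hLmem : ∀ z, z ∈ L ↔ ∀ s : S F, s⁻¹ * u a * s ∈ H → s⁻¹ * z * s ∈ H := fun z => Iff.rfl
  have hL : IntC H L := ⟨{s | s⁻¹ * u a * s ∈ H}, ⟨1, by simpa using hua⟩, fun z => by
    rw [hLmem]; rfl⟩
  have huL : u a ∈ L := fun s hs => hs
  have hLH : L ≤ H := by
    intro z hz
    have := hz 1 (by simpa using hua)
    simpa using this
  obtain ⟨K, hK1, hK2, hK3, hK4⟩ := exists_good (Z := ZZ) inferInstance hZH hb hL (by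
    intro hc
    exact u_not_sc ha (mem_center.1 (hc huL)))
  have hKtop : K ≠ ⊤ := by
    rintro rfl
    apply hH
    rw [eq_top_iff]
    exact le_trans hK2 hLH
  rw [SetLike.not_le_iff_exists] at hK3
  obtain ⟨y, hy, hyZ⟩ := hK3
  rw [mem_center] at hyZ
  by_cases hcase : ∃ y ∈ K, ¬ Sc y ∧ tr y = 0
  · obtain ⟨y, hy, hys, hy0⟩ := hcase
    obtain ⟨g, b, hb0, hg⟩ := conj_u hys (by rw [hy0, h2])
    have hKU : cj g⁻¹ K = UU F := by
      refine even_u h2 (hK4.cj g⁻¹) (fun hc => hKtop (cj_top hc)) hb0 ?_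
      rw [mem_cj, ← hg]
      have e : (g⁻¹)⁻¹ * (g⁻¹ * y * g) * g⁻¹ = y := by group
      rw [e]; exact hy
    have h1 : cj g⁻¹ H = UU F := by
      refine even_UU h2 (hb.cj g⁻¹) (fun hc => hH (cj_top hc)) ?_
      rw [← hKU]
      exact cj_mono (le_trans hK2 hLH)
    refine ⟨g, ?_⟩
    rw [← h1, cj_cj, mul_inv_cancel, cj_one]
  · exfalso
    push Not at hcase
    have h4 : (4 : F) = 0 := by
      have : (4 : F) = 2 * 2 := by norm_num
      rw [this, h2]; ring
    have h44 : ∀ x ∈ K, ¬ Sc x → tr x ^ 2 ≠ 4 := by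
      intro x hx hxs hc
      rw [h4] at hc
      exact hcase x hx hxs (pow_eq_zero_iff (two_ne_zero) |>.1 hc)
    have ht1 := (tr_one hK4 hcase h44 hy hyZ).2
    have hy10 : y 1 0 ≠ 0 := by
      intro hc
      have hd := det_eq y
      rw [hc] at hd
      have hy0 : y 0 0 ≠ 0 := by
        intro hc'; rw [hc'] at hd; simp at hd
      have hy11 : y 1 1 = (y 0 0)⁻¹ := by
        apply mul_left_cancel₀ hy0
        rw [mul_inv_cancel₀ hy0]; linear_combination hd
      refine not_split hK4 hKtop hy hy0 ?_ (by rw [← hy11]; rfl)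
      intro hc4
      have := pow_four h2 hc4
      rw [tr, hy11, this, inv_one] at ht1
      apply one_ne_zero (α := F)
      linear_combination ht1
    have hNL : nrm L = ⊤ := by
      refine gen (X := nrm L) ?_ (le_nrm L (hK2 hy)) hy10
      intro x
      have hstep : ∀ x : F, ∀ k, k ∈ L → (u x)⁻¹ * k * u x ∈ L := by
        intro x k hk s hs
        have := hk (u x * s) (by
          have e : (u x * s)⁻¹ * u a * (u x * s) = s⁻¹ * ((u x)⁻¹ * u a * u x) * s := by group
          have e2 : (u x)⁻¹ * u a * u x = u a := by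
            apply ext' <;> simp [u]
          rw [e, e2]; exact hs)
        have e : (u x * s)⁻¹ * k * (u x * s) = s⁻¹ * ((u x)⁻¹ * k * u x) * s := by group
        rwa [e] at this
      intro k
      refine ⟨hstep x k, fun hk => ?_⟩
      have := hstep (-x) _ hk
      have e : (u (-x) : S F) = (u x)⁻¹ := by
        apply ext' <;> simp [u]
      rw [e] at this
      have e2 : ((u x)⁻¹)⁻¹ * ((u x)⁻¹ * k * u x) * (u x)⁻¹ = k := by group
      rwa [e2] at this
    have hinv : ∀ g k : S F, k ∈ L → g⁻¹ * k * g ∈ L := by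
      intro g k hk
      have : g ∈ nrm L := by rw [hNL]; trivial
      exact (this k).1 hk
    have huall : ∀ b, u b ∈ L := by
      intro b
      by_cases hb : b = 0
      · have : u b = 1 := by rw [hb]; apply ext' <;> simp [u]
        rw [this]; exact L.one_mem
      obtain ⟨s, hs⟩ := sqrt2 h2 (a / b)
      have hs0 : s ≠ 0 := by
        rintro rfl
        have : a / b ≠ 0 := div_ne_zero ha hb
        apply this; rw [← hs]; ring
      have := hinv (dg s hs0) (u a) huL
      have e : (dg s hs0)⁻¹ * u a * dg s hs0 = u b := by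
        rw [mul_assoc, inv_mul_eq_iff_eq_mul]
        have hs' : s ^ 2 * b = a := by rw [hs]; field_simp
        apply ext'
        · simp [u, dg]
        · simp [u, dg]; field_simp; linear_combination -hs'
        · simp [u, dg]
        · simp [u, dg]
      rwa [e] at this
    have : L = ⊤ := gen huall (hK2 hy) hy10
    apply hH
    rw [eq_top_iff, ← this]
    exact hLH

/-- the case without involutions -/
theorem even_two [Finite F] (h2 : (2 : F) = 0) {H : Subgroup (S F)} (hb : Bin H) (hH : H ≠ ⊤)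
    (h0 : ∀ x ∈ H, ¬ Sc x → tr x ≠ 0) {x : S F} (hx : x ∈ H) (hxs : ¬ Sc x) :
    Nat.card H = 3 ∧ ∀ t : F, t ≠ 0 → t + t⁻¹ ≠ 1 := by
  classical
  have h4 : (4 : F) = 0 := by
    have : (4 : F) = 2 * 2 := by norm_num
    rw [this, h2]; ring
  have h44 : ∀ x ∈ H, ¬ Sc x → tr x ^ 2 ≠ 4 := by
    intro x hx hxs hc
    rw [h4] at hc
    exact h0 x hx hxs (pow_eq_zero_iff (two_ne_zero) |>.1 hc)
  have hab := abel h0 h44
  have hZH : ZZ ≤ H := by
    intro z hz
    rw [sc_one_of h2 (mem_center.1 hz)]; exact H.one_mem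
  have step : ∀ g z : S F, z ∈ H → z ∉ ZZ → g⁻¹ * z * g ∈ H → ∀ k, k ∈ H → g⁻¹ * k * g ∈ H := by
    intro g z hz hzZ hg k hk
    rw [mem_center] at hzZ
    by_cases hks : Sc k
    · rw [hks.conj]; exact hk
    have c1 : Commute (g⁻¹ * z * g) z := hab _ hg _ hz
    have c2 : g⁻¹ * z * g = z ∨ g⁻¹ * z * g = z⁻¹ := eq_or_inv c1 (tr_conj _ _) (h44 z hz hzZ)
    have c3 : Commute (g⁻¹ * k * g) (g⁻¹ * z * g) := by
      show g⁻¹ * k * g * (g⁻¹ * z * g) = g⁻¹ * z * g * (g⁻¹ * k * g)
      have l : g⁻¹ * k * g * (g⁻¹ * z * g) = g⁻¹ * (k * z) * g := by group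
      have r : g⁻¹ * z * g * (g⁻¹ * k * g) = g⁻¹ * (z * k) * g := by group
      rw [l, r, (hab k hk z hz).eq]
    have c4 : Commute (g⁻¹ * k * g) z := by
      rcases c2 with h | h
      · rwa [h] at c3
      · rw [h] at c3
        simpa using c3.inv_right
    have c5 : Commute (g⁻¹ * k * g) k := comm_of hzZ c4 (hab k hk z hz)
    rcases eq_or_inv c5 (tr_conj _ _) (h44 k hk hks) with h | h
    · rw [h]; exact hk
    · rw [h]; exact H.inv_mem hk
  have hG : Good ZZ H := by
    refine ⟨inferInstance, hZH, ?_, hb⟩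
    intro g z hz hzZ hg k
    refine ⟨step g z hz hzZ hg k, fun hk => ?_⟩
    have := step g⁻¹ (g⁻¹ * z * g) hg (by
      rw [mem_center] at hzZ ⊢
      exact fun h => hzZ h.of_conj) (by simpa [mul_assoc] using hz) _ hk
    simpa [mul_assoc] using this
  have ht1 : ∀ y ∈ H, ¬ Sc y → tr y = 1 := fun y hy hys => (tr_one hG h0 h44 hy hys).2
  constructor
  · have hset : (H : Set (S F)) = {1, x, x⁻¹} := by
      ext y
      simp only [SetLike.mem_coe, Set.mem_insert_iff, Set.mem_singleton_iff]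
      constructor
      · intro hy
        by_cases hys : Sc y
        · left; exact sc_one_of h2 hys
        · right
          exact eq_or_inv (hab y hy x hx) (by rw [ht1 y hy hys, ht1 x hx hxs]) (h44 x hx hxs)
      · rintro (rfl | rfl | rfl)
        · exact H.one_mem
        · exact hx
        · exact H.inv_mem hx
    have hx1 : x ≠ 1 := by rintro rfl; exact hxs sc_one
    have hxi : x ≠ x⁻¹ := by
      intro hc
      have h5 := ht1 x hx hxs
      have h6 := congrArg (fun t : S F => t 0 0) hc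
      simp only [i00] at h6
      rw [tr, h6] at h5
      apply one_ne_zero (α := F)
      linear_combination -h5 + (x 1 1) * h2
    have hxi1 : x⁻¹ ≠ 1 := by simpa using hx1
    have : Nat.card H = (H : Set (S F)).ncard := by
      rw [← Nat.card_coe_set_eq]; rfl
    rw [this, hset, Set.ncard_insert_of_notMem, Set.ncard_pair hxi]
    simp only [Set.mem_insert_iff, Set.mem_singleton_iff, not_or]
    exact ⟨hx1.symm, hxi1.symm⟩
  · intro t ht hc
    refine not_split hG hH hx ht ?_ (by rw [hc]; exact ht1 x hx hxs)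
    intro hc4
    have := pow_four h2 hc4
    rw [this, inv_one] at hc
    apply one_ne_zero (α := F)
    linear_combination hc

end H61.BinSL2
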