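import Mathlib
import Cfsg.Agent.Lib.H61.BinSL2b
import Cfsg.Agent.Lib.H61.BinSL2c

/-!
Binary subgroups of `SL₂(F)`, even characteristic, converse direction (helper61).
-/

namespace H61.BinSL2

open H61.BinAct H61.SL2x

variable {F : Type*} [Field F]

local notation "ZZ" => Subgroup.center (S F)

theorem commute_tz (h2 : (2 : F) = 0) {a y : S F} (ha : ¬ Sc a) (ha0 : tr a = 0)
    (hy : Commute y a) : y 0 0 = y 1 1 := by
  have a2 := congrArg (fun t : S F => t 0 1) hy.eq
  have a3 := congrArg (fun t : S F => t 1 0) hy.eq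
  simp only [m01, m10] at a2 a3
  unfold tr at ha0
  have hd : a 0 0 = a 1 1 := by linear_combination ha0 - (a 1 1) * h2
  have hx' : a 0 1 ≠ 0 ∨ a 1 0 ≠ 0 := by
    by_contra hc
    push Not at hc
    exact ha ⟨hc.1, hc.2, hd⟩
  rw [hd] at a2 a3
  rcases hx' with h | h
  · apply mul_left_cancel₀ h
    linear_combination a2
  · apply mul_left_cancel₀ h
    linear_combination -a3

theorem inv_self (h2 : (2 : F) = 0) {y : S F} (hy : tr y = 0) : y⁻¹ = y := by
  unfold tr at hy
  apply ext'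
  · simp; linear_combination hy - (y 0 0) * h2
  · simp; linear_combination -(y 0 1) * h2
  · simp; linear_combination -(y 1 0) * h2
  · simp; linear_combination hy - (y 1 1) * h2

theorem tr_pow_two (h2 : (2 : F) = 0) (x : S F) (k : ℕ) : tr (x ^ (2 ^ k)) = (tr x) ^ (2 ^ k) := by
  induction k with
  | zero => simp
  | succ n ih =>
    have e : x ^ (2 ^ (n + 1)) = x ^ (2 ^ n) * x ^ (2 ^ n) := by
      rw [← pow_add]; congr 1; ring
    have e2 : ∀ y : S F, tr (y * y) = tr y ^ 2 := by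
      intro y
      have hd := det_eq y
      simp only [tr, m00, m11]
      linear_combination (-2) * hd - h2
    rw [e, e2, ih, ← pow_mul]
    congr 1

theorem tz_of_pow (h2 : (2 : F) = 0) {x : S F} {k : ℕ} (h : x ^ (2 ^ k) = 1) : tr x = 0 := by
  have := tr_pow_two h2 x k
  rw [h] at this
  have h1 : tr (1 : S F) = 0 := by simp only [tr, o00, o11]; linear_combination h2
  rw [h1] at this
  exact pow_eq_zero_iff (by positivity) |>.1 this.symm

section quot

variable {G' : Type*} [Group G'] (π : S F →* G')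

theorem tz_of_pgroup (hk : π.ker = Subgroup.center (S F)) (h2 : (2 : F) = 0) {Q : Subgroup G'} (hQ : IsPGroup 2 Q) {x : S F}
    (hx : π x ∈ Q) : tr x = 0 := by
  obtain ⟨k, hk'⟩ := hQ ⟨π x, hx⟩
  have h1 : π (x ^ (2 ^ k)) = 1 := by
    have := congrArg Subtype.val hk'
    simpa using this
  have h3 : x ^ (2 ^ k) ∈ π.ker := h1
  rw [hk, mem_center] at h3
  exact tz_of_pow h2 (sc_one_of h2 h3)

theorem comm_of_tz (h2 : (2 : F) = 0) {x y : S F} (hx : tr x = 0) (hy : tr y = 0)
    (hxy : tr (x * y) = 0) : Commute x y := by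
  have h1 := inv_self h2 hx
  have h3 := inv_self h2 hy
  have h4 := inv_self h2 hxy
  show x * y = y * x
  rw [← h4, mul_inv_rev, h1, h3]

theorem sylow_bin (hs : Function.Surjective π) (hk : π.ker = Subgroup.center (S F)) (h2 : (2 : F) = 0) (P : Sylow 2 G') :
    Bin ((P : Subgroup G').comap π) := by
  have h0 : ∀ x ∈ (P : Subgroup G').comap π, tr x = 0 := fun x hx =>
    tz_of_pgroup π hk h2 P.isPGroup' hx
  have hcent : ∀ a ∈ (P : Subgroup G').comap π, a ≠ 1 → ∀ y, Commute y a →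
      y ∈ (P : Subgroup G').comap π := by
    intro a ha ha1 y hy
    have has : ¬ Sc a := fun h => ha1 (sc_one_of h2 h)
    have hQ : IsPGroup 2 ((Subgroup.centralizer {a}).map π) := by
      rintro ⟨_, z, hz, rfl⟩
      refine ⟨1, ?_⟩
      apply Subtype.ext
      have hz' : Commute z a := by
        have := Subgroup.mem_centralizer_singleton_iff.1 hz
        exact this
      have hzz := commute_tz h2 has (h0 a ha) hz'
      have hz0 : tr z = 0 := by
        unfold tr; rw [hzz]; linear_combination (z 1 1) * h2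
      have h5 := inv_self h2 hz0
      show (π z) ^ (2 ^ 1) = 1
      rw [pow_one, sq, ← map_mul]
      nth_rewrite 1 [← h5]
      rw [inv_mul_cancel, map_one]
    have hle : (P : Subgroup G') ≤ (Subgroup.centralizer {a}).map π := by
      intro q hq
      obtain ⟨z, rfl⟩ := hs q
      refine ⟨z, ?_, rfl⟩
      rw [SetLike.mem_coe, Subgroup.mem_centralizer_singleton_iff]
      have hzm : z ∈ (P : Subgroup G').comap π := hq
      exact (comm_of_tz h2 (h0 z hzm) (h0 a ha) (h0 _ (Subgroup.mul_mem _ hzm ha))).eq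
    have he := P.is_maximal' hQ hle
    show π y ∈ (P : Subgroup G')
    have : π y ∈ (Subgroup.centralizer {a}).map π := by
      refine ⟨y, ?_, rfl⟩
      rw [SetLike.mem_coe, Subgroup.mem_centralizer_singleton_iff]
      exact hy
    rw [he] at this
    exact this
  apply bin_of_ti
  · have step : ∀ g z : S F, z ∈ (P : Subgroup G').comap π → z ∉ (⊥ : Subgroup (S F)) →
        g⁻¹ * z * g ∈ (P : Subgroup G').comap π →
        ∀ k, k ∈ (P : Subgroup G').comap π → g⁻¹ * k * g ∈ (P : Subgroup G').comap π := by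
      intro g z hz hz1 hg k hk'
      rw [Subgroup.mem_bot] at hz1
      have hkz : Commute k z := comm_of_tz h2 (h0 k hk') (h0 z hz) (h0 _ (Subgroup.mul_mem _ hk' hz))
      refine hcent (g⁻¹ * z * g) hg ?_ _ ?_
      · intro hc
        apply hz1
        have : z = g * (g⁻¹ * z * g) * g⁻¹ := by group
        rw [this, hc]; simp
      · show g⁻¹ * k * g * (g⁻¹ * z * g) = g⁻¹ * z * g * (g⁻¹ * k * g)
        have l : g⁻¹ * k * g * (g⁻¹ * z * g) = g⁻¹ * (k * z) * g := by group
        have r : g⁻¹ * z * g * (g⁻¹ * k * g) = g⁻¹ * (z * k) * g := by group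
        rw [l, r, hkz.eq]
    intro g z hz hz1 hg k
    refine ⟨step g z hz hz1 hg k, fun hk' => ?_⟩
    have := step g⁻¹ (g⁻¹ * z * g) hg (by
      rw [Subgroup.mem_bot] at hz1 ⊢
      intro hc
      apply hz1
      have : z = g * (g⁻¹ * z * g) * g⁻¹ := by group
      rw [this, hc]; simp) (by simpa [mul_assoc] using hz) _ hk'
    simpa [mul_assoc] using this
  · intro a b x y ha ha1 hb hb1 hba
    have hb0 : tr b = 0 := by rw [← tr_conj x]; exact h0 _ hb
    have hba0 : tr (b * a) = 0 := by rw [← tr_conj y]; exact h0 _ hba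
    exact hcent a ha ha1 b (comm_of_tz h2 hb0 (h0 a ha) hba0)

theorem sylow_of (hs : Function.Surjective π) (hk : π.ker = Subgroup.center (S F)) (h2 : (2 : F) = 0) {H : Subgroup G'} {g : S F}
    (hH : H.comap π = cj g (UU F)) : ∃ P : Sylow 2 G', H = P := by
  have hz0 : ∀ z ∈ cj g (UU F), tr z = 0 := by
    intro z hz
    rw [mem_cj] at hz
    rw [← tr_conj g, eq_u hz]
    simp only [tr, u, mk00, mk11]; linear_combination h2
  have hmem : ∀ z, π z ∈ H ↔ z ∈ cj g (UU F) := fun z => by rw [← hH]; exact Iff.rfl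
  have hHp : IsPGroup 2 H := by
    rintro ⟨q, hq⟩
    obtain ⟨z, rfl⟩ := hs q
    refine ⟨1, Subtype.ext ?_⟩
    have h5 := inv_self h2 (hz0 z ((hmem z).1 hq))
    show (π z) ^ (2 ^ 1) = 1
    rw [pow_one, sq, ← map_mul]
    nth_rewrite 1 [← h5]
    rw [inv_mul_cancel, map_one]
  refine ⟨⟨H, hHp, ?_⟩, rfl⟩
  intro Q hQ hle
  apply le_antisymm _ hle
  intro q hq
  obtain ⟨z, rfl⟩ := hs q
  rw [hmem, mem_cj]
  have ha : g * u 1 * g⁻¹ ∈ cj g (UU F) := by
    rw [mem_cj]
    have e : g⁻¹ * (g * u 1 * g⁻¹) * g = u 1 := by group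
    rw [e]; exact u_mem_UU 1
  have haQ : π (g * u 1 * g⁻¹) ∈ Q := hle ((hmem _).2 ha)
  have t1 := tz_of_pgroup π hk h2 hQ hq
  have t2 := tz_of_pgroup π hk h2 hQ haQ
  have t3 := tz_of_pgroup π hk h2 hQ (x := z * (g * u 1 * g⁻¹)) (by
    rw [map_mul]; exact Q.mul_mem hq haQ)
  have hc := comm_of_tz h2 t1 t2 t3
  have hc' : Commute (g⁻¹ * z * g) (u 1) := by
    show g⁻¹ * z * g * u 1 = u 1 * (g⁻¹ * z * g)
    have l : g⁻¹ * z * g * u 1 = g⁻¹ * (z * (g * u 1 * g⁻¹)) * g := by group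
    have r : u 1 * (g⁻¹ * z * g) = g⁻¹ * ((g * u 1 * g⁻¹) * z) * g := by group
    rw [l, r, hc.eq]
  obtain ⟨y, hy⟩ : ∃ y, y = g⁻¹ * z * g := ⟨_, rfl⟩
  rw [← hy] at hc' ⊢
  have e1 := congrArg (fun t : S F => t 0 0) hc'.eq
  have e2 := congrArg (fun t : S F => t 0 1) hc'.eq
  simp [u] at e1 e2
  have hd := det_eq y
  rw [e1] at hd
  refine ⟨e1, ?_⟩
  have h3 : (y 0 0 - 1) ^ 2 = 0 := by
    linear_combination hd + (y 0 0) * e2 + (1 - y 0 0) * h2
  have := pow_eq_zero_iff (two_ne_zero) |>.1 h3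
  linear_combination this

end quot

theorem three_bin [Finite F] (h2 : (2 : F) = 0) {H : Subgroup (S F)} (hH : Nat.card H = 3)
    (hF : ∀ t : F, t ≠ 0 → t + t⁻¹ ≠ 1) : Bin H := by
  have ht1 : ∀ x : S F, x ^ 3 = 1 → x ≠ 1 → tr x = 1 := by
    intro x hx hx1
    have hxs : ¬ Sc x := fun h => hx1 (sc_one_of h2 h)
    have hd := det_eq x
    have e1 := congrArg (fun t : S F => t 0 0) hx
    have e2 := congrArg (fun t : S F => t 0 1) hx
    have e3 := congrArg (fun t : S F => t 1 0) hx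
    have e4 := congrArg (fun t : S F => t 1 1) hx
    simp only [pow_succ, pow_zero, one_mul, m00, m01, m10, m11, o00, o01, o10, o11] at e1 e2 e3 e4
    have k : (tr x ^ 2 - 1) * x 0 1 = 0 := by
      unfold tr; linear_combination e2 + (x 0 1) * hd
    have k2 : (tr x ^ 2 - 1) * x 1 0 = 0 := by
      unfold tr; linear_combination e3 + (x 1 0) * hd
    have k3 : (tr x ^ 2 - 1) * (x 0 0 - x 1 1) = 0 := by
      unfold tr; linear_combination e1 - e4 + (x 0 0 - x 1 1) * hd
    have hx' : x 0 1 ≠ 0 ∨ x 1 0 ≠ 0 ∨ x 0 0 - x 1 1 ≠ 0 := by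
      by_contra hc
      push Not at hc
      exact hxs ⟨hc.1, hc.2.1, by linear_combination hc.2.2⟩
    have k4 : tr x ^ 2 - 1 = 0 := by
      rcases hx' with h | h | h
      · exact (mul_eq_zero.1 k).resolve_right h
      · exact (mul_eq_zero.1 k2).resolve_right h
      · exact (mul_eq_zero.1 k3).resolve_right h
    have k5 : (tr x - 1) ^ 2 = 0 := by linear_combination k4 + (1 - tr x) * h2
    have := pow_eq_zero_iff (two_ne_zero) |>.1 k5
    linear_combination this
  have hpow : ∀ x ∈ H, x ^ 3 = 1 := by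
    intro x hx
    have := pow_card_eq_one' (x := (⟨x, hx⟩ : H))
    rw [hH] at this
    exact congrArg Subtype.val this
  have hgen : ∀ z ∈ H, z ≠ 1 → ∀ k ∈ H, k = 1 ∨ k = z ∨ k = z⁻¹ := by
    intro z hz hz1 k hk
    have hp : (Nat.card H).Prime := by rw [hH]; exact Nat.prime_three
    have h1 : (⟨k, hk⟩ : H) ∈ Subgroup.zpowers (⟨z, hz⟩ : H) := by
      have : Fact (Nat.card H).Prime := ⟨hp⟩
      exact mem_zpowers_of_prime_card rfl (fun h => hz1 (congrArg Subtype.val h))
    obtain ⟨n, hn⟩ := h1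
    have hn' : z ^ n = k := congrArg Subtype.val hn
    have h3 : z ^ (3 : ℤ) = 1 := by exact_mod_cast hpow z hz
    have h5 : n = 3 * (n / 3) + n % 3 := (Int.mul_ediv_add_emod n 3).symm
    have h6 : z ^ n = z ^ (n % 3) := by
      conv_lhs => rw [h5, zpow_add, zpow_mul, h3, one_zpow, one_mul]
    have h7 : n % 3 = 0 ∨ n % 3 = 1 ∨ n % 3 = 2 := by omega
    rcases h7 with h7 | h7 | h7
    · left; rw [← hn', h6, h7, zpow_zero]
    · right; left; rw [← hn', h6, h7, zpow_one]
    · right; right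
      rw [← hn', h6, h7]
      have h8 : z ^ (3 : ℤ) = z ^ (2 : ℤ) * z := by
        have := zpow_add z 2 1
        simpa using this
      rw [h3] at h8
      exact eq_inv_of_mul_eq_one_left h8.symm
  apply bin_of_ti
  · have step : ∀ g z : S F, z ∈ H → z ∉ (⊥ : Subgroup (S F)) → g⁻¹ * z * g ∈ H →
        ∀ k, k ∈ H → g⁻¹ * k * g ∈ H := by
      intro g z hz hz1 hg k hk
      rw [Subgroup.mem_bot] at hz1
      rcases hgen z hz hz1 k hk with h | h | h
      · rw [h]; simp
      · rw [h]; exact hg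
      · rw [h]
        have := H.inv_mem hg
        have e : (g⁻¹ * z * g)⁻¹ = g⁻¹ * z⁻¹ * g := by group
        rwa [e] at this
    intro g z hz hz1 hg k
    refine ⟨step g z hz hz1 hg k, fun hk => ?_⟩
    have := step g⁻¹ (g⁻¹ * z * g) hg (by
      rw [Subgroup.mem_bot] at hz1 ⊢
      intro hc
      apply hz1
      have : z = g * (g⁻¹ * z * g) * g⁻¹ := by group
      rw [this, hc]; simp) (by simpa [mul_assoc] using hz) _ hk
    simpa [mul_assoc] using this
  · intro a b x y ha ha1 hb hb1 hba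
    by_contra hbH
    have ta : tr a = 1 := ht1 a (hpow a ha) ha1
    have hb3 : b ^ 3 = 1 := by
      have h1 := hpow _ hb
      have e : (x⁻¹ * b * x) ^ 3 = x⁻¹ * b ^ 3 * x := by
        simp only [pow_succ, pow_zero, one_mul]; group
      rw [e] at h1
      have e2 : b ^ 3 = x * (x⁻¹ * b ^ 3 * x) * x⁻¹ := by group
      rw [e2, h1]; simp
    have tb : tr b = 1 := ht1 b hb3 hb1
    have hba1 : b * a ≠ 1 := by
      intro hc
      apply hbH
      rw [eq_inv_of_mul_eq_one_left hc]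
      exact H.inv_mem ha
    have hba3 : (b * a) ^ 3 = 1 := by
      have h1 := hpow _ hba
      have e : (y⁻¹ * (b * a) * y) ^ 3 = y⁻¹ * (b * a) ^ 3 * y := by
        simp only [pow_succ, pow_zero, one_mul]; group
      rw [e] at h1
      have e2 : (b * a) ^ 3 = y * (y⁻¹ * (b * a) ^ 3 * y) * y⁻¹ := by group
      rw [e2, h1]; simp
    have tba : tr (b * a) = 1 := ht1 _ hba3 hba1
    -- c = b a⁻¹
    obtain ⟨c, hc⟩ : ∃ c, c = b * a⁻¹ := ⟨_, rfl⟩
    have tc : tr c = 0 := by
      have h5 : tr (b * a⁻¹) = tr b * tr a - tr (b * a) := by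
        simp only [tr, m00, m11, i00, i01, i10, i11]; ring
      rw [hc, h5, ta, tb, tba]; ring
    have hcs : ¬ Sc c := by
      intro h
      have h1 := sc_one_of h2 h
      rw [hc] at h1
      apply hbH
      rw [mul_inv_eq_one.1 h1]; exact ha
    have hcc := inv_self h2 tc
    have hbca : b = c * a := by rw [hc]; group
    have ha3 := hpow a ha
    -- c and a c a⁻¹ commute
    have tcc : tr (c * (a * c * a⁻¹)) = 0 := by
      -- c (a c a⁻¹)(a² c a⁻²) = 1
      have h5 : c * (a * c * a⁻¹) * (a ^ 2 * c * a⁻¹ ^ 2) = 1 := by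
        have h6 : c * (a * c * a⁻¹) * (a ^ 2 * c * a⁻¹ ^ 2) = (c * a) ^ 3 * (a ^ 3)⁻¹ := by
          simp only [pow_succ, pow_zero, one_mul, mul_assoc, inv_mul_cancel_left, mul_inv_rev,
            mul_inv_cancel_left]
        rw [h6, ← hbca, hb3, ha3]; simp
      have h6 : c * (a * c * a⁻¹) = (a ^ 2 * c * a⁻¹ ^ 2)⁻¹ := eq_inv_of_mul_eq_one_left h5
      have h7 : (a ^ 2 * c * a⁻¹ ^ 2)⁻¹ = a ^ 2 * c * (a ^ 2)⁻¹ := by
        have : (a ^ 2 * c * a⁻¹ ^ 2)⁻¹ = a ^ 2 * c⁻¹ * (a ^ 2)⁻¹ := by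
          simp only [mul_inv_rev, inv_pow, inv_inv, mul_assoc]
        rw [this, hcc]
      rw [h6, h7, tr_conj', tc]
    have hcomm := comm_of_tz h2 tc (by rw [tr_conj', tc]) tcc
    obtain ⟨g, s, hs, hg⟩ := conj_u hcs (by rw [tc, h2])
    obtain ⟨d, hd⟩ : ∃ d, d = g⁻¹ * a * g := ⟨_, rfl⟩
    have td : tr d = 1 := by rw [hd, tr_conj, ta]
    have hcd : Commute (u s) (d * u s * d⁻¹) := by
      rw [← hg, hd]
      show g⁻¹ * c * g * (g⁻¹ * a * g * (g⁻¹ * c * g) * (g⁻¹ * a * g)⁻¹) =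
        g⁻¹ * a * g * (g⁻¹ * c * g) * (g⁻¹ * a * g)⁻¹ * (g⁻¹ * c * g)
      have l : g⁻¹ * c * g * (g⁻¹ * a * g * (g⁻¹ * c * g) * (g⁻¹ * a * g)⁻¹) =
        g⁻¹ * (c * (a * c * a⁻¹)) * g := by group
      have r : g⁻¹ * a * g * (g⁻¹ * c * g) * (g⁻¹ * a * g)⁻¹ * (g⁻¹ * c * g) =
        g⁻¹ * ((a * c * a⁻¹) * c) * g := by group
      rw [l, r, hcomm.eq]
    have e1 := congrArg (fun t : S F => t 0 0) hcd.eq
    have hdd := det_eq d
    simp [u] at e1
    have d10 : d 1 0 = 0 := by
      have h5 : s ^ 2 * (d 1 0) ^ 2 = 0 := by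
        have e2 := e1.resolve_left hs
        linear_combination (-s) * e2
      have := (mul_eq_zero.1 h5).resolve_left (pow_ne_zero 2 hs)
      exact pow_eq_zero_iff (two_ne_zero) |>.1 this
    rw [d10] at hdd
    have d00 : d 0 0 ≠ 0 := by
      intro h; rw [h] at hdd; simp at hdd
    have d11 : d 1 1 = (d 0 0)⁻¹ := by
      apply mul_left_cancel₀ d00
      rw [mul_inv_cancel₀ d00]; linear_combination hdd
    apply hF (d 0 0) d00
    rw [← d11]; exact td

theorem odd_iff [Fintype F] (h2 : (2 : F) = 0) {a : ℕ} (ha : Fintype.card F = 2 ^ a) :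
    Odd a ↔ ∀ t : F, t ≠ 0 → t + t⁻¹ ≠ 1 := by
  classical
  have hcard : Nat.card Fˣ = 2 ^ a - 1 := by
    rw [Nat.card_eq_fintype_card, Fintype.card_units, ha]
  constructor
  · rintro ⟨k, hk⟩ t ht hc
    have h1 : t ^ 2 - t + 1 = 0 := by
      have : t ^ 2 - t + 1 = t * (t + t⁻¹ - 1) := by field_simp; ring
      rw [this, hc]; ring
    have h3 : t ^ 3 = 1 := by linear_combination (t + 1) * h1 - h2
    have ht1 : t ≠ 1 := by
      rintro rfl
      apply one_ne_zero (α := F)
      linear_combination h1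
    have ho : orderOf (Units.mk0 t ht) = 3 := by
      apply orderOf_eq_prime
      · apply Units.ext; simpa using h3
      · intro h
        apply ht1
        have := congrArg Units.val h
        simpa using this
    have hdvd : 3 ∣ 2 ^ a - 1 := by
      rw [← hcard, ← ho]; exact orderOf_dvd_natCard _
    have h4 : 2 ^ a % 3 = 2 := by
      rw [hk, pow_add, pow_mul]
      have : (2 ^ 2) ^ k % 3 = 1 := by
        rw [Nat.pow_mod]; norm_num
      rw [Nat.mul_mod, this]
      norm_num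
    have h5 : 1 ≤ 2 ^ a := Nat.one_le_two_pow
    omega
  · intro h
    by_contra hne
    rw [Nat.not_odd_iff_even] at hne
    obtain ⟨k, hk⟩ := hne
    have h4 : 2 ^ a % 3 = 1 := by
      rw [hk, ← two_mul, pow_mul, Nat.pow_mod]; norm_num
    have h5 : 1 ≤ 2 ^ a := Nat.one_le_two_pow
    have hdvd : 3 ∣ Nat.card Fˣ := by rw [hcard]; omega
    haveI : Fact (Nat.Prime 3) := ⟨Nat.prime_three⟩
    obtain ⟨t, ht⟩ := exists_prime_orderOf_dvd_card' 3 hdvd
    have h3 : t ^ 3 = 1 := by rw [← ht]; exact pow_orderOf_eq_one t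
    have ht1 : t ≠ 1 := by
      rintro rfl
      rw [orderOf_one] at ht
      omega
    have h3' : (t : F) ^ 3 = 1 := by
      have := congrArg Units.val h3
      simpa using this
    have ht1' : (t : F) - 1 ≠ 0 := by
      intro hc
      apply ht1
      exact Units.ext (by rw [Units.val_one]; linear_combination hc)
    have h6 : (t : F) ^ 2 + t + 1 = 0 := by
      apply mul_left_cancel₀ ht1'
      linear_combination h3'
    apply h t t.ne_zero
    have h7 : (t : F) * (t + (t : F)⁻¹ - 1) = 0 := by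
      rw [mul_sub, mul_add, mul_inv_cancel₀ t.ne_zero]
      linear_combination h6 - t * h2
    have := (mul_eq_zero.1 h7).resolve_left t.ne_zero
    linear_combination this

end H61.BinSL2
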