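import Cfsg.Agent.Lib.H62.BSUnital
import Mathlib

/-!
`SU₃(q)`, `q` even, in the antidiagonal form (helper61).
-/

set_option autoImplicit false

namespace H61.BinU3

open Cfsg H7.QuadExt H7.UnitSU H24.U3Syl H62.BSU
open Matrix hiding J

variable {K : Type*} [Field K] [Fintype K] {q : ℕ}

/-- the isometry group of the antidiagonal form -/
def GJ (hK : Fintype.card K = q ^ 2) : Subgroup (SL3 K) where
  carrier := {g | g.1ᵀ * J K * bar q g.1 = J K}
  one_mem' := by
    show (1 : Matrix (Fin 3) (Fin 3) K)ᵀ * J K * bar q 1 = J K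
    rw [bar_one hK, Matrix.transpose_one, Matrix.one_mul, Matrix.mul_one]
  mul_mem' := by
    intro g h hg hh
    have hg' : g.1ᵀ * J K * bar q g.1 = J K := hg
    have hh' : h.1ᵀ * J K * bar q h.1 = J K := hh
    show (g.1 * h.1)ᵀ * J K * bar q (g.1 * h.1) = J K
    rw [bar_mul hK, Matrix.transpose_mul]
    calc h.1ᵀ * g.1ᵀ * J K * (bar q g.1 * bar q h.1) = h.1ᵀ * (g.1ᵀ * J K * bar q g.1) * bar q h.1 := by
          simp only [Matrix.mul_assoc]
      _ = _ := by rw [hg', hh']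
  inv_mem' := by
    intro g hg
    have hg' : g.1ᵀ * J K * bar q g.1 = J K := hg
    show (g⁻¹).1ᵀ * J K * bar q (g⁻¹).1 = J K
    have h1 : (g⁻¹).1ᵀ * g.1ᵀ = 1 := by
      rw [← Matrix.transpose_mul]
      have : g.1 * (g⁻¹).1 = 1 := congrArg Subtype.val (mul_inv_cancel g)
      rw [this, Matrix.transpose_one]
    have h2 : bar q g.1 * bar q (g⁻¹).1 = 1 := by
      rw [← bar_mul hK]
      have : g.1 * (g⁻¹).1 = 1 := congrArg Subtype.val (mul_inv_cancel g)
      rw [this, bar_one hK]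
    calc (g⁻¹).1ᵀ * J K * bar q (g⁻¹).1 = (g⁻¹).1ᵀ * (g.1ᵀ * J K * bar q g.1) * bar q (g⁻¹).1 := by rw [hg']
      _ = ((g⁻¹).1ᵀ * g.1ᵀ) * J K * (bar q g.1 * bar q (g⁻¹).1) := by simp only [Matrix.mul_assoc]
      _ = J K := by rw [h1, h2, Matrix.one_mul, Matrix.mul_one]

variable {hK : Fintype.card K = q ^ 2}

/-- entries -/
def en (g : GJ hK) (i j : Fin 3) : K := g.1.1 i j

theorem en_mul (g h : GJ hK) (i j : Fin 3) :
    en (g * h) i j = en g i 0 * en h 0 j + en g i 1 * en h 1 j + en g i 2 * en h 2 j := by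
  show (g.1.1 * h.1.1) i j = _
  rw [Matrix.mul_apply, Fin.sum_univ_three]
  rfl

theorem en_one (i j : Fin 3) : en (1 : GJ hK) i j = (1 : Matrix (Fin 3) (Fin 3) K) i j := rfl

theorem ext_en {g h : GJ hK} (H : ∀ i j, en g i j = en h i j) : g = h :=
  Subtype.ext (Subtype.ext (Matrix.ext H))

theorem form (g : GJ hK) (i j : Fin 3) :
    en g 0 i * (en g 2 j) ^ q + en g 1 i * (en g 1 j) ^ q + en g 2 i * (en g 0 j) ^ q = J K i j := by
  have h : g.1.1ᵀ * J K * bar q g.1.1 = J K := g.2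
  have h1 := congrFun (congrFun h i) j
  rw [← h1]
  simp only [Matrix.mul_apply, Fin.sum_univ_three, transpose_apply, bar, map_apply, J]
  simp [en]
  ring

theorem det_eq (g : GJ hK) : en g 0 0 * en g 1 1 * en g 2 2 - en g 0 0 * en g 1 2 * en g 2 1
    - en g 0 1 * en g 1 0 * en g 2 2 + en g 0 1 * en g 1 2 * en g 2 0 + en g 0 2 * en g 1 0 * en g 2 1
    - en g 0 2 * en g 1 1 * en g 2 0 = 1 := by
  have h := g.1.2
  rw [Matrix.det_fin_three] at h
  exact h

/-- the unitriangular elements -/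
def uu (two : (2 : K) = 0) (a b : K) (h : Good q a b) : GJ hK := ⟨u q a b, u_form two hK h⟩

theorem en_uu (two : (2 : K) = 0) {a b : K} (h : Good q a b) (i j : Fin 3) :
    en (uu (hK := hK) two a b h) i j = um q a b i j := rfl

/-- the torus -/
def hmat (q : ℕ) (k : K) : Matrix (Fin 3) (Fin 3) K := !![k, 0, 0; 0, k ^ q * k⁻¹, 0; 0, 0, (k ^ q)⁻¹]

theorem hmat_det {k : K} (hk : k ≠ 0) : (hmat q k).det = 1 := by
  have : k ^ q ≠ 0 := pow_ne_zero _ hk
  simp [hmat, Matrix.det_fin_three]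
  field_simp

theorem hmat_form (hK : Fintype.card K = q ^ 2) {k : K} (hk : k ≠ 0) : (hmat q k)ᵀ * J K * bar q (hmat q k) = J K := by
  have h3 := pow_q_pow_q hK k
  have h4 : k ^ q ≠ 0 := pow_ne_zero _ hk
  ext i j
  fin_cases i <;> fin_cases j <;>
    simp [hmat, J, bar, Matrix.mul_apply, Fin.sum_univ_three, zero_pow_q hK, h3, mul_pow] <;> field_simp

/-- torus elements -/
def hd (k : Kˣ) : GJ hK := ⟨⟨hmat q (k : K), hmat_det k.ne_zero⟩, hmat_form hK k.ne_zero⟩

theorem en_hd (k : Kˣ) (i j : Fin 3) : en (hd (hK := hK) k) i j = hmat q (k : K) i j := rfl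

/-- the Weyl element -/
def ww (two : (2 : K) = 0) : GJ hK := ⟨JS two, J_form two hK⟩

theorem en_ww (two : (2 : K) = 0) (i j : Fin 3) : en (ww (hK := hK) two) i j = J K i j := rfl

theorem ww_mul (two : (2 : K) = 0) : ww (hK := hK) two * ww two = 1 := by
  apply ext_en
  intro i j
  rw [en_mul]
  simp only [en_ww, en_one]
  fin_cases i <;> fin_cases j <;> simp [J]

theorem ww_inv (two : (2 : K) = 0) : (ww (hK := hK) two)⁻¹ = ww two := inv_eq_of_mul_eq_one_right (ww_mul two)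

omit [Fintype K] in
theorem JMJ (M : Matrix (Fin 3) (Fin 3) K) (i j : Fin 3) : (J K * M * J K) i j = M (Fin.rev i) (Fin.rev j) := by
  have h00 : J K 0 0 = 0 := by simp [J]
  have h01 : J K 0 1 = 0 := by simp [J]
  have h02 : J K 0 2 = 1 := by simp [J]
  have h10 : J K 1 0 = 0 := by simp [J]
  have h11 : J K 1 1 = 1 := by simp [J]
  have h12 : J K 1 2 = 0 := by simp [J]
  have h20 : J K 2 0 = 1 := by simp [J]
  have h21 : J K 2 1 = 0 := by simp [J]
  have h22 : J K 2 2 = 0 := by simp [J]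
  rw [Matrix.mul_apply, Fin.sum_univ_three, Matrix.mul_apply, Matrix.mul_apply, Matrix.mul_apply,
    Fin.sum_univ_three, Fin.sum_univ_three, Fin.sum_univ_three]
  have r0 : (Fin.rev (0 : Fin 3)) = 2 := rfl
  have r1 : (Fin.rev (1 : Fin 3)) = 1 := rfl
  have r2 : (Fin.rev (2 : Fin 3)) = 0 := rfl
  fin_cases i <;> fin_cases j <;>
    simp only [Fin.zero_eta, Fin.mk_one, Fin.reduceFinMk, h00, h01, h02, h10, h11, h12, h20, h21, h22, r0, r1, r2] <;> ring

theorem en_inv (g : GJ hK) (i j : Fin 3) : en g⁻¹ i j = (en g (Fin.rev j) (Fin.rev i)) ^ q := by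
  have hex : (g⁻¹).1.1 = J K * (bar q g.1.1)ᵀ * J K := by
    have h : g.1.1ᵀ * J K * bar q g.1.1 = J K := g.2
    have hJ : J K * J K = 1 := by
      ext i j
      fin_cases i <;> fin_cases j <;> simp [J, Matrix.mul_apply, Fin.sum_univ_three]
    have hJt : (J K)ᵀ = J K := by
      ext i j
      fin_cases i <;> fin_cases j <;> simp [J]
    -- take transposes
    have h1 : (bar q g.1.1)ᵀ * J K * g.1.1 = J K := by
      have := congrArg Matrix.transpose h
      rw [Matrix.transpose_mul, Matrix.transpose_mul, Matrix.transpose_transpose, hJt] at this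
      rw [Matrix.mul_assoc]; exact this
    have h2 : J K * (bar q g.1.1)ᵀ * J K * g.1.1 = 1 := by
      rw [Matrix.mul_assoc, Matrix.mul_assoc, ← Matrix.mul_assoc _ (J K) g.1.1, h1, hJ]
    have h3 : g.1.1 * (g⁻¹).1.1 = 1 := congrArg (fun x : GJ hK => x.1.1) (mul_inv_cancel g)
    calc (g⁻¹).1.1 = (J K * (bar q g.1.1)ᵀ * J K * g.1.1) * (g⁻¹).1.1 := by rw [h2, Matrix.one_mul]
      _ = J K * (bar q g.1.1)ᵀ * J K * (g.1.1 * (g⁻¹).1.1) := by simp only [Matrix.mul_assoc]
      _ = _ := by rw [h3, Matrix.mul_one]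
  show (g⁻¹).1.1 i j = _
  rw [hex, JMJ]
  rfl

/-! ### the Borel subgroup -/

theorem J02 : J K 0 2 = 1 := by simp [J]
theorem J01 : J K 0 1 = 0 := by simp [J]
theorem J11 : J K 1 1 = 1 := by simp [J]
theorem J00 : J K 0 0 = 0 := by simp [J]
theorem J12 : J K 1 2 = 0 := by simp [J]
theorem J22 : J K 2 2 = 0 := by simp [J]

/-- shape of the elements fixing the first isotropic point -/
structure IsB (g : GJ hK) : Prop where
  e10 : en g 1 0 = 0
  e20 : en g 2 0 = 0

theorem IsB.f02 {g : GJ hK} (h : IsB g) : en g 0 0 * (en g 2 2) ^ q = 1 := by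
  have := form g 0 2
  rw [h.e10, h.e20, zero_mul, zero_mul, add_zero, add_zero, J02] at this
  exact this

theorem IsB.h00 {g : GJ hK} (h : IsB g) : en g 0 0 ≠ 0 := by
  intro h0
  have := h.f02
  rw [h0, zero_mul] at this
  exact zero_ne_one this

theorem IsB.h22 {g : GJ hK} (h : IsB g) : en g 2 2 ≠ 0 := by
  intro h0
  have := h.f02
  rw [h0, zero_pow_q hK, mul_zero] at this
  exact zero_ne_one this

theorem IsB.e21 {g : GJ hK} (h : IsB g) : en g 2 1 = 0 := by
  have := form g 0 1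
  rw [h.e10, h.e20, zero_mul, zero_mul, add_zero, add_zero, J01] at this
  rcases mul_eq_zero.1 this with h1 | h1
  · exact absurd h1 h.h00
  · have hq : q ≠ 0 := by have := one_lt_q hK; omega
    exact pow_eq_zero_iff hq |>.1 h1

theorem IsB.f11 {g : GJ hK} (h : IsB g) : en g 1 1 * (en g 1 1) ^ q = 1 := by
  have := form g 1 1
  rw [h.e21, zero_pow_q hK, mul_zero, zero_mul, add_zero, zero_add, J11] at this
  exact this

theorem IsB.h11 {g : GJ hK} (h : IsB g) : en g 1 1 ≠ 0 := by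
  intro h0
  have := h.f11
  rw [h0, zero_mul] at this
  exact zero_ne_one this

theorem IsB.det {g : GJ hK} (h : IsB g) : en g 0 0 * en g 1 1 * en g 2 2 = 1 := by
  have := det_eq g
  rw [h.e10, h.e20, h.e21] at this
  linear_combination this

theorem IsB.mul {g k : GJ hK} (h : IsB g) (h' : IsB k) : IsB (g * k) := by
  constructor
  · rw [en_mul, h.e10, h'.e10, h'.e20]; ring
  · rw [en_mul, h.e20, h'.e10, h'.e20]; ring

theorem IsB.inv {g : GJ hK} (h : IsB g) : IsB g⁻¹ := by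
  constructor
  · rw [en_inv]
    show (en g 2 1) ^ q = 0
    rw [h.e21, zero_pow_q hK]
  · rw [en_inv]
    show (en g 2 0) ^ q = 0
    rw [h.e20, zero_pow_q hK]

/-- the Borel subgroup -/
def Bo (hK : Fintype.card K = q ^ 2) : Subgroup (GJ hK) where
  carrier := {g | IsB g}
  one_mem' := ⟨by rw [en_one]; simp, by rw [en_one]; simp⟩
  mul_mem' := fun h h' => IsB.mul h h'
  inv_mem' := fun h => IsB.inv h

theorem mem_Bo {g : GJ hK} : g ∈ Bo hK ↔ IsB g := Iff.rfl

/-- multiplier and translation part -/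
def cc (g : GJ hK) : K := en g 1 1 / en g 2 2
def vv (g : GJ hK) : K := en g 1 2 / en g 2 2

theorem cc_mul {g k : GJ hK} (h : IsB g) (h' : IsB k) : cc (g * k) = cc g * cc k := by
  unfold cc
  rw [en_mul, en_mul, h.e10, h.e20, h.e21, h'.e21]
  have h1 := h.h22
  have h2 := h'.h22
  field_simp
  ring

theorem vv_mul {g k : GJ hK} (h : IsB g) (h' : IsB k) : vv (g * k) = cc g * vv k + vv g := by
  unfold cc vv
  rw [en_mul, en_mul, h.e10, h.e20, h.e21]
  have h1 := h.h22
  have h2 := h'.h22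
  field_simp
  ring

theorem cc_ne {g : GJ hK} (h : IsB g) : cc g ≠ 0 := div_ne_zero h.h11 h.h22

theorem cc_one : cc (1 : GJ hK) = 1 := by
  unfold cc; rw [en_one, en_one]; simp

theorem vv_one : vv (1 : GJ hK) = 0 := by
  unfold vv; rw [en_one, en_one]; simp

theorem cc_inv {g : GJ hK} (h : IsB g) : cc g⁻¹ = (cc g)⁻¹ := by
  have h1 := cc_mul h h.inv
  rw [mul_inv_cancel, cc_one] at h1
  exact (eq_inv_of_mul_eq_one_right h1.symm)

theorem vv_inv (two : (2 : K) = 0) {g : GJ hK} (h : IsB g) : vv g⁻¹ = vv g / cc g := by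
  have h1 := vv_mul h h.inv
  rw [mul_inv_cancel, vv_one] at h1
  have h2 := cc_ne h
  rw [eq_div_iff h2]
  linear_combination -h1 - vv g * two

/-- `P Z(G)` -/
def PP (hK : Fintype.card K = q ^ 2) : Subgroup (GJ hK) where
  carrier := {g | IsB g ∧ cc g = 1}
  one_mem' := ⟨(Bo hK).one_mem, cc_one⟩
  mul_mem' := fun h h' => ⟨h.1.mul h'.1, by rw [cc_mul h.1 h'.1, h.2, h'.2, one_mul]⟩
  inv_mem' := fun h => ⟨h.1.inv, by rw [cc_inv h.1, h.2, inv_one]⟩

/-- `Z(P) Z(G)` -/
def ZZ (two : (2 : K) = 0) (hK : Fintype.card K = q ^ 2) : Subgroup (GJ hK) where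
  carrier := {g | (IsB g ∧ cc g = 1) ∧ vv g = 0}
  one_mem' := ⟨⟨(Bo hK).one_mem, cc_one⟩, vv_one⟩
  mul_mem' := fun h h' => ⟨(PP hK).mul_mem h.1 h'.1, by rw [vv_mul h.1.1 h'.1.1, h.2, h'.2]; ring⟩
  inv_mem' := fun h => ⟨(PP hK).inv_mem h.1, by rw [vv_inv two h.1.1, h.2, zero_div]⟩

theorem mem_PP {g : GJ hK} : g ∈ PP hK ↔ IsB g ∧ cc g = 1 := Iff.rfl
theorem mem_ZZ {two : (2 : K) = 0} {g : GJ hK} : g ∈ ZZ two hK ↔ (IsB g ∧ cc g = 1) ∧ vv g = 0 := Iff.rfl

theorem PP_le : PP hK ≤ Bo hK := fun _ h => h.1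
theorem ZZ_le (two : (2 : K) = 0) : ZZ two hK ≤ PP hK := fun _ h => h.1

theorem isB_uu (two : (2 : K) = 0) {a b : K} (h : Good q a b) : IsB (uu (hK := hK) two a b h) :=
  ⟨by rw [en_uu]; simp [um], by rw [en_uu]; simp [um]⟩

theorem cc_uu (two : (2 : K) = 0) {a b : K} (h : Good q a b) : cc (uu (hK := hK) two a b h) = 1 := by
  unfold cc; rw [en_uu, en_uu]; simp [um]

theorem vv_uu (two : (2 : K) = 0) {a b : K} (h : Good q a b) : vv (uu (hK := hK) two a b h) = a := by
  unfold vv; rw [en_uu, en_uu]; simp [um]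

theorem isB_hd (k : Kˣ) : IsB (hd (hK := hK) k) :=
  ⟨by rw [en_hd]; simp [hmat], by rw [en_hd]; simp [hmat]⟩

theorem cc_hd (k : Kˣ) : cc (hd (hK := hK) k) = (k : K) ^ (2 * q) / k := by
  unfold cc; rw [en_hd, en_hd]
  have : (k : K) ≠ 0 := k.ne_zero
  simp [hmat]
  field_simp
  ring

theorem vv_hd (k : Kˣ) : vv (hd (hK := hK) k) = 0 := by
  unfold vv; rw [en_hd, en_hd]
  simp [hmat]

/-- surjectivity of the translation part -/
theorem exists_vv (two : (2 : K) = 0) (x : K) : ∃ g : GJ hK, g ∈ PP hK ∧ vv g = x := by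
  obtain ⟨y, hy⟩ := exists_gt two hK x
  exact ⟨uu two x y hy, ⟨isB_uu two hy, cc_uu two hy⟩, vv_uu two hy⟩

/-- diagonal of an element of the Borel subgroup -/
theorem IsB.eq11 {g : GJ hK} (h : IsB g) : en g 1 1 = (en g 0 0) ^ q * (en g 0 0)⁻¹ := by
  have h1 := h.f02
  have h2 := h.det
  have h3 : (en g 0 0) ^ q * en g 2 2 = 1 := by
    have := congrArg (fun x => x ^ q) h1
    simp only [mul_pow, pow_q_pow_q hK, one_pow] at this
    exact this
  have h0 := h.h00
  rw [eq_mul_inv_iff_mul_eq₀ h0]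
  have h22 := h.h22
  apply mul_right_cancel₀ h22
  rw [h3]
  linear_combination h2

theorem IsB.eq22 {g : GJ hK} (h : IsB g) : en g 2 2 = ((en g 0 0) ^ q)⁻¹ := by
  have h1 := h.f02
  have h3 : (en g 0 0) ^ q * en g 2 2 = 1 := by
    have := congrArg (fun x => x ^ q) h1
    simp only [mul_pow, pow_q_pow_q hK, one_pow] at this
    exact this
  exact eq_inv_of_mul_eq_one_right h3

/-- elements of the Borel subgroup with trivial corner are unitriangular -/
theorem eq_uu (two : (2 : K) = 0) {g : GJ hK} (h : IsB g) (h0 : en g 0 0 = 1) :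
    ∃ (a b : K) (hab : Good q a b), g = uu two a b hab := by
  have h11 : en g 1 1 = 1 := by rw [h.eq11, h0]; simp
  have h22 : en g 2 2 = 1 := by rw [h.eq22, h0]; simp
  have h12 := form g 1 2
  rw [h.e21, h11, h22, zero_mul, add_zero, one_pow, mul_one, one_mul, J12] at h12
  have h01 : en g 0 1 = (en g 1 2) ^ q := by linear_combination h12 - (en g 1 2) ^ q * two
  have h22' := form g 2 2
  rw [h22, one_pow, mul_one, one_mul, J22] at h22'
  have hg : Good q (en g 1 2) (en g 0 2) := by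
    unfold Good
    rw [pow_succ]
    linear_combination h22' - (en g 1 2) ^ q * en g 1 2 * two
  refine ⟨_, _, hg, ?_⟩
  apply ext_en
  intro i j
  rw [en_uu]
  fin_cases i <;> fin_cases j
  · simpa [um] using h0
  · simpa [um] using h01
  · simp [um]
  · simpa [um] using h.e10
  · simpa [um] using h11
  · simp [um]
  · simpa [um] using h.e20
  · simpa [um] using h.e21
  · simpa [um] using h22

/-- moving the first column -/
theorem col (two : (2 : K) = 0) {g : GJ hK} (h2 : en g 2 0 ≠ 0) :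
    ∃ (a b : K) (hab : Good q a b) (β : GJ hK), IsB β ∧ en β 0 0 = en g 2 0 ∧ g = uu two a b hab * ww two * β := by
  have hf := form g 0 0
  rw [J00] at hf
  have hab : Good q (en g 1 0 / en g 2 0) (en g 0 0 / en g 2 0) := by
    unfold Good
    rw [pow_succ, div_pow, div_pow]
    have : en g 2 0 ^ q ≠ 0 := pow_ne_zero _ h2
    field_simp
    linear_combination hf - en g 1 0 * en g 1 0 ^ q * two
  refine ⟨_, _, hab, (uu two _ _ hab * ww two)⁻¹ * g, ?_, ?_, by group⟩
  · -- entries of the inverse times g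
    obtain ⟨β, hβ⟩ : ∃ β, β = (uu two _ _ hab * ww two)⁻¹ * g := ⟨_, rfl⟩
    have hg : g = uu two _ _ hab * ww two * β := by rw [hβ]; group
    rw [← hβ]
    -- first column of `u w` times `β`
    have e : ∀ i, en g i 0 = en (uu (hK := hK) two _ _ hab * ww two) i 0 * en β 0 0 +
        en (uu (hK := hK) two _ _ hab * ww two) i 1 * en β 1 0 +
        en (uu (hK := hK) two _ _ hab * ww two) i 2 * en β 2 0 := by
      intro i; conv_lhs => rw [hg, en_mul]
    have e0 := e 0
    have e1 := e 1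
    have e2 := e 2
    simp only [en_mul, en_uu, en_ww] at e0 e1 e2
    simp [um, J] at e0 e1 e2
    have e00 : en g 0 0 = en g 0 0 / en g 2 0 * en g 2 0 := by field_simp
    have e10 : en g 1 0 = en g 1 0 / en g 2 0 * en g 2 0 := by field_simp
    have h10 : en β 1 0 = 0 := by
      rw [← e2] at e1
      linear_combination e10 - e1
    refine ⟨h10, ?_⟩
    rw [← e2, h10] at e0
    linear_combination e00 - e0
  · obtain ⟨β, hβ⟩ : ∃ β, β = (uu two _ _ hab * ww two)⁻¹ * g := ⟨_, rfl⟩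
    have hg : g = uu two _ _ hab * ww two * β := by rw [hβ]; group
    rw [← hβ]
    have e2 : en g 2 0 = en (uu two _ _ hab * ww two * β) 2 0 := by rw [← hg]
    simp only [en_mul, en_uu, en_ww] at e2
    simp [um, J] at e2
    exact e2.symm

/-- elements with the same nonzero corner -/
theorem bruhat (two : (2 : K) = 0) {g g' : GJ hK} (h2 : en g 2 0 ≠ 0) (h : en g' 2 0 = en g 2 0) :
    ∃ u₁ ∈ PP hK, ∃ u₂ ∈ PP hK, g' = u₁ * g * u₂ := by
  obtain ⟨a, b, hab, β, hβ, hβ0, hg⟩ := col two h2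
  obtain ⟨a', b', hab', β', hβ', hβ0', hg'⟩ := col two (g := g') (by rw [h]; exact h2)
  refine ⟨uu two a' b' hab' * (uu two a b hab)⁻¹, ?_, β⁻¹ * β', ?_, ?_⟩
  · exact (PP hK).mul_mem ⟨isB_uu two hab', cc_uu two hab'⟩ ((PP hK).inv_mem ⟨isB_uu two hab, cc_uu two hab⟩)
  · have h3 : IsB (β⁻¹ * β') := hβ.inv.mul hβ'
    have h4 : en (β⁻¹ * β') 0 0 = 1 := by
      have h5 : en β' 0 0 = en (β * (β⁻¹ * β')) 0 0 := by rw [mul_inv_cancel_left]
      rw [en_mul, h3.e10, h3.e20, mul_zero, mul_zero, add_zero, add_zero, hβ0', hβ0, h] at h5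
      have h6 : en g 2 0 * (en (β⁻¹ * β') 0 0 - 1) = 0 := by linear_combination -h5
      exact sub_eq_zero.1 ((mul_eq_zero.1 h6).resolve_left h2)
    obtain ⟨a'', b'', hab'', h7⟩ := eq_uu two h3 h4
    rw [h7]
    exact ⟨isB_uu two hab'', cc_uu two hab''⟩
  · rw [hg', hg]; group

end H61.BinU3
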