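import Cfsg.Agent.Lib.H61.CommGraph

set_option autoImplicit false

/-! Groups with isomorphic commuting graphs: an abstract criterion based on a class `T` of elements of order 3. -/

namespace H61.CG33

open H61.CommGraph

variable {G H : Type*} [Group G] [Group H]

def PM (a b : G) : Prop := a = b ∨ a = b⁻¹

theorem PM.refl (a : G) : PM a a := Or.inl rfl

theorem PM.symm {a b : G} (h : PM a b) : PM b a := by
  rcases h with rfl | rfl
  · exact Or.inl rfl
  · right; rw [inv_inv]

theorem PM.trans {a b c : G} (h : PM a b) (h' : PM b c) : PM a c := by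
  rcases h with rfl | rfl
  · exact h'
  · rcases h' with rfl | rfl
    · exact Or.inr rfl
    · left; rw [inv_inv]

theorem PM.conj {a b : G} (h : PM a b) (g : G) : PM (g * a * g⁻¹) (g * b * g⁻¹) := by
  rcases h with rfl | rfl
  · exact Or.inl rfl
  · right; group

theorem act_one (F : H ≃ G) (x : G) : act F 1 x = x := by
  rw [act_apply, one_mul, inv_one, mul_one, Equiv.apply_symm_apply]

theorem act_mul_apply (F : H ≃ G) (h h' : H) (x : G) : act F (h * h') x = act F h (act F h' x) := by
  rw [act_mul, Equiv.Perm.mul_apply]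

theorem act_inv_act (F : H ≃ G) (h : H) (x : G) : act F h⁻¹ (act F h x) = x := by
  rw [← act_mul_apply, inv_mul_cancel, act_one]

theorem act_act_inv (F : H ≃ G) (h : H) (x : G) : act F h (act F h⁻¹ x) = x := by
  rw [← act_mul_apply, mul_inv_cancel, act_one]

/-- the hypotheses on the class `T` -/
structure Good (T : Set G) : Prop where
  stable : ∀ α : Equiv.Perm G, IsCA α → ∀ t ∈ T, α t ∈ T
  ne_one : ∀ t ∈ T, t ≠ 1
  inv_ne : ∀ t ∈ T, t⁻¹ ≠ t
  cc : ∀ t ∈ T, ∀ g, (∀ c, Commute c t → Commute c g) → g = 1 ∨ g = t ∨ g = t⁻¹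
  gen : Subgroup.closure T = ⊤
  ker : ∀ g : G, (∀ t ∈ T, PM (g * t * g⁻¹) t) → g = 1
  rigid : ∀ α : Equiv.Perm G, IsCA α → ∀ t ∈ T, (∀ x, α (α (α x)) = x) → (∀ s ∈ T, α s⁻¹ = (α s)⁻¹) →
    (∀ x, α x = x ↔ Commute t x) →
    (∀ s ∈ T, PM (α s) (t * s * t⁻¹)) ∨ (∀ s ∈ T, PM (α s) (t⁻¹ * s * t))

namespace Good

variable {T : Set G} (hT : Good T)

include hT

theorem map_inv {α : Equiv.Perm G} (hα : IsCA α) {t : G} (ht : t ∈ T) : α t⁻¹ = (α t)⁻¹ := by
  have h1 : ∀ c, Commute c (α t) → Commute c (α t⁻¹) := by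
    intro c hc
    have h2 : Commute (α (α.symm c)) (α t) := by rw [Equiv.apply_symm_apply]; exact hc
    rw [← hα.2] at h2
    have h3 := h2.inv_right
    rw [hα.2, Equiv.apply_symm_apply] at h3
    exact h3
  rcases hT.cc (α t) (hT.stable α hα t ht) (α t⁻¹) h1 with h2 | h2 | h2
  · exfalso
    have h3 : α t⁻¹ ≠ 1 := hα.ne_one (inv_ne_one.2 (hT.ne_one t ht))
    exact h3 h2
  · exact absurd (α.injective h2) (hT.inv_ne t ht)
  · exact h2

theorem inv_mem {t : G} (ht : t ∈ T) : t⁻¹ ∈ T := by
  classical
  -- the permutation swapping `t` and `t⁻¹` is a commuting-graph automorphism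
  by_contra hn
  have hα : IsCA (Equiv.swap t t⁻¹) := by
    have h1 := hT.ne_one t ht
    constructor
    · apply Equiv.swap_apply_of_ne_of_ne (Ne.symm h1)
      intro h2
      exact h1 (inv_eq_one.1 h2.symm)
    · have key : ∀ x y : G, Commute x y → Commute (Equiv.swap t t⁻¹ x) (Equiv.swap t t⁻¹ y) := by
        intro x y hxy
        have key2 : ∀ x y : G, Commute x y → Commute (Equiv.swap t t⁻¹ x) y := by
          intro x y hxy
          by_cases hx : x = t
          · subst hx
            rw [Equiv.swap_apply_left]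
            exact hxy.inv_left
          by_cases hx' : x = t⁻¹
          · subst hx'
            rw [Equiv.swap_apply_right]
            simpa using hxy.inv_left
          rw [Equiv.swap_apply_of_ne_of_ne hx hx']
          exact hxy
        exact (key2 _ _ (key2 _ _ hxy).symm).symm
      intro x y
      constructor
      · exact key x y
      · intro h
        have := key _ _ h
        rwa [Equiv.swap_apply_self, Equiv.swap_apply_self] at this
  have := hT.stable _ hα t ht
  rw [Equiv.swap_apply_left] at this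
  exact hn this

variable {F : H ≃ G} (hF1 : F 1 = 1) (hF : ∀ x y, Commute x y ↔ Commute (F x) (F y))

include hF1 hF

theorem symm_inv {t : G} (ht : t ∈ T) : F.symm t⁻¹ = (F.symm t)⁻¹ ∧ (F.symm t) ^ 3 = 1 := by
  set x := F.symm t with hx
  have hFx : F x = t := by rw [hx, Equiv.apply_symm_apply]
  have hx1 : x ≠ 1 := by
    intro h
    rw [h, hF1] at hFx
    exact hT.ne_one t ht hFx.symm
  set y := F.symm t⁻¹ with hy
  have hFy : F y = t⁻¹ := by rw [hy, Equiv.apply_symm_apply]
  have hy1 : y ≠ 1 := by
    intro h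
    rw [h, hF1] at hFy
    exact hT.ne_one t ht (inv_eq_one.1 hFy.symm)
  have hxy : x ≠ y := by
    intro h
    rw [h, hFy] at hFx
    exact hT.inv_ne t ht hFx
  have hcomm : ∀ c : H, Commute c x → Commute c y := by
    intro c hc
    rw [hF, hFx] at hc
    rw [hF, hFy]
    exact hc.inv_right
  have key : ∀ z : H, (∀ c, Commute c x → Commute c z) → z = 1 ∨ z = x ∨ z = y := by
    intro z hz
    have h1 : ∀ c, Commute c t → Commute c (F z) := by
      intro c hc
      have h2 : Commute (F.symm c) x := by
        rw [hF, Equiv.apply_symm_apply, hFx]; exact hc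
      have h3 := hz _ h2
      rwa [hF, Equiv.apply_symm_apply] at h3
    rcases hT.cc t ht (F z) h1 with h2 | h2 | h2
    · left
      apply F.injective
      rw [h2, hF1]
    · right; left
      apply F.injective
      rw [h2, hFx]
    · right; right
      apply F.injective
      rw [h2, hFy]
  have hyinv : y = x⁻¹ := by
    rcases key x⁻¹ (fun c hc => hc.inv_right) with h1 | h1 | h1
    · exact absurd (inv_eq_one.1 h1) hx1
    · -- x = x⁻¹
      exfalso
      rcases key (x * y) (fun c hc => hc.mul_right (hcomm c hc)) with h2 | h2 | h2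
      · have : y = x⁻¹ := eq_inv_of_mul_eq_one_right h2
        rw [h1] at this
        exact hxy this.symm
      · exact hy1 (mul_eq_left.1 h2)
      · exact hx1 (mul_eq_right.1 h2)
    · exact h1.symm
  refine ⟨hyinv, ?_⟩
  rcases key (x * x) (fun c hc => hc.mul_right hc) with h2 | h2 | h2
  · have : x = x⁻¹ := eq_inv_of_mul_eq_one_left h2
    rw [← hyinv] at this
    exact absurd this hxy
  · exact absurd (mul_eq_left.1 h2) hx1
  · rw [pow_succ, pow_two, h2, hyinv, inv_mul_cancel]

omit hT hF1 hF in
/-- the relation between elements of `H` and `G` -/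
def Rel (T : Set G) (F : H ≃ G) (h : H) (g : G) : Prop := ∀ t ∈ T, PM (act F h t) (g * t * g⁻¹)

theorem act_mem (h : H) {t : G} (ht : t ∈ T) : act F h t ∈ T := hT.stable _ (isCA_act hF1 hF h) t ht

theorem act_pm (h : H) {s t : G} (ht : t ∈ T) (hst : PM s t) : PM (act F h s) (act F h t) := by
  rcases hst with rfl | rfl
  · exact PM.refl _
  · right
    exact hT.map_inv (isCA_act hF1 hF h) ht

theorem rel_mul {h h' : H} {g g' : G} (h1 : Rel T F h g) (h2 : Rel T F h' g') : Rel T F (h * h') (g * g') := by
  intro t ht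
  rw [act_mul_apply]
  have h3 := h1 _ (hT.act_mem hF1 hF h' ht)
  have h4 := (h2 t ht).conj g
  have h5 := h3.trans h4
  have h6 : g * (g' * t * g'⁻¹) * g⁻¹ = g * g' * t * (g * g')⁻¹ := by group
  rwa [h6] at h5

theorem rel_inv {h : H} {g : G} (h1 : Rel T F h g) : Rel T F h⁻¹ g⁻¹ := by
  intro t ht
  have h3 := h1 _ (hT.act_mem hF1 hF h⁻¹ ht)
  rw [act_act_inv] at h3
  have h4 := (h3.conj g⁻¹).symm
  have h6 : g⁻¹ * (g * act F h⁻¹ t * g⁻¹) * g⁻¹⁻¹ = act F h⁻¹ t := by group
  rwa [h6] at h4

theorem centr_trivial {g : G} (hg : ∀ t ∈ T, Commute g t) : g = 1 := by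
  apply hT.ker
  intro t ht
  left
  rw [(hg t ht).eq, mul_inv_cancel_right]

theorem rel_one_right {k : H} (hk : Rel T F k 1) : k = 1 := by
  -- the set of all such `k` is normal
  have hnorm : ∀ (h k : H), Rel T F k 1 → Rel T F (h * k * h⁻¹) 1 := by
    intro h k hk t ht
    rw [one_mul, inv_one, mul_one, act_mul_apply, act_mul_apply]
    have h1 := hk _ (hT.act_mem hF1 hF h⁻¹ ht)
    rw [one_mul, inv_one, mul_one] at h1
    have h2 := hT.act_pm hF1 hF h (hT.act_mem hF1 hF h⁻¹ ht) h1
    rwa [act_act_inv] at h2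
  have hsq : ∀ k : H, Rel T F k 1 → k * k = 1 := by
    intro k hk
    have h1 : ∀ t ∈ T, Commute (F (k * k)) t := by
      intro t ht
      rw [← act_eq_iff hF, act_mul_apply]
      have h2 := hk t ht
      rw [one_mul, inv_one, mul_one] at h2
      rcases h2 with h2 | h2
      · rw [h2, h2]
      · rw [h2, hT.map_inv (isCA_act hF1 hF k) ht, h2, inv_inv]
    have h2 := hT.centr_trivial hF1 hF h1
    apply F.injective
    rw [h2, hF1]
  have hcomm : ∀ t ∈ T, Commute (F k) t := by
    intro t ht
    rw [← act_eq_iff hF]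
    have h2 := hk t ht
    rw [one_mul, inv_one, mul_one] at h2
    rcases h2 with h2 | h2
    · exact h2
    · exfalso
      obtain ⟨h3, h4⟩ := hT.symm_inv hF1 hF ht
      rw [act_apply] at h2
      have h5 : k * F.symm t * k⁻¹ = (F.symm t)⁻¹ := by
        rw [← h3]
        apply F.injective
        rw [h2, Equiv.apply_symm_apply]
      set x := F.symm t with hx
      -- `x k x⁻¹` is in the kernel
      have h6 : Rel T F (x * k * x⁻¹ * k) 1 := by
        have := hT.rel_mul hF1 hF (hnorm x k hk) hk
        rwa [one_mul] at this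
      have hkk : k * k = 1 := hsq k hk
      have hki : k⁻¹ = k := inv_eq_of_mul_eq_one_left hkk
      have h7 : x * k * x⁻¹ * k = x * x := by
        have h8 : k * x⁻¹ * k⁻¹ = x := by
          have := congrArg (fun z => z⁻¹) h5
          simp only [mul_inv_rev, inv_inv] at this
          rw [← mul_assoc] at this
          exact this
        rw [hki] at h8
        rw [mul_assoc, mul_assoc, ← mul_assoc k, h8]
      rw [h7] at h6
      have h9 := hsq _ h6
      have h10 : x = 1 := by
        have : x = x * x * (x * x) * (x ^ 3)⁻¹ := by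
          rw [pow_succ, pow_two]
          group
        rw [this, h9, h4, inv_one, mul_one]
      have : F x = t := by rw [hx, Equiv.apply_symm_apply]
      rw [h10, hF1] at this
      exact hT.ne_one t ht this.symm
  have h2 := hT.centr_trivial hF1 hF hcomm
  apply F.injective
  rw [h2, hF1]

theorem rel_one_left {g : G} (hg : Rel T F 1 g) : g = 1 := by
  apply hT.ker
  intro t ht
  have h1 := hg t ht
  rw [act_one] at h1
  exact h1.symm

theorem exists_rel {t : G} (ht : t ∈ T) : ∃ h, Rel T F h t := by
  obtain ⟨h3, h4⟩ := hT.symm_inv hF1 hF ht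
  set x := F.symm t with hx
  have hFx : F x = t := by rw [hx, Equiv.apply_symm_apply]
  have h5 : ∀ y, act F x (act F x (act F x y)) = y := by
    intro y
    rw [← act_mul_apply, ← act_mul_apply]
    have : x * x * x = 1 := by rw [← h4, pow_succ, pow_two]
    rw [this, act_one]
  rcases hT.rigid (act F x) (isCA_act hF1 hF x) t ht h5 (fun s hs => hT.map_inv (isCA_act hF1 hF x) hs)
    (fun y => by rw [act_eq_iff hF, hFx]) with h6 | h6
  · exact ⟨x, h6⟩
  · refine ⟨x⁻¹, ?_⟩
    have h7 : Rel T F x t⁻¹ := by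
      intro s hs
      have := h6 s hs
      rwa [inv_inv]
    have := hT.rel_inv hF1 hF h7
    rwa [inv_inv] at this

theorem nonempty_mulEquiv [Finite G] : Nonempty (H ≃* G) := by
  classical
  have hfinH : Finite H := Finite.of_equiv G F.symm
  let R : Subgroup (H × G) :=
    { carrier := {p | Rel T F p.1 p.2}
      mul_mem' := fun {a b} ha hb => hT.rel_mul hF1 hF ha hb
      one_mem' := by
        intro t ht
        change PM (act F 1 t) (1 * t * 1⁻¹)
        rw [act_one, one_mul, inv_one, mul_one]
        exact PM.refl _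
      inv_mem' := fun {a} ha => hT.rel_inv hF1 hF ha }
  let pG : R →* G := (MonoidHom.snd H G).comp R.subtype
  let pH : R →* H := (MonoidHom.fst H G).comp R.subtype
  have hG_inj : Function.Injective pG := by
    rw [injective_iff_map_eq_one]
    rintro ⟨⟨h, g⟩, hr⟩ h1
    have h2 : g = 1 := h1
    subst h2
    have h3 : h = 1 := hT.rel_one_right hF1 hF hr
    subst h3
    rfl
  have hH_inj : Function.Injective pH := by
    rw [injective_iff_map_eq_one]
    rintro ⟨⟨h, g⟩, hr⟩ h1
    have h2 : h = 1 := h1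
    subst h2
    have h3 : g = 1 := hT.rel_one_left hF1 hF hr
    subst h3
    rfl
  have hG_surj : Function.Surjective pG := by
    rw [← MonoidHom.range_eq_top, eq_top_iff, ← hT.gen, Subgroup.closure_le]
    intro t ht
    obtain ⟨h, hh⟩ := hT.exists_rel hF1 hF ht
    exact ⟨⟨(h, t), hh⟩, rfl⟩
  have hcardG : Nat.card R = Nat.card G := Nat.card_congr (Equiv.ofBijective _ ⟨hG_inj, hG_surj⟩)
  have hcardH : Nat.card H = Nat.card G := Nat.card_congr F
  have hH_bij : Function.Bijective pH := by
    have : Finite R := Finite.of_injective _ hG_inj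
    rw [Nat.bijective_iff_injective_and_card]
    exact ⟨hH_inj, by rw [hcardG, hcardH]⟩
  exact ⟨(MulEquiv.ofBijective pH hH_bij).symm.trans (MulEquiv.ofBijective pG ⟨hG_inj, hG_surj⟩)⟩

end Good

end H61.CG33
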