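import Cfsg.Agent.Lib.H61.CG33a
import Cfsg.Agent.Lib.H6.SLCard
import Mathlib.GroupTheory.Sylow

set_option autoImplicit false

/-! The transvection class in `SL(3,3)`: centralizers. -/

namespace H61.CG33

open Matrix H61.CommGraph

abbrev S := Matrix.SpecialLinearGroup (Fin 3) (ZMod 3)

theorem card_S : Nat.card S = 5616 := by
  have h := H6.SLCard.card_sl (F := ZMod 3) (n := 3) (by norm_num)
  rw [ZMod.card, Fin.prod_univ_three] at h
  have h2 : (3 - 1) * Nat.card S = 11232 := h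
  omega

/-- upper unitriangular matrix -/
def um (a b c : ZMod 3) : S := ⟨!![1, a, b; 0, 1, c; 0, 0, 1], by simp [Matrix.det_fin_three]⟩

theorem um_mul (a b c a' b' c' : ZMod 3) : um a b c * um a' b' c' = um (a + a') (b' + a * c' + b) (c + c') := by
  apply Subtype.ext
  rw [Matrix.SpecialLinearGroup.coe_mul]
  change !![1, a, b; 0, 1, c; 0, 0, 1] * !![1, a', b'; 0, 1, c'; 0, 0, 1] = !![1, a + a', b' + a * c' + b; 0, 1, c + c'; 0, 0, 1]
  ext i j
  fin_cases i <;> fin_cases j <;> simp [Matrix.mul_apply, Fin.sum_univ_three] <;> ring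

theorem um_one : um 0 0 0 = 1 := by
  apply Subtype.ext
  change !![1, 0, 0; 0, 1, 0; 0, 0, 1] = (1 : Matrix (Fin 3) (Fin 3) (ZMod 3))
  decide

theorem um_inv (a b c : ZMod 3) : (um a b c)⁻¹ = um (-a) (a * c - b) (-c) := by
  symm
  apply eq_inv_of_mul_eq_one_left
  rw [um_mul, ← um_one]
  congr 1 <;> ring

theorem um_inj {a b c a' b' c' : ZMod 3} (h : um a b c = um a' b' c') : a = a' ∧ b = b' ∧ c = c' := by
  have h1 : (!![1, a, b; 0, 1, c; 0, 0, 1] : Matrix (Fin 3) (Fin 3) (ZMod 3)) = !![1, a', b'; 0, 1, c'; 0, 0, 1] := congrArg Subtype.val h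
  refine ⟨?_, ?_, ?_⟩
  · simpa using congrFun (congrFun h1 0) 1
  · simpa using congrFun (congrFun h1 0) 2
  · simpa using congrFun (congrFun h1 1) 2

def U : Subgroup S where
  carrier := {g | ∃ a b c, g = um a b c}
  mul_mem' := by
    rintro _ _ ⟨a, b, c, rfl⟩ ⟨a', b', c', rfl⟩
    exact ⟨_, _, _, um_mul a b c a' b' c'⟩
  one_mem' := ⟨0, 0, 0, um_one.symm⟩
  inv_mem' := by
    rintro _ ⟨a, b, c, rfl⟩
    exact ⟨_, _, _, um_inv a b c⟩

theorem card_U : Nat.card U = 27 := by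
  have h : (ZMod 3 × ZMod 3 × ZMod 3) ≃ U :=
    Equiv.ofBijective (fun p => ⟨um p.1 p.2.1 p.2.2, p.1, p.2.1, p.2.2, rfl⟩) (by
      constructor
      · rintro ⟨a, b, c⟩ ⟨a', b', c'⟩ h
        have h1 := congrArg Subtype.val h
        obtain ⟨h2, h3, h4⟩ := um_inj h1
        simp only at h2 h3 h4
        rw [h2, h3, h4]
      · rintro ⟨_, a, b, c, rfl⟩
        exact ⟨(a, b, c), rfl⟩)
  rw [← Nat.card_congr h, Nat.card_prod, Nat.card_prod, Nat.card_zmod]

def t0 : S := um 0 1 0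

theorem t0_inv : t0⁻¹ = um 0 (-1) 0 := by
  rw [t0, um_inv]
  rfl

theorem commute_um {m : S} (h1 : Commute m (um 1 0 0)) (h2 : Commute m (um 0 0 1)) : ∃ b, m = um 0 b 0 := by
  have e1 : (m : Matrix (Fin 3) (Fin 3) (ZMod 3)) * !![1, 1, 0; 0, 1, 0; 0, 0, 1] = !![1, 1, 0; 0, 1, 0; 0, 0, 1] * (m : Matrix (Fin 3) (Fin 3) (ZMod 3)) :=
    congrArg Subtype.val h1.eq
  have e2 : (m : Matrix (Fin 3) (Fin 3) (ZMod 3)) * !![1, 0, 0; 0, 1, 1; 0, 0, 1] = !![1, 0, 0; 0, 1, 1; 0, 0, 1] * (m : Matrix (Fin 3) (Fin 3) (ZMod 3)) :=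
    congrArg Subtype.val h2.eq
  have e1' := fun i j => congrFun (congrFun e1 i) j
  have e2' := fun i j => congrFun (congrFun e2 i) j
  have a00 := e1' 0 0
  have a01 := e1' 0 1
  have a02 := e1' 0 2
  have a10 := e1' 1 1
  have a20 := e1' 2 1
  have b01 := e2' 0 2
  have b10 := e2' 1 0
  have b11 := e2' 1 1
  have b12 := e2' 1 2
  have b22 := e2' 2 2
  simp only [Matrix.mul_apply, Fin.sum_univ_three, Matrix.of_apply, Matrix.cons_val', Matrix.cons_val_zero,
    Matrix.cons_val_one, Matrix.cons_val, mul_one, mul_zero, one_mul, zero_mul, add_zero, zero_add, Matrix.cons_val_fin_one] at a00 a01 a02 a10 a20 b01 b10 b11 b12 b22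
  have m10 : (m : Matrix (Fin 3) (Fin 3) (ZMod 3)) 1 0 = 0 := by linear_combination -a00
  have m11 : (m : Matrix (Fin 3) (Fin 3) (ZMod 3)) 1 1 = (m : Matrix (Fin 3) (Fin 3) (ZMod 3)) 0 0 := by linear_combination -a01
  have m12 : (m : Matrix (Fin 3) (Fin 3) (ZMod 3)) 1 2 = 0 := by linear_combination -a02
  have m20 : (m : Matrix (Fin 3) (Fin 3) (ZMod 3)) 2 0 = 0 := by linear_combination a20
  have m01 : (m : Matrix (Fin 3) (Fin 3) (ZMod 3)) 0 1 = 0 := by linear_combination b01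
  have m21 : (m : Matrix (Fin 3) (Fin 3) (ZMod 3)) 2 1 = 0 := by linear_combination -b11
  have m22 : (m : Matrix (Fin 3) (Fin 3) (ZMod 3)) 2 2 = (m : Matrix (Fin 3) (Fin 3) (ZMod 3)) 0 0 := by linear_combination m11 - b12
  have hdet := m.2
  rw [Matrix.det_fin_three, m10, m11, m12, m20, m01, m21, m22] at hdet
  have h00 : (m : Matrix (Fin 3) (Fin 3) (ZMod 3)) 0 0 = 1 := by
    have : ∀ x : ZMod 3, x * x * x - x * 0 * 0 - 0 * 0 * x + 0 * 0 * 0 + 0 * 0 * 0 - 0 * x * 0 = 1 → x = 1 := by decide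
    apply this
    refine Eq.trans ?_ hdet
    ring
  refine ⟨(m : Matrix (Fin 3) (Fin 3) (ZMod 3)) 0 2, ?_⟩
  apply Subtype.ext
  change (m : Matrix (Fin 3) (Fin 3) (ZMod 3)) = !![1, 0, (m : Matrix (Fin 3) (Fin 3) (ZMod 3)) 0 2; 0, 1, 0; 0, 0, 1]
  ext i j
  fin_cases i <;> fin_cases j <;> simp [m10, m11, m12, m20, m01, m21, m22, h00]

theorem um_cases (b : ZMod 3) : um 0 b 0 = 1 ∨ um 0 b 0 = t0 ∨ um 0 b 0 = t0⁻¹ := by
  rw [t0_inv, t0, ← um_one]
  have : ∀ b : ZMod 3, b = 0 ∨ b = 1 ∨ b = -1 := by decide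
  rcases this b with rfl | rfl | rfl
  · left; rfl
  · right; left; rfl
  · right; right; rfl

def T : Set S := {g | g ≠ 1 ∧ 27 ∣ Nat.card (Subgroup.centralizer ({g} : Set S))}

theorem commute_t0 (a b c : ZMod 3) : Commute (um a b c) t0 := by
  change _ * _ = _ * _
  rw [t0, um_mul, um_mul]
  congr 1 <;> ring

theorem t0_ne : t0 ≠ 1 := by
  rw [t0, ← um_one]
  intro h
  exact absurd (um_inj h).2.1 (by decide)

theorem t0_inv_ne : t0⁻¹ ≠ t0 := by
  rw [t0_inv, t0]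
  intro h
  exact absurd (um_inj h).2.1 (by decide)

theorem t0_mem : t0 ∈ T := by
  refine ⟨t0_ne, ?_⟩
  have hle : U ≤ Subgroup.centralizer ({t0} : Set S) := by
    rintro _ ⟨a, b, c, rfl⟩
    rw [Subgroup.mem_centralizer_iff]
    intro h hh
    rw [Set.mem_singleton_iff] at hh
    subst hh
    exact (commute_t0 a b c).eq.symm
  have := Subgroup.card_dvd_of_le hle
  rwa [card_U] at this

theorem conj_mem {t : S} (ht : t ∈ T) (g : S) : g * t * g⁻¹ ∈ T := by
  refine ⟨?_, ?_⟩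
  · intro h
    apply ht.1
    have : t = g⁻¹ * (g * t * g⁻¹) * g := by group
    rw [this, h]
    group
  · have h1 := ht.2
    have h2 : Nat.card (Subgroup.centralizer ({g * t * g⁻¹} : Set S)) = Nat.card (Subgroup.centralizer ({t} : Set S)) := by
      symm
      apply Nat.card_congr
      refine (MulAut.conj g).toEquiv.subtypeEquiv ?_
      intro y
      rw [Subgroup.mem_centralizer_iff, Subgroup.mem_centralizer_iff]
      simp only [Set.mem_singleton_iff, forall_eq]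
      change t * y = y * t ↔ g * t * g⁻¹ * (g * y * g⁻¹) = g * y * g⁻¹ * (g * t * g⁻¹)
      constructor
      · intro h
        calc g * t * g⁻¹ * (g * y * g⁻¹) = g * (t * y) * g⁻¹ := by group
          _ = g * (y * t) * g⁻¹ := by rw [h]
          _ = _ := by group
      · intro h
        have : g * (t * y) * g⁻¹ = g * (y * t) * g⁻¹ := by
          calc g * (t * y) * g⁻¹ = g * t * g⁻¹ * (g * y * g⁻¹) := by group
            _ = _ := h
            _ = _ := by group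
        exact mul_left_cancel (mul_right_cancel this)
    rw [h2]; exact h1

theorem exists_dg : ∃ g : S, g * t0 * g⁻¹ = t0⁻¹ := by
  have hd : (!![1, 0, 0; 0, -1, 0; 0, 0, -1] : Matrix (Fin 3) (Fin 3) (ZMod 3)).det = 1 := by simp [Matrix.det_fin_three]
  have key : ∀ g h k : S, g * h = k * g → g * h * g⁻¹ = k := by
    intro g h k e
    rw [e, mul_inv_cancel_right]
  refine ⟨(⟨!![1, 0, 0; 0, -1, 0; 0, 0, -1], hd⟩ : S), ?_⟩
  rw [t0_inv]
  apply key
  apply Subtype.ext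
  change !![1, 0, 0; 0, -1, 0; 0, 0, -1] * !![1, 0, 1; 0, 1, 0; 0, 0, 1] = (!![1, 0, -1; 0, 1, 0; 0, 0, 1] * !![1, 0, 0; 0, -1, 0; 0, 0, -1] : Matrix (Fin 3) (Fin 3) (ZMod 3))
  decide

theorem mem_T_iff {x : S} : x ∈ T ↔ ∃ g, x = g * t0 * g⁻¹ := by
  constructor
  swap
  · rintro ⟨g, rfl⟩
    exact conj_mem t0_mem g
  rintro ⟨hx, h27⟩
  have : Fact (Nat.Prime 3) := ⟨by norm_num⟩
  obtain ⟨K, hK⟩ := Sylow.exists_subgroup_card_pow_prime (G := Subgroup.centralizer ({x} : Set S)) 3 (n := 3) h27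
  set K' : Subgroup S := K.map (Subgroup.centralizer ({x} : Set S)).subtype with hK'
  have hK'card : Nat.card K' = 3 ^ 3 := by
    rw [hK', ← hK]
    exact (Nat.card_congr (K.equivMapOfInjective _ (Subgroup.subtype_injective _)).toEquiv).symm
  have hle : K' ≤ Subgroup.centralizer ({x} : Set S) := by
    rw [hK']
    exact Subgroup.map_subtype_le K
  have hsyl : ∀ W : Subgroup S, Nat.card W = 3 ^ 3 → ∃ Q : Sylow 3 S, (Q : Subgroup S) = W := by
    intro W hW
    have hp : IsPGroup 3 W := IsPGroup.of_card hW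
    obtain ⟨Q, hQ⟩ := hp.exists_le_sylow
    refine ⟨Q, ?_⟩
    symm
    apply Subgroup.eq_of_le_of_card_ge hQ
    obtain ⟨k, hk⟩ := IsPGroup.iff_card.1 Q.isPGroup'
    have hdvd := Subgroup.card_subgroup_dvd_card (Q : Subgroup S)
    rw [card_S, hk] at hdvd
    have hk3 : k ≤ 3 := by
      by_contra hcon
      have h4 : 3 ^ 4 ∣ 5616 := (Nat.pow_dvd_pow 3 (by omega)).trans hdvd
      norm_num at h4
    rw [hk, hW]
    exact Nat.pow_le_pow_right (by norm_num) hk3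
  obtain ⟨Q1, hQ1⟩ := hsyl K' hK'card
  obtain ⟨Q2, hQ2⟩ := hsyl U (by rw [card_U]; norm_num)
  obtain ⟨g, hg⟩ := MulAction.exists_smul_eq S Q2 Q1
  have hconj : ∀ u ∈ U, Commute x (g * u * g⁻¹) := by
    intro u hu
    have h1 : g * u * g⁻¹ ∈ K' := by
      rw [← hQ1, ← hg]
      rw [Sylow.coe_subgroup_smul, ← hQ2.symm]
      exact ⟨u, hu, rfl⟩
    have h2 := hle h1
    rw [Subgroup.mem_centralizer_iff] at h2
    exact h2 x rfl
  have hconj' : ∀ u ∈ U, Commute (g⁻¹ * x * g) u := by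
    intro u hu
    have h := hconj u hu
    change _ * _ = _ * _
    have h' : x * (g * u * g⁻¹) = (g * u * g⁻¹) * x := h
    calc g⁻¹ * x * g * u = g⁻¹ * (x * (g * u * g⁻¹)) * g := by group
      _ = g⁻¹ * ((g * u * g⁻¹) * x) * g := by rw [h']
      _ = _ := by group
  obtain ⟨b, hb⟩ := commute_um (hconj' _ ⟨1, 0, 0, rfl⟩) (hconj' _ ⟨0, 0, 1, rfl⟩)
  have hx' : x = g * um 0 b 0 * g⁻¹ := by
    rw [← hb]; group
  rcases um_cases b with h1 | h1 | h1
  · exfalso
    apply hx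
    rw [hx', h1]; group
  · exact ⟨g, by rw [hx', h1]⟩
  · obtain ⟨d, hd⟩ := exists_dg
    refine ⟨g * d, ?_⟩
    rw [hx', h1, ← hd]
    group

end H61.CG33
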