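import Cfsg.Agent.Lib.H61.CG33b

set_option autoImplicit false

/-! The transvection class in `SL(3,3)`: normal forms and commuting relations. -/

namespace H61.CG33

open Matrix H61.CommGraph

abbrev M3 := Matrix (Fin 3) (Fin 3) (ZMod 3)

def MB (a g : ZMod 3) : M3 := !![1+a, -(a*a), a*g; 1, 1-a, g; 0, 0, 1]
def MC (a b : ZMod 3) : M3 := !![1, a, -(a*b); 0, 1+b, -(b*b); 0, 1, 1-b]
def MD (a b e : ZMod 3) : M3 := !![1+a, a*e, a*(-a-b*e); b, 1+b*e, b*(-a-b*e); 1, e, 1-a-b*e]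
def M1 (a : ZMod 3) : M3 := !![1, 0, a; 0, 1, 1; 0, 0, 1]
def M2 (b : ZMod 3) : M3 := !![1, 1, -b; 0, 1, 0; 0, 0, 1]

def nb (a g : ZMod 3) : S := ⟨MB a g, by simp [MB, Matrix.det_fin_three]; ring⟩
def nc (a b : ZMod 3) : S := ⟨MC a b, by simp [MC, Matrix.det_fin_three]; ring⟩
def nd (a b e : ZMod 3) : S := ⟨MD a b e, by simp [MD, Matrix.det_fin_three]; ring⟩
def n1 (a : ZMod 3) : S := ⟨M1 a, by simp [M1, Matrix.det_fin_three]⟩
def n2 (b : ZMod 3) : S := ⟨M2 b, by simp [M2, Matrix.det_fin_three]⟩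

theorem conj_eq_of {g h k : S} (e : (g : M3) * (h : M3) = (k : M3) * (g : M3)) : g * h * g⁻¹ = k := by
  have e' : g * h = k * g := Subtype.ext e
  rw [e', mul_inv_cancel_right]

theorem nb_mem (a g : ZMod 3) : nb a g ∈ T := by
  rw [mem_T_iff]
  have hd : (!![a, -g, 1; 1, 0, 0; 0, 1, 0] : M3).det = 1 := by simp [Matrix.det_fin_three]
  refine ⟨(⟨_, hd⟩ : S), ?_⟩
  symm
  apply conj_eq_of
  change !![a, -g, 1; 1, 0, 0; 0, 1, 0] * !![1, 0, 1; 0, 1, 0; 0, 0, 1] = MB a g * !![a, -g, 1; 1, 0, 0; 0, 1, 0]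
  revert a g
  decide +kernel

theorem nc_mem (a b : ZMod 3) : nc a b ∈ T := by
  rw [mem_T_iff]
  have hd : (!![a, 1, 0; b, 0, 1; 1, 0, 0] : M3).det = 1 := by simp [Matrix.det_fin_three]
  refine ⟨(⟨_, hd⟩ : S), ?_⟩
  symm
  apply conj_eq_of
  change !![a, 1, 0; b, 0, 1; 1, 0, 0] * !![1, 0, 1; 0, 1, 0; 0, 0, 1] = MC a b * !![a, 1, 0; b, 0, 1; 1, 0, 0]
  revert a b
  decide +kernel

theorem nd_mem (a b e : ZMod 3) : nd a b e ∈ T := by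
  rw [mem_T_iff]
  have hd : (!![a, e, 1; b, -1, 0; 1, 0, 0] : M3).det = 1 := by simp [Matrix.det_fin_three]
  refine ⟨(⟨_, hd⟩ : S), ?_⟩
  symm
  apply conj_eq_of
  change !![a, e, 1; b, -1, 0; 1, 0, 0] * !![1, 0, 1; 0, 1, 0; 0, 0, 1] = MD a b e * !![a, e, 1; b, -1, 0; 1, 0, 0]
  revert a b e
  decide +kernel

theorem n1_mem (a : ZMod 3) : n1 a ∈ T := by
  rw [mem_T_iff]
  have hd : (!![a, -1, 0; 1, 0, 0; 0, 0, 1] : M3).det = 1 := by simp [Matrix.det_fin_three]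
  refine ⟨(⟨_, hd⟩ : S), ?_⟩
  symm
  apply conj_eq_of
  change !![a, -1, 0; 1, 0, 0; 0, 0, 1] * !![1, 0, 1; 0, 1, 0; 0, 0, 1] = M1 a * !![a, -1, 0; 1, 0, 0; 0, 0, 1]
  revert a
  decide +kernel

theorem n2_mem (b : ZMod 3) : n2 b ∈ T := by
  rw [mem_T_iff]
  have hd : (!![1, 0, 0; 0, -b, 1; 0, -1, 0] : M3).det = 1 := by simp [Matrix.det_fin_three]
  refine ⟨(⟨_, hd⟩ : S), ?_⟩
  symm
  apply conj_eq_of
  change !![1, 0, 0; 0, -b, 1; 0, -1, 0] * !![1, 0, 1; 0, 1, 0; 0, 0, 1] = M2 b * !![1, 0, 0; 0, -b, 1; 0, -1, 0]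
  revert b
  decide +kernel

/-- matrix of a transvection -/
def MT (v0 v1 v2 f0 f1 f2 : ZMod 3) : M3 := !![1+v0*f0, v0*f1, v0*f2; v1*f0, 1+v1*f1, v1*f2; v2*f0, v2*f1, 1+v2*f2]

theorem exists_MT {x : S} (hx : x ∈ T) : ∃ v0 v1 v2 f0 f1 f2, (x : M3) = MT v0 v1 v2 f0 f1 f2 ∧
    v0 * f0 + v1 * f1 + v2 * f2 = 0 ∧ (v0 ≠ 0 ∨ v1 ≠ 0 ∨ v2 ≠ 0) ∧ (f0 ≠ 0 ∨ f1 ≠ 0 ∨ f2 ≠ 0) := by
  obtain ⟨h, rfl⟩ := mem_T_iff.1 hx
  have hinv : (h⁻¹ : S).1 * h.1 = 1 := by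
    have : h⁻¹ * h = 1 := inv_mul_cancel h
    exact congrArg Subtype.val this
  have hinv' : h.1 * (h⁻¹ : S).1 = 1 := by
    have : h * h⁻¹ = 1 := mul_inv_cancel h
    exact congrArg Subtype.val this
  have e20 := congrFun (congrFun hinv 2) 0
  have e00 := congrFun (congrFun hinv 0) 0
  have e22 := congrFun (congrFun hinv 2) 2
  rw [Matrix.mul_apply, Fin.sum_univ_three] at e20 e00 e22
  refine ⟨h.1 0 0, h.1 1 0, h.1 2 0, (h⁻¹ : S).1 2 0, (h⁻¹ : S).1 2 1, (h⁻¹ : S).1 2 2, ?_, ?_, ?_, ?_⟩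
  · have ht : (t0 : M3) = 1 + Matrix.single 0 2 1 := by
      change !![1, 0, 1; 0, 1, 0; 0, 0, 1] = (1 + Matrix.single 0 2 1 : M3)
      decide
    have h1 : ((h * t0 * h⁻¹ : S) : M3) = 1 + h.1 * Matrix.single 0 2 1 * (h⁻¹ : S).1 := by
      rw [Matrix.SpecialLinearGroup.coe_mul, Matrix.SpecialLinearGroup.coe_mul, ht, mul_add, add_mul, mul_one]
      congr 1
    rw [h1]
    unfold MT
    have h2 : ∀ i j, (h.1 * Matrix.single 0 2 1 * (h⁻¹ : S).1 : M3) i j = h.1 i 0 * (h⁻¹ : S).1 2 j := by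
      intro i j
      rw [Matrix.mul_apply, Fin.sum_univ_three]
      simp [Matrix.mul_apply, Fin.sum_univ_three, Matrix.single_apply]
    ext i j
    rw [Matrix.add_apply, h2]
    fin_cases i <;> fin_cases j <;> simp
  · have : (1 : M3) 2 0 = 0 := by decide
    rw [this] at e20
    linear_combination e20
  · by_contra hcon
    push Not at hcon
    obtain ⟨c0, c1, c2⟩ := hcon
    have : (1 : M3) 0 0 = 1 := by decide
    rw [this] at e00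
    have e : (h⁻¹ : S).1 0 0 * h.1 0 0 + (h⁻¹ : S).1 0 1 * h.1 1 0 + (h⁻¹ : S).1 0 2 * h.1 2 0 = 0 := by
      rw [c0, c1, c2]; ring
    rw [e] at e00
    exact absurd e00 (by decide)
  · by_contra hcon
    push Not at hcon
    obtain ⟨c0, c1, c2⟩ := hcon
    have : (1 : M3) 2 2 = 1 := by decide
    rw [this] at e22
    have e : (h⁻¹ : S).1 2 0 * h.1 0 2 + (h⁻¹ : S).1 2 1 * h.1 1 2 + (h⁻¹ : S).1 2 2 * h.1 2 2 = 0 := by
      rw [c0, c1, c2]; ring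
    rw [e] at e22
    exact absurd e22 (by decide)

theorem pm_of {x y : S} (h : (x : M3) = y ∨ (x : M3) * (y : M3) = 1) : PM x y := by
  rcases h with h | h
  · left; exact Subtype.ext h
  · right
    have : x * y = 1 := Subtype.ext h
    exact eq_inv_of_mul_eq_one_left this

theorem dec_a : ∀ v0 v1 f1 f2 : ZMod 3, v0 * 0 + v1 * f1 + 0 * f2 = 0 →
    (!![1, 0, 1; 0, 1, 0; 0, 0, 1] : M3) * MT v0 v1 0 0 f1 f2 = MT v0 v1 0 0 f1 f2 * !![1, 0, 1; 0, 1, 0; 0, 0, 1] := by decide +kernel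

theorem dec_b : ∀ v0 v1 f0 f1 f2 : ZMod 3, f0 ≠ 0 → v0 * f0 + v1 * f1 + 0 * f2 = 0 → (v0 ≠ 0 ∨ v1 ≠ 0) →
    MT v0 v1 0 f0 f1 f2 = MB (v0*v1) (f2*f0) ∨ MT v0 v1 0 f0 f1 f2 * MB (v0*v1) (f2*f0) = 1 := by decide +kernel

theorem dec_c : ∀ v0 v1 v2 f1 f2 : ZMod 3, v2 ≠ 0 → v0 * 0 + v1 * f1 + v2 * f2 = 0 → (f1 ≠ 0 ∨ f2 ≠ 0) →
    MT v0 v1 v2 0 f1 f2 = MC (v0*v2) (v1*v2) ∨ MT v0 v1 v2 0 f1 f2 * MC (v0*v2) (v1*v2) = 1 := by decide +kernel

theorem dec_d : ∀ v0 v1 v2 f0 f1 f2 : ZMod 3, v2 ≠ 0 → f0 ≠ 0 → v0 * f0 + v1 * f1 + v2 * f2 = 0 →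
    MT v0 v1 v2 f0 f1 f2 = MD (v0*v2) (v1*v2) (f1*f0) ∨ MT v0 v1 v2 f0 f1 f2 * MD (v0*v2) (v1*v2) (f1*f0) = 1 := by
  decide +kernel

theorem classify {x : S} (hx : x ∈ T) : Commute t0 x ∨ (∃ a g, PM x (nb a g)) ∨ (∃ a b, PM x (nc a b)) ∨
    (∃ a b e, PM x (nd a b e)) := by
  obtain ⟨v0, v1, v2, f0, f1, f2, he, h0, hv, hf⟩ := exists_MT hx
  by_cases h2 : v2 = 0
  · subst h2
    by_cases hf0 : f0 = 0
    · subst hf0
      left
      apply Subtype.ext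
      change (!![1, 0, 1; 0, 1, 0; 0, 0, 1] : M3) * (x : M3) = (x : M3) * !![1, 0, 1; 0, 1, 0; 0, 0, 1]
      rw [he]
      exact dec_a v0 v1 f1 f2 h0
    · right; left
      refine ⟨v0*v1, f2*f0, pm_of ?_⟩
      change (x : M3) = MB (v0*v1) (f2*f0) ∨ (x : M3) * MB (v0*v1) (f2*f0) = 1
      rw [he]
      refine dec_b v0 v1 f0 f1 f2 hf0 h0 ?_
      rcases hv with h | h | h
      · exact Or.inl h
      · exact Or.inr h
      · exact absurd rfl h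
  · by_cases hf0 : f0 = 0
    · subst hf0
      right; right; left
      refine ⟨v0*v2, v1*v2, pm_of ?_⟩
      change (x : M3) = MC (v0*v2) (v1*v2) ∨ (x : M3) * MC (v0*v2) (v1*v2) = 1
      rw [he]
      refine dec_c v0 v1 v2 f1 f2 h2 h0 ?_
      rcases hf with h | h | h
      · exact absurd rfl h
      · exact Or.inl h
      · exact Or.inr h
    · right; right; right
      refine ⟨v0*v2, v1*v2, f1*f0, pm_of ?_⟩
      change (x : M3) = MD (v0*v2) (v1*v2) (f1*f0) ∨ (x : M3) * MD (v0*v2) (v1*v2) (f1*f0) = 1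
      rw [he]
      exact dec_d v0 v1 v2 f0 f1 f2 h2 hf0 h0

theorem cm_iff {x y : S} : Commute x y ↔ (x : M3) * (y : M3) = (y : M3) * (x : M3) := by
  constructor
  · intro h; exact congrArg Subtype.val h.eq
  · intro h; exact Subtype.ext h

theorem C1 : ∀ a' g' a : ZMod 3, MB a' g' * M1 a = M1 a * MB a' g' → a' = a := by decide +kernel
theorem C2 : ∀ a' b' a : ZMod 3, MC a' b' * M1 a ≠ M1 a * MC a' b' := by decide +kernel
theorem C3 : ∀ a' b' e' a : ZMod 3, MD a' b' e' * M1 a ≠ M1 a * MD a' b' e' := by decide +kernel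
theorem C4 : ∀ a' g' b : ZMod 3, MB a' g' * M2 b ≠ M2 b * MB a' g' := by decide +kernel
theorem C5 : ∀ a' b' b : ZMod 3, MC a' b' * M2 b = M2 b * MC a' b' → b' = b := by decide +kernel
theorem C6 : ∀ a' b' e' b : ZMod 3, MD a' b' e' * M2 b ≠ M2 b * MD a' b' e' := by decide +kernel
theorem C7 : ∀ a g a' b' : ZMod 3, MB a g * MC a' b' ≠ MC a' b' * MB a g := by decide +kernel
theorem C8 : ∀ a' b' e' a g : ZMod 3, MD a' b' e' * MB a g = MB a g * MD a' b' e' → e' = -a ∧ g = a * b' - a' := by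
  decide +kernel
theorem C9 : ∀ a' b' e' a b : ZMod 3, MD a' b' e' * MC a b = MC a b * MD a' b' e' → b' = b ∧ a' = a := by
  decide +kernel
theorem C10 : ∀ a g : ZMod 3, MB a g * M1 a = M1 a * MB a g := by decide +kernel
theorem C11 : ∀ a b : ZMod 3, MC a b * M2 b = M2 b * MC a b := by decide +kernel
abbrev MT0 : M3 := !![1, 0, 1; 0, 1, 0; 0, 0, 1]
theorem C12 : ∀ a : ZMod 3, MT0 * M1 a = M1 a * MT0 := by decide +kernel
theorem C13 : ∀ a : ZMod 3, MT0 * M2 a = M2 a * MT0 := by decide +kernel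
theorem C14 : ∀ a g : ZMod 3, MT0 * MB a g ≠ MB a g * MT0 := by decide +kernel
theorem C15 : ∀ a b : ZMod 3, MT0 * MC a b ≠ MC a b * MT0 := by decide +kernel
theorem C16 : ∀ a b e : ZMod 3, MT0 * MD a b e ≠ MD a b e * MT0 := by decide +kernel
theorem C17 : ∀ a b e : ZMod 3, MD a b e * MB (-e) (-a-b*e) = MB (-e) (-a-b*e) * MD a b e := by decide +kernel
theorem C18 : ∀ a b e : ZMod 3, MD a b e * MC a b = MC a b * MD a b e := by decide +kernel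
theorem C19 : ∀ a g : ZMod 3, MT0 * MB a g = MB a (g-1) * MT0 := by decide +kernel
theorem C20 : ∀ a b : ZMod 3, MT0 * MC a b = MC (a+1) b * MT0 := by decide +kernel
theorem C21 : ∀ a b e : ZMod 3, MT0 * MD a b e = MD (a+1) b e * MT0 := by decide +kernel

end H61.CG33
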