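import Cfsg.Agent.Lib.H61.CG33c
import Cfsg.Agent.Lib.H6.SLGen

set_option autoImplicit false

/-! The transvection class in `SL(3,3)` is rigid for commuting-graph automorphisms. -/

namespace H61.CG33

open Matrix H61.CommGraph

theorem center_S : Subgroup.center S = ⊥ := by
  have h := H6.SLCard.card_center_sl (F := ZMod 3) (ι := Fin 3)
  rw [Fintype.card_fin, ZMod.card] at h
  have h1 : Nat.card (Subgroup.center S) = 1 := h
  exact Subgroup.card_eq_one.1 h1

noncomputable def e0 : Matrix.ProjectiveSpecialLinearGroup (Fin 3) (ZMod 3) ≃* S :=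
  (QuotientGroup.quotientMulEquivOfEq center_S).trans QuotientGroup.quotientBot

theorem simple_S : IsSimpleGroup S := by
  have h : IsSimpleGroup (Matrix.ProjectiveSpecialLinearGroup (Fin 3) (ZMod 3)) :=
    H6.SLGen.psl_isSimpleGroup (by simp)
  have : Nontrivial S := ⟨⟨t0, 1, t0_ne⟩⟩
  exact IsSimpleGroup.isSimpleGroup_of_surjective e0.toMonoidHom e0.surjective

theorem gen_T : Subgroup.closure T = ⊤ := by
  have hn : (Subgroup.closure T).Normal := by
    constructor
    intro x hx g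
    induction hx using Subgroup.closure_induction with
    | mem y hy => exact Subgroup.subset_closure (conj_mem hy g)
    | one => rw [mul_one, mul_inv_cancel]; exact one_mem _
    | mul y z _ _ hy hz =>
      have : g * (y * z) * g⁻¹ = (g * y * g⁻¹) * (g * z * g⁻¹) := by group
      rw [this]; exact mul_mem hy hz
    | inv y _ hy =>
      have : g * y⁻¹ * g⁻¹ = (g * y * g⁻¹)⁻¹ := by group
      rw [this]; exact inv_mem hy
  have := simple_S
  rcases hn.eq_bot_or_eq_top with h | h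
  · exfalso
    have h1 : t0 ∈ Subgroup.closure T := Subgroup.subset_closure t0_mem
    rw [h, Subgroup.mem_bot] at h1
    exact t0_ne h1
  · exact h

theorem inv_ne_T {t : S} (ht : t ∈ T) : t⁻¹ ≠ t := by
  obtain ⟨g, rfl⟩ := mem_T_iff.1 ht
  intro h
  apply t0_inv_ne
  have : t0⁻¹ = g⁻¹ * (g * t0 * g⁻¹)⁻¹ * g := by group
  rw [this, h]
  group

theorem cc_T {t : S} (ht : t ∈ T) (x : S) (h : ∀ c, Commute c t → Commute c x) : x = 1 ∨ x = t ∨ x = t⁻¹ := by
  obtain ⟨g, rfl⟩ := mem_T_iff.1 ht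
  have key : ∀ c, Commute c t0 → Commute (g⁻¹ * x * g) c := by
    intro c hc
    have h1 : Commute (g * c * g⁻¹) (g * t0 * g⁻¹) := by
      change _ * _ = _ * _
      calc g * c * g⁻¹ * (g * t0 * g⁻¹) = g * (c * t0) * g⁻¹ := by group
        _ = g * (t0 * c) * g⁻¹ := by rw [hc.eq]
        _ = _ := by group
    have h2 := (h _ h1).eq
    change _ * _ = _ * _
    calc g⁻¹ * x * g * c = g⁻¹ * (x * (g * c * g⁻¹)) * g := by group
      _ = g⁻¹ * ((g * c * g⁻¹) * x) * g := by rw [h2]
      _ = _ := by group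
  obtain ⟨b, hb⟩ := commute_um (key _ (commute_t0 1 0 0)) (key _ (commute_t0 0 0 1))
  have hx : x = g * um 0 b 0 * g⁻¹ := by rw [← hb]; group
  rcases um_cases b with h1 | h1 | h1
  · left; rw [hx, h1]; group
  · right; left; rw [hx, h1]
  · right; right; rw [hx, h1]; group

theorem inv_mem_T {t : S} (ht : t ∈ T) : t⁻¹ ∈ T := by
  obtain ⟨g, rfl⟩ := mem_T_iff.1 ht
  obtain ⟨d, hd⟩ := exists_dg
  rw [mem_T_iff]
  refine ⟨g * d, ?_⟩
  have : (g * t0 * g⁻¹)⁻¹ = g * t0⁻¹ * g⁻¹ := by group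
  rw [this, ← hd]
  group

/-! kernel: elements normalizing every `⟨t⟩` -/

theorem pm_matrix {g x : S} {N : M3} (hx : (x : M3) = 1 + N) (hN : N * N = 0) (h : PM (g * x * g⁻¹) x) :
    (g : M3) * N = N * g ∨ (g : M3) * N = -(N * g) := by
  rcases h with h | h
  · left
    have h1 : g * x = x * g := by rw [mul_inv_eq_iff_eq_mul] at h; exact h
    have h2 : (g : M3) * (x : M3) = (x : M3) * (g : M3) := congrArg Subtype.val h1
    rw [hx, mul_add, add_mul, mul_one, one_mul] at h2
    exact add_left_cancel h2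
  · right
    have h1 : g * x = x⁻¹ * g := by rw [mul_inv_eq_iff_eq_mul] at h; exact h
    have hxi : (x⁻¹ : S).1 = 1 - N := by
      have h3 : (x : M3) * (1 - N) = 1 := by
        rw [hx, add_mul, one_mul, mul_sub, mul_one, hN]
        abel
      have h4 : (x⁻¹ : S).1 * (x : M3) = 1 := by
        have : x⁻¹ * x = 1 := inv_mul_cancel x
        exact congrArg Subtype.val this
      calc (x⁻¹ : S).1 = (x⁻¹ : S).1 * ((x : M3) * (1 - N)) := by rw [h3, mul_one]
        _ = ((x⁻¹ : S).1 * (x : M3)) * (1 - N) := by rw [mul_assoc]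
        _ = _ := by rw [h4, one_mul]
    have h2 : (g : M3) * (x : M3) = (x⁻¹ : S).1 * (g : M3) := congrArg Subtype.val h1
    rw [hxi, hx, mul_add, sub_mul, mul_one, one_mul] at h2
    have h5 : (g : M3) * N = ((g : M3) + (g : M3) * N) - (g : M3) := by abel
    rw [h5, h2]
    abel

theorem ker_T (g : S) (hg : ∀ t ∈ T, PM (g * t * g⁻¹) t) : g = 1 := by
  have a1 := pm_matrix (N := !![0, 0, 1; 0, 0, 0; 0, 0, 0]) (g := g) (x := t0)
    (by change !![1, 0, 1; 0, 1, 0; 0, 0, 1] = _; decide) (by decide) (hg _ t0_mem)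
  have a2 := pm_matrix (N := !![0, 0, 1; 0, 0, 1; 0, 0, 0]) (g := g) (x := n1 1)
    (by change M1 1 = _; decide) (by decide) (hg _ (n1_mem 1))
  have a3 := pm_matrix (N := !![0, 0, 0; 0, 0, 1; 0, 0, 0]) (g := g) (x := n1 0)
    (by change M1 0 = _; decide) (by decide) (hg _ (n1_mem 0))
  have a4 := pm_matrix (N := !![0, 1, 0; 0, 0, 0; 0, 0, 0]) (g := g) (x := n2 0)
    (by change M2 0 = _; decide) (by decide) (hg _ (n2_mem 0))
  have a5 := pm_matrix (N := !![0, 1, -1; 0, 0, 0; 0, 0, 0]) (g := g) (x := n2 1)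
    (by change M2 1 = _; decide) (by decide) (hg _ (n2_mem 1))
  have a6 := pm_matrix (N := !![0, 0, 0; 0, 0, 0; 1, 0, 0]) (g := g) (x := nd 0 0 0)
    (by change MD 0 0 0 = _; decide) (by decide) (hg _ (nd_mem 0 0 0))
  have hdet : (g : M3).det = 1 := g.2
  rw [Matrix.det_fin_three] at hdet
  have key : ∀ (N : M3), ((g : M3) * N = N * g ∨ (g : M3) * N = -(N * g)) → ∃ s : ZMod 3, (s = 1 ∨ s = -1) ∧ ∀ i j,
      ((g : M3) * N) i j = s * (N * (g : M3)) i j := by
    intro N hN
    rcases hN with h | h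
    · exact ⟨1, Or.inl rfl, fun i j => by rw [h, one_mul]⟩
    · exact ⟨-1, Or.inr rfl, fun i j => by rw [h, Matrix.neg_apply]; ring⟩
  obtain ⟨s1, hs1, b1⟩ := key _ a1
  obtain ⟨s2, hs2, b2⟩ := key _ a2
  obtain ⟨s3, hs3, b3⟩ := key _ a3
  obtain ⟨s4, hs4, b4⟩ := key _ a4
  obtain ⟨s5, hs5, b5⟩ := key _ a5
  obtain ⟨s6, hs6, b6⟩ := key _ a6
  simp only [Matrix.mul_apply, Fin.sum_univ_three] at b1 b2 b3 b4 b5 b6
  have c10 : (g : M3) 1 0 = 0 := by
    have := b1 1 2; simpa using this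
  have c20 : (g : M3) 2 0 = 0 := by
    have := b1 2 2; simpa using this
  have hsne : ∀ s : ZMod 3, (s = 1 ∨ s = -1) → s ≠ 0 := by decide
  have c21 : (g : M3) 2 1 = 0 := by
    have := b1 0 1
    simp at this
    rcases this with h | h
    · exact absurd h (hsne _ hs1)
    · exact h
  have c01 : (g : M3) 0 1 = 0 := by
    have := b3 0 2; simpa using this
  have c12 : (g : M3) 1 2 = 0 := by
    have := b4 0 2
    simp at this
    rcases this with h | h
    · exact absurd h (hsne _ hs4)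
    · exact h
  have c02 : (g : M3) 0 2 = 0 := by
    have := b6 0 0; simpa using this
  have d1 : (g : M3) 0 0 = (g : M3) 1 1 := by
    have e1 := b2 0 2
    have e2 := b2 1 2
    simp [c01, c10] at e1 e2
    rw [e1, e2]
  have d2 : (g : M3) 1 1 = (g : M3) 2 2 := by
    have e1 := b5 0 1
    have e2 := b5 0 2
    simp [c21, c12] at e1 e2
    rw [e1] at e2
    exact mul_left_cancel₀ (hsne _ hs5) e2
  have h22 : (g : M3) 2 2 = 1 := by
    have : ∀ x : ZMod 3, x * x * x = 1 → x = 1 := by decide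
    apply this
    rw [c10, c20, c21, c01, c12, c02, d1, d2] at hdet
    refine Eq.trans ?_ hdet
    ring
  apply Subtype.ext
  change (g : M3) = 1
  ext i j
  fin_cases i <;> fin_cases j <;> simp [c10, c20, c21, c01, c12, c02, d1, d2, h22]

end H61.CG33
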