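import Cfsg.Agent.Lib.H61.CG33d

set_option autoImplicit false

/-! The transvection class in `SL(3,3)` is rigid for commuting-graph automorphisms. -/

namespace H61.CG33

open Matrix H61.CommGraph

theorem signs (aa gg : ZMod 3 → ZMod 3 → ZMod 3) (haa : ∀ a b, aa a b ≠ a)
    (hrel : ∀ a b e, gg (-e) (-a-b*e) = -e*b - aa a b) :
    ((∀ a b, aa a b = a + 1) ∧ (∀ a g, gg a g = g - 1)) ∨ ((∀ a b, aa a b = a - 1) ∧ (∀ a g, gg a g = g + 1)) := by
  have c1 : ∀ a b, aa a b = aa a 0 := by
    intro a b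
    have h1 := hrel a b 0
    have h2 := hrel a 0 0
    have e1 : -a - b * 0 = -a - 0 * 0 := by ring
    rw [e1, h2] at h1
    linear_combination h1
  have c2 : ∀ a₁ a₂, aa a₁ 0 - a₁ = aa a₂ 0 - a₂ := by
    intro a₁ a₂
    have h1 := hrel a₁ 0 (a₁ - a₂)
    have h2 := hrel a₂ 1 (a₁ - a₂)
    have e1 : -a₂ - 1 * (a₁ - a₂) = -a₁ - 0 * (a₁ - a₂) := by ring
    rw [e1, h1, c1 a₂ 1] at h2
    linear_combination -h2
  have c3 : ∀ x : ZMod 3, x ≠ 0 → x = 1 ∨ x = -1 := by decide
  rcases c3 (aa 0 0) (haa 0 0) with h | h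
  · left
    have c4 : ∀ a b, aa a b = a + 1 := by
      intro a b
      have := c2 a 0
      rw [c1 a b]
      linear_combination this + h
    refine ⟨c4, ?_⟩
    intro a g
    have h1 := hrel (-g) 0 (-a)
    have e1 : - -a = a := neg_neg a
    have e2 : - -g - 0 * -a = g := by ring
    rw [e1, e2, c4] at h1
    rw [h1]; ring
  · right
    have c4 : ∀ a b, aa a b = a - 1 := by
      intro a b
      have := c2 a 0
      rw [c1 a b]
      linear_combination this + h
    refine ⟨c4, ?_⟩
    intro a g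
    have h1 := hrel (-g) 0 (-a)
    have e1 : - -a = a := neg_neg a
    have e2 : - -g - 0 * -a = g := by ring
    rw [e1, e2, c4] at h1
    rw [h1]; ring

theorem PM.commute_iff {x y z : S} (h : PM x y) : Commute z x ↔ Commute z y := by
  rcases h with rfl | rfl
  · rfl
  · exact Commute.inv_right_iff

theorem PM.commute_iff' {x y z : S} (h : PM x y) : Commute x z ↔ Commute y z := by
  rcases h with rfl | rfl
  · rfl
  · exact Commute.inv_left_iff

theorem rigid0 (α : Equiv.Perm S) (hα : IsCA α) (hTα : ∀ s ∈ T, α s ∈ T) (h3 : ∀ x, α (α (α x)) = x)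
    (hinv : ∀ s ∈ T, α s⁻¹ = (α s)⁻¹) (hfix : ∀ x, α x = x ↔ Commute t0 x) :
    (∀ s ∈ T, PM (α s) (t0 * s * t0⁻¹)) ∨ (∀ s ∈ T, PM (α s) (t0⁻¹ * s * t0)) := by
  have hPM : ∀ s ∈ T, ∀ s', PM s' s → PM (α s') (α s) := by
    intro s hs s' h
    rcases h with rfl | rfl
    · exact PM.refl _
    · right; exact hinv s hs
  have hcomm : ∀ s, Commute t0 (α s) → Commute t0 s := by
    intro s hs
    rw [← hfix] at hs ⊢
    exact α.injective hs
  have hnPM : ∀ s ∈ T, ¬ Commute t0 s → ¬ PM (α s) s := by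
    intro s hs hn h
    apply hn
    rw [← hfix]
    rcases h with h | h
    · exact h
    · have h1 : α (α s) = s := by
        rw [h, hinv s hs, h, inv_inv]
      have h2 := h3 s
      rw [h1] at h2
      exact h2
  have ncb : ∀ a g, ¬ Commute t0 (nb a g) := by
    intro a g h
    exact C14 a g (cm_iff.1 h)
  have ncc : ∀ a b, ¬ Commute t0 (nc a b) := by
    intro a g h
    exact C15 a g (cm_iff.1 h)
  have ncd : ∀ a b e, ¬ Commute t0 (nd a b e) := by
    intro a b e h
    exact C16 a b e (cm_iff.1 h)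
  have fix1 : ∀ a, α (n1 a) = n1 a := by
    intro a
    rw [hfix, cm_iff]
    exact C12 a
  have fix2 : ∀ a, α (n2 a) = n2 a := by
    intro a
    rw [hfix, cm_iff]
    exact C13 a
  have hB : ∀ a g, ∃ g', PM (α (nb a g)) (nb a g') := by
    intro a g
    have h1 : Commute (α (nb a g)) (n1 a) := by
      rw [← fix1 a, ← hα.2, cm_iff]
      exact C10 a g
    have h2 : ¬ Commute t0 (α (nb a g)) := fun h => ncb a g (hcomm _ h)
    rcases classify (hTα _ (nb_mem a g)) with h | ⟨a', g', h⟩ | ⟨a', b', h⟩ | ⟨a', b', e', h⟩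
    · exact absurd h h2
    · refine ⟨g', ?_⟩
      rw [h.commute_iff', cm_iff] at h1
      have := C1 a' g' a h1
      rw [this] at h
      exact h
    · rw [h.commute_iff', cm_iff] at h1
      exact absurd h1 (C2 a' b' a)
    · rw [h.commute_iff', cm_iff] at h1
      exact absurd h1 (C3 a' b' e' a)
  have hC : ∀ a b, ∃ a', PM (α (nc a b)) (nc a' b) := by
    intro a b
    have h1 : Commute (α (nc a b)) (n2 b) := by
      rw [← fix2 b, ← hα.2, cm_iff]
      exact C11 a b
    have h2 : ¬ Commute t0 (α (nc a b)) := fun h => ncc a b (hcomm _ h)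
    rcases classify (hTα _ (nc_mem a b)) with h | ⟨a', g', h⟩ | ⟨a', b', h⟩ | ⟨a', b', e', h⟩
    · exact absurd h h2
    · rw [h.commute_iff', cm_iff] at h1
      exact absurd h1 (C4 a' g' b)
    · refine ⟨a', ?_⟩
      rw [h.commute_iff', cm_iff] at h1
      have := C5 a' b' b h1
      rw [this] at h
      exact h
    · rw [h.commute_iff', cm_iff] at h1
      exact absurd h1 (C6 a' b' e' b)
  choose gg hgg using hB
  choose aa haa using hC
  have haane : ∀ a b, aa a b ≠ a := by
    intro a b h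
    have h1 := haa a b
    rw [h] at h1
    exact hnPM _ (nc_mem a b) (ncc a b) h1
  have hD : ∀ a b e, PM (α (nd a b e)) (nd (aa a b) b e) ∧ gg (-e) (-a-b*e) = -e*b - aa a b := by
    intro a b e
    have h1 : Commute (α (nd a b e)) (nb (-e) (gg (-e) (-a-b*e))) := by
      rw [← (hgg (-e) (-a-b*e)).commute_iff, ← hα.2, cm_iff]
      exact C17 a b e
    have h1' : Commute (α (nd a b e)) (nc (aa a b) b) := by
      rw [← (haa a b).commute_iff, ← hα.2, cm_iff]
      exact C18 a b e
    have h2 : ¬ Commute t0 (α (nd a b e)) := fun h => ncd a b e (hcomm _ h)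
    rcases classify (hTα _ (nd_mem a b e)) with h | ⟨a', g', h⟩ | ⟨a', b', h⟩ | ⟨a', b', e', h⟩
    · exact absurd h h2
    · rw [h.commute_iff', cm_iff] at h1'
      exact absurd h1' (C7 a' g' _ _)
    · rw [h.commute_iff', cm_iff] at h1
      exact absurd h1.symm (C7 _ _ a' b')
    · rw [h.commute_iff', cm_iff] at h1 h1'
      obtain ⟨k1, k2⟩ := C8 _ _ _ _ _ h1
      obtain ⟨k3, k4⟩ := C9 _ _ _ _ _ h1'
      rw [neg_neg] at k1
      subst k1 k3 k4
      exact ⟨h, k2⟩
  have conjB : ∀ a g, t0 * nb a g * t0⁻¹ = nb a (g-1) := fun a g => conj_eq_of (C19 a g)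
  have conjC : ∀ a b, t0 * nc a b * t0⁻¹ = nc (a+1) b := fun a b => conj_eq_of (C20 a b)
  have conjD : ∀ a b e, t0 * nd a b e * t0⁻¹ = nd (a+1) b e := fun a b e => conj_eq_of (C21 a b e)
  have ci : ∀ x y : S, t0 * x * t0⁻¹ = y → t0⁻¹ * y * t0 = x := by
    intro x y h
    rw [← h]; group
  have final : ∀ (c : S), (∀ a g, PM (α (nb a g)) (c * nb a g * c⁻¹)) → (∀ a b, PM (α (nc a b)) (c * nc a b * c⁻¹)) →
      (∀ a b e, PM (α (nd a b e)) (c * nd a b e * c⁻¹)) → (∀ s, Commute t0 s → c * s * c⁻¹ = s) →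
      ∀ s ∈ T, PM (α s) (c * s * c⁻¹) := by
    intro c hb hc hd hf s hs
    have gen : ∀ n : S, n ∈ T → PM s n → PM (α n) (c * n * c⁻¹) → PM (α s) (c * s * c⁻¹) := by
      intro n hn hsn hn'
      have h1 := hPM n hn s hsn
      exact (h1.trans hn').trans (hsn.conj c).symm
    rcases classify hs with h | ⟨a', g', h⟩ | ⟨a', b', h⟩ | ⟨a', b', e', h⟩
    · left
      rw [hf s h]
      exact (hfix s).2 h
    · exact gen _ (nb_mem _ _) h (hb _ _)
    · exact gen _ (nc_mem _ _) h (hc _ _)
    · exact gen _ (nd_mem _ _ _) h (hd _ _ _)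
  rcases signs aa gg haane (fun a b e => (hD a b e).2) with ⟨s1, s2⟩ | ⟨s1, s2⟩
  · left
    refine final t0 ?_ ?_ ?_ ?_
    · intro a g
      rw [conjB, ← s2]; exact hgg a g
    · intro a b
      rw [conjC, ← s1 a b]; exact haa a b
    · intro a b e
      rw [conjD, ← s1 a b]; exact (hD a b e).1
    · intro s hs
      rw [hs.eq, mul_inv_cancel_right]
  · right
    have hlast := final t0⁻¹ ?_ ?_ ?_ ?_
    · intro s hs
      have := hlast s hs
      rwa [inv_inv] at this
    · intro a g
      rw [inv_inv, ci _ _ ((conjB a (g+1)).trans (by rw [add_sub_cancel_right])), ← s2]; exact hgg a g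
    · intro a b
      rw [inv_inv, ci _ _ ((conjC (a-1) b).trans (by rw [sub_add_cancel])), ← s1 a b]; exact haa a b
    · intro a b e
      rw [inv_inv, ci _ _ ((conjD (a-1) b e).trans (by rw [sub_add_cancel])), ← s1 a b]; exact (hD a b e).1
    · intro s hs
      rw [hs.inv_left.eq, mul_inv_cancel_right]

theorem good_T : Good T where
  stable := by
    rintro α hα t ⟨ht1, ht2⟩
    refine ⟨hα.ne_one ht1, ?_⟩
    rw [hα.card_centralizer]
    exact ht2
  ne_one := fun t ht => ht.1
  inv_ne := fun t ht => inv_ne_T ht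
  cc := fun t ht g hg => cc_T ht g hg
  gen := gen_T
  ker := ker_T
  rigid := by
    intro α hα t ht h3 hinv hfix
    obtain ⟨g, rfl⟩ := mem_T_iff.1 ht
    -- conjugate `α`
    set c : Equiv.Perm S := (MulAut.conj g).toEquiv with hc
    have hcx : ∀ x, c x = g * x * g⁻¹ := fun x => rfl
    have hcx' : ∀ x, c.symm x = g⁻¹ * x * g := by
      intro x
      rw [Equiv.symm_apply_eq, hcx]; group
    set β : Equiv.Perm S := (c.trans α).trans c.symm with hβ
    have hβx : ∀ x, β x = g⁻¹ * α (g * x * g⁻¹) * g := by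
      intro x
      rw [hβ, Equiv.trans_apply, Equiv.trans_apply, hcx', hcx]
    have hαx : ∀ x, α x = g * β (g⁻¹ * x * g) * g⁻¹ := by
      intro x
      rw [hβx]
      have : g * (g⁻¹ * x * g) * g⁻¹ = x := by group
      rw [this]; group
    have comm_conj : ∀ (k x y : S), Commute (k * x * k⁻¹) (k * y * k⁻¹) ↔ Commute x y := by
      intro k x y
      constructor
      · intro h
        have e : k * (x * y) * k⁻¹ = k * (y * x) * k⁻¹ := by
          calc k * (x * y) * k⁻¹ = k * x * k⁻¹ * (k * y * k⁻¹) := by group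
            _ = k * y * k⁻¹ * (k * x * k⁻¹) := h.eq
            _ = _ := by group
        exact mul_left_cancel (mul_right_cancel e)
      · intro h
        change _ * _ = _ * _
        calc k * x * k⁻¹ * (k * y * k⁻¹) = k * (x * y) * k⁻¹ := by group
          _ = k * (y * x) * k⁻¹ := by rw [h.eq]
          _ = _ := by group
    have comm_conj' : ∀ (k x y : S), Commute (k⁻¹ * x * k) (k⁻¹ * y * k) ↔ Commute x y := by
      intro k x y
      have := comm_conj k⁻¹ x y
      rwa [inv_inv] at this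
    have hβCA : IsCA β := by
      constructor
      · rw [hβx, mul_one, mul_inv_cancel, hα.1]; group
      · intro x y
        rw [hβx, hβx, comm_conj', ← hα.2, comm_conj]
    have hmem : ∀ s, s ∈ T ↔ g * s * g⁻¹ ∈ T := by
      intro s
      constructor
      · exact fun h => conj_mem h g
      · intro h
        have := conj_mem h g⁻¹
        have e : g⁻¹ * (g * s * g⁻¹) * g⁻¹⁻¹ = s := by group
        rwa [e] at this
    have hstab : ∀ s ∈ T, β s ∈ T := by
      rintro s ⟨h1, h2⟩
      refine ⟨hβCA.ne_one h1, ?_⟩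
      rw [hβCA.card_centralizer]
      exact h2
    have h3' : ∀ x, β (β (β x)) = x := by
      intro x
      rw [hβx, hβx, hβx]
      have e1 : g * (g⁻¹ * α (g * x * g⁻¹) * g) * g⁻¹ = α (g * x * g⁻¹) := by group
      rw [e1]
      have e2 : g * (g⁻¹ * α (α (g * x * g⁻¹)) * g) * g⁻¹ = α (α (g * x * g⁻¹)) := by group
      rw [e2, h3]
      group
    have hinv' : ∀ s ∈ T, β s⁻¹ = (β s)⁻¹ := by
      intro s hs
      rw [hβx, hβx]
      have e1 : g * s⁻¹ * g⁻¹ = (g * s * g⁻¹)⁻¹ := by group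
      rw [e1, hinv _ ((hmem s).1 hs)]
      group
    have hfix' : ∀ x, β x = x ↔ Commute t0 x := by
      intro x
      rw [← comm_conj g, ← hfix, hβx]
      constructor
      · intro h
        calc α (g * x * g⁻¹) = g * (g⁻¹ * α (g * x * g⁻¹) * g) * g⁻¹ := by group
          _ = g * x * g⁻¹ := by rw [h]
      · intro h
        rw [h]; group
    rcases rigid0 β hβCA hstab h3' hinv' hfix' with h | h
    · left
      intro s hs
      rw [hαx]
      have hs' : g⁻¹ * s * g ∈ T := by
        rw [hmem]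
        have e : g * (g⁻¹ * s * g) * g⁻¹ = s := by group
        rwa [e]
      have h1 := (h _ hs').conj g
      have e : g * (t0 * (g⁻¹ * s * g) * t0⁻¹) * g⁻¹ = g * t0 * g⁻¹ * s * (g * t0 * g⁻¹)⁻¹ := by group
      rwa [e] at h1
    · right
      intro s hs
      rw [hαx]
      have hs' : g⁻¹ * s * g ∈ T := by
        rw [hmem]
        have e : g * (g⁻¹ * s * g) * g⁻¹ = s := by group
        rwa [e]
      have h1 := (h _ hs').conj g
      have e : g * (t0⁻¹ * (g⁻¹ * s * g) * t0) * g⁻¹ = (g * t0 * g⁻¹)⁻¹ * s * (g * t0 * g⁻¹) := by group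
      rwa [e] at h1

end H61.CG33
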