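import Cfsg.Agent.Lib.H61.J1e
import Cfsg.Agent.Lib.H40.StemFinish

set_option autoImplicit false

/-! The Janko group `J1`: trivial Schur multiplier. -/

namespace H61.J1

open H61.Mat7 Cfsg.Spor

section calculus

variable {Γ : Type*} [Group Γ]

/-- commutator -/
def cm (a b : Γ) : Γ := a * b * a⁻¹ * b⁻¹

theorem cm_eq_one {a b : Γ} (h : cm a b = 1) : Commute a b := by
  have : a * b = b * a := by
    unfold cm at h
    rw [mul_inv_eq_one, mul_inv_eq_iff_eq_mul] at h
    exact h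
  exact this

theorem cm_swap (a b : Γ) : cm b a = (cm a b)⁻¹ := by unfold cm; group

theorem cent_comm {c : Γ} (hc : c ∈ Subgroup.center Γ) (g : Γ) : g * c = c * g := Subgroup.mem_center_iff.1 hc g

theorem cm_mul_right (a b c : Γ) (h : cm a c ∈ Subgroup.center Γ) : cm a (b * c) = cm a b * cm a c := by
  have h1 : cm a (b * c) = cm a b * (b * cm a c * b⁻¹) := by unfold cm; group
  rw [h1, cent_comm h b, mul_inv_cancel_right]

theorem cm_central_right (a b c : Γ) (h : c ∈ Subgroup.center Γ) : cm a (b * c) = cm a b := by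
  have h1 : cm a c = 1 := by
    unfold cm
    rw [cent_comm h a]; group
  rw [cm_mul_right a b c (by rw [h1]; exact one_mem _), h1, mul_one]

theorem cm_sq_left (a b : Γ) (h : cm a b ∈ Subgroup.center Γ) : cm (a * a) b = cm a b * cm a b := by
  have h1 : cm (a * a) b = a * cm a b * a⁻¹ * cm a b := by unfold cm; group
  rw [h1, cent_comm h a, mul_inv_cancel_right]

theorem cm_conj (g a b : Γ) (h : cm a b ∈ Subgroup.center Γ) : cm (g * a * g⁻¹) (g * b * g⁻¹) = cm a b := by
  have h1 : cm (g * a * g⁻¹) (g * b * g⁻¹) = g * cm a b * g⁻¹ := by unfold cm; group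
  rw [h1, cent_comm h g, mul_inv_cancel_right]

end calculus

section ext

variable {Γ : Type*} [Group Γ] (σ : Γ →* J) (hker : σ.ker ≤ Subgroup.center Γ) (x' s' : Γ) (hx : σ x' = x) (hs : σ s' = s)

/-- the lifts -/
def ti (x' s' : Γ) (i : ℕ) : Γ := x' ^ i * s' * (x' ^ i)⁻¹

include hx hs

theorem σ_ti (i : ℕ) : σ (ti x' s' i) = si i := by
  rw [ti, map_mul, map_mul, map_inv, map_pow, hx, hs, si_eq]

theorem mem_ker_of {g : Γ} (h : σ g = 1) : g ∈ σ.ker := h

include hker

theorem ti_seven (i : ℕ) : ti x' s' (i + 7) = ti x' s' i := by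
  have h7 : x' ^ 7 ∈ Subgroup.center Γ := hker (by rw [MonoidHom.mem_ker, map_pow, hx, x_pow])
  unfold ti
  rw [pow_add]
  have : x' ^ i * x' ^ 7 * s' * (x' ^ i * x' ^ 7)⁻¹ = x' ^ i * (x' ^ 7 * s' * (x' ^ 7)⁻¹) * (x' ^ i)⁻¹ := by group
  rw [this, ← cent_comm h7 s', mul_inv_cancel_right]

theorem beta_mem (i j : ℕ) : cm (ti x' s' i) (ti x' s' j) ∈ Subgroup.center Γ := by
  apply hker
  rw [MonoidHom.mem_ker]
  unfold cm
  rw [map_mul, map_mul, map_mul, map_inv, map_inv, σ_ti σ x' s' hx hs, σ_ti σ x' s' hx hs]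
  have h1 : si i ∈ D := Or.inr ⟨i, rfl⟩
  have h2 : si j ∈ D := Or.inr ⟨j, rfl⟩
  rw [D_comm h1 h2]; group

theorem beta_shift (i k : ℕ) : cm (ti x' s' i) (ti x' s' (i + k)) = cm s' (ti x' s' k) := by
  have h0 : ti x' s' 0 = s' := by unfold ti; simp
  have h1 := beta_mem σ hker x' s' hx hs 0 k
  rw [h0] at h1
  rw [← cm_conj (x' ^ i) s' (ti x' s' k) h1]
  congr 1
  unfold ti
  rw [pow_add]; group

theorem beta_sq (k : ℕ) : cm s' (ti x' s' k) * cm s' (ti x' s' k) = 1 := by
  have h0 : ti x' s' 0 = s' := by unfold ti; simp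
  have h1 := beta_mem σ hker x' s' hx hs 0 k
  rw [h0] at h1
  rw [← cm_sq_left _ _ h1]
  have h2 : s' * s' ∈ Subgroup.center Γ := hker (by rw [MonoidHom.mem_ker, map_mul, hs, s_sq])
  unfold cm
  rw [← cent_comm h2]; group

theorem beta_inv (k : ℕ) (hk : k ≤ 7) : cm s' (ti x' s' (7 - k)) = cm s' (ti x' s' k) := by
  have h0 : ti x' s' 0 = s' := by unfold ti; simp
  have h1 := beta_shift σ hker x' s' hx hs k (7 - k)
  rw [show k + (7 - k) = 0 + 7 by omega, ti_seven σ hker x' s' hx hs 0, h0] at h1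
  rw [← h1, cm_swap]
  exact inv_eq_of_mul_eq_one_left (beta_sq σ hker x' s' hx hs k)

/-- from `si a * si b = si c` -/
theorem beta_line {a b c : ℕ} (h : si a * si b = si c) :
    cm s' (ti x' s' c) = cm s' (ti x' s' a) * cm s' (ti x' s' b) := by
  have h0 : ti x' s' 0 = s' := by unfold ti; simp
  set w := (ti x' s' a * ti x' s' b)⁻¹ * ti x' s' c with hw
  have hwc : w ∈ Subgroup.center Γ := by
    apply hker
    rw [MonoidHom.mem_ker, hw, map_mul, map_inv, map_mul, σ_ti σ x' s' hx hs, σ_ti σ x' s' hx hs, σ_ti σ x' s' hx hs, h,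
      inv_mul_cancel]
  have e : ti x' s' c = ti x' s' a * ti x' s' b * w := by rw [hw]; group
  have h1 := beta_mem σ hker x' s' hx hs 0 b
  rw [h0] at h1
  rw [e, cm_central_right _ _ _ hwc, cm_mul_right _ _ _ h1]

theorem beta_zero : cm s' (ti x' s' 0) = 1 := by
  have h0 : ti x' s' 0 = s' := by unfold ti; simp
  rw [h0]; unfold cm; group

theorem beta_all : ∀ k < 7, cm s' (ti x' s' k) = 1 := by
  have m1 : si 0 * si 1 = si 3 := by rw [si_zero]; exact l1
  have m2 : si 0 * si 2 = si 6 := by rw [si_zero]; exact l2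
  have m3 : si 1 * si 2 = si 4 := by
    have h : x ^ 1 * (si 0 * si 1) * (x ^ 1)⁻¹ = x ^ 1 * si 3 * (x ^ 1)⁻¹ := by rw [m1]
    have e : x ^ 1 * (si 0 * si 1) * (x ^ 1)⁻¹ = (x ^ 1 * si 0 * (x ^ 1)⁻¹) * (x ^ 1 * si 1 * (x ^ 1)⁻¹) := by group
    rw [e, si_add, si_add, si_add] at h
    exact h
  have b3 := beta_line σ hker x' s' hx hs m1
  have b6 := beta_line σ hker x' s' hx hs m2
  have b4 := beta_line σ hker x' s' hx hs m3
  rw [beta_zero σ hker x' s' hx hs, one_mul] at b3 b6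
  have i1 := beta_inv σ hker x' s' hx hs 1 (by norm_num)
  have i2 := beta_inv σ hker x' s' hx hs 2 (by norm_num)
  have i3 := beta_inv σ hker x' s' hx hs 3 (by norm_num)
  norm_num only at i1 i2 i3
  -- i1 : β6 = β1, i2 : β5 = β2, i3 : β4 = β3
  have e21 : cm s' (ti x' s' 2) = cm s' (ti x' s' 1) := by rw [← b6, i1]
  have e1 : cm s' (ti x' s' 1) = 1 := by
    rw [i3, b3, e21] at b4
    have := mul_eq_left.1 b4.symm
    exact this
  intro k hk
  interval_cases k
  · exact beta_zero σ hker x' s' hx hs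
  · exact e1
  · rw [e21, e1]
  · rw [b3, e1]
  · rw [i3, b3, e1]
  · rw [i2, e21, e1]
  · rw [i1, e1]

theorem ti_mod (i : ℕ) : ti x' s' (i % 7) = ti x' s' i := by
  have key : ∀ q r : ℕ, ti x' s' (r + 7 * q) = ti x' s' r := by
    intro q r
    induction q with
    | zero => simp
    | succ q ih => rw [show r + 7 * (q + 1) = (r + 7 * q) + 7 by ring, ti_seven σ hker x' s' hx hs, ih]
  conv_rhs => rw [← Nat.mod_add_div i 7]
  exact (key (i / 7) (i % 7)).symm

theorem ti_comm (i j : ℕ) : Commute (ti x' s' i) (ti x' s' j) := by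
  have h1 : ti x' s' j = ti x' s' (i + (j + 6 * i) % 7) := by
    rw [← ti_mod σ hker x' s' hx hs j, ← ti_mod σ hker x' s' hx hs (i + (j + 6 * i) % 7)]
    congr 1
    omega
  rw [h1]
  apply cm_eq_one
  rw [beta_shift σ hker x' s' hx hs]
  exact beta_all σ hker x' s' hx hs _ (Nat.mod_lt _ (by norm_num))

theorem comap_D_comm {a b : Γ} (ha : σ a ∈ D) (hb : σ b ∈ D) : a * b = b * a := by
  have key : ∀ g : Γ, σ g ∈ D → ∃ c ∈ Subgroup.center Γ, g = c ∨ ∃ i, g = c * ti x' s' i := by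
    rintro g (hg | ⟨i, hg⟩)
    · exact ⟨g, hker hg, Or.inl rfl⟩
    · refine ⟨g * (ti x' s' i)⁻¹, hker ?_, Or.inr ⟨i, by group⟩⟩
      rw [MonoidHom.mem_ker, map_mul, map_inv, σ_ti σ x' s' hx hs, hg, mul_inv_cancel]
  obtain ⟨c, hc, h1⟩ := key a ha
  obtain ⟨d, hd, h2⟩ := key b hb
  have hcc : ∀ g, Commute c g := fun g => (cent_comm hc g).symm
  have hdd : ∀ g, Commute d g := fun g => (cent_comm hd g).symm
  rcases h1 with rfl | ⟨i, rfl⟩
  · exact hcc b
  · rcases h2 with rfl | ⟨j, rfl⟩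
    · exact (hdd _).symm
    · exact ((hcc _).mul_left (((hdd _).symm).mul_right (ti_comm σ hker x' s' hx hs i j)))

end ext

theorem stem_ker_trivial {Γ : Type*} [Group Γ] [Finite Γ] (σ : Γ →* J) (hσ : Cfsg.IsStemExtension σ) {w : Γ} (hw : w ∈ σ.ker) : w = 1 := by
  obtain ⟨x', hx⟩ := hσ.1 x
  obtain ⟨s', hs⟩ := hσ.1 s
  -- the 2-part
  have h2 : w ^ 21945 = 1 := by
    have hidx : (D.comap σ).index = 21945 := by
      rw [Subgroup.index_comap_of_surjective D hσ.1]
      have h := D.card_mul_index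
      rw [card_D, card_J1] at h
      omega
    have h1 := H40.Stem.pow_index_mem_commutator (D.comap σ) (hσ.2.1 hw) (hσ.2.2 hw)
    rw [hidx] at h1
    have h3 : ⁅D.comap σ, D.comap σ⁆ = ⊥ := by
      rw [Subgroup.commutator_eq_bot_iff_le_centralizer]
      intro a ha
      rw [Subgroup.mem_centralizer_iff]
      intro b hb
      exact comap_D_comm σ hσ.2.1 x' s' hx hs hb ha
    rw [h3, Subgroup.mem_bot] at h1
    exact h1
  -- the odd part
  have hodd : ∀ p : ℕ, p.Prime → ∀ m : ℕ, 175560 = p * m → ¬ p ∣ m → w ^ m = 1 := by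
    intro p hp m hm hpm
    have : Fact p.Prime := ⟨hp⟩
    obtain ⟨P⟩ : Nonempty (Sylow p J) := inferInstance
    have hcardP : Nat.card P = p := by
      rw [Sylow.card_eq_multiplicity, card_J1, hm]
      have : (p * m).factorization p = 1 := by
        rw [Nat.factorization_mul hp.ne_zero (by rintro rfl; exact hpm (dvd_zero p))]
        rw [Finsupp.add_apply, hp.factorization_self, Nat.factorization_eq_zero_of_not_dvd hpm]
      rw [this, pow_one]
    have hcyc : IsCyclic P := isCyclic_of_prime_card hcardP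
    obtain ⟨v, hv, hv'⟩ := H40.Stem.exists_pow_mem hσ (P : Subgroup J) (H40.Stem.cycMult_of_isCyclic (P : Subgroup J))
    rw [pow_one] at hv
    have h3 := hv' w hw
    rw [hv, Subgroup.zpowers_one_eq_bot, Subgroup.mem_bot] at h3
    have hidx : (P : Subgroup J).index = m := by
      have h := (P : Subgroup J).card_mul_index
      have h4 : Nat.card (P : Subgroup J) = p := hcardP
      rw [h4, card_J1, hm] at h
      exact Nat.eq_of_mul_eq_mul_left hp.pos h
    rwa [hidx] at h3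
  have h3 := hodd 3 (by norm_num) 58520 (by norm_num) (by norm_num)
  have h5 := hodd 5 (by norm_num) 35112 (by norm_num) (by norm_num)
  have h7 := hodd 7 (by norm_num) 25080 (by norm_num) (by norm_num)
  have h11 := hodd 11 (by norm_num) 15960 (by norm_num) (by norm_num)
  have h19 := hodd 19 (by norm_num) 9240 (by norm_num) (by norm_num)
  rw [← orderOf_dvd_iff_pow_eq_one] at h2 h3 h5 h7 h11 h19
  have g1 := Nat.dvd_gcd h2 h3
  have g2 := Nat.dvd_gcd g1 h5
  have g3 := Nat.dvd_gcd g2 h7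
  have g4 := Nat.dvd_gcd g3 h11
  have g5 := Nat.dvd_gcd g4 h19
  have e : Nat.gcd (Nat.gcd (Nat.gcd (Nat.gcd (Nat.gcd 21945 58520) 35112) 25080) 15960) 9240 = 1 := by decide
  rw [e, Nat.dvd_one, orderOf_eq_one_iff] at g5
  exact g5

theorem mult : Cfsg.HasCyclicSchurMultiplier J 1 :=
  H40.StemFinish.hasCyclic_one_of_ker (fun _ _ _ σ hσ _ hz => stem_ker_trivial σ hσ hz)

end H61.J1
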