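import Cfsg.Agent.Lib.H61.J1c
import Cfsg.Agent.Lib.H61.FrobSpec
import Mathlib.FieldTheory.Finite.GaloisField

set_option autoImplicit false

/-! Spectrum of `J1 ^ 4`, and groups with the same spectrum. -/

namespace H61.J1

open H61.FrobSpec H61.SemiOrder

/-- a large group with spectrum `{1, 2, p}` -/
theorem exists_frob (p : ℕ) (hp : p.Prime) (hp2 : p ≠ 2) (N : ℕ) : ∃ (A : Type) (_ : Group A) (_ : Finite A), N < Nat.card A ∧
    (∀ x : A, orderOf x = 1 ∨ orderOf x = 2 ∨ orderOf x = p) ∧ (∃ x : A, orderOf x = 2) ∧ (∃ x : A, orderOf x = p) := by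
  have : Fact p.Prime := ⟨hp⟩
  have : Fact (Nat.Prime 2) := ⟨Nat.prime_two⟩
  set K := GaloisField 2 (p - 1) with hK
  have hp1 : p - 1 ≠ 0 := by have := hp.two_le; omega
  have hcard : Nat.card K = 2 ^ (p - 1) := GaloisField.card 2 (p - 1) hp1
  have : Finite K := Nat.finite_of_card_ne_zero (by rw [hcard]; positivity)
  have : Fintype K := Fintype.ofFinite K
  have hunits : Nat.card Kˣ = 2 ^ (p - 1) - 1 := by
    rw [Nat.card_units, hcard]
  have hdvd : p ∣ Nat.card Kˣ := by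
    rw [hunits]
    have h1 : (2 : ZMod p) ^ (p - 1) = 1 := by
      apply ZMod.pow_card_sub_one_eq_one
      intro h
      have h2 : ((2 : ℕ) : ZMod p) = 0 := by exact_mod_cast h
      rw [ZMod.natCast_eq_zero_iff] at h2
      exact hp2 ((Nat.prime_dvd_prime_iff_eq hp Nat.prime_two).1 h2)
    have h3 : ((2 ^ (p - 1) - 1 : ℕ) : ZMod p) = 0 := by
      rw [Nat.cast_sub Nat.one_le_two_pow]
      push_cast
      rw [h1, sub_self]
    exact (ZMod.natCast_eq_zero_iff _ _).1 h3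
  obtain ⟨ζ, hζ⟩ := exists_prime_orderOf_dvd_card' p hdvd
  let Q : Subgroup Kˣ := Subgroup.zpowers ζ
  have hQcard : Nat.card Q = p := by rw [Nat.card_zpowers, hζ]
  let V := Fin (N + 1) → K
  have hQorder : ∀ x : Q, orderOf x = 1 ∨ orderOf x = p := by
    intro x
    have h1 := orderOf_dvd_natCard x
    rw [hQcard] at h1
    exact (Nat.dvd_prime hp).1 h1
  have hfpf : ∀ g : Q, g ≠ 1 → ∀ v : V, g • v = v → v = 0 := by
    intro g hg v hv
    funext i
    have h1 : ((g : Kˣ) : K) * v i = v i := congrFun hv i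
    have h2 : (((g : Kˣ) : K) - 1) * v i = 0 := by rw [sub_mul, h1, one_mul, sub_self]
    rcases mul_eq_zero.1 h2 with h3 | h3
    · exfalso
      apply hg
      apply Subtype.ext
      apply Units.ext
      exact sub_eq_zero.1 h3
    · exact h3
  have hV2 : ∀ v : V, 2 • v = 0 := by
    intro v
    funext i
    have : CharP K 2 := inferInstance
    change 2 • v i = 0
    rw [nsmul_eq_mul]
    have : ((2 : ℕ) : K) = 0 := CharP.cast_eq_zero K 2
    rw [this, zero_mul]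
  have hrange := range_orderOf_of_fpf V Q 2 Nat.prime_two hV2 hfpf
  have hfin : Finite (SD V Q) := Finite.of_equiv _ (SemidirectProduct.equivProd (φ := act V Q)).symm
  have hcardSD : Nat.card (SD V Q) = Nat.card V * p := by
    rw [Nat.card_congr (SemidirectProduct.equivProd (φ := act V Q)), Nat.card_prod, hQcard]
    rfl
  refine ⟨SD V Q, inferInstance, hfin, ?_, ?_, ?_, ?_⟩
  · rw [hcardSD]
    have h1 : N + 1 < 2 ^ (N + 1) := Nat.lt_two_pow_self
    have h2 : Nat.card V = (2 ^ (p - 1)) ^ (N + 1) := by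
      change Nat.card (Fin (N + 1) → K) = _
      rw [Nat.card_fun, hcard]
      simp
    have h3 : 2 ^ (N + 1) ≤ (2 ^ (p - 1)) ^ (N + 1) := Nat.pow_le_pow_left (by
      calc 2 = 2 ^ 1 := rfl
        _ ≤ 2 ^ (p - 1) := Nat.pow_le_pow_right (by norm_num) (by omega)) _
    rw [h2]
    have h4 : (2 ^ (p - 1)) ^ (N + 1) * 1 ≤ (2 ^ (p - 1)) ^ (N + 1) * p := Nat.mul_le_mul_left _ hp.one_le
    omega
  · intro x
    have h1 : orderOf x ∈ Set.range (orderOf : SD V Q → ℕ) := ⟨x, rfl⟩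
    rw [hrange] at h1
    rcases h1 with h1 | ⟨y, hy⟩
    · right; left; exact h1
    · rw [← hy]
      rcases hQorder y with h | h
      · left; exact h
      · right; right; exact h
  · have h1 : 2 ∈ Set.range (orderOf : SD V Q → ℕ) := by rw [hrange]; exact Set.mem_insert _ _
    exact h1
  · have h1 : p ∈ Set.range (orderOf : SD V Q → ℕ) := by
      rw [hrange]
      right
      exact ⟨⟨ζ, Subgroup.mem_zpowers ζ⟩, by rw [Subgroup.orderOf_mk, hζ]⟩
    exact h1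

theorem divisor_aux {m : ℕ} (h : m ∣ 43890) (hne : m ≠ 43890) : m ∣ 21945 ∨ m ∣ 14630 ∨ m ∣ 8778 ∨ m ∣ 6270 ∨ m ∣ 3990 ∨
    m ∣ 2310 := by
  obtain ⟨k, hk⟩ := h
  have hk1 : k ≠ 1 := by rintro rfl; rw [mul_one] at hk; exact hne hk.symm
  obtain ⟨r, hr, hrk⟩ := Nat.exists_prime_and_dvd hk1
  have hr2 : r ∣ 43890 := hk ▸ Dvd.dvd.mul_left hrk m
  have hr3 : r ∣ 2 * (3 * (5 * (7 * (11 * 19)))) := hr2
  obtain ⟨c, rfl⟩ := hrk
  have key : r = 2 ∨ r = 3 ∨ r = 5 ∨ r = 7 ∨ r = 11 ∨ r = 19 := by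
    rcases (Nat.Prime.dvd_mul hr).1 hr3 with h | h
    · left; exact (Nat.prime_dvd_prime_iff_eq hr (by norm_num)).1 h
    right
    rcases (Nat.Prime.dvd_mul hr).1 h with h | h
    · left; exact (Nat.prime_dvd_prime_iff_eq hr (by norm_num)).1 h
    right
    rcases (Nat.Prime.dvd_mul hr).1 h with h | h
    · left; exact (Nat.prime_dvd_prime_iff_eq hr (by norm_num)).1 h
    right
    rcases (Nat.Prime.dvd_mul hr).1 h with h | h
    · left; exact (Nat.prime_dvd_prime_iff_eq hr (by norm_num)).1 h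
    right
    rcases (Nat.Prime.dvd_mul hr).1 h with h | h
    · left; exact (Nat.prime_dvd_prime_iff_eq hr (by norm_num)).1 h
    · right; exact (Nat.prime_dvd_prime_iff_eq hr (by norm_num)).1 h
  rcases key with rfl | rfl | rfl | rfl | rfl | rfl
  · left; exact ⟨c, by have : m * (2 * c) = 2 * (m * c) := by ring
                       omega⟩
  · right; left; exact ⟨c, by have : m * (3 * c) = 3 * (m * c) := by ring
                              omega⟩
  · right; right; left; exact ⟨c, by have : m * (5 * c) = 5 * (m * c) := by ring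
                                     omega⟩
  · right; right; right; left; exact ⟨c, by have : m * (7 * c) = 7 * (m * c) := by ring
                                            omega⟩
  · right; right; right; right; left; exact ⟨c, by have : m * (11 * c) = 11 * (m * c) := by ring
                                                   omega⟩
  · right; right; right; right; right; exact ⟨c, by have : m * (19 * c) = 19 * (m * c) := by ring
                                                    omega⟩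

theorem exists_of_dvd {G : Type*} [Group G] {n m : ℕ} (hn : n ≠ 0) (h : ∃ x : G, orderOf x = n) (hm : m ∣ n) :
    ∃ x : G, orderOf x = m := by
  obtain ⟨x, hx⟩ := h
  obtain ⟨k, hk⟩ := hm
  have hk0 : k ≠ 0 := by rintro rfl; rw [mul_zero] at hk; exact hn hk
  refine ⟨x ^ k, ?_⟩
  rw [orderOf_pow_of_dvd hk0 (by rw [hx, hk]; exact Dvd.intro_left m rfl), hx, hk]
  exact Nat.mul_div_cancel _ (Nat.pos_of_ne_zero hk0)

theorem exists_of_max {G : Type*} [Group G] (h2 : ∃ x : G, orderOf x = 21945) (h3 : ∃ x : G, orderOf x = 14630)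
    (h5 : ∃ x : G, orderOf x = 8778) (h7 : ∃ x : G, orderOf x = 6270) (h11 : ∃ x : G, orderOf x = 3990)
    (h19 : ∃ x : G, orderOf x = 2310) {m : ℕ} (h : m ∣ 43890) (hne : m ≠ 43890) : ∃ x : G, orderOf x = m := by
  rcases divisor_aux h hne with h | h | h | h | h | h
  · exact exists_of_dvd (by norm_num) h2 h
  · exact exists_of_dvd (by norm_num) h3 h
  · exact exists_of_dvd (by norm_num) h5 h
  · exact exists_of_dvd (by norm_num) h7 h
  · exact exists_of_dvd (by norm_num) h11 h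
  · exact exists_of_dvd (by norm_num) h19 h

theorem mem_ten {n : ℕ} (h : n ∣ 6 ∨ n ∣ 10 ∨ n ∣ 15 ∨ n ∣ 7 ∨ n ∣ 11 ∨ n ∣ 19) : n ∈ [1, 2, 3, 5, 6, 7, 10, 11, 15, 19] := by
  have hn : n ≤ 19 := by
    rcases h with h | h | h | h | h | h <;> exact (Nat.le_of_dvd (by norm_num) h).trans (by norm_num)
  interval_cases n <;> revert h <;> decide

theorem lcm_four : ∀ a ∈ [1, 2, 3, 5, 6, 7, 10, 11, 15, 19], ∀ b ∈ [1, 2, 3, 5, 6, 7, 10, 11, 15, 19],
    ∀ c ∈ [1, 2, 3, 5, 6, 7, 10, 11, 15, 19], ∀ d ∈ [1, 2, 3, 5, 6, 7, 10, 11, 15, 19],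
    43890 % (Nat.lcm a (Nat.lcm b (Nat.lcm c d))) = 0 ∧ Nat.lcm a (Nat.lcm b (Nat.lcm c d)) ≠ 43890 := by
  decide +kernel

theorem range_J1_four : Set.range (orderOf : ↥Cfsg.Spor.J1 × ↥Cfsg.Spor.J1 × ↥Cfsg.Spor.J1 × ↥Cfsg.Spor.J1 → ℕ) =
    {m | m ∣ 43890 ∧ m ≠ 43890} := by
  obtain ⟨x6, h6⟩ := lift_order exists_order_six
  obtain ⟨x10, h10⟩ := lift_order exists_order_ten
  obtain ⟨x15, h15⟩ := lift_order exists_order_fifteen
  obtain ⟨x7, h7⟩ := lift_order exists_order_seven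
  obtain ⟨x11, h11⟩ := lift_order exists_order_eleven
  obtain ⟨x19, h19⟩ := lift_order exists_order_nineteen
  ext m
  constructor
  · rintro ⟨⟨a, b, c, d⟩, rfl⟩
    have h := lcm_four _ (mem_ten (orderOf_dvd_cases a)) _ (mem_ten (orderOf_dvd_cases b)) _
      (mem_ten (orderOf_dvd_cases c)) _ (mem_ten (orderOf_dvd_cases d))
    have e : orderOf (a, b, c, d) = Nat.lcm (orderOf a) (Nat.lcm (orderOf b) (Nat.lcm (orderOf c) (orderOf d))) := by
      rw [Prod.orderOf, Prod.orderOf, Prod.orderOf]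
    rw [e]
    exact ⟨Nat.dvd_of_mod_eq_zero h.1, h.2⟩
  · rintro ⟨h, hne⟩
    refine exists_of_max ⟨(x15, x7, x11, x19), ?_⟩ ⟨(x10, x7, x11, x19), ?_⟩ ⟨(x6, x7, x11, x19), ?_⟩
      ⟨(x6, x10, x11, x19), ?_⟩ ⟨(x6, x10, x7, x19), ?_⟩ ⟨(x6, x10, x7, x11), ?_⟩ h hne <;>
    rw [Prod.orderOf, Prod.orderOf, Prod.orderOf] <;> simp only [h6, h10, h15, h7, h11, h19] <;> decide

theorem lcm_five : ∀ a ∈ [1, 2, 3], ∀ b ∈ [1, 2, 5], ∀ c ∈ [1, 2, 7], ∀ d ∈ [1, 2, 11], ∀ e ∈ [1, 2, 19],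
    43890 % (Nat.lcm a (Nat.lcm b (Nat.lcm c (Nat.lcm d e)))) = 0 ∧
      Nat.lcm a (Nat.lcm b (Nat.lcm c (Nat.lcm d e))) ≠ 43890 := by
  decide +kernel

theorem range_prod_five {A B C D E : Type*} [Group A] [Group B] [Group C] [Group D] [Group E]
    (hA : ∀ x : A, orderOf x = 1 ∨ orderOf x = 2 ∨ orderOf x = 3) (hA2 : ∃ x : A, orderOf x = 2) (hA3 : ∃ x : A, orderOf x = 3)
    (hB : ∀ x : B, orderOf x = 1 ∨ orderOf x = 2 ∨ orderOf x = 5) (hB2 : ∃ x : B, orderOf x = 2) (hB3 : ∃ x : B, orderOf x = 5)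
    (hC : ∀ x : C, orderOf x = 1 ∨ orderOf x = 2 ∨ orderOf x = 7) (hC2 : ∃ x : C, orderOf x = 2) (hC3 : ∃ x : C, orderOf x = 7)
    (hD : ∀ x : D, orderOf x = 1 ∨ orderOf x = 2 ∨ orderOf x = 11) (hD2 : ∃ x : D, orderOf x = 2) (hD3 : ∃ x : D, orderOf x = 11)
    (hE : ∀ x : E, orderOf x = 1 ∨ orderOf x = 2 ∨ orderOf x = 19) (hE2 : ∃ x : E, orderOf x = 2) (hE3 : ∃ x : E, orderOf x = 19) :
    Set.range (orderOf : A × B × C × D × E → ℕ) = {m | m ∣ 43890 ∧ m ≠ 43890} := by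
  obtain ⟨a2, ha2⟩ := hA2
  obtain ⟨a3, ha3⟩ := hA3
  obtain ⟨b2, hb2⟩ := hB2
  obtain ⟨b3, hb3⟩ := hB3
  obtain ⟨c2, hc2⟩ := hC2
  obtain ⟨c3, hc3⟩ := hC3
  obtain ⟨d2, hd2⟩ := hD2
  obtain ⟨d3, hd3⟩ := hD3
  obtain ⟨e2, he2⟩ := hE2
  obtain ⟨e3, he3⟩ := hE3
  ext m
  constructor
  · rintro ⟨⟨a, b, c, d, e⟩, rfl⟩
    have h := lcm_five (orderOf a) (by simpa using hA a) (orderOf b) (by simpa using hB b) (orderOf c) (by simpa using hC c)
      (orderOf d) (by simpa using hD d) (orderOf e) (by simpa using hE e)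
    have e' : orderOf (a, b, c, d, e) = Nat.lcm (orderOf a) (Nat.lcm (orderOf b) (Nat.lcm (orderOf c) (Nat.lcm (orderOf d) (orderOf e)))) := by
      rw [Prod.orderOf, Prod.orderOf, Prod.orderOf, Prod.orderOf]
    rw [e']
    exact ⟨Nat.dvd_of_mod_eq_zero h.1, h.2⟩
  · rintro ⟨h, hne⟩
    refine exists_of_max ⟨(a3, b3, c3, d3, e3), ?_⟩ ⟨(a2, b3, c3, d3, e3), ?_⟩ ⟨(a3, b2, c3, d3, e3), ?_⟩
      ⟨(a3, b3, c2, d3, e3), ?_⟩ ⟨(a3, b3, c3, d2, e3), ?_⟩ ⟨(a3, b3, c3, d3, e2), ?_⟩ h hne <;>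
    rw [Prod.orderOf, Prod.orderOf, Prod.orderOf, Prod.orderOf] <;>
    simp only [ha2, ha3, hb2, hb3, hc2, hc3, hd2, hd3, he2, he3] <;> decide

theorem main (N : ℕ) : ∃ (H : Type) (_ : Group H) (_ : Fintype H), N < Fintype.card H ∧
      Set.range (orderOf : H → ℕ) = Set.range (orderOf : ↥Cfsg.Spor.J1 × ↥Cfsg.Spor.J1 × ↥Cfsg.Spor.J1 × ↥Cfsg.Spor.J1 → ℕ) := by
  obtain ⟨A, iA, fA, cA, a1, a2, a3⟩ := exists_frob 3 (by norm_num) (by norm_num) N
  obtain ⟨B, iB, fB, cB, b1, b2, b3⟩ := exists_frob 5 (by norm_num) (by norm_num) N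
  obtain ⟨C, iC, fC, cC, c1, c2, c3⟩ := exists_frob 7 (by norm_num) (by norm_num) N
  obtain ⟨D, iD, fD, cD, d1, d2, d3⟩ := exists_frob 11 (by norm_num) (by norm_num) N
  obtain ⟨E, iE, fE, cE, e1, e2, e3⟩ := exists_frob 19 (by norm_num) (by norm_num) N
  have hf : Fintype (A × B × C × D × E) := Fintype.ofFinite _
  refine ⟨A × B × C × D × E, inferInstance, hf, ?_, ?_⟩
  · rw [← Nat.card_eq_fintype_card, Nat.card_prod]
    have : 0 < Nat.card (B × C × D × E) := Nat.card_pos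
    calc N < Nat.card A := cA
      _ = Nat.card A * 1 := (mul_one _).symm
      _ ≤ _ := Nat.mul_le_mul_left _ this
  · rw [range_J1_four]
    exact range_prod_five a1 a2 a3 b1 b2 b3 c1 c2 c3 d1 d2 d3 e1 e2 e3

end H61.J1
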