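import Mathlib
import Cfsg.Agent.Lib.H85.RootInv4
import Cfsg.Agent.S5045

/-!
Non-degenerate classes of root involutions: connectivity of the product graph, generation, weak TI-subsets
(S5053, S5054), relative to connectivity of the commuting graph.
-/

set_option autoImplicit false
open Cfsg H85.RootInv

namespace H61.RootND

universe u

section gen
variable {G : Type u} [Group G] {D : Set G}

/-- data of a non-degenerate class -/
structure ND (D : Set G) : Prop where
  cl : IsRootInvolutionClass D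
  nd : IsNondegenerateRootInvolutionSet D

theorem ND.exists_odd (h : ND D) {d : G} (hd : d ∈ D) : ∃ x, x ∈ oddPartners D d := by
  obtain ⟨-, -, ⟨a, ha, b, hb, hab, ho⟩, -⟩ := h.nd
  obtain ⟨g, hg⟩ := h.cl.2.2 a ha d hd
  refine ⟨g * b * g⁻¹, ?_⟩
  rw [hg]
  exact oddP_conj h.cl.1 g ⟨hb, hab.symm, ho⟩

theorem ND.exists_four (h : ND D) {d : G} (hd : d ∈ D) : ∃ x, x ∈ fourPartners D d := by
  obtain ⟨-, -, -, ⟨a, ha, b, hb, ho⟩⟩ := h.nd
  obtain ⟨g, hg⟩ := h.cl.2.2 a ha d hd
  refine ⟨g * b * g⁻¹, ?_⟩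
  rw [hg]
  exact fourP_conj h.cl.1 g ⟨hb, ho⟩

theorem ND.conn [Finite G] (h : ND D) : IsConnectedSet (OddAdj D) D := by
  have hD := h.cl.1
  have hR := Cfsg.Agent.S5045.result hD
  have hW : {w | IsIsolatedElem (OddAdj D) D w} = ∅ := by
    ext w
    simp only [Set.mem_ofPred_eq, Set.mem_empty_iff_false, iff_false]
    rintro ⟨hw, h1⟩
    obtain ⟨x, hx⟩ := h.exists_odd hw
    exact (h1 x).1 (oddAdj_iff.2 ⟨hw, hx⟩)
  have hcomp : ∀ a ∈ D, ∃ a' ∈ elemComponentOf (OddAdj D) D a, a' ≠ a := by
    intro a ha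
    obtain ⟨x, hx⟩ := h.exists_odd ha
    exact ⟨x, ⟨hx.1, Relation.ReflTransGen.single (oddAdj_iff.2 ⟨ha, hx⟩)⟩, hx.2.1⟩
  have hcomm : ∀ a ∈ D, ∀ b ∈ D, ¬ Relation.ReflTransGen (OddAdj D) a b → Commute a b := by
    intro a ha b hb hn
    have h1 := hR.2.2.2.2.1 a ha b hb (hcomp a ha) (hcomp b hb) (by
      intro e
      apply hn
      have : b ∈ elemComponentOf (OddAdj D) D b := ⟨hb, Relation.ReflTransGen.refl⟩
      rw [← e] at this
      exact this.2)
    rw [hW, Subgroup.closure_empty, Subgroup.mem_bot] at h1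
    have h2 : a * b * a⁻¹ = b := mul_inv_eq_one.1 h1
    exact mul_inv_eq_iff_eq_mul.1 h2
  intro a ha b hb
  have key : ∀ g : G, ∀ b ∈ D, Relation.ReflTransGen (OddAdj D) a b ↔
      Relation.ReflTransGen (OddAdj D) a (g * b * g⁻¹) := by
    intro g
    have hg : g ∈ Subgroup.closure D := by rw [hD.generates]; trivial
    induction hg using Subgroup.closure_induction with
    | mem s hs =>
      have h1 : ∀ b ∈ D, Relation.ReflTransGen (OddAdj D) a b →
          Relation.ReflTransGen (OddAdj D) a (s * b * s⁻¹) := by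
        intro b hb hab
        by_cases has : Relation.ReflTransGen (OddAdj D) a s
        · have h2 := (reach_symm hD has).trans hab
          have h3 : Relation.ReflTransGen (OddAdj D) (s * s * s⁻¹) (s * b * s⁻¹) :=
            Relation.ReflTransGen.lift (fun x => s * x * s⁻¹) (fun _ _ hxy => oddAdj_conj hD s hxy) _ _ h2
          rw [mul_inv_cancel_right] at h3
          exact has.trans h3
        · have h2 : ¬ Relation.ReflTransGen (OddAdj D) s b := fun h3 => has (hab.trans (reach_symm hD h3))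
          have h3 := hcomm s hs b hb h2
          have : s * b * s⁻¹ = b := by rw [h3.eq]; group
          rwa [this]
      intro b hb
      refine ⟨h1 b hb, fun h2 => ?_⟩
      have h3 := h1 _ (hD.conj_mem b hb s) h2
      have h4 : s * (s * b * s⁻¹) * s⁻¹ = b := by
        rw [inv_eq hD hs]
        calc s * (s * b * s) * s = (s * s) * b * (s * s) := by group
          _ = b := by rw [sq hD hs, one_mul, mul_one]
      rwa [h4] at h3
    | one => intro b _; simp
    | mul x y _ _ hx hy =>
      intro b hb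
      rw [hy b hb, hx _ (hD.conj_mem b hb y)]
      have : x * (y * b * y⁻¹) * x⁻¹ = x * y * b * (x * y)⁻¹ := by group
      rw [this]
    | inv x _ hx =>
      intro b hb
      have h1 := hx _ (hD.conj_mem b hb x⁻¹)
      have : x * (x⁻¹ * b * x⁻¹⁻¹) * x⁻¹ = b := by group
      rw [this] at h1
      exact h1.symm
  obtain ⟨g, hg⟩ := h.cl.2.2 a ha b hb
  rw [hg]
  exact (key g a ha).1 Relation.ReflTransGen.refl

theorem ND.swap [Finite G] (h : ND D) {a c : G} (ha : a ∈ D) (hc : c ∈ D) (hac : Commute c a) (hm : c * a ∈ D)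
    (hne : oddPartners D a ≠ oddPartners D c) :
    ∃ f, f ∈ fourPartners D c ∧ Commute f a ∧ f * a ∈ D ∧ (c * f) ^ 2 = a := by
  have hD := h.cl.1
  have hy : ∃ y ∈ oddPartners D c, y ∉ oddPartners D a := by
    by_contra hcon
    push Not at hcon
    exact hne (oddP_eq_of_subset hD h.conn hc ha hcon).symm
  obtain ⟨y, hyc, hya⟩ := hy
  have hcy := oddP_symm hD hc hyc
  have h1 := line_not_comm hD hcy hyc.1 ha hac hm
  have h2 : a ∈ fourPartners D y := by
    rcases tri hD hyc.1 ha with h3 | h3 | h3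
    · exact absurd h3.symm h1
    · exact absurd (oddP_symm hD hyc.1 h3) hya
    · exact h3
  obtain ⟨f, hf, hfa⟩ := NM_surj hD hyc.1 hcy (b := a) ⟨h2, hac, hm⟩
  refine ⟨f, hf.1, ?_, ?_, hfa⟩
  · rw [← hfa]; exact four_comm_right hD hc hf.1
  · rw [← hfa]; exact four_mul_right_mem hD hc hf.1

abbrev PR (D : Set G) := Relation.ReflTransGen (ProdAdj D)

theorem prodAdj_symm {a b : G} (h : ProdAdj D a b) : ProdAdj D b a :=
  ⟨h.2.1, h.1, h.2.2.1.symm, h.2.2.2.1.symm, by rw [← h.2.2.2.1]; exact h.2.2.2.2⟩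

theorem pr_symm {a b : G} (h : PR D a b) : PR D b a := by
  induction h with
  | refl => exact Relation.ReflTransGen.refl
  | tail _ h2 ih => exact Relation.ReflTransGen.head (prodAdj_symm h2) ih

theorem pr_mem {a b : G} (ha : a ∈ D) (h : PR D a b) : b ∈ D := by
  induction h with
  | refl => exact ha
  | tail _ h2 _ => exact h2.2.1

theorem prodAdj_conj (hD : IsRootInvolutionSet D) {a b : G} (g : G) (h : ProdAdj D a b) :
    ProdAdj D (g * a * g⁻¹) (g * b * g⁻¹) := by
  refine ⟨hD.conj_mem _ h.1 g, hD.conj_mem _ h.2.1 g, ?_, ?_, ?_⟩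
  · intro e
    exact h.2.2.1 (by simpa using e)
  · rw [conj_mul_conj, conj_mul_conj, h.2.2.2.1]
  · rw [conj_mul_conj]; exact hD.conj_mem _ h.2.2.2.2 g

theorem pr_conj (hD : IsRootInvolutionSet D) {a b : G} (g : G) (h : PR D a b) :
    PR D (g * a * g⁻¹) (g * b * g⁻¹) :=
  Relation.ReflTransGen.lift (fun x => g * x * g⁻¹) (fun _ _ hxy => prodAdj_conj hD g hxy) _ _ h

theorem prodAdj_four_left (hD : IsRootInvolutionSet D) {d x : G} (hd : d ∈ D) (h : x ∈ fourPartners D d) :
    ProdAdj D d ((d * x) ^ 2) := by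
  refine ⟨hd, four_mem hD hd h, ?_, (four_comm_left hD hd h).eq, four_mul_left_mem hD hd h⟩
  intro e
  apply not_comm_of_four hD hd h
  have := four_comm_right hD hd h
  rw [← e] at this
  exact this.symm

theorem prodAdj_four_right (hD : IsRootInvolutionSet D) {d x : G} (hd : d ∈ D) (h : x ∈ fourPartners D d) :
    ProdAdj D x ((d * x) ^ 2) := by
  refine ⟨h.1, four_mem hD hd h, ?_, (four_comm_right hD hd h).eq, four_mul_right_mem hD hd h⟩
  intro e
  apply not_comm_of_four hD hd h
  have := four_comm_left hD hd h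
  rw [← e] at this
  exact this

theorem pr_of_four (hD : IsRootInvolutionSet D) {d x : G} (hd : d ∈ D) (h : x ∈ fourPartners D d) : PR D d x :=
  (Relation.ReflTransGen.single (prodAdj_four_left hD hd h)).tail (prodAdj_symm (prodAdj_four_right hD hd h))

theorem odd_spread (hD : IsRootInvolutionSet D) {d x e : G} (hx : x ∈ oddPartners D d)
    (hn : ¬ PR D d x) (he : PR D d e) : x ∈ oddPartners D e := by
  induction he with
  | refl => exact hx
  | @tail e e' h1 h2 ih =>
    have h3 : e ∈ oddPartners D x := oddP_symm hD h2.1 ih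
    have h4 : ¬ Commute e' x := line_not_comm hD h3 hx.1 h2.2.1 h2.2.2.2.1 h2.2.2.2.2
    rcases tri hD h2.2.1 hx.1 with h5 | h5 | h5
    · exact absurd h5 h4
    · exact h5
    · exact absurd ((h1.tail h2).trans (pr_of_four hD h2.2.1 h5)) hn

theorem comm_spread (hD : IsRootInvolutionSet D) {d x e : G} (hd : d ∈ D) (hx : x ∈ D) (hc : Commute d x)
    (hn : ¬ PR D d x) (he : PR D d e) : Commute e x := by
  have heD := pr_mem hd he
  rcases tri hD heD hx with h5 | h5 | h5
  · exact h5
  · exfalso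
    have h6 := odd_spread hD h5 (fun h => hn (he.trans h)) (pr_symm he)
    exact not_comm_of_odd hD hd h6 hc
  · exact absurd (he.trans (pr_of_four hD heD h5)) hn

theorem odd_conj_in (hD : IsRootInvolutionSet D) {U : Subgroup G} {a b : G} (haU : a ∈ U) (hbU : b ∈ U)
    (ha : a ∈ D) (h : b ∈ oddPartners D a) : ∃ u ∈ U, b = u * a * u⁻¹ := by
  obtain ⟨m, hm⟩ := pow_of_odd h.2.2
  set s := (a * b) ^ m with hs
  have hss : s * s = a * b := by
    rw [hs, ← pow_add, ← two_mul, pow_mul]; exact hm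
  have haa := sq hD ha
  have hinv0 : a * (a * b) * a⁻¹ = (a * b)⁻¹ := by
    rw [mul_inv_rev' hD ha h.1, inv_eq hD ha, cancel_left hD ha]
  have hinv : a * s * a = s⁻¹ := by
    have h5 : a * s * a⁻¹ = s⁻¹ := by rw [hs, ← conj_pow, hinv0, inv_pow]
    rwa [inv_eq hD ha] at h5
  refine ⟨s⁻¹, U.inv_mem (U.pow_mem (U.mul_mem haU hbU) m), ?_⟩
  rw [inv_inv, ← hinv]
  calc b = a * (a * b) := (cancel_left hD ha _).symm
    _ = a * s * (a * a) * s := by rw [← hss, haa, mul_one]; group
    _ = a * s * a * a * s := by group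


/-! ### The subgroup generated by two odd components -/

/-- If the component of `d` is contained in the `Y`-class of `d` then this class is a non-degenerate class in `Y`. -/
theorem nd_sub [Finite G] (h : ND D) {Y : Subgroup G} {d x : G} (hd : d ∈ D) (hdY : d ∈ Y)
    (hx : x ∈ oddPartners D d) (hxY : x ∈ Y)
    (hΔ : ∀ e, PR D d e → ∃ u ∈ Y, e = u * d * u⁻¹) {S : Set G} (hS : Y = Subgroup.closure S)
    (hSc : ∀ s ∈ S, ∃ u ∈ Y, s = u * d * u⁻¹) :
    ND {y : ↥Y | ∃ u : ↥Y, y = u * ⟨d, hdY⟩ * u⁻¹} := by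
  have hD := h.cl.1
  set DY : Set ↥Y := {y : ↥Y | ∃ u : ↥Y, y = u * ⟨d, hdY⟩ * u⁻¹} with hDY
  have hsub : ∀ y ∈ DY, (y : G) ∈ D := by
    rintro y ⟨u, rfl⟩
    exact hD.conj_mem d hd (u : G)
  have hmem : ∀ e : G, (∃ u ∈ Y, e = u * d * u⁻¹) → ∃ he : e ∈ Y, (⟨e, he⟩ : ↥Y) ∈ DY := by
    rintro e ⟨u, hu, rfl⟩
    exact ⟨Y.mul_mem (Y.mul_mem hu hdY) (Y.inv_mem hu), ⟨u, hu⟩, rfl⟩
  have hcomp : ∀ y ∈ DY, ∀ e : G, PR D (y : G) e → ∃ he : e ∈ Y, (⟨e, he⟩ : ↥Y) ∈ DY := by
    rintro y ⟨u, rfl⟩ e he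
    have h1 := pr_conj hD ((u : G)⁻¹) he
    have e1 : (u : G)⁻¹ * ((u * ⟨d, hdY⟩ * u⁻¹ : ↥Y) : G) * (u : G)⁻¹⁻¹ = d := by
      push_cast; group
    rw [e1] at h1
    obtain ⟨v, hv, e2⟩ := hΔ _ h1
    apply hmem
    refine ⟨u * v, Y.mul_mem u.2 hv, ?_⟩
    calc e = (u : G) * ((u : G)⁻¹ * e * (u : G)⁻¹⁻¹) * (u : G)⁻¹ := by group
      _ = u * (v * d * v⁻¹) * (u : G)⁻¹ := by rw [e2]
      _ = _ := by group
  have hset : IsRootInvolutionSet DY := by
    refine ⟨?_, ?_, ?_, ?_⟩
    · intro y hy
      rw [← Subgroup.orderOf_coe]; exact hD.orderOf_eq _ (hsub y hy)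
    · apply Subgroup.map_injective Y.subtype_injective
      rw [MonoidHom.map_closure, ← MonoidHom.range_eq_map, Subgroup.range_subtype]
      apply le_antisymm
      · rw [Subgroup.closure_le]
        rintro _ ⟨y, -, rfl⟩
        exact y.2
      · conv_lhs => rw [hS]
        rw [Subgroup.closure_le]
        intro s hs
        obtain ⟨he, h1⟩ := hmem s (hSc s hs)
        exact Subgroup.subset_closure ⟨⟨s, he⟩, h1, rfl⟩
    · rintro _ ⟨u, rfl⟩ g
      exact ⟨g * u, by group⟩
    · intro a ha b hb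
      rcases hD.pair _ (hsub a ha) _ (hsub b hb) with h1 | h1 | h1
      · exact Or.inl (Subtype.ext h1)
      · refine Or.inr (Or.inl ?_)
        rw [← Subgroup.orderOf_coe]; exact h1
      · refine Or.inr (Or.inr ⟨?_, ?_⟩)
        · rw [← Subgroup.orderOf_coe]; exact h1.1
        · have h2 : PR D (a : G) (((a : G) * (b : G)) ^ 2) :=
            Relation.ReflTransGen.single (prodAdj_four_left hD (hsub a ha) ⟨hsub b hb, h1.1⟩)
          obtain ⟨he, h3⟩ := hcomp a ha _ h2
          exact h3
  have hcl : IsRootInvolutionClass DY := by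
    refine ⟨hset, ⟨⟨d, hdY⟩, 1, by simp⟩, ?_⟩
    rintro _ ⟨u, rfl⟩ _ ⟨v, rfl⟩
    exact ⟨v * u⁻¹, by group⟩
  have hdDY : (⟨d, hdY⟩ : ↥Y) ∈ DY := ⟨1, by simp⟩
  obtain ⟨b, hb⟩ := h.exists_four hd
  obtain ⟨hbY, hbDY⟩ := hcomp _ hdDY b (pr_of_four hD hd hb)
  have hadj := prodAdj_four_left hD hd hb
  obtain ⟨hcY, hcDY⟩ := hcomp _ hdDY _ (Relation.ReflTransGen.single hadj)
  have hxDY : ∃ he : x ∈ Y, (⟨x, he⟩ : ↥Y) ∈ DY := by
    apply hmem
    obtain ⟨u, hu, e⟩ := odd_conj_in hD hdY hxY hd hx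
    exact ⟨u, hu, e⟩
  obtain ⟨hxY', hxDY⟩ := hxDY
  refine ⟨hcl, hset, ⟨_, hdDY, _, hcDY, ?_, ?_⟩, ⟨_, hdDY, _, hxDY, ?_, ?_⟩, ⟨_, hdDY, _, hbDY, ?_⟩⟩
  · intro e; exact hadj.2.2.1 (congrArg Subtype.val e)
  · exact Subtype.ext hadj.2.2.2.1
  · intro e; exact hx.2.1 (congrArg Subtype.val e).symm
  · rw [← Subgroup.orderOf_coe]; exact hx.2.2
  · rw [← Subgroup.orderOf_coe]; exact hb.2

end gen

/-- The input: the commuting graph of a non-degenerate class is connected. -/
def CommConn : Prop := ∀ (G : Type u) [Group G] [Finite G] (D : Set G), ND D → IsConnectedSet (CommAdj D) D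

theorem prod_connected (hB : CommConn.{u}) : ∀ (n : ℕ) (G : Type u) [Group G] [Finite G] (D : Set G),
    Nat.card G = n → ND D → IsConnectedSet (ProdAdj D) D := by
  intro n
  induction n using Nat.strong_induction_on with
  | _ n ih =>
    intro G _ _ D hn h
    have hD := h.cl.1
    by_contra hcon
    -- two odd components generate G
    have hgen : ∀ d ∈ D, ∀ x ∈ oddPartners D d, ¬ PR D d x →
        Subgroup.closure ({e | PR D d e} ∪ {e | PR D x e}) = ⊤ := by
      intro d hd x hx hnr
      set S : Set G := {e | PR D d e} ∪ {e | PR D x e} with hS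
      set Y := Subgroup.closure S with hY
      by_contra hne
      have hdY : d ∈ Y := Subgroup.subset_closure (Or.inl Relation.ReflTransGen.refl)
      have hxY : x ∈ Y := Subgroup.subset_closure (Or.inr Relation.ReflTransGen.refl)
      have hdx := oddP_symm hD hd hx
      have hnr' : ¬ PR D x d := fun h1 => hnr (pr_symm h1)
      obtain ⟨w, hw, ew⟩ := odd_conj_in hD hxY hdY hx.1 hdx
      have hΔ : ∀ e, PR D d e → ∃ u ∈ Y, e = u * d * u⁻¹ := by
        intro e he
        have heY : e ∈ Y := Subgroup.subset_closure (Or.inl he)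
        have h1 := odd_spread hD hx hnr he
        have h2 := oddP_symm hD (pr_mem hd he) h1
        obtain ⟨u, hu, e1⟩ := odd_conj_in hD hxY heY hx.1 h2
        obtain ⟨v, hv, e2⟩ := odd_conj_in hD hdY hxY hd hx
        refine ⟨u * v, Y.mul_mem hu hv, ?_⟩
        rw [e1, e2]; group
      have hΔ' : ∀ e, PR D x e → ∃ u ∈ Y, e = u * d * u⁻¹ := by
        intro e he
        have heY : e ∈ Y := Subgroup.subset_closure (Or.inr he)
        have h1 := odd_spread hD hdx hnr' he
        have h2 := oddP_symm hD (pr_mem hx.1 he) h1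
        obtain ⟨u, hu, e1⟩ := odd_conj_in hD hdY heY hd h2
        exact ⟨u, hu, e1⟩
      have hND := nd_sub h hd hdY hx hxY hΔ hY (by
        rintro s (hs | hs)
        · exact hΔ s hs
        · exact hΔ' s hs)
      have hlt : Nat.card ↥Y < n := by
        rw [← hn]
        exact lt_of_le_of_ne (Nat.le_of_dvd Nat.card_pos (Subgroup.card_subgroup_dvd_card Y))
          (fun e => hne (Subgroup.eq_top_of_card_eq Y e))
      have hc := ih _ hlt ↥Y _ rfl hND
      obtain ⟨u, hu, eu⟩ := odd_conj_in hD hdY hxY hd hx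
      have h1 := hc ⟨d, hdY⟩ ⟨1, by simp⟩ ⟨x, hxY⟩ ⟨⟨u, hu⟩, Subtype.ext eu⟩
      apply hnr
      have h2 := Relation.ReflTransGen.lift (p := ProdAdj D) (Subtype.val : ↥Y → G) (by
        rintro a b ⟨⟨u, rfl⟩, ⟨v, rfl⟩, h3, h4, ⟨w, h5⟩⟩
        refine ⟨hD.conj_mem d hd (u : G), hD.conj_mem d hd (v : G), fun e => h3 (Subtype.ext e),
          congrArg Subtype.val h4, ?_⟩
        have h6 := congrArg Subtype.val h5
        change _ = (w : G) * d * (w : G)⁻¹ at h6
        rw [Subgroup.coe_mul] at h6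
        rw [h6]; exact hD.conj_mem d hd (w : G)) _ _ h1
      exact h2
    -- the relation
    have hcc := hB G D h
    have hex : ∃ d ∈ D, ∃ y ∈ D, ∃ x ∈ oddPartners D d, ¬ PR D d x ∧ Commute d y ∧ ¬ PR D d y ∧ Commute y x ∧
        ¬ PR D y x := by
      by_contra hno
      push Not at hno
      apply hcon
      -- R is transitive
      have hR : ∀ a ∈ D, ∀ b ∈ D, PR D a b ∨ Commute a b := by
        intro a ha b hb
        have h1 := hcc a ha b hb
        induction h1 with
        | refl => exact Or.inl Relation.ReflTransGen.refl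
        | @tail y x _ h2 ih2 =>
          have hy := h2.1
          have hx := h2.2.1
          have hyx : Commute y x := h2.2.2.2
          by_cases h3 : PR D a x
          · exact Or.inl h3
          rcases ih2 hy with h4 | h4
          · -- a, y connected
            right
            have h5 : ¬ PR D y x := fun h6 => h3 (h4.trans h6)
            exact comm_spread hD hy hx hyx h5 (pr_symm h4)
          · by_cases h5 : PR D a y
            · right
              have h6 : ¬ PR D y x := fun h7 => h3 (h5.trans h7)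
              exact comm_spread hD hy hx hyx h6 (pr_symm h5)
            · by_cases h6 : PR D y x
              · right
                exact (comm_spread hD hy ha h4.symm (fun h7 => h5 (pr_symm h7)) h6).symm
              · rcases tri hD ha hx with h7 | h7 | h7
                · exact Or.inr h7
                · exact absurd h6 (by
                    have := hno a ha y hy x h7 h3 h4 h5 hyx
                    exact not_not.2 this)
                · exact absurd (pr_of_four hD ha h7) h3
      intro a ha b hb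
      have h1 := h.conn a ha b hb
      induction h1 with
      | refl => exact Relation.ReflTransGen.refl
      | @tail y x _ h2 ih2 =>
        refine (ih2 h2.1).trans ?_
        rcases hR y h2.1 x h2.2.1 with h3 | h3
        · exact h3
        · exact absurd h3 (not_comm_of_odd hD h2.1 (oddAdj_iff.1 h2).2)
    obtain ⟨d, hd, y, hy, x, hx, hnr, hdy, hndy, hyx, hnyx⟩ := hex
    have htop := hgen d hd x hx hnr
    have hcen : (⊤ : Subgroup G) ≤ Subgroup.centralizer {y} := by
      rw [← htop, Subgroup.closure_le]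
      rintro e (he | he)
      · have h1 := comm_spread hD hd hy hdy hndy he
        rw [SetLike.mem_coe, Subgroup.mem_centralizer_singleton_iff]
        exact h1.eq
      · have h1 := comm_spread hD hx.1 hy hyx.symm (fun h2 => hnyx (pr_symm h2)) he
        rw [SetLike.mem_coe, Subgroup.mem_centralizer_singleton_iff]
        exact h1.eq
    obtain ⟨z, hz⟩ := h.exists_odd hy
    have h1 := hcen (Subgroup.mem_top z)
    rw [Subgroup.mem_centralizer_singleton_iff] at h1
    exact not_comm_of_odd hD hy hz (by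
      first
      | exact h1
      | exact h1.symm)

section final
variable {G : Type u} [Group G] {D : Set G} [Finite G]

theorem generation (h : ND D) (hP : IsConnectedSet (ProdAdj D) D) {d x : G} (hd : d ∈ D)
    (hx : x ∈ oddPartners D d) : Subgroup.closure (productPartners D d ∪ {x}) = ⊤ := by
  have hD := h.cl.1
  set U := Subgroup.closure (productPartners D d ∪ {x}) with hU
  have hxU : x ∈ U := Subgroup.subset_closure (Or.inr rfl)
  have hX : ∀ c ∈ D, d ≠ c → Commute d c → d * c ∈ D → c ∈ U := by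
    intro c hc hne hdc hm
    exact Subgroup.subset_closure (Or.inl ⟨⟨hc, hdc.symm.eq, hne.symm⟩, by rw [← hdc.eq]; exact hm⟩)
  have hdU : d ∈ U := by
    obtain ⟨b, hb⟩ := h.exists_four hd
    have hadj := prodAdj_four_left hD hd hb
    set c := (d * b) ^ 2 with hc
    have hcm : Commute d c := hadj.2.2.2.1
    have h1 : c ∈ U := hX c hadj.2.1 hadj.2.2.1 hcm hadj.2.2.2.2
    have h2 : d * c ∈ U := by
      apply hX _ hadj.2.2.2.2
      · intro e
        apply ne_one hD hadj.2.1
        exact (mul_eq_left.1 e.symm)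
      · exact (Commute.refl d).mul_right hcm
      · rw [cancel_left hD hd]; exact hadj.2.1
    have h3 := U.mul_mem h2 h1
    rwa [mul_assoc, sq hD hadj.2.1, mul_one] at h3
  have hodd : ∀ e ∈ U, e ∈ oddPartners D x → ∃ u ∈ U, e = u * d * u⁻¹ := by
    intro e he hex
    obtain ⟨u, hu, e1⟩ := odd_conj_in hD hxU he hx.1 hex
    obtain ⟨v, hv, e2⟩ := odd_conj_in hD hdU hxU hd hx
    refine ⟨u * v, U.mul_mem hu hv, ?_⟩
    rw [e1, e2]; group
  have hdx := oddP_symm hD hd hx
  have hstep : ∀ c, ProdAdj D d c → ∃ u ∈ U, c = u * d * u⁻¹ := by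
    intro c hadj
    have hcm : Commute d c := hadj.2.2.2.1
    have hcU : c ∈ U := hX c hadj.2.1 hadj.2.2.1 hcm hadj.2.2.2.2
    have h1 := line_not_comm hD hdx hx.1 hadj.2.1 hcm hadj.2.2.2.2
    rcases tri hD hx.1 hadj.2.1 with h2 | h2 | h2
    · exact absurd h2.symm h1
    · exact hodd c hcU h2
    · have h3 : d * c ∈ oddPartners D x := LN2 hD hx.1 hdx h2 hcm hadj.2.2.2.2
      obtain ⟨u, hu, e1⟩ := hodd _ (U.mul_mem hdU hcU) h3
      have hne : oddPartners D d ≠ oddPartners D c := by
        intro e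
        have h4 : x ∈ oddPartners D c := by rw [← e]; exact hx
        exact not_four_of_odd (oddP_symm hD hadj.2.1 h4) h2
      obtain ⟨f, hf, hfd, hfm, hsq⟩ := h.swap hd hadj.2.1 hcm.symm (by rw [← hcm.eq]; exact hadj.2.2.2.2) hne
      have hfU : f ∈ U := by
        apply hX f hf.1 _ hfd.symm
        · rw [← hfd.eq]; exact hfm
        · rintro rfl
          exact not_comm_of_four hD hadj.2.1 hf hcm.symm
      have h5 := four_conj_left (b := f) hD hadj.2.1
      rw [hsq] at h5
      -- f * c * f = c * d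
      have h6 : c = f * (d * c) * f⁻¹ := by
        rw [hcm.eq, ← h5, inv_eq hD hf.1]
        calc c = (f * f) * c * (f * f) := by rw [sq hD hf.1, one_mul, mul_one]
          _ = f * (f * c * f) * f := by group
      refine ⟨f * u, U.mul_mem hfU hu, ?_⟩
      rw [h6, e1]; group
  have hall : ∀ e ∈ D, ∃ u ∈ U, e = u * d * u⁻¹ := by
    intro e he
    have h1 := hP d hd e he
    induction h1 with
    | refl => exact ⟨1, U.one_mem, by simp⟩
    | @tail y z _ h2 ih =>
      obtain ⟨u, hu, e1⟩ := ih h2.1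
      have h3 := prodAdj_conj hD u⁻¹ h2
      have e2 : u⁻¹ * y * u⁻¹⁻¹ = d := by rw [e1]; group
      rw [e2] at h3
      obtain ⟨v, hv, e3⟩ := hstep _ h3
      refine ⟨u * v, U.mul_mem hu hv, ?_⟩
      calc z = u * (u⁻¹ * z * u⁻¹⁻¹) * u⁻¹ := by group
        _ = _ := by rw [e3]; group
  rw [eq_top_iff, ← hD.generates, Subgroup.closure_le]
  intro e he
  obtain ⟨u, hu, rfl⟩ := hall e he
  exact U.mul_mem (U.mul_mem hu hdU) (U.inv_mem hu)

theorem weak_ti (h : ND D) (hP : IsConnectedSet (ProdAdj D) D) {T : Set G} (hT : IsWeakTISubsetOfElements D T) :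
    IsMulCommutative ↥(Subgroup.closure T) := by
  have hD := h.cl.1
  obtain ⟨hsub, -, hneD, hTI⟩ := hT
  let N : Subgroup G :=
    { carrier := {g | ∀ t, g * t * g⁻¹ ∈ T ↔ t ∈ T}
      one_mem' := fun t => by simp
      mul_mem' := fun {x y} hx hy t => by
        rw [← hy t, ← hx (y * t * y⁻¹)]
        have : x * y * t * (x * y)⁻¹ = x * (y * t * y⁻¹) * x⁻¹ := by group
        rw [this]
      inv_mem' := fun {x} hx t => by
        rw [← hx (x⁻¹ * t * x⁻¹⁻¹)]
        have : x * (x⁻¹ * t * x⁻¹⁻¹) * x⁻¹ = t := by group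
        rw [this] }
  have hN : ∀ e ∈ D, ∀ t ∈ T, Commute e t → e ∈ N := by
    intro e he t ht hc
    have h1 : e * t * e⁻¹ = t := by rw [hc.eq]; group
    rcases hTI e he with h2 | h2
    · intro s
      constructor
      · intro hs
        rw [← h2] at hs
        obtain ⟨s', hs', e'⟩ := hs
        have : s' = s := by simpa using e'
        rwa [← this]
      · intro hs
        rw [← h2]; exact ⟨s, hs, rfl⟩
    · exfalso
      exact Set.disjoint_left.1 h2 ⟨t, ht, h1⟩ ht
  have hfin : ∀ a ∈ T, ∀ b ∈ oddPartners D a, b ∈ N → False := by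
    intro a ha b hb hbN
    have h1 := generation h hP (hsub ha) hb
    have h2 : (⊤ : Subgroup G) ≤ N := by
      rw [← h1, Subgroup.closure_le]
      rintro c (hc | hc)
      · exact hN c hc.1.1 a ha hc.1.2.1
      · rw [Set.mem_singleton_iff.1 hc]; exact hbN
    apply hneD
    apply Set.Subset.antisymm hsub
    intro c hc
    obtain ⟨g, rfl⟩ := h.cl.2.2 a (hsub ha) c hc
    exact (h2 (Subgroup.mem_top g) a).2 ha
  have hcomm : ∀ a ∈ T, ∀ b ∈ T, a * b = b * a := by
    intro a ha b hb
    rcases tri hD (hsub ha) (hsub hb) with h1 | h1 | h1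
    · exact h1.eq
    · exact (hfin a ha b h1 (hN b (hsub hb) b hb (Commute.refl b))).elim
    · exfalso
      have haD := hsub ha
      have hbD := hsub hb
      have hadj := prodAdj_four_right hD haD h1
      set z := (a * b) ^ 2 with hz
      have hzb : Commute z b := (hadj.2.2.2.1 : b * z = z * b).symm
      have haz : Commute a z := four_comm_left hD haD h1
      have hne : oddPartners D b ≠ oddPartners D z := by
        intro e
        have h2 := (comm_eq_iff hD h.conn hbD hadj.2.1).2 e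
        have h3 : a ∈ commutingMembers D z := ⟨haD, haz.eq⟩
        rw [← h2] at h3
        exact not_comm_of_four hD haD h1 (comm_of_mem h3)
      obtain ⟨f, hf, hfb, hfm, hsq⟩ := h.swap hbD hadj.2.1 hzb (by rw [hzb.eq]; exact hadj.2.2.2.2) hne
      have h4 : a * b * a = b * z := by
        rw [four_conj_right hD hbD, ← hz, hzb.eq]
      have h5 : f * z * f = z * b := by
        have := four_conj_left (b := f) hD hadj.2.1
        rwa [hsq] at this
      have h6 := (R3_odd hD haD hf.1 hadj.2.1 haz hadj.2.2.1.symm hzb h4 hfb h5).1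
      exact hfin a ha f h6 (hN f hf.1 b hb hfb)
  exact Subgroup.isMulCommutative_closure hcomm

end final

end H61.RootND
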